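import Mathlib
/-! Elementary ingredients for Amitsur's theorem on non-solvable finite subgroups of division rings. -/
set_option autoImplicit false
set_option linter.deprecated false
set_option linter.style.haveILetI false
set_option linter.unusedSimpArgs false
open Polynomial
namespace CL.Amitsur

theorem gauss_aux (l : ℕ) [hl : Fact l.Prime] (h4 : l % 4 = 3) {L : Type*} [Field L] [CharZero L]
    [IsGalois ℚ L] [FiniteDimensional ℚ L] {ω : L} (hω : IsPrimitiveRoot ω l) :
    ∃ A B : ℚ[X], (X - 1) * (A ^ 2 + C (l : ℚ) * B ^ 2) = X ^ l - 1 := by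
  classical
  haveI : NeZero l := ⟨hl.out.ne_zero⟩
  have hl2 : ringChar (ZMod l) ≠ 2 := by
    rw [ZMod.ringChar_zmod_n]; intro h; rw [h] at h4; omega
  set ψ : AddChar (ZMod l) L := AddChar.zmodChar l hω.pow_eq_one with hψ
  have hψp : ψ.IsPrimitive := AddChar.zmodChar_primitive_of_primitive_root l hω
  set χ0 := quadraticChar (ZMod l)
  set χ : MulChar (ZMod l) L := χ0.ringHomComp (Int.castRingHom L) with hχ
  have hχ1 : χ ≠ 1 := (MulChar.ringHomComp_ne_one_iff (RingHom.injective_int _)).mpr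
    (quadraticChar_ne_one hl2)
  have hχq : χ.IsQuadratic := (quadraticChar_isQuadratic _).comp _
  set g := gaussSum χ ψ
  have hm1 : χ0 (-1) = -1 := by
    rw [quadraticChar_neg_one hl2, ZMod.card, ZMod.χ₄_nat_three_mod_four h4]
  have hg2 : g ^ 2 = -(l : L) := by
    rw [gaussSum_sq hχ1 hχq hψp, ZMod.card, hχ, MulChar.ringHomComp_apply, hm1]
    rw [map_neg, map_one, neg_mul, one_mul]
  have hg0 : g ≠ 0 := by
    intro h; rw [h] at hg2
    have : (l : L) = 0 := by simpa using hg2.symm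
    exact hl.out.ne_zero (by exact_mod_cast this)
  set P : ℤ → L[X] := fun e => ∏ a ∈ Finset.univ.filter (fun a : ZMod l => χ0 a = e), (X - C (ψ a))
  have hprod : (X - 1) * (P 1 * P (-1)) = X ^ l - 1 := by
    have h1 : (X ^ l - 1 : L[X]) = ∏ a : ZMod l, (X - C (ψ a)) := by
      rw [X_pow_sub_one_eq_prod hl.out.pos hω]
      symm
      refine Finset.prod_bij (fun a _ => ψ a) ?_ ?_ ?_ (fun _ _ => rfl)
      · intro a _
        rw [mem_nthRootsFinset hl.out.pos, hψ, AddChar.zmodChar_apply, ← pow_mul, mul_comm, pow_mul,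
          hω.pow_eq_one, one_pow]
      · intro a _ b _ hab
        rw [hψ, AddChar.zmodChar_apply, AddChar.zmodChar_apply] at hab
        exact ZMod.val_injective l (hω.pow_inj (ZMod.val_lt a) (ZMod.val_lt b) hab)
      · intro b hb
        obtain ⟨i, hi, rfl⟩ := hω.eq_pow_of_pow_eq_one ((mem_nthRootsFinset hl.out.pos _).1 hb)
        exact ⟨i, Finset.mem_univ _, by rw [hψ, AddChar.zmodChar_apply, ZMod.val_cast_of_lt hi]⟩
    rw [h1, ← Finset.prod_filter_mul_prod_filter_not Finset.univ (fun a : ZMod l => a = 0),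
      ← Finset.prod_filter_mul_prod_filter_not (Finset.univ.filter (fun a : ZMod l => ¬ a = 0))
        (fun a : ZMod l => χ0 a = 1)]
    congr 1
    · rw [Finset.filter_eq', if_pos (Finset.mem_univ _), Finset.prod_singleton]; simp
    · congr 1
      · refine Finset.prod_congr ?_ (fun _ _ => rfl)
        ext a; simp only [Finset.mem_filter, Finset.mem_univ, true_and]
        refine ⟨fun h => ⟨?_, h⟩, fun h => h.2⟩
        rintro rfl; simp [χ0] at h
      · refine Finset.prod_congr ?_ (fun _ _ => rfl)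
        ext a; simp only [Finset.mem_filter, Finset.mem_univ, true_and]
        constructor
        · intro h; refine ⟨?_, by rw [h]; decide⟩
          rintro rfl; simp [χ0] at h
        · rintro ⟨h0, h1⟩
          exact (quadraticChar_dichotomy h0).resolve_left h1
  -- Galois action
  have hgal : ∀ σ : L ≃ₐ[ℚ] L, ∃ k : ZMod l, k ≠ 0 ∧ ∀ a, σ (ψ a) = ψ (k * a) := by
    intro σ
    have hσ : IsPrimitiveRoot (σ ω) l := hω.map_of_injective σ.injective
    obtain ⟨i, hi, hiω⟩ := hω.eq_pow_of_pow_eq_one hσ.pow_eq_one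
    refine ⟨i, ?_, fun a => ?_⟩
    · intro h0
      have : i = 0 := by
        have := (ZMod.natCast_eq_zero_iff i l).1 h0
        exact Nat.eq_zero_of_dvd_of_lt this hi
      rw [this, pow_zero] at hiω
      exact hσ.ne_one hl.out.one_lt hiω.symm
    · have : (i : ZMod l) * a = ((i * a.val : ℕ) : ZMod l) := by simp
      rw [this, hψ, AddChar.zmodChar_apply', AddChar.zmodChar_apply, map_pow, ← hiω, pow_mul]
  have hP : ∀ (σ : L ≃ₐ[ℚ] L) (k : ZMod l), k ≠ 0 → (∀ a, σ (ψ a) = ψ (k * a)) →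
      ∀ e, (P e).map (σ : L →+* L) = P (χ0 k * e) := by
    intro σ k hk hσ e
    simp only [P, Polynomial.map_prod, Polynomial.map_sub, map_X, map_C, RingHom.coe_coe, hσ]
    have hkk : χ0 k * χ0 k = 1 := by rw [← sq]; exact quadraticChar_sq_one hk
    refine Finset.prod_bij (fun a _ => k * a) ?_ ?_ ?_ (fun _ _ => rfl)
    · intro a ha
      simp only [Finset.mem_filter, Finset.mem_univ, true_and] at ha ⊢
      rw [map_mul, ha]
    · intro a _ b _ hab; exact mul_left_cancel₀ hk hab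
    · intro b hb
      simp only [Finset.mem_filter, Finset.mem_univ, true_and] at hb ⊢
      refine ⟨k⁻¹ * b, ?_, by rw [mul_inv_cancel_left₀ hk]⟩
      have : χ0 k * χ0 (k⁻¹ * b) = χ0 k * e := by rw [← map_mul, mul_inv_cancel_left₀ hk, hb]
      have h2 := congrArg (χ0 k * ·) this
      simpa only [← mul_assoc, hkk, one_mul] using h2
  have hG : ∀ (σ : L ≃ₐ[ℚ] L) (k : ZMod l), k ≠ 0 → (∀ a, σ (ψ a) = ψ (k * a)) →
      σ g = (χ0 k : L) * g := by
    intro σ k hk hσ
    have hkk : χ0 k * χ0 k = 1 := by rw [← sq]; exact quadraticChar_sq_one hk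
    simp only [g, gaussSum, map_sum, map_mul, hσ, Finset.mul_sum, hχ, MulChar.ringHomComp_apply,
      eq_intCast, map_intCast]
    refine Finset.sum_bij (fun a _ => k * a) (fun _ _ => Finset.mem_univ _) ?_ ?_ ?_
    · intro a _ b _ hab; exact mul_left_cancel₀ hk hab
    · intro b _; exact ⟨k⁻¹ * b, Finset.mem_univ _, by rw [mul_inv_cancel_left₀ hk]⟩
    · intro a _
      rw [map_mul χ0, ← mul_assoc, ← Int.cast_mul, ← mul_assoc, hkk, one_mul]
  have hlift : ∀ Q : L[X], (∀ σ : L ≃ₐ[ℚ] L, Q.map (σ : L →+* L) = Q) →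
      ∃ A : ℚ[X], A.map (algebraMap ℚ L) = Q := by
    intro Q hQ
    rw [← Polynomial.mem_lifts, Polynomial.lifts_iff_coeff_lifts]
    intro n
    have : Q.coeff n ∈ (⊥ : IntermediateField ℚ L) := by
      rw [IsGalois.mem_bot_iff_fixed]
      intro σ
      have := congrArg (fun T => T.coeff n) (hQ σ)
      simpa using this
    exact IntermediateField.mem_bot.1 this
  obtain ⟨A, hA⟩ := hlift (C (2⁻¹ : L) * (P 1 + P (-1))) (by
    intro σ
    obtain ⟨k, hk, hσ⟩ := hgal σ
    rw [Polynomial.map_mul, Polynomial.map_add, hP σ k hk hσ, hP σ k hk hσ, map_C]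
    have h2 : (σ : L →+* L) 2⁻¹ = 2⁻¹ := by rw [map_inv₀, map_ofNat]
    rw [h2]
    rcases quadraticChar_dichotomy hk with h | h <;> simp only [χ0, h] <;> simp [add_comm])
  obtain ⟨B, hB⟩ := hlift (C ((2 * g)⁻¹ : L) * (P 1 - P (-1))) (by
    intro σ
    obtain ⟨k, hk, hσ⟩ := hgal σ
    rw [Polynomial.map_mul, Polynomial.map_sub, hP σ k hk hσ, hP σ k hk hσ, map_C]
    have h2 : (σ : L →+* L) (2 * g)⁻¹ = (2 * ((χ0 k : L) * g))⁻¹ := by
      rw [map_inv₀, map_mul, map_ofNat, RingHom.coe_coe, hG σ k hk hσ]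
    rw [h2]
    rcases quadraticChar_dichotomy hk with h | h <;> simp only [χ0, h]
    · simp
    · simp only [Int.reduceNeg, Int.cast_neg, Int.cast_one, neg_mul, one_mul, mul_neg, inv_neg,
        map_neg, mul_one, neg_neg]
      ring)
  refine ⟨A, B, Polynomial.map_injective (algebraMap ℚ L) (algebraMap ℚ L).injective ?_⟩
  simp only [Polynomial.map_mul, Polynomial.map_sub, Polynomial.map_add, Polynomial.map_pow,
    map_X, Polynomial.map_one, map_C, hA, hB]
  rw [← hprod]
  congr 1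
  have e1 : (C (2⁻¹ : L)) ^ 2 * 4 = (1 : L[X]) := by
    rw [← C_pow, show (4 : L[X]) = C 4 from rfl, ← C_mul]; norm_num
  have e2 : C (algebraMap ℚ L l) * (C ((2 * g)⁻¹ : L)) ^ 2 = - (C (2⁻¹ : L)) ^ 2 := by
    rw [← C_pow, ← C_pow, ← C_mul, ← C_neg]
    congr 1
    have : (l : L) = - g ^ 2 := by rw [hg2, neg_neg]
    rw [map_natCast, this]; field_simp
  linear_combination (P 1 * P (-1)) * e1 + (P 1 - P (-1)) ^ 2 * e2

/-- Gauss's identity `4Φ_ℓ = A² + ℓB²` for primes `ℓ ≡ 3 (mod 4)`, over the rationals. -/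
theorem gauss_identity (l : ℕ) [hl : Fact l.Prime] (h4 : l % 4 = 3) :
    ∃ A B : ℚ[X], (X - 1) * (A ^ 2 + C (l : ℚ) * B ^ 2) = X ^ l - 1 := by
  haveI : NeZero l := ⟨hl.out.ne_zero⟩
  haveI : IsCyclotomicExtension {l} ℚ (CyclotomicField l ℚ) :=
    CyclotomicField.isCyclotomicExtension l ℚ
  haveI := IsCyclotomicExtension.isGalois {l} ℚ (CyclotomicField l ℚ)
  haveI := IsCyclotomicExtension.finiteDimensional {l} ℚ (CyclotomicField l ℚ)
  exact gauss_aux l h4 (IsCyclotomicExtension.zeta_spec l ℚ (CyclotomicField l ℚ))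

theorem not_sq3 : ¬ IsSquare (3 : ZMod 5) := by decide

/-- `2ℓ = X² + 5W²` for primes `ℓ ≡ 3 (mod 20)` (rationally). -/
theorem two_mul_eq (l : ℕ) [hl : Fact l.Prime] (h : l % 20 = 3) :
    ∃ x w : ℚ, x ^ 2 + 5 * w ^ 2 = 2 * l := by
  classical
  haveI : NeZero l := ⟨hl.out.ne_zero⟩
  haveI : Fact (Nat.Prime 5) := ⟨by norm_num⟩
  have hl5 : l ≠ 5 := by omega
  have hl2 : l ≠ 2 := by omega
  have hc2 : ringChar (ZMod l) ≠ 2 := by rw [ZMod.ringChar_zmod_n]; exact hl2
  obtain ⟨r, hr⟩ : IsSquare (-5 : ZMod l) := by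
    have h5 : ¬ IsSquare ((5 : ℕ) : ZMod l) := by
      rw [← ZMod.exists_sq_eq_prime_iff_of_mod_four_eq_one (p := 5) (by norm_num) hl2]
      have : (l : ZMod 5) = 3 := by
        rw [← ZMod.natCast_mod l 5, show l % 5 = 3 by omega]; rfl
      rw [this]; exact not_sq3
    have h50 : ((5 : ℕ) : ZMod l) ≠ 0 := by
      rw [Ne, ZMod.natCast_eq_zero_iff]
      intro hd; exact hl5 ((Nat.prime_dvd_prime_iff_eq hl.out (by norm_num)).1 hd)
    have hm1 : quadraticChar (ZMod l) (-1) = -1 := by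
      rw [quadraticChar_neg_one hc2, ZMod.card, ZMod.χ₄_nat_three_mod_four (by omega)]
    have h5' : quadraticChar (ZMod l) ((5 : ℕ) : ZMod l) = -1 :=
      quadraticChar_neg_one_iff_not_isSquare.2 h5
    have : quadraticChar (ZMod l) (-5) = 1 := by
      rw [show (-5 : ZMod l) = (-1) * ((5 : ℕ) : ZMod l) by simp, map_mul, hm1, h5']; rfl
    exact (quadraticChar_one_iff_isSquare (by simpa using h50)).1 this
  set m := Nat.sqrt l
  have hm1 : m * m < l := by
    rcases (Nat.sqrt_le l).lt_or_eq with h1 | h1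
    · exact h1
    · exfalso
      have := hl.out.eq_one_or_self_of_dvd m ⟨m, h1.symm⟩
      rcases this with h2 | h2
      · change m * m = l at h1; rw [h2] at h1; omega
      · change m * m = l at h1; rw [h2] at h1
        have := hl.out.two_le; nlinarith
  have hm2 : l < (m + 1) * (m + 1) := Nat.lt_succ_sqrt l
  obtain ⟨a, b, hab, he⟩ := Fintype.exists_ne_map_eq_of_card_lt
    (fun t : Fin (m + 1) × Fin (m + 1) => ((t.1 : ℕ) : ZMod l) + r * ((t.2 : ℕ) : ZMod l))
    (by simpa using hm2)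
  set x : ℤ := (a.1 : ℕ) - (b.1 : ℕ)
  set w : ℤ := (a.2 : ℕ) - (b.2 : ℕ)
  have hx : x ^ 2 ≤ m * m := by
    have := a.1.2; have := b.1.2
    have : |x| ≤ m := by rw [abs_le]; constructor <;> omega
    nlinarith [sq_abs x, abs_nonneg x]
  have hw : w ^ 2 ≤ m * m := by
    have := a.2.2; have := b.2.2
    have : |w| ≤ m := by rw [abs_le]; constructor <;> omega
    nlinarith [sq_abs w, abs_nonneg w]
  have hpos : 0 < x ^ 2 + 5 * w ^ 2 := by
    by_contra hn
    have h1 : x = 0 := by nlinarith [sq_nonneg x, sq_nonneg w]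
    have h2 : w = 0 := by nlinarith [sq_nonneg x, sq_nonneg w]
    exact hab (Prod.ext (Fin.ext (by omega)) (Fin.ext (by omega)))
  obtain ⟨k, hk⟩ : (l : ℤ) ∣ x ^ 2 + 5 * w ^ 2 := by
    rw [← ZMod.intCast_zmod_eq_zero_iff_dvd]
    have : (x : ZMod l) = - r * w := by
      simp only [x, w]; push_cast; linear_combination he
    push_cast
    rw [this]; linear_combination (-(w : ZMod l) ^ 2) * hr
  have hl0 : (0 : ℤ) < l := by exact_mod_cast hl.out.pos
  have hm1' : (m : ℤ) * m < l := by exact_mod_cast hm1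
  have hk0 : 0 < k := by by_contra hn; push Not at hn; nlinarith
  have hk6 : k < 6 := by by_contra hn; push Not at hn; nlinarith
  have hmod : ∀ y : ℤ, y ^ 2 % 5 = 0 ∨ y ^ 2 % 5 = 1 ∨ y ^ 2 % 5 = 4 := by
    intro y
    have : y % 5 = 0 ∨ y % 5 = 1 ∨ y % 5 = 2 ∨ y % 5 = 3 ∨ y % 5 = 4 := by omega
    rcases this with h | h | h | h | h <;> simp [sq, Int.mul_emod, h]
  have hl' : (l : ℤ) % 20 = 3 := by exact_mod_cast h
  have hkq : (x : ℚ) ^ 2 + 5 * (w : ℚ) ^ 2 = l * k := by exact_mod_cast hk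
  interval_cases k
  · have := hmod x; omega
  · exact ⟨x, w, by rw [hkq]; push_cast; ring⟩
  · refine ⟨(x - 5 * w) / 3, (x + w) / 3, ?_⟩
    push_cast at hkq
    linear_combination (2 / 3 : ℚ) * hkq
  · have := hmod x; omega
  · exfalso
    have h5 : (5 : ℤ) ∣ x := Int.Prime.dvd_pow' (p := 5) (k := 2) (by norm_num) (by
      show ((5 : ℕ) : ℤ) ∣ x ^ 2
      push_cast; omega)
    obtain ⟨y, hy⟩ := h5
    rw [hy] at hk
    have := hmod w
    have : 5 * y ^ 2 + w ^ 2 = l := by nlinarith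
    omega

/-- `-1` is a sum of three squares as soon as `√5` and a primitive `p`-th root of unity are present. -/
theorem neg_one_sum {R : Type*} [CommRing R] [NoZeroDivisors R] [Algebra ℚ R] {s z : R}
    (hs : s ^ 2 = 5) {p : ℕ} (hp : p.Coprime 20) (hz : z ^ p = 1) (hz1 : z ≠ 1) :
    ∃ a b c : R, 1 + a ^ 2 + b ^ 2 + c ^ 2 = 0 := by
  have hp0 : p ≠ 0 := by rintro rfl; simp at hp
  obtain ⟨t, ht1, ht2⟩ := Nat.chineseRemainder hp (p - 1) 3
  have htc : t.Coprime (p * 20) := by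
    refine Nat.Coprime.mul_right ?_ ?_
    · rw [Nat.Coprime, ht1.gcd_eq]
      exact (Nat.coprime_self_sub_left (by omega)).2 (Nat.coprime_one_left p)
    · rw [Nat.Coprime, ht2.gcd_eq]; norm_num
  obtain ⟨l, -, hl, hlt⟩ := Nat.forall_exists_prime_gt_and_modEq 0 (q := p * 20) (by omega) htc
  haveI := Fact.mk hl
  have hl20 : l % 20 = 3 := (Nat.ModEq.of_mul_left p hlt).trans ht2
  have hlp : l ≡ p - 1 [MOD p] := (Nat.ModEq.of_mul_right 20 hlt).trans ht1
  obtain ⟨A, B, hAB⟩ := gauss_identity l (by omega)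
  obtain ⟨x, w, hxw⟩ := two_mul_eq l hl20
  have h1 := congrArg (aeval z) hAB
  simp only [map_mul, map_sub, map_add, map_pow, aeval_X, map_one, aeval_C] at h1
  have hzl : z * z ^ l = 1 := by
    rw [← pow_succ', ← Nat.div_add_mod (l + 1) p, pow_add, pow_mul, hz, one_pow, one_mul]
    have : (l + 1) % p = 0 := by
      have := hlp.add_right 1
      rw [Nat.sub_add_cancel (by omega)] at this
      rw [this]; simp
    rw [this, pow_zero]
  have h2 : z * (aeval z A ^ 2 + algebraMap ℚ R l * aeval z B ^ 2) + 1 = 0 := by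
    have : (z - 1) * (z * (aeval z A ^ 2 + algebraMap ℚ R l * aeval z B ^ 2) + 1) = 0 := by
      linear_combination z * h1 + hzl
    exact (mul_eq_zero.1 this).resolve_left (sub_ne_zero.2 hz1)
  obtain ⟨n, hn⟩ : Odd p := by
    rw [← Nat.coprime_two_right]; exact hp.coprime_dvd_right (by norm_num)
  have he : (z ^ (n + 1)) ^ 2 = z := by
    rw [← pow_mul, show (n + 1) * 2 = p + 1 by omega, pow_succ, hz, one_mul]
  have h3 := congrArg (algebraMap ℚ R) hxw
  simp only [map_mul, map_add, map_pow, map_ofNat] at h3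
  have h4 : algebraMap ℚ R (1 / 2) * 2 = 1 := by
    rw [← map_ofNat (algebraMap ℚ R) 2, ← map_mul]; norm_num
  set hf := algebraMap ℚ R (1 / 2)
  set X' := algebraMap ℚ R x
  set W := algebraMap ℚ R w
  set L := algebraMap ℚ R l
  set e := z ^ (n + 1)
  set a := aeval z A
  set b := aeval z B
  have hL : (hf * (X' + s * W)) ^ 2 + (hf * (X' - s * W)) ^ 2 = L := by
    linear_combination (2 * hf ^ 2 * W ^ 2) * hs + (2 * hf ^ 2) * h3 + (L * (2 * hf + 1)) * h4
  refine ⟨e * a, e * b * (hf * (X' + s * W)), e * b * (hf * (X' - s * W)), ?_⟩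
  linear_combination h2 + (a ^ 2 + L * b ^ 2) * he + (e ^ 2 * b ^ 2) * hL

section Div
variable {D : Type*} [DivisionRing D]

theorem eq_or_neg_of_comm {a b : D} (h : a * b = b * a) (h2 : a * a = b * b) : a = b ∨ a = -b := by
  have : (a - b) * (a + b) = 0 := by
    rw [sub_mul, mul_add, mul_add, h, h2]; abel
  rcases mul_eq_zero.1 this with h | h
  · exact Or.inl (sub_eq_zero.1 h)
  · exact Or.inr (eq_neg_of_add_eq_zero_left h)

theorem no_quat (h2 : (2 : D) ≠ 0) {i j a b c : D} (hi : i * i = -1) (hj : j * j = -1)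
    (hij : j * i = -(i * j)) (hai : i * a = a * i) (haj : j * a = a * j) (hbi : i * b = b * i)
    (hbj : j * b = b * j) (hci : i * c = c * i) (hcj : j * c = c * j) (hab : b * a = a * b)
    (hac : c * a = a * c) (hbc : c * b = b * c) : 1 + a ^ 2 + b ^ 2 + c ^ 2 ≠ 0 := by
  intro h
  have hi' : ∀ x, i * (i * x) = -x := fun x => by rw [← mul_assoc, hi, neg_one_mul]
  have hj' : ∀ x, j * (j * x) = -x := fun x => by rw [← mul_assoc, hj, neg_one_mul]
  have hij' : ∀ x, j * (i * x) = -(i * (j * x)) := fun x => by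
    rw [← mul_assoc, hij, neg_mul, mul_assoc]
  have hai' : ∀ x, i * (a * x) = a * (i * x) := fun x => by rw [← mul_assoc, hai, mul_assoc]
  have haj' : ∀ x, j * (a * x) = a * (j * x) := fun x => by rw [← mul_assoc, haj, mul_assoc]
  have hbi' : ∀ x, i * (b * x) = b * (i * x) := fun x => by rw [← mul_assoc, hbi, mul_assoc]
  have hbj' : ∀ x, j * (b * x) = b * (j * x) := fun x => by rw [← mul_assoc, hbj, mul_assoc]
  have hci' : ∀ x, i * (c * x) = c * (i * x) := fun x => by rw [← mul_assoc, hci, mul_assoc]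
  have hcj' : ∀ x, j * (c * x) = c * (j * x) := fun x => by rw [← mul_assoc, hcj, mul_assoc]
  have hab' : ∀ x, b * (a * x) = a * (b * x) := fun x => by rw [← mul_assoc, hab, mul_assoc]
  have hac' : ∀ x, c * (a * x) = a * (c * x) := fun x => by rw [← mul_assoc, hac, mul_assoc]
  have hbc' : ∀ x, c * (b * x) = b * (c * x) := fun x => by rw [← mul_assoc, hbc, mul_assoc]
  set v := a * i + b * j + c * (i * j) with hv
  have hvv : v * v = -(a ^ 2 + b ^ 2 + c ^ 2) := by
    simp only [hv, sq, add_mul, mul_add, mul_assoc, hi, hj, hij, hi', hj', hij', hai', haj', hbi',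
      hbj', hci', hcj', hab', hac', hbc', mul_neg, neg_neg, mul_one, hai, haj, hbi, hbj, hci, hcj]
    abel
  have hv1 : v * v = 1 * 1 := by
    rw [hvv, mul_one, neg_eq_iff_add_eq_zero, ← h]; abel
  have key : ∀ e : D, (e = 1 ∨ e = -1) → v = e → False := by
    intro e he hve
    have hei : i * e = e * i := by rcases he with rfl | rfl <;> simp
    have hej : j * e = e * j := by rcases he with rfl | rfl <;> simp
    have h1 : i * v * i = -v := by rw [hve, hei, mul_assoc, hi]; simp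
    have h3 : j * v * j = -v := by rw [hve, hej, mul_assoc, hj]; simp
    have h4 : i * (j * v * j) * i = v := by rw [h3, mul_neg, neg_mul, h1, neg_neg]
    have h5 : v - i * v * i - j * v * j + i * (j * v * j) * i = 0 := by
      simp only [hv, add_mul, mul_add, mul_assoc, hi, hj, hij, hi', hj', hij', hai', haj', hbi',
        hbj', hci', hcj', mul_neg, neg_neg, mul_one, hai, haj, hbi, hbj, hci, hcj, neg_mul]
      abel
    rw [h4, h1, h3, hve] at h5
    have : (2 : D) * 2 * e = 0 := by rw [← h5]; noncomm_ring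
    rcases he with rfl | rfl <;> simp [h2] at this
  rcases eq_or_neg_of_comm (by simp) hv1 with h | h
  · exact key 1 (Or.inl rfl) h
  · exact key (-1) (Or.inr rfl) h

theorem sum_five {g : D} (h5 : g ^ 5 = 1) (h1 : g ≠ 1) : 1 + g + g ^ 2 + g ^ 3 + g ^ 4 = 0 := by
  have : (g - 1) * (1 + g + g ^ 2 + g ^ 3 + g ^ 4) = 0 := by
    have : (g - 1) * (1 + g + g ^ 2 + g ^ 3 + g ^ 4) = g ^ 5 - 1 := by noncomm_ring
    rw [this, h5, sub_self]
  exact (mul_eq_zero.1 this).resolve_left (sub_ne_zero.2 h1)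

/-- The group `Z₅ ⋊ Z₈` (faithful quotient `Z₅ ⋊ Z₄`) does not embed in a division ring of
characteristic zero. -/
theorem no_five_eight [CharZero D] {g y : D} (h5 : g ^ 5 = 1) (h1 : g ≠ 1) (hy : y * g = g ^ 2 * y)
    (hy4 : y ^ 4 = -1) : False := by
  have hs := sum_five h5 h1
  have hy' : ∀ x, y * (g * x) = g * (g * (y * x)) := fun x => by
    rw [← mul_assoc, hy]; noncomm_ring
  have hy0 : y * g = g * (g * y) := by rw [hy]; noncomm_ring
  have h5' : ∀ x, g * (g * (g * (g * (g * x)))) = x := fun x => by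
    have : g * (g * (g * (g * (g * x)))) = g ^ 5 * x := by noncomm_ring
    rw [this, h5, one_mul]
  have h50 : g * (g * (g * (g * g))) = 1 := by rw [← h5]; noncomm_ring
  have h4' : ∀ x, y * (y * (y * (y * x))) = -x := fun x => by
    have : y * (y * (y * (y * x))) = y ^ 4 * x := by noncomm_ring
    rw [this, hy4, neg_one_mul]
  have h40 : y * (y * (y * y)) = -1 := by rw [← hy4]; noncomm_ring
  have hs' : g * (g * (g * g)) = -(1 + g + g * g + g * (g * g)) := by
    rw [eq_neg_iff_add_eq_zero, ← hs]; noncomm_ring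
  set s := g + g * (g * (g * g)) - g * g - g * (g * g) with hsd
  set w := g * (g * (g * y)) - g * (y * (y * y)) - y + y * (y * y) with hwd
  have hss : s * s = 5 := by
    simp only [hsd, add_mul, mul_add, sub_mul, mul_sub, mul_assoc, h5', h50, mul_one]
    rw [hs']; noncomm_ring; simp
  have hww : w * w = 5 := by
    simp only [hwd, add_mul, mul_add, sub_mul, mul_sub, mul_assoc, h5', h50, mul_one, hy', hy0, h4',
      h40, mul_neg]
    rw [hs']; noncomm_ring; simp
  have hsw : w * s = -(s * w) := by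
    simp only [hwd, hsd, add_mul, mul_add, sub_mul, mul_sub, mul_assoc, h5', h50, mul_one, hy', hy0,
      h4', h40, mul_neg]
    noncomm_ring
  clear_value s w
  have hsw' : ∀ x, w * (s * x) = -(s * (w * x)) := fun x => by
    rw [← mul_assoc, hsw, neg_mul, mul_assoc]
  have hss' : ∀ x, s * (s * x) = 5 * x := fun x => by rw [← mul_assoc, hss]
  have hz : (s + 2 * w + s * w) * (s + 2 * w + s * w) = 0 := by
    simp only [two_mul, add_mul, mul_add, mul_assoc, hsw, hsw', hss, hss', hww, mul_neg]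
    noncomm_ring
  have hz0 : s + 2 * w + s * w = 0 := by simpa using hz
  have h3 : s * (s + 2 * w + s * w) + (s + 2 * w + s * w) * s = 10 := by
    simp only [two_mul, add_mul, mul_add, mul_assoc, hsw, hss, hss', mul_neg]
    noncomm_ring
    norm_num
  rw [hz0] at h3
  simp at h3

abbrev SL5 := Matrix.SpecialLinearGroup (Fin 2) (ZMod 5)

def gg : SL5 := ⟨!![1, 1; 0, 1], by decide⟩
def uu : SL5 := ⟨!![0, 4; 1, 0], by decide⟩
def jj : SL5 := ⟨!![0, 3; 3, 0], by decide⟩
def nn : SL5 := ⟨!![4, 0; 0, 4], by decide⟩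

theorem sl5_facts : gg ^ 5 = 1 ∧ gg ≠ 1 ∧ nn * nn = 1 ∧ nn ≠ 1 ∧ uu * uu = nn ∧ jj * jj = nn ∧
    jj * uu = nn * (uu * jj) ∧ jj = gg ^ 2 * uu * gg ^ 3 * uu * gg ^ 2 ∧ (uu ^ 3 * gg) ^ 3 = 1 ∧ uu ^ 3 * gg ≠ 1 := by
  decide +kernel

theorem conj5 : ∀ x : SL5, x ^ 5 = 1 → x ≠ 1 → ∃ s : SL5, s * x = gg * s ∨ s * x = gg ^ 2 * s := by
  decide +kernel

theorem cent5 : ∀ t : SL5, t * gg = gg * t → t ^ 5 = 1 ∨ t ^ 5 = nn := by
  decide +kernel

theorem inv5 : ∀ t : SL5, t * gg = gg ^ 4 * t → t * t = nn := by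
  decide +kernel

theorem uu5 : ∀ t : SL5, t * t = nn → (t ^ 3 * gg) ^ 3 = 1 → ∃ m : Fin 5, gg ^ (m : ℕ) * t = uu * gg ^ (m : ℕ) := by
  decide +kernel

theorem comm_c {u w : D} (hu : u * u = -1) (hw : w ^ 3 = 1) (hw1 : w ≠ 1) (h5 : (u * w) ^ 5 = 1) :
    u * (u * w + (u * w) ^ 4) = (u * w + (u * w) ^ 4) * u := by
  have hw2 : w * w = -1 - w := by
    have : (w - 1) * (w * w + 1 + w) = 0 := by
      have : (w - 1) * (w * w + 1 + w) = w ^ 3 - 1 := by noncomm_ring
      rw [this, hw, sub_self]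
    have := (mul_eq_zero.1 this).resolve_left (sub_ne_zero.2 hw1)
    rw [← sub_eq_zero, ← this]; abel
  have hg0 : u * w ≠ 0 := by intro h; rw [h] at h5; simp at h5
  have h4 : (u * w) ^ 4 = -(w * w * u) := by
    apply mul_left_cancel₀ hg0
    rw [← pow_succ', h5]
    have : u * w * -(w * w * u) = -(u * w ^ 3 * u) := by noncomm_ring
    rw [this, hw, mul_one, hu, neg_neg]
  have hu' : ∀ x, u * (u * x) = -x := fun x => by rw [← mul_assoc, hu, neg_one_mul]
  rw [h4, hw2]
  simp only [mul_add, add_mul, mul_neg, neg_mul, sub_mul, mul_sub, mul_assoc, hu, hu', one_mul,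
    mul_one, neg_neg]
  abel

variable (φ : SL5 →* D) (hφ : Function.Injective φ)
include hφ

theorem map_nn : φ nn = -1 ∧ (2 : D) ≠ 0 := by
  have h1 : φ nn ≠ 1 := by rw [← map_one φ]; exact fun h => sl5_facts.2.2.2.1 (hφ h)
  have h2 : φ nn * φ nn = 1 * 1 := by rw [← map_mul, sl5_facts.2.2.1, map_one, mul_one]
  have h3 := (eq_or_neg_of_comm (by simp) h2).resolve_left h1
  refine ⟨h3, fun h => h1 ?_⟩
  rw [h3, neg_eq_iff_add_eq_zero, one_add_one_eq_two, h]

theorem no_quat' {a b c : D} (hai : Commute (φ uu) a) (haj : Commute (φ jj) a)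
    (hbi : Commute (φ uu) b) (hbj : Commute (φ jj) b) (hci : Commute (φ uu) c)
    (hcj : Commute (φ jj) c) (hab : Commute b a) (hac : Commute c a) (hbc : Commute c b) :
    1 + a ^ 2 + b ^ 2 + c ^ 2 ≠ 0 := by
  obtain ⟨-, -, -, -, h1, h2, h3, -⟩ := sl5_facts
  obtain ⟨hn, h20⟩ := map_nn φ hφ
  refine no_quat h20 (i := φ uu) (j := φ jj) ?_ ?_ ?_ hai haj hbi hbj hci hcj hab hac hbc
  · rw [← map_mul, h1, hn]
  · rw [← map_mul, h2, hn]
  · rw [← map_mul, h3, map_mul, hn, map_mul, neg_one_mul]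

theorem charZero_of_sl5 : CharZero D := by
  obtain ⟨p, hp⟩ := CharP.exists D
  rcases CharP.char_is_prime_or_zero D p with h | rfl
  · exfalso
    haveI : NeZero p := ⟨h.ne_zero⟩
    obtain ⟨a, b, hab⟩ := CharP.sq_add_sq D p (-1)
    refine no_quat' φ hφ (a := a) (b := b) (c := 0) ?_ ?_ ?_ ?_ ?_ ?_ ?_ ?_ ?_ ?_
    any_goals first | exact Nat.commute_cast _ _ | exact Commute.zero_right _
    rw [add_assoc 1, hab]; simp
  · exact CharP.charP_to_charZero D

/-- No element of order prime to `20` of a division ring centralises a copy of `SL(2,5)`. -/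
theorem no_cent {z : D} (hz : ∀ x, Commute (φ x) z) {p : ℕ} (hp : p.Coprime 20) (hzp : z ^ p = 1) :
    z = 1 := by
  by_contra hz1
  haveI := charZero_of_sl5 φ hφ
  obtain ⟨f1, f2, -, -, f3, -, -, f4, f5, f6⟩ := sl5_facts
  obtain ⟨hn, -⟩ := map_nn φ hφ
  have hu : φ uu * φ uu = -1 := by rw [← map_mul, f3, hn]
  have hg5 : φ gg ^ 5 = 1 := by rw [← map_pow, f1, map_one]
  have hg1 : φ gg ≠ 1 := by rw [← map_one φ]; exact fun h => f2 (hφ h)
  have hguw : φ gg = φ uu * φ (uu ^ 3 * gg) := by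
    rw [← map_mul]; congr 1; decide +kernel
  set c := φ gg + φ gg ^ 4 with hc
  have hcu : Commute (φ uu) c := by
    rw [hc, hguw]
    refine comm_c hu (by rw [← map_pow, f5, map_one]) ?_ (by rw [← hguw, hg5])
    rw [← map_one φ]; exact fun h => f6 (hφ h)
  have hcg : Commute (φ gg) c := (Commute.refl _).add_right ((Commute.refl _).pow_right 4)
  have hcj : Commute (φ jj) c := by
    rw [f4]; simp only [map_mul, map_pow]
    exact ((((hcg.pow_left 2).mul_left hcu).mul_left (hcg.pow_left 3)).mul_left hcu).mul_left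
      (hcg.pow_left 2)
  have hcz : Commute c z := (hz gg).add_left ((hz gg).pow_left 4)
  have hc5 : (2 * c + 1) ^ 2 = 5 := by
    have hs := sum_five hg5 hg1
    have h8 : φ gg ^ 8 = φ gg ^ 3 := by
      rw [show 8 = 5 + 3 from rfl, pow_add, hg5, one_mul]
    have : (2 * c + 1) ^ 2 = 4 * (φ gg ^ 2 + 2 * φ gg ^ 5 + φ gg ^ 8 + φ gg + φ gg ^ 4) + 1 := by
      rw [hc]; noncomm_ring
    rw [this, h8, hg5]
    have : φ gg ^ 2 + 2 * 1 + φ gg ^ 3 + φ gg + φ gg ^ 4 =
      (1 + φ gg + φ gg ^ 2 + φ gg ^ 3 + φ gg ^ 4) + 1 := by noncomm_ring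
    rw [this, hs]; norm_num
  let R := Algebra.adjoin ℚ ({c, z} : Set D)
  have hcomm : ∀ a ∈ ({c, z} : Set D), ∀ b ∈ ({c, z} : Set D), a * b = b * a := by
    rintro a (rfl | rfl) b (rfl | rfl)
    · rfl
    · exact hcz
    · exact hcz.symm
    · rfl
  letI : CommRing R := Algebra.adjoinCommRingOfComm ℚ hcomm
  have hcen : ∀ x : D, Commute x c → Commute x z → ∀ r : R, Commute x r := by
    intro x h1 h2 r
    refine Algebra.commute_of_mem_adjoin_of_forall_mem_commute r.2 ?_
    rintro b (rfl | rfl)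
    · exact h1
    · exact h2
  let c' : R := ⟨c, Algebra.subset_adjoin (by simp)⟩
  let z' : R := ⟨z, Algebra.subset_adjoin (by simp)⟩
  obtain ⟨a, b, e, habe⟩ := neg_one_sum (R := R) (s := 2 * c' + 1) (z := z')
    (Subtype.ext hc5) hp (Subtype.ext hzp) (fun h => hz1 (congrArg Subtype.val h))
  have hR : ∀ r s : R, Commute (r : D) s := fun r s => congrArg Subtype.val (mul_comm r s)
  exact no_quat' φ hφ (hcen _ hcu (hz _) a) (hcen _ hcj (hz _) a) (hcen _ hcu (hz _) b)
    (hcen _ hcj (hz _) b) (hcen _ hcu (hz _) e) (hcen _ hcj (hz _) e) (hR _ _) (hR _ _) (hR _ _)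
    (congrArg Subtype.val habe)

/-- A copy of `SL(2,5)` in a division ring is not of index two in a multiplicative group. -/
theorem no_index_two {y : D} (hy0 : y ≠ 0) (hn : ∀ x, ∃ x', y * φ x = φ x' * y)
    (hsq : ∀ x, ∃ t, (φ x * y) * (φ x * y) = φ t) : ∃ x, y = φ x := by
  haveI := charZero_of_sl5 φ hφ
  obtain ⟨f1, f2, f7, -, f3, -, -, f4, f5, f6⟩ := sl5_facts
  obtain ⟨hnn, -⟩ := map_nn φ hφ
  have hφ0 : ∀ x, φ x ≠ 0 := fun x h => by
    have := map_mul φ x x⁻¹
    rw [mul_inv_cancel, map_one, h, zero_mul] at this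
    exact one_ne_zero this
  have hpow : ∀ {v a b : D} (k : ℕ), v * a = b * v → v * a ^ k = b ^ k * v :=
    fun k h => (SemiconjBy.pow_right h k)
  have hg5 : φ gg ^ 5 = 1 := by rw [← map_pow, f1, map_one]
  have hg1 : φ gg ≠ 1 := by rw [← map_one φ]; exact fun h => f2 (hφ h)
  obtain ⟨x, hx⟩ := hn gg
  have hx5 : x ^ 5 = 1 := by
    have := hpow 5 hx
    rw [hg5, mul_one, ← map_pow] at this
    apply hφ; rw [map_one]
    exact mul_right_cancel₀ hy0 (by rw [← this, one_mul])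
  have hx1 : x ≠ 1 := by
    rintro rfl
    rw [map_one, one_mul] at hx
    exact hg1 (mul_left_cancel₀ hy0 (by rw [hx, mul_one]))
  obtain ⟨s, hs⟩ := conj5 x hx5 hx1
  obtain ⟨t, ht⟩ := hsq s
  set v := φ s * y with hv
  have hv0 : v ≠ 0 := mul_ne_zero (hφ0 s) hy0
  suffices ∃ x, v = φ x by
    obtain ⟨x, hx⟩ := this
    refine ⟨s⁻¹ * x, ?_⟩
    rw [map_mul, ← hx, hv, ← mul_assoc, ← map_mul, inv_mul_cancel, map_one, one_mul]
  have hvn : ∀ x, ∃ x', v * φ x = φ x' * v := by
    intro x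
    obtain ⟨x', hx'⟩ := hn x
    refine ⟨s * x' * s⁻¹, ?_⟩
    rw [hv, mul_assoc, hx', ← mul_assoc, ← mul_assoc, ← map_mul, ← map_mul,
      inv_mul_cancel_right]
  rcases hs with hs | hs
  · have hvg : v * φ gg = φ gg * v := by
      rw [hv, mul_assoc, hx, ← mul_assoc, ← map_mul, hs, map_mul, mul_assoc]
    have htg : t * gg = gg * t := by
      apply hφ
      rw [map_mul, map_mul, ← ht, mul_assoc, hvg, ← mul_assoc, hvg, mul_assoc]
    set τ := v ^ 5 with hτ
    have hτ0 : τ ≠ 0 := pow_ne_zero _ hv0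
    have hτ2 : τ * τ = φ (t ^ 5) := by
      rw [map_pow, ← ht, hτ]; noncomm_ring
    have hτv : τ = φ (t ^ 2) * v := by rw [map_pow, ← ht, hτ]; noncomm_ring
    suffices ∃ x, τ = φ x by
      obtain ⟨x, hx⟩ := this
      refine ⟨(t ^ 2)⁻¹ * x, ?_⟩
      rw [map_mul, ← hx, hτv, ← mul_assoc, ← map_mul, inv_mul_cancel, map_one, one_mul]
    have hτg : τ * φ gg = φ gg * τ := (Commute.pow_left hvg 5)
    rcases cent5 t htg with h5 | h5
    · rw [h5, map_one, ← mul_one (1 : D)] at hτ2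
      rcases eq_or_neg_of_comm (by simp) hτ2 with h | h
      · exact ⟨1, by rw [h, map_one]⟩
      · exact ⟨nn, by rw [h, hnn]⟩
    · rw [h5, hnn] at hτ2
      obtain ⟨u', hu'⟩ : ∃ x', τ * φ uu = φ x' * τ := by
        obtain ⟨x', hx'⟩ := hvn uu
        refine ⟨t ^ 2 * x' * (t ^ 2)⁻¹, ?_⟩
        rw [hτv, mul_assoc, hx', ← mul_assoc (φ (t ^ 2)), ← mul_assoc (φ (t ^ 2 * x' * (t ^ 2)⁻¹)),
          ← map_mul, ← map_mul, inv_mul_cancel_right]
      have e1 : u' * u' = nn := by
        apply hφ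
        apply mul_right_cancel₀ hτ0
        rw [map_mul, mul_assoc, ← hu', ← mul_assoc, ← hu', mul_assoc, ← map_mul, f3, hnn]
        simp
      have e2 : (u' ^ 3 * gg) ^ 3 = 1 := by
        apply hφ
        apply mul_right_cancel₀ hτ0
        have h1 : τ * (φ uu ^ 3 * φ gg) = (φ u' ^ 3 * φ gg) * τ := by
          rw [← mul_assoc, hpow 3 hu', mul_assoc, hτg, mul_assoc]
        have h2 := hpow 3 h1
        rw [← map_pow, ← map_mul, ← map_pow, f5, ← map_pow, ← map_mul, ← map_pow] at h2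
        rw [← h2]; simp
      obtain ⟨m, hm⟩ := uu5 u' e1 e2
      have e3 : Commute (φ gg ^ (m : ℕ) * τ) (φ uu) := by
        show _ * _ = _ * _
        rw [mul_assoc, hu', ← mul_assoc, ← map_pow, ← map_mul, hm, map_mul, mul_assoc]
      have e4 : (φ gg ^ (m : ℕ) * τ) ^ 5 = τ := by
        rw [Commute.mul_pow (Commute.pow_left hτg.symm m), ← pow_mul, mul_comm, pow_mul, hg5,
          one_pow, one_mul]
        have : τ ^ 5 = (τ * τ) * (τ * τ) * τ := by noncomm_ring
        rw [this, hτ2]; simp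
      have e5 : Commute τ (φ uu) := e4 ▸ e3.pow_left 5
      have e6 : τ * τ = φ uu * φ uu := by rw [hτ2, ← map_mul, f3, hnn]
      rcases eq_or_neg_of_comm e5 e6 with h | h
      · exact ⟨uu, h⟩
      · exact ⟨nn * uu, by rw [h, map_mul, hnn, neg_one_mul]⟩
  · exfalso
    have hvg : v * φ gg = φ gg ^ 2 * v := by
      rw [hv, mul_assoc, hx, ← mul_assoc, ← map_mul, hs, map_mul, mul_assoc, map_pow]
    have htg : t * gg = gg ^ 4 * t := by
      apply hφ
      rw [map_mul, map_mul, ← ht, mul_assoc, hvg, ← mul_assoc, hpow 2 hvg, map_pow, ← pow_mul,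
        mul_assoc]
    refine no_five_eight hg5 hg1 hvg ?_
    have : v ^ 4 = (v * v) * (v * v) := by noncomm_ring
    rw [this, ht, ← map_mul, inv5 t htg, hnn]

end Div

end CL.Amitsur
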