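import Mathlib
import Cfsg.Agent.TECH.LargeTI

/-!
Large elementary abelian TI-subgroups (Timmesfeld), part 2: twins.
-/

set_option autoImplicit false
set_option linter.unusedSectionVars false

namespace CL.LTI

open Subgroup Cfsg CL.MSS
open scoped commutatorElement

variable {G : Type*} [Group G] [Finite G]

/-- a conjugate of `V` different from `V` inside `P` -/
structure Tw (V T : Subgroup G) : Prop where
  cj : ∃ x : G, T = x •ᶜ V
  ne : T ≠ V
  le : T ≤ PP V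

namespace LT

variable {V T U : Subgroup G} (h : LT V)
include h

theorem tw_lt (hT : Tw V T) : LT T := by
  obtain ⟨x, rfl⟩ := hT.cj
  exact h.cj x

theorem tw_card (hT : Tw V T) : Nat.card T = Nat.card V := by
  obtain ⟨x, rfl⟩ := hT.cj
  exact card_cj x V

theorem tw_one (hT : Tw V T) {t : G} (h1 : t ∈ T) (h2 : t ∈ V) : t = 1 := by
  obtain ⟨x, rfl⟩ := hT.cj
  exact h.eq_one hT.ne h1 h2

theorem tw_ex (hT : Tw V T) : ∃ t ∈ T, t ≠ 1 := by
  by_contra hc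
  push Not at hc
  have hb : T = ⊥ := eq_bot_iff.2 fun t ht => mem_bot.2 (hc t ht)
  obtain ⟨x, rfl⟩ := hT.cj
  have := cj_eq_bot_iff.1 hb
  exact hT.ne (by rw [this, cj_bot])

theorem tw_exV (hT : Tw V T) : ∃ t ∈ V, t ≠ 1 := by
  obtain ⟨t, ht, h1⟩ := h.tw_ex hT
  obtain ⟨x, rfl⟩ := hT.cj
  obtain ⟨y, hy, rfl⟩ := mem_cj'.1 ht
  exact ⟨y, hy, fun e => h1 (by simp [e])⟩

theorem tw_cj (hT : Tw V T) {m : G} (hm : m ∈ normalizer (V : Set G)) : Tw V (m •ᶜ T) where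
  cj := by
    obtain ⟨x, rfl⟩ := hT.cj
    exact ⟨m * x, by rw [cj_mul]⟩
  ne e := hT.ne ((cj_inj m).1 (e.trans (cj_eq_of_mem_normalizer hm).symm))
  le := cj_le_of_mem_normalizer hT.le (norm_PP V hm)

/-- step 5 -/
theorem tw_cent (hT : Tw V T) {y t : G} (hy : y ∈ PP V) (ht : t ∈ T) (h1 : t ≠ 1)
    (hc : y * t = t * y) : y ∈ centralizer (T : Set G) := by
  have hn := (h.tw_lt hT).mem_norm_of_comm ht h1 hc
  refine mem_cent_of fun a ha => ?_
  have e1 : ⁅y, a⁆ ∈ T := T.mul_mem (conj_mem_of_normalizes le_rfl hn ha) (T.inv_mem ha)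
  have := h.tw_one hT e1 (h.comm_mem hy (hT.le ha))
  exact (commutatorElement_eq_one_iff_mul_comm.1 this).symm

/-- two twins with no commuting nontrivial elements -/
def Opp (T U : Subgroup G) : Prop := ∀ u ∈ U, ∀ t ∈ T, u * t = t * u → u = 1 ∨ t = 1

/-- step 6 -/
theorem exists_opp (hT : Tw V T) : ∃ U, Tw V U ∧ Opp T U := by
  by_contra hc
  push Not at hc
  have key : ∀ m ∈ normalizer (V : Set G), T ≤ centralizer ((m •ᶜ T : Subgroup G) : Set G) := by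
    intro m hm
    have hU := h.tw_cj hT hm
    have := hc _ hU
    simp only [Opp, not_forall, not_or] at this
    obtain ⟨u, hu, t, ht, e, hu1, ht1⟩ := this
    have h2 := h.tw_cent hT (hU.le hu) ht ht1 e
    intro a ha
    exact h.tw_cent hU (hT.le ha) hu hu1 (cent_comm h2 ha)
  let K : Subgroup G := PP V ⊓ ⨅ m : normalizer (V : Set G),
    centralizer (((m : G) •ᶜ T : Subgroup G) : Set G)
  have hKn : normalizer (V : Set G) ≤ normalizer (K : Set G) := by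
    refine le_normalizer_inf (norm_PP V) (le_normalizer_of_cj_le fun x hx => ?_)
    refine le_iInf fun m => ?_
    refine (cj_mono x (iInf_le _ ⟨x⁻¹ * m, mul_mem (inv_mem hx) m.2⟩)).trans ?_
    rw [cj_centralizer, ← cj_mul]
    simp
  have hVK : V ≤ K := le_inf h.le_PP (le_iInf fun m =>
    le_centralizer_symm ((h.tw_cj hT m.2).le.trans (PP_le_cent V)))
  have := h.max (K ⊓ centralizer (K : Set G))
    (le_inf hVK (le_centralizer_symm (inf_le_left.trans (PP_le_cent V))))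
    (inf_le_left.trans (inf_le_left.trans (PP_le_norm V)))
    (fun _ ha _ hb => cent_comm hb.2 ha.1)
    (le_normalizer_inf hKn (le_normalizer_centralizer hKn))
  have hTV : T ≤ V := by
    rw [← this]
    refine le_inf (le_inf hT.le (le_iInf fun m => key m m.2)) (le_centralizer_symm ?_)
    refine inf_le_right.trans ((iInf_le _ 1).trans ?_)
    simp
  obtain ⟨t, ht, h1⟩ := h.tw_ex hT
  exact h1 (h.tw_one hT ht (hTV ht))

/-- F1 -/
theorem f1 (hT : Tw V T) (hU : Tw V U) (ho : Opp T U) {t v : G} (ht : t ∈ T) (h1 : t ≠ 1)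
    (hv : v ∈ V) : ∃ u ∈ U, u * t * u⁻¹ = t * v := by
  obtain ⟨u, hu, e⟩ := surj_of_inj (A := U) (B := V) (h.tw_card hU).ge
    (fun u => t⁻¹ * (u * t * u⁻¹))
    (fun u hu => by
      obtain ⟨c, hc, e⟩ := h.conj_eq (hU.le hu) (hT.le ht)
      simp only [e, inv_mul_cancel_left]; exact hc)
    (fun a ha b hb e => by
      have e2 := mul_left_cancel e
      rcases ho (b⁻¹ * a) (U.mul_mem (U.inv_mem hb) ha) t ht (by
        calc b⁻¹ * a * t = b⁻¹ * (a * t * a⁻¹) * a := by group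
          _ = _ := by rw [e2]; group) with h2 | h2
      · exact (inv_mul_eq_one.1 h2).symm
      · exact absurd h2 h1) v hv
  exact ⟨u, hu, by rw [← e]; group⟩

/-- `P = U D` -/
theorem decomp (hT : Tw V T) (hU : Tw V U) (ho : Opp T U) {y : G} (hy : y ∈ PP V) :
    ∃ u ∈ U, u⁻¹ * y ∈ centralizer (T : Set G) := by
  obtain ⟨t, ht, h1⟩ := h.tw_ex hT
  obtain ⟨c, hc, e⟩ := h.conj_eq hy (hT.le ht)
  obtain ⟨u, hu, e2⟩ := h.f1 hT hU ho ht h1 hc
  refine ⟨u, hu, h.tw_cent hT ((PP V).mul_mem ((PP V).inv_mem (hU.le hu)) hy) ht h1 ?_⟩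
  calc u⁻¹ * y * t = u⁻¹ * (y * t * y⁻¹) * y := by group
    _ = _ := by rw [e, ← e2]; group

/-- F2 -/
theorem f2 (hT : Tw V T) {y v : G} (hy : y ∈ PP V) (hc : y ∉ centralizer (T : Set G))
    (hv : v ∈ V) : ∃ t ∈ T, y * t * y⁻¹ = t * v := by
  obtain ⟨t, ht, e⟩ := surj_of_inj (A := T) (B := V) (h.tw_card hT).ge
    (fun t => t⁻¹ * (y * t * y⁻¹))
    (fun t ht => by
      obtain ⟨c, hc, e⟩ := h.conj_eq hy (hT.le ht)
      simp only [e, inv_mul_cancel_left]; exact hc)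
    (fun a ha b hb e => by
      by_contra hne
      refine hc (h.tw_cent hT hy (T.mul_mem ha (T.inv_mem hb)) (fun e' => hne (mul_inv_eq_one.1 e')) ?_)
      calc y * (a * b⁻¹) = a * (a⁻¹ * (y * a * y⁻¹)) * (b⁻¹ * (y * b * y⁻¹))⁻¹ * b⁻¹ * y := by group
        _ = _ := by rw [e]; group) v hv
  exact ⟨t, ht, by rw [← e]; group⟩

theorem opp_not (hT : Tw V T) (ho : Opp T U) {u : G} (hu : u ∈ U) (h1 : u ≠ 1) :
    u ∉ centralizer (T : Set G) := fun hc => by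
  obtain ⟨t, ht, h2⟩ := h.tw_ex hT
  rcases ho u hu t ht (cent_comm hc ht).symm with h3 | h3
  exacts [h1 h3, h2 h3]

theorem mem_W (hT : Tw V T) {w : G} : w ∈ V ⊔ T ↔ ∃ v ∈ V, ∃ t ∈ T, v * t = w :=
  mem_sup_of_normalizes_left (hT.le.trans (PP_le_norm V))

theorem W_le (hT : Tw V T) : V ⊔ T ≤ PP V := sup_le h.le_PP hT.le

theorem W_comm (hT : Tw V T) {a b : G} (ha : a ∈ V ⊔ T) (hb : b ∈ V ⊔ T) : a * b = b * a := by
  obtain ⟨v, hv, t, ht, rfl⟩ := (h.mem_W hT).1 ha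
  obtain ⟨v', hv', t', ht', rfl⟩ := (h.mem_W hT).1 hb
  have e1 := PP_comm (hT.le ht) hv'
  have e2 := PP_comm (hT.le ht') hv
  calc v * t * (v' * t') = v * (t * v') * t' := by group
    _ = (v * v') * (t * t') := by rw [← e1]; group
    _ = v' * (v * t') * t := by rw [h.comm v hv v' hv', (h.tw_lt hT).comm t ht t' ht']; group
    _ = _ := by rw [e2]; group

theorem W_sq (hT : Tw V T) {a : G} (ha : a ∈ V ⊔ T) : a * a = 1 := by
  obtain ⟨v, hv, t, ht, rfl⟩ := (h.mem_W hT).1 ha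
  calc v * t * (v * t) = v * (t * v) * t := by group
    _ = (v * v) * (t * t) := by rw [← PP_comm (hT.le ht) hv]; group
    _ = 1 := by rw [h.sq v hv, (h.tw_lt hT).sq t ht, one_mul]

theorem norm_W (hT : Tw V T) : PP V ≤ normalizer ((V ⊔ T : Subgroup G) : Set G) :=
  le_normalizer_of_commutator_le
    ((commutator_mono (h.W_le hT) le_rfl).trans (h.comm_le.trans le_sup_left))

/-- `Z(D) ≤ W` -/
theorem zD (hT : Tw V T) {z : G} (hz : z ∈ PP V)
    (hc : ∀ d ∈ PP V, d ∈ centralizer (T : Set G) → d * z = z * d) : z ∈ V ⊔ T := by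
  obtain ⟨U, hU, ho⟩ := h.exists_opp hT
  obtain ⟨u, hu, h1⟩ := h.tw_ex hU
  obtain ⟨c, hc1, e⟩ := h.conj_eq (hU.le hu) hz
  obtain ⟨t, ht, e2⟩ := h.f2 hT (hU.le hu) (h.opp_not hT ho hu h1) hc1
  have hzt : z * t ∈ PP V := (PP V).mul_mem hz (hT.le ht)
  have h3 : z * t ∈ centralizer (U : Set G) := by
    refine h.tw_cent hU hzt hu h1 ?_
    have e3 := PP_comm (hT.le ht) hc1
    calc z * t * u = z * t * (c * c) * u := by rw [h.sq c hc1, mul_one]
      _ = z * (c * t) * c * u := by rw [e3]; group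
      _ = (z * c) * (t * c) * u := by group
      _ = _ := by rw [← e, ← e2]; group
  have h4 : z * t ∈ V := by
    refine h.mem_of_cent hzt fun y hy => ?_
    obtain ⟨a, ha, hd⟩ := h.decomp hT hU ho hy
    have e4 := hc _ ((PP V).mul_mem ((PP V).inv_mem (hU.le ha)) hy) hd
    have e5 := cent_comm hd ht
    have e6 := cent_comm h3 ha
    calc y * (z * t) = a * (a⁻¹ * y * z) * t := by group
      _ = a * z * (a⁻¹ * y * t) := by rw [e4]; group
      _ = a * (z * t) * (a⁻¹ * y) := by rw [← e5]; group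
      _ = _ := by rw [e6]; group
  exact (h.mem_W hT).2 ⟨z * t, h4, t⁻¹, T.inv_mem ht, by group⟩

/-- step 8: the partition of `W` -/
theorem part (hT : Tw V T) (hU : Tw V U) (ho : Opp T U) {w : G} (hw : w ∈ V ⊔ T) :
    w ∈ V ∨ ∃ u ∈ U, w ∈ u •ᶜ T := by
  obtain ⟨v, hv, t, ht, rfl⟩ := (h.mem_W hT).1 hw
  by_cases h1 : t = 1
  · left; simpa [h1] using hv
  · obtain ⟨u, hu, e⟩ := h.f1 hT hU ho ht h1 hv
    exact Or.inr ⟨u, hu, by rw [PP_comm (hT.le ht) hv, ← e]; exact conj_mem_cj ht⟩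

theorem cj_le_W (hT : Tw V T) {y : G} (hy : y ∈ PP V) : y •ᶜ T ≤ V ⊔ T :=
  cj_le_of_mem_normalizer le_sup_right (h.norm_W hT hy)

/-- a conjugate meeting `W` is `V` or `u • T` -/
theorem part' (hT : Tw V T) (hU : Tw V U) (ho : Opp T U) {x w : G} (hw : w ∈ V ⊔ T) (h1 : w ≠ 1)
    (hx : w ∈ x •ᶜ V) : x •ᶜ V = V ∨ ∃ u ∈ U, x •ᶜ V = u •ᶜ T := by
  rcases h.part hT hU ho hw with h2 | ⟨u, hu, h2⟩
  · left
    have := h.eq_of_mem (y := 1) hx (by rwa [cj_one]) h1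
    rwa [cj_one] at this
  · obtain ⟨g, rfl⟩ := hT.cj
    rw [← cj_mul] at h2
    exact Or.inr ⟨u, hu, by rw [← cj_mul]; exact h.eq_of_mem hx h2 h1⟩

theorem part_le (hT : Tw V T) {x w : G} (hw : w ∈ V ⊔ T) (h1 : w ≠ 1)
    (hx : w ∈ x •ᶜ V) : x •ᶜ V ≤ V ⊔ T := by
  obtain ⟨U, hU, ho⟩ := h.exists_opp hT
  rcases h.part' hT hU ho hw h1 hx with h2 | ⟨u, hu, h2⟩
  · rw [h2]; exact le_sup_left
  · rw [h2]; exact h.cj_le_W hT (hU.le hu)

/-- step 9 -/
theorem k9 (hT : Tw V T) {y v : G} (hy : y ∈ centralizer (T : Set G)) (hv : v ∈ V) (h1 : v ≠ 1)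
    (hc : y * v = v * y) : y ∈ centralizer (V : Set G) := by
  obtain ⟨U, hU, ho⟩ := h.exists_opp hT
  obtain ⟨x, hx, hx1⟩ := h.tw_ex hU
  have hxT := h.opp_not hT ho hx hx1
  have hT2 := h.tw_cj hT (PP_le_norm V (hU.le hx))
  have hyV := h.mem_norm_of_comm hv h1 hc
  obtain ⟨t, ht, e⟩ := h.f2 hT (hU.le hx) hxT hv
  have hn : y ∈ normalizer ((x •ᶜ T : Subgroup G) : Set G) := by
    refine (h.tw_lt hT2).mem_norm_of_comm (v := t * v) (e ▸ conj_mem_cj ht) (fun e' => h1 ?_) ?_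
    · exact h.tw_one hT (by rw [← inv_eq_of_mul_eq_one_right e']; exact T.inv_mem ht) hv
    · rw [← mul_assoc, ← cent_comm hy ht, mul_assoc, hc, mul_assoc]
  refine mem_cent_of fun v' hv' => ?_
  obtain ⟨a, ha, e2⟩ := h.f2 hT (hU.le hx) hxT hv'
  have m1 : a * v' ∈ x •ᶜ T := e2 ▸ conj_mem_cj ha
  have m2 := (x •ᶜ T).mul_mem ((x •ᶜ T).inv_mem m1) (conj_mem_of_normalizes le_rfl hn m1)
  have e3 : (a * v')⁻¹ * (y * (a * v') * y⁻¹) = v'⁻¹ * (y * v' * y⁻¹) := by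
    rw [← mul_assoc y a, ← cent_comm hy ha]; group
  rw [e3] at m2
  have := h.tw_one hT2 m2 (V.mul_mem (V.inv_mem hv') (conj_mem_of_normalizes le_rfl hyV hv'))
  calc v' * y = v' * (v'⁻¹ * (y * v' * y⁻¹)) * y := by rw [this, mul_one]
    _ = _ := by group

theorem k9' (hT : Tw V T) {y w : G} (hy : y ∈ centralizer (T : Set G)) (hw : w ∈ V ⊔ T)
    (h1 : w ∉ T) (hc : y * w = w * y) : y ∈ centralizer (V : Set G) := by
  obtain ⟨v, hv, t, ht, rfl⟩ := (h.mem_W hT).1 hw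
  refine h.k9 hT hy hv (fun e => h1 (by simpa [e] using ht)) ?_
  have e := cent_comm hy ht
  calc y * v = y * (v * t) * t⁻¹ := by group
    _ = v * (t * y) * t⁻¹ := by rw [hc]; group
    _ = _ := by rw [e]; group

end LT

end CL.LTI
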