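import Mathlib
import Cfsg.Agent.TECH.LargeTI2
import Cfsg.Agent.TECH.SL2Sec

/-!
Large elementary abelian TI-subgroups (Timmesfeld), part 3: symmetry of twins and the
`SL₂`-action on `W = V T`.
-/

set_option autoImplicit false
set_option linter.unusedSectionVars false

namespace CL.LTI

open Subgroup Cfsg CL.MSS
open scoped commutatorElement MatrixGroups

variable {G : Type*} [Group G] [Finite G]

theorem cent_norm_PP (V : Subgroup G) : centralizer (V : Set G) ≤ normalizer (PP V : Set G) :=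
  (centralizer_le_normalizer _).trans (norm_PP V)

namespace LT

variable {V T U : Subgroup G} (h : LT V)
include h

theorem V_cent (hT : Tw V T) : V ≤ centralizer (T : Set G) :=
  le_centralizer_symm (hT.le.trans (PP_le_cent V))

/-- if `y ∈ P*` maps `V` into `W`, then `[V, y] ≤ T` -/
theorem comm_mem_T (hT : Tw V T) {y : G} (hy : y ∈ PP T) (hW : y •ᶜ V ≤ V ⊔ T) {v : G}
    (hv : v ∈ V) : ⁅y, v⁆ ∈ T := by
  have hT' := h.tw_lt hT
  have m1 : y * v * y⁻¹ ∈ V ⊔ T := hW (conj_mem_cj hv)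
  have m0 : v ∈ V ⊔ T := mem_sup_left hv
  have m2 : v⁻¹ * (y * v * y⁻¹) ∈ V ⊔ T := (V ⊔ T).mul_mem ((V ⊔ T).inv_mem m0) m1
  have e : ⁅y, v⁆ = v⁻¹ * (y * v * y⁻¹) := by
    rw [commutatorElement_def, h.W_comm hT m1 ((V ⊔ T).inv_mem m0)]
  rw [e]
  by_contra hc
  have := h.k9' hT (PP_le_cent T hy) m2 hc
    (comm_aux (h.sq v hv) (cent_comm (h.V_cent hT hv) (hT'.sq_mem hy)) (h.W_comm hT m1 m0)).symm
  rw [← cent_comm this hv] at hc
  exact hc (by simp)

theorem case1 (hT : Tw V T) {v₀ : G} (h0 : v₀ ∈ V) (h1 : v₀ ≠ 1) (h2 : v₀ ∈ PP T) :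
    V ≤ PP T := by
  have hT' := h.tw_lt hT
  intro v hv
  refine hT'.faith (h.V_cent hT hv) fun y hy => h.comm_mem_T hT hy ?_ hv
  obtain ⟨c, hc, e⟩ := hT'.conj_eq hy h2
  refine h.part_le hT (w := y * v₀ * y⁻¹) ?_ (fun e' => h1 (by simpa using e')) (conj_mem_cj h0)
  rw [e]
  exact mul_mem_sup h0 hc

section case2

variable (hT : Tw V T) (h0 : ∀ v ∈ V, v ∈ PP T → v = 1)
include hT h0

theorem c2_R {r : G} (h1 : r ∈ PP V) (h2 : r ∈ PP T) : r ∈ T := by
  have hw := h.zD hT h1 fun d hd hd' => by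
    apply commutatorElement_eq_one_iff_mul_comm.1
    refine h0 _ (h.comm_mem hd h1) ?_
    exact (PP T).mul_mem (conj_mem_of_normalizes (cent_norm_PP T) hd' h2) ((PP T).inv_mem h2)
  obtain ⟨v, hv, t, ht, rfl⟩ := (h.mem_W hT).1 hw
  have : v = 1 := h0 v hv (by
    have := (PP T).mul_mem h2 ((PP T).inv_mem ((h.tw_lt hT).le_PP ht))
    simpa using this)
  simpa [this] using ht

theorem c2_DD : ⁅PP T ⊓ centralizer (V : Set G), PP V ⊓ centralizer (T : Set G)⁆ ≤ T := by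
  rw [commutator_le]
  intro a ha b hb
  refine h.c2_R hT h0 ?_ ?_
  · exact (PP V).mul_mem (conj_mem_of_normalizes (cent_norm_PP V) ha.2 hb.1) ((PP V).inv_mem hb.1)
  · have := (PP T).mul_mem ha.1
      (conj_mem_of_normalizes (cent_norm_PP T) hb.2 ((PP T).inv_mem ha.1))
    simpa only [commutatorElement_def, mul_assoc] using this

theorem c2_claim {y v : G} (hy : y ∈ PP T) (hv : v ∈ V) (h1 : v ≠ 1) (hc : ⁅y, v⁆ ∈ T) :
    y ∈ centralizer (V : Set G) := by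
  obtain ⟨U, hU, ho⟩ := h.exists_opp hT
  have m1 : y * v * y⁻¹ ∈ V ⊔ T := by
    have : y * v * y⁻¹ = ⁅y, v⁆ * v := by rw [commutatorElement_def]; group
    rw [this]
    exact (V ⊔ T).mul_mem (mem_sup_right hc) (mem_sup_left hv)
  rcases h.part' hT hU ho m1 (fun e' => h1 (by simpa using e')) (conj_mem_cj hv) with
    h2 | ⟨u, hu, h2⟩
  · have m2 : y * v * y⁻¹ ∈ V := h2 ▸ conj_mem_cj hv
    have := h.tw_one hT hc (V.mul_mem m2 (V.inv_mem hv))
    exact h.k9 hT (PP_le_cent T hy) hv h1 (commutatorElement_eq_one_iff_mul_comm.1 this)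
  · exfalso
    have e1 : (u⁻¹ * y) •ᶜ V = T := by rw [cj_mul, h2, inv_cj_cj]
    have e2 : u⁻¹ •ᶜ T ≤ PP T := by
      have := cj_mono (u⁻¹ * y) hT.le
      rwa [PP_cj, e1, cj_mul, cj_eq_of_mem_normalizer (PP_le_norm T hy)] at this
    obtain ⟨a, ha, ha1⟩ := h.tw_ex hT
    obtain ⟨c, hc1, e⟩ := h.conj_eq ((PP V).inv_mem (hU.le hu)) (hT.le ha)
    have m3 : a * c ∈ PP T := e ▸ e2 (conj_mem_cj ha)
    have hc0 : c = 1 := h0 c hc1 (by
      have := (PP T).mul_mem ((PP T).inv_mem ((h.tw_lt hT).le_PP ha)) m3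
      simpa using this)
    rw [hc0, mul_one] at e
    rcases ho u hu a ha (by
      calc u * a = u * (u⁻¹ * a * u⁻¹⁻¹) := by rw [e]
        _ = _ := by group) with h3 | h3
    · rw [h3, cj_one] at h2
      have : V = T := by
        rw [← cj_inj y, h2, cj_eq_of_mem_normalizer (PP_le_norm T hy)]
      exact hT.ne this.symm
    · exact ha1 h3

theorem c2_PV : ⁅PP T, V⁆ ≤ PP T ⊓ centralizer (V : Set G) := by
  have hT' := h.tw_lt hT
  rw [commutator_le]
  intro y hy v hv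
  have m1 : ⁅y, v⁆ ∈ PP T := by
    have := (PP T).mul_mem hy
      (conj_mem_of_normalizes (cent_norm_PP T) (h.V_cent hT hv) ((PP T).inv_mem hy))
    simpa only [commutatorElement_def, mul_assoc] using this
  refine ⟨m1, ?_⟩
  by_cases h1 : v = 1
  · simp [h1]
  refine h.c2_claim hT h0 m1 hv h1 ?_
  have e : ⁅⁅y, v⁆, v⁆ = ⁅y, v⁆ * ⁅y, v⁆ := by
    simp only [commutatorElement_def]
    calc y * v * y⁻¹ * v⁻¹ * v * (y * v * y⁻¹ * v⁻¹)⁻¹ * v⁻¹
        = y * v * y⁻¹ * v * y * v⁻¹ * y⁻¹ * v⁻¹ := by group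
      _ = y * v * y⁻¹ * v⁻¹ * y * v * y⁻¹ * v⁻¹ := by rw [h.inv hv]
      _ = _ := by group
  rw [e]
  exact hT'.sq_mem m1

theorem c2_PD : ⁅PP T, PP V ⊓ centralizer (T : Set G)⁆ ≤ PP T ⊓ centralizer (V : Set G) := by
  have hDn : PP V ⊓ centralizer (T : Set G) ≤ normalizer (T : Set G) :=
    inf_le_right.trans (centralizer_le_normalizer _)
  have h1 : ⁅⁅PP V ⊓ centralizer (T : Set G), PP T⁆, V⁆ ≤ T := by
    refine three_subgroups_of_normalizes hDn (PP_le_norm T)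
      ((h.V_cent hT).trans (centralizer_le_normalizer _))
      ((commutator_mono (h.c2_PV hT h0) le_rfl).trans (h.c2_DD hT h0)) ?_
    have : ⁅V, PP V ⊓ centralizer (T : Set G)⁆ = ⊥ :=
      commutator_eq_bot_iff_le_centralizer.2
        (le_centralizer_symm (inf_le_left.trans (PP_le_cent V)))
    rw [this, commutator_bot_left]
    exact bot_le
  have h2 : ⁅PP T, PP V ⊓ centralizer (T : Set G)⁆ ≤ PP T :=
    commutator_le_left_of_normalizes (inf_le_right.trans (cent_norm_PP T))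
  obtain ⟨v, hv, hv1⟩ := h.tw_exV hT
  intro c hc
  refine ⟨h2 hc, h.c2_claim hT h0 (h2 hc) hv hv1 (h1 (commutator_mem_commutator ?_ hv))⟩
  rwa [commutator_comm]

theorem c2_D : PP V ⊓ centralizer (T : Set G) ≤ V ⊔ T := by
  have hT' := h.tw_lt hT
  set D := PP V ⊓ centralizer (T : Set G) with hD
  have hDn : D ≤ normalizer (T : Set G) := inf_le_right.trans (centralizer_le_normalizer _)
  have h1 : ⁅⁅PP T, D⁆, D⁆ ≤ T := (commutator_mono (h.c2_PD hT h0) le_rfl).trans (h.c2_DD hT h0)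
  have h2 : ⁅⁅D, D⁆, PP T⁆ ≤ T :=
    three_subgroups_of_normalizes hDn hDn (PP_le_norm T) (by rwa [commutator_comm D]) h1
  intro z hz
  refine h.zD hT hz.1 fun d hd hd' => commutatorElement_eq_one_iff_mul_comm.1 ?_
  have m : ⁅d, z⁆ ∈ ⁅D, D⁆ := commutator_mem_commutator ⟨hd, hd'⟩ hz
  refine h0 _ (h.comm_mem hd hz.1) (hT'.faith (h.V_cent hT (h.comm_mem hd hz.1)) fun y hy => ?_)
  rw [← commutatorElement_inv, inv_mem_iff]
  exact h2 (commutator_mem_commutator m hy)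

theorem c2_false : False := by
  have hT' := h.tw_lt hT
  obtain ⟨U, hU, ho⟩ := h.exists_opp hT
  have hex : ¬ PP T ⊓ centralizer (V : Set G) ≤ T := by
    intro hc
    obtain ⟨v, hv, hv1⟩ := h.tw_exV hT
    exact hv1 (h0 v hv (hT'.faith (h.V_cent hT hv) fun y hy =>
      hc (h.c2_PV hT h0 (commutator_mem_commutator hy hv))))
  obtain ⟨d, hd, hdT⟩ := SetLike.not_le_iff_exists.1 hex
  have hdW : d ∈ centralizer ((V ⊔ T : Subgroup G) : Set G) := by
    rw [centralizer_sup_eq]; exact ⟨hd.2, PP_le_cent T hd.1⟩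
  have hU' : ∀ u ∈ U, u⁻¹ * (d * u * d⁻¹) ∈ V := by
    intro u hu
    have m1 : d * u * d⁻¹ ∈ PP V := conj_mem_of_normalizes (cent_norm_PP V) hd.2 (hU.le hu)
    have m2 : u⁻¹ * (d * u * d⁻¹) ∈ V ⊔ T := by
      refine h.c2_D hT h0 ⟨(PP V).mul_mem ((PP V).inv_mem (hU.le hu)) m1, mem_cent_of fun a ha => ?_⟩
      have e1 := cent_comm hdW (h.cj_le_W hT (hU.le hu) (conj_mem_cj ha))
      have e2 := cent_comm (PP_le_cent T hd.1) ha
      calc a * (u⁻¹ * (d * u * d⁻¹)) = u⁻¹ * (u * a * u⁻¹ * d) * u * d⁻¹ := by group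
        _ = u⁻¹ * d * u * d⁻¹ * (d * a) * d⁻¹ := by rw [e1]; group
        _ = _ := by rw [← e2]; group
    obtain ⟨v, hv, a, ha, e⟩ := (h.mem_W hT).1 m2
    have s1 := (h.tw_lt hU).sq u hu
    have s2 := h.W_sq hT m2
    have e3 : u * (v * a) = (v * a) * u := by
      rw [e]
      have s3 : (d * u * d⁻¹) * (d * u * d⁻¹) = 1 := by
        calc (d * u * d⁻¹) * (d * u * d⁻¹) = d * (u * u) * d⁻¹ := by group
          _ = 1 := by rw [s1]; group
      set u' := d * u * d⁻¹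
      calc u * (u⁻¹ * u') = u' := by group
        _ = (u⁻¹ * u') * (u⁻¹ * u' * (u⁻¹ * u'))⁻¹ * (u⁻¹ * u') * u' := by group
        _ = u⁻¹ * u' * u⁻¹ * (u' * u') := by rw [s2]; group
        _ = _ := by rw [s3, mul_one, inv_eq_of_sq s1]
    have e4 : u * a = a * u := by
      have e5 := PP_comm (hU.le hu) hv
      calc u * a = v⁻¹ * (v * u) * a := by group
        _ = v⁻¹ * (u * (v * a)) := by rw [e5]; group
        _ = _ := by rw [e3]; group
    rcases ho u hu a ha e4 with h3 | h3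
    · simp [h3]
    · rw [← e, h3, mul_one]; exact hv
  refine hdT (h.c2_R hT h0 (h.faith hd.2 fun y hy => ?_) hd.1)
  obtain ⟨u, hu, hc⟩ := h.decomp hT hU ho hy
  have e1 := cent_comm hdW
    (h.c2_D hT h0 ⟨(PP V).mul_mem ((PP V).inv_mem (hU.le hu)) hy, hc⟩)
  have e2 : ⁅y, d⁆ = u * (u⁻¹ * (d * u * d⁻¹))⁻¹ * u⁻¹ := by
    rw [commutatorElement_def]
    calc y * d * y⁻¹ * d⁻¹ = u * (u⁻¹ * y * d) * y⁻¹ * d⁻¹ := by group
      _ = _ := by rw [e1]; group
  rw [e2]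
  exact conj_mem_of_normalizes (hU.le.trans (PP_le_norm V)) hu (V.inv_mem (hU' u hu))

end case2

/-- (a): twins are symmetric -/
theorem symm (hT : Tw V T) : Tw T V where
  cj := by
    obtain ⟨x, rfl⟩ := hT.cj
    exact ⟨x⁻¹, (inv_cj_cj x V).symm⟩
  ne := hT.ne.symm
  le := by
    by_contra hc
    exact h.c2_false hT fun v hv hv' => by
      by_contra h1
      exact hc (h.case1 hT hv h1 hv')

theorem quad (hT : Tw V T) : CL.Push.QuadSec (V ⊔ T) ⊥ (PP V) V T where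
  sub := (commutator_mono (h.W_le hT) le_rfl).trans h.comm_le
  fix := (commutator_eq_bot_iff_le_centralizer.2 (le_centralizer_symm (PP_le_cent V))).le
  inj a ha y hy hc := by
    by_cases h1 : y = 1
    · exact Or.inl (mem_bot.2 h1)
    right
    have := h.tw_cent hT ha hy h1
      (commutatorElement_eq_one_iff_mul_comm.1 (mem_bot.1 hc)).symm
    have hW : a ∈ centralizer ((V ⊔ T : Subgroup G) : Set G) := by
      rw [centralizer_sup_eq]; exact ⟨PP_le_cent V ha, this⟩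
    exact fun x hx => mem_bot.2 (commutatorElement_eq_one_iff_mul_comm.2 (cent_comm hW hx))

theorem f1' (hT : Tw V T) {t v : G} (ht : t ∈ T) (h1 : t ≠ 1) (hv : v ∈ V) :
    ∃ u ∈ PP V, u * t * u⁻¹ = t * v := by
  obtain ⟨U, hU, ho⟩ := h.exists_opp hT
  obtain ⟨u, hu, e⟩ := h.f1 hT hU ho ht h1 hv
  exact ⟨u, hU.le hu, e⟩

theorem full (hT : Tw V T) : CL.Push.FullSec ⊥ (PP V) V T := by
  intro y hy h1 x hx
  obtain ⟨u, hu, e⟩ := h.f1' hT hy (fun e => h1 (mem_bot.2 e)) hx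
  refine ⟨u, hu, mem_bot.2 ?_⟩
  calc ⁅y, u⁆⁻¹ * x = (u * y * u⁻¹) * (y⁻¹ * x) := by rw [commutatorElement_def]; group
    _ = (y * x * y⁻¹) * x := by rw [e]; group
    _ = 1 := by rw [← PP_comm (hT.le hy) hx, mul_inv_cancel_right, h.sq x hx]

theorem H_norm (hT : Tw V T) : PP V ⊔ PP T ≤ normalizer ((V ⊔ T : Subgroup G) : Set G) :=
  sup_le (h.norm_W hT) (by rw [sup_comm]; exact (h.tw_lt hT).norm_W (h.symm hT))

theorem actsAs (hT : Tw V T) (F : Type*) [Field F] [Fintype F]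
    (hF : Fintype.card F = Nat.card V) :
    ActsAsSL2OnSection F ⊤ (PP V ⊔ PP T) (V ⊔ T) ⊥ := by
  have hT' := h.tw_lt hT
  have hs := h.symm hT
  refine CL.Push.actsAs_of_quadSec (p := 2) (h.H_norm hT) le_normalizer_of_normal
    (commutator_le.2 fun a ha b hb =>
      mem_bot.2 (commutatorElement_eq_one_iff_mul_comm.2 (h.W_comm hT ha hb)))
    (fun x hx => mem_bot.2 (by rw [_root_.sq]; exact h.W_sq hT hx)) rfl
    (eq_bot_iff.2 fun t ht => mem_bot.2 (h.tw_one hT ht.2 ht.1)) (h.quad hT)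
    (by rw [sup_comm]; exact hT'.quad hs) (h.full hT) (hT'.full hs) rfl ?_ F
    (by rw [relIndex_bot_left, hF]) (by rw [relIndex_bot_left, hF, h.tw_card hT])
  intro b hb
  obtain ⟨U, hU, ho⟩ := h.exists_opp hT
  obtain ⟨v, hv, hv1⟩ := h.tw_exV hT
  have m : b * v * b⁻¹ ∈ V ⊔ T :=
    conj_mem_of_normalizes (h.H_norm hT) (mem_sup_right hb) (mem_sup_left hv)
  rcases h.part' hT hU ho m (fun e' => hv1 (by simpa using e')) (conj_mem_cj hv) with
    h2 | ⟨u, hu, h2⟩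
  · left
    have m2 : b * v * b⁻¹ ∈ V := h2 ▸ conj_mem_cj hv
    have e := h.tw_one hT (hT'.comm_mem hb (hs.le hv)) (V.mul_mem m2 (V.inv_mem hv))
    have := hT'.tw_cent hs hb hv hv1 (commutatorElement_eq_one_iff_mul_comm.1 e)
    have hW : b ∈ centralizer ((V ⊔ T : Subgroup G) : Set G) := by
      rw [centralizer_sup_eq]; exact ⟨this, PP_le_cent T hb⟩
    exact fun x hx => mem_bot.2 (commutatorElement_eq_one_iff_mul_comm.2 (cent_comm hW hx))
  · exact Or.inr ⟨u, hU.le hu, h2.le⟩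

/-- `N(V)` is transitive on `V#` -/
theorem trans (hT : Tw V T) {v w : G} (hv : v ∈ V) (hv1 : v ≠ 1) (hw : w ∈ V) (hw1 : w ≠ 1) :
    ∃ m ∈ normalizer (V : Set G), m * v * m⁻¹ = w := by
  have hT' := h.tw_lt hT
  have hs := h.symm hT
  obtain ⟨a, ha, ha1⟩ := h.tw_ex hT
  obtain ⟨x, -, e1⟩ := hT'.f1' hs hv hv1 ha
  obtain ⟨y, hy, e2⟩ := h.f1' hT ha ha1 (V.mul_mem hv hw)
  obtain ⟨z, -, e3⟩ := hT'.f1' hs hw hw1 ha
  have e : z⁻¹ * y * x * v * (z⁻¹ * y * x)⁻¹ = w := by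
    calc z⁻¹ * y * x * v * (z⁻¹ * y * x)⁻¹ = z⁻¹ * y * (x * v * x⁻¹) * y⁻¹ * z := by group
      _ = z⁻¹ * (y * v) * y⁻¹ * (y * a * y⁻¹) * z := by rw [e1]; group
      _ = z⁻¹ * (v * a) * v * w * z := by rw [e2, ← PP_comm hy hv]; group
      _ = z⁻¹ * a * (v * v) * w * z := by rw [PP_comm (hT.le ha) hv]; group
      _ = z⁻¹ * (w * a) * z := by rw [h.sq v hv, PP_comm (hT.le ha) hw]; group
      _ = w := by rw [← e3]; group
  exact ⟨_, h.mem_norm hv hv1 (e ▸ hw), e⟩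

/-- (c): `P = Q` -/
theorem PP_eq (hT : Tw V T) : PP V = pCoreOf 2 (normalizer (V : Set G)) := by
  refine inf_eq_left.2 (le_centralizer_symm ?_)
  set Q := pCoreOf 2 (normalizer (V : Set G))
  obtain ⟨v, hv, hv1⟩ := h.tw_exV hT
  have hne := CL.PN.inf_centralizer_ne_bot (K := Q) (N := V) (H := Q)
    (oP_isPGroup _).isNilpotent (h.le_PP.trans inf_le_left) le_rfl (oP_le _)
    (fun e => hv1 (mem_bot.1 (e ▸ hv)))
  obtain ⟨⟨z, hz⟩, hz1⟩ := ne_bot_iff_exists_ne_one.1 hne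
  intro w hw
  by_cases hw1 : w = 1
  · simp [hw1]
  obtain ⟨m, hm, e⟩ := h.trans hT hz.1 (fun e => hz1 (Subtype.ext e)) hw hw1
  exact e ▸ conj_mem_of_normalizes (le_normalizer_centralizer (oP_normal _)) hm hz.2

theorem comm_eq (hT : Tw V T) : ⁅PP V, PP V⁆ = V := by
  refine le_antisymm h.comm_le fun v hv => ?_
  obtain ⟨a, ha, ha1⟩ := h.tw_ex hT
  obtain ⟨y, hy, e⟩ := h.f1' hT ha ha1 hv
  have : v = ⁅a⁻¹, y⁆ := by
    rw [commutatorElement_def]
    calc v = a⁻¹ * (a * v) := by group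
      _ = _ := by rw [← e]; group
  rw [this]
  exact commutator_mem_commutator ((PP V).inv_mem (hT.le ha)) hy

end LT

end CL.LTI
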