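import Mathlib
import Cfsg.Agent.PLOC.PRankOmega
import Cfsg.Agent.SOLV.Frattini

/-!
# `p`-central groups for odd `p` (Thompson), and invariant series of `p`-groups of rank two
-/

set_option autoImplicit false

namespace CL.MSS

open Subgroup Cfsg
open scoped commutatorElement

universe u

variable {p : ℕ}

/-- Every element of order `p` is central. -/
def PCentral (p : ℕ) (D : Type*) [Group D] : Prop := ∀ x : D, x ^ p = 1 → ∀ y : D, Commute x y

theorem PCentral.subgroup {D : Type*} [Group D] (h : PCentral p D) (M : Subgroup D) :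
    PCentral p M := fun x hx y =>
  Subtype.ext (h x (by simpa using congrArg Subtype.val hx) y)

theorem pcentral_commutator_pow_aux [hp : Fact p.Prime] (hp2 : p ≠ 2) (n : ℕ) :
    ∀ (D : Type u) [Group D] [Finite D], Nat.card D = n → IsPGroup p D → PCentral p D →
      ∀ x y : D, (x ^ p) ^ p = 1 → ⁅x, y⁆ ^ p = 1 := by
  induction n using Nat.strong_induction_on with
  | _ n ih =>
  intro D _ _ hn hD hc x y hx
  have hodd := hp.out.odd_of_ne_two hp2
  by_cases h : zpowers x = ⊤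
  · have hy : y ∈ zpowers x := h ▸ mem_top y
    obtain ⟨k, rfl⟩ := hy
    have : Commute x (x ^ k) := Commute.self_zpow x k
    simp only
    rw [commutatorElement_eq_one_iff_commute.2 this, one_pow]
  · obtain ⟨M, hM, hle⟩ := CL.exists_isCoatom_ge h
    have hnil := hD.isNilpotent
    have hMn : M.Normal := CL.isNilpotent_iff_coatom_normal.1 hnil M hM
    have hxM : x ∈ M := hle (mem_zpowers x)
    have hwM : y * x⁻¹ * y⁻¹ ∈ M := hMn.conj_mem _ (M.inv_mem hxM) y
    have hlt : Nat.card M < n := by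
      rw [← hn, ← card_top (G := D)]
      exact card_lt_of_lt hM.lt_top
    have h1 := ih _ hlt M rfl (hD.to_subgroup M) (hc.subgroup M) ⟨x, hxM⟩ ⟨_, hwM⟩
      (Subtype.ext (by simpa using hx))
    have h2 : ⁅x, y * x⁻¹ * y⁻¹⁆ ^ p = 1 := congrArg Subtype.val h1
    have h3 : ⁅y * x⁻¹ * y⁻¹, x⁆ ^ p = 1 := by
      rw [← commutatorElement_inv, inv_pow, h2, inv_one]
    have h4 := CL.PG.mul_pow_of_odd (hc _ h3 x).symm (hc _ h3 (y * x⁻¹ * y⁻¹)).symm hodd h3
    have h5 : ⁅x, y⁆ = x * (y * x⁻¹ * y⁻¹) := by simp [commutatorElement_def, mul_assoc]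
    rw [h5, h4, conj_pow, inv_pow, ((hc _ hx y).inv_left).symm.eq]
    simp

variable {D : Type u} [Group D] [Finite D] [hp : Fact p.Prime]

theorem PCentral.commutator_pow (hc : PCentral p D) (hp2 : p ≠ 2) (hD : IsPGroup p D) {x : D}
    (hx : (x ^ p) ^ p = 1) (y : D) : ⁅x, y⁆ ^ p = 1 :=
  pcentral_commutator_pow_aux hp2 _ D rfl hD hc x y hx

theorem PCentral.mul_pow (hc : PCentral p D) (hp2 : p ≠ 2) (hD : IsPGroup p D) {x : D}
    (hx : (x ^ p) ^ p = 1) (y : D) : (x * y) ^ p = x ^ p * y ^ p := by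
  have h3 : ⁅y, x⁆ ^ p = 1 := by
    rw [← commutatorElement_inv, inv_pow, hc.commutator_pow hp2 hD hx y, inv_one]
  exact CL.PG.mul_pow_of_odd (hc _ h3 x).symm (hc _ h3 y).symm (hp.out.odd_of_ne_two hp2) h3

/-- The elements of order dividing `p` of a `p`-central group. -/
def PCentral.om {D : Type u} [Group D] (hc : PCentral p D) : Subgroup D where
  carrier := {x | x ^ p = 1}
  one_mem' := one_pow p
  mul_mem' := fun {a b} ha hb => by
    have ha' : a ^ p = 1 := ha
    have hb' : b ^ p = 1 := hb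
    show (a * b) ^ p = 1
    rw [(hc a ha' b).mul_pow, ha', hb', one_mul]
  inv_mem' := fun {a} ha => by
    have ha' : a ^ p = 1 := ha
    show a⁻¹ ^ p = 1
    rw [inv_pow, ha', inv_one]

omit hp in
theorem PCentral.mem_om {D : Type u} [Group D] (hc : PCentral p D) {x : D} :
    x ∈ hc.om ↔ x ^ p = 1 := Iff.rfl

instance PCentral.om_normal {D : Type u} [Group D] (hc : PCentral p D) : hc.om.Normal :=
  ⟨fun x hx g => by
    rw [hc.mem_om] at hx ⊢
    rw [conj_pow, hx, mul_one, mul_inv_cancel]⟩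

theorem PCentral.quotient (hc : PCentral p D) (hp2 : p ≠ 2) (hD : IsPGroup p D) :
    PCentral p (D ⧸ hc.om) := by
  intro x hx y
  obtain ⟨x, rfl⟩ := QuotientGroup.mk_surjective x
  obtain ⟨y, rfl⟩ := QuotientGroup.mk_surjective y
  rw [← QuotientGroup.mk_pow, QuotientGroup.eq_one_iff, hc.mem_om] at hx
  rw [← commutatorElement_eq_one_iff_commute]
  have : ⁅(x : D ⧸ hc.om), (y : D ⧸ hc.om)⁆ = ((⁅x, y⁆ : D) : D ⧸ hc.om) := by
    simp [commutatorElement_def]
  rw [this, QuotientGroup.eq_one_iff, hc.mem_om]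
  exact hc.commutator_pow hp2 hD hx y

theorem pcentral_mul_pow_aux (hp2 : p ≠ 2) (i : ℕ) :
    ∀ (D : Type u) [Group D] [Finite D], IsPGroup p D → PCentral p D →
      ∀ x y : D, x ^ p ^ (i + 1) = 1 → (x * y) ^ p ^ i = x ^ p ^ i * y ^ p ^ i := by
  induction i with
  | zero => intro D _ _ _ _ x y _; simp
  | succ i ih =>
    intro D _ _ hD hc x y hx
    have h1 := ih (D ⧸ hc.om) (hD.to_quotient _) (hc.quotient hp2 hD) x y (by
      rw [← QuotientGroup.mk_pow, QuotientGroup.eq_one_iff, hc.mem_om, ← pow_mul, ← pow_succ, hx])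
    rw [← QuotientGroup.mk_mul, ← QuotientGroup.mk_pow, ← QuotientGroup.mk_pow,
      ← QuotientGroup.mk_pow, ← QuotientGroup.mk_mul, eq_comm, QuotientGroup.eq, hc.mem_om] at h1
    have h2 : (x * y) ^ p ^ i =
        (x ^ p ^ i * y ^ p ^ i) * ((x ^ p ^ i * y ^ p ^ i)⁻¹ * (x * y) ^ p ^ i) := by group
    rw [pow_succ, pow_mul, h2, (hc _ h1 _).symm.mul_pow, h1, mul_one, hc.mul_pow hp2 hD, pow_mul,
      pow_mul]
    rw [← pow_mul, ← pow_mul, ← hx]
    congr 1
    ring

/-- In a `p`-central group (`p` odd), `x ↦ x ^ p ^ i` is multiplicative on `Ω_{i+1}`. -/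
theorem PCentral.mul_pow_pow (hc : PCentral p D) (hp2 : p ≠ 2) (hD : IsPGroup p D) {i : ℕ}
    {x : D} (hx : x ^ p ^ (i + 1) = 1) (y : D) : (x * y) ^ p ^ i = x ^ p ^ i * y ^ p ^ i :=
  pcentral_mul_pow_aux hp2 i D hD hc x y hx

section ambient

variable {G : Type u} [Group G] [Finite G]

omit hp [Finite G] in
theorem pcentral_of_le {D : Subgroup G}
    (hc : ∀ x ∈ D, x ^ p = 1 → x ∈ centralizer (D : Set G)) : PCentral p D := fun x hx y =>
  Subtype.ext ((hc x x.2 (by simpa using congrArg Subtype.val hx)) y y.2).symm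

theorem pcentral_mul_pow_pow (hp2 : p ≠ 2) {D : Subgroup G} (hD : IsPGroup p D)
    (hc : ∀ x ∈ D, x ^ p = 1 → x ∈ centralizer (D : Set G)) {i : ℕ} {x y : G} (hx : x ∈ D)
    (hy : y ∈ D) (h : x ^ p ^ (i + 1) = 1) : (x * y) ^ p ^ i = x ^ p ^ i * y ^ p ^ i := by
  have := (pcentral_of_le hc).mul_pow_pow hp2 hD (x := ⟨x, hx⟩) (i := i)
    (Subtype.ext (by simpa using h)) ⟨y, hy⟩
  simpa using congrArg Subtype.val this

/-- `Ω_i(D)` of a `p`-central group consists of the elements of order dividing `p ^ i`. -/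
theorem exists_omega_pow (hp2 : p ≠ 2) {D : Subgroup G} (hD : IsPGroup p D)
    (hc : ∀ x ∈ D, x ^ p = 1 → x ∈ centralizer (D : Set G)) (i : ℕ) :
    ∃ S : Subgroup G, ∀ x, x ∈ S ↔ x ∈ D ∧ x ^ p ^ i = 1 := by
  refine ⟨⟨⟨⟨{x | x ∈ D ∧ x ^ p ^ i = 1}, fun {a b} ha hb => ⟨D.mul_mem ha.1 hb.1, ?_⟩⟩,
    D.one_mem, one_pow _⟩, fun {a} ha => ⟨D.inv_mem ha.1, ?_⟩⟩, fun x => Iff.rfl⟩
  · rw [pcentral_mul_pow_pow hp2 hD hc ha.1 hb.1 (by rw [pow_succ, pow_mul, ha.2, one_pow]), ha.2,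
      hb.2, one_mul]
  · rw [inv_pow, ha.2, inv_one]

theorem relIndex_omega_pow_le (hp2 : p ≠ 2) {D : Subgroup G} (hD : IsPGroup p D)
    (hc : ∀ x ∈ D, x ^ p = 1 → x ∈ centralizer (D : Set G)) {i : ℕ} {S T E : Subgroup G}
    (hS : ∀ x, x ∈ S ↔ x ∈ D ∧ x ^ p ^ i = 1) (hT : ∀ x, x ∈ T ↔ x ∈ D ∧ x ^ p ^ (i + 1) = 1)
    (hE : ∀ x ∈ D, x ^ p = 1 → x ∈ E) : S.relIndex T ≤ Nat.card E := by
  let f : T →* G :=
    { toFun := fun x => (x : G) ^ p ^ i
      map_one' := one_pow _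
      map_mul' := fun x y =>
        pcentral_mul_pow_pow hp2 hD hc ((hT _).1 x.2).1 ((hT _).1 y.2).1 ((hT _).1 x.2).2 }
  have hk : f.ker = S.subgroupOf T := by
    ext x
    rw [MonoidHom.mem_ker, mem_subgroupOf, hS]
    exact ⟨fun h => ⟨((hT _).1 x.2).1, h⟩, fun h => h.2⟩
  rw [relIndex, ← hk, index_ker]
  apply card_le_of_le
  rintro _ ⟨x, rfl⟩
  refine hE _ (D.pow_mem ((hT _).1 x.2).1 _) ?_
  show ((x : G) ^ p ^ i) ^ p = 1
  rw [← pow_mul, ← pow_succ, ((hT _).1 x.2).2]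

end ambient

omit hp in
theorem mem_of_centralizes_elemAb_sq
    (hrk : ∀ E : Subgroup D, IsElementaryAbelian p E → Nat.card E ≤ p ^ 2) {E : Subgroup D}
    (hE : IsElementaryAbelian p E) (hc : Nat.card E = p ^ 2) {x : D}
    (hx : x ∈ centralizer (E : Set D)) (hxp : x ^ p = 1) : x ∈ E := by
  have h1 := CL.PG.isMulCommutative_sup_zpowers hE.1 hx
  have h2 : IsElementaryAbelian p (E ⊔ zpowers x) := ⟨h1, fun a ha =>
    CL.PG.pow_eq_one_of_mem_sup h1 hE.2 (fun y hy => CL.PG.pow_eq_one_of_mem_zpowers hxp hy) ha⟩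
  have h3 : E = E ⊔ zpowers x :=
    eq_of_le_of_card_ge le_sup_left ((hrk _ h2).trans hc.ge)
  rw [h3]
  exact mem_sup_right (mem_zpowers x)

/-- A `p`-group of rank at most two (`p` odd) has a characteristic `p`-central subgroup of index
at most `p ^ 2`. -/
theorem exists_pcentral_characteristic (hp2 : p ≠ 2) (hD : IsPGroup p D)
    (hrk : ∀ E : Subgroup D, IsElementaryAbelian p E → Nat.card E ≤ p ^ 2) :
    ∃ C : Subgroup D, C.Characteristic ∧ C.index ≤ p ^ 2 ∧
      ∀ x ∈ C, x ^ p = 1 → x ∈ centralizer (C : Set D) := by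
  have hodd := hp.out.odd_of_ne_two hp2
  by_cases hcyc : IsCyclic D
  · refine ⟨⊤, inferInstance, ?_, fun x _ _ y _ => ?_⟩
    · rw [index_top]
      exact Nat.one_le_pow _ _ hp.out.pos
    · exact (IsCyclic.isMulCommutative (α := D)).is_comm.comm y x
  obtain ⟨E, hEn, hE, hEc⟩ := CL.PG.exists_normal_elemAb_sq_of_not_isCyclic hp2 _ D rfl hD hcyc
  let W : Subgroup D :=
    { carrier := {x | x ^ p = 1 ∧ ∀ g, ⁅x, g⁆ ∈ center D}
      one_mem' := ⟨one_pow _, fun g => by simp⟩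
      mul_mem' := fun {a b} ha hb => by
        refine ⟨CL.PG.mul_pow_eq_one_of_odd (mem_center_iff.1 (hb.2 a) a)
          (mem_center_iff.1 (hb.2 a) b) hodd ha.1 hb.1, fun g => ?_⟩
        rw [CL.PG.commutator_mul_left_of_commute (mem_center_iff.1 (hb.2 g) a)]
        exact (center D).mul_mem (hb.2 g) (ha.2 g)
      inv_mem' := fun {a} ha => by
        refine ⟨by rw [inv_pow, ha.1, inv_one], fun g => ?_⟩
        rw [CL.PG.commutator_inv_left_of_commute (mem_center_iff.1 (ha.2 g) a)]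
        exact (center D).inv_mem (ha.2 g) }
  have hW : ∀ x, x ∈ W ↔ x ^ p = 1 ∧ ∀ g, ⁅x, g⁆ ∈ center D := fun x => Iff.rfl
  have hWc : W.Characteristic := by
    rw [characteristic_iff_le_comap]
    intro φ x hx
    rw [mem_comap, hW]
    refine ⟨by rw [← map_pow, hx.1, map_one], fun g => ?_⟩
    obtain ⟨g, rfl⟩ := φ.surjective g
    have := (characteristic_iff_le_comap.1 (inferInstance : (center D).Characteristic)) φ (hx.2 g)
    simpa [mem_comap, map_commutatorElement] using this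
  have hEW : E ≤ W := by
    intro x hx
    refine ⟨hE.2 x hx, fun g => ?_⟩
    have h1 := CL.PG.card_commutator_top_le hD E (k := 1) hEc.le
    have h2 := CL.PG.le_center_of_card_le hD ⁅E, (⊤ : Subgroup D)⁆ (by simpa using h1)
    exact h2 (commutator_mem_commutator hx (mem_top g))
  refine ⟨centralizer (W : Set D), inferInstance, ?_, fun x hx hxp => ?_⟩
  · by_cases hle : W ≤ E
    · have h1 : W = E := le_antisymm hle hEW
      rw [h1]
      exact (CL.PG.index_centralizer_le hD E hEc.le).trans (Nat.le_self_pow two_ne_zero p)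
    · obtain ⟨w, hw, hwE⟩ := SetLike.not_le_iff_exists.1 hle
      have h3 := CL.PG.card_le_cube_of_rank_two hD hrk W (fun w hw => hw.1)
      have h4 := CL.PG.pow_succ_le_card_of_lt hD (lt_of_le_of_ne hEW (fun h => hle h.ge)) hEc.ge
      have h5 : Nat.card W = p * Nat.card E := by
        rw [hEc, ← pow_succ']
        exact le_antisymm h3 h4
      rw [← CL.PG.sup_zpowers_eq_of_card hp.out hEW h5 hw hwE, CL.PG.centralizer_sup_zpowers]
      refine index_inf_le.trans ?_
      rw [pow_two]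
      refine Nat.mul_le_mul (CL.PG.index_centralizer_le hD E hEc.le) ?_
      have h6 := CL.PG.relIndex_centralizer_le_card ⊤ (center D ⊓ E) w (fun x _ => by
        have h7 : ⁅x, w⁆ ∈ center D := by
          rw [← commutatorElement_inv]
          exact (center D).inv_mem (hw.2 x)
        refine mem_inf.2 ⟨h7, mem_of_centralizes_elemAb_sq hrk hE hEc
          (center_le_centralizer _ h7) ?_⟩
        have h8 : ⁅x, w⁆ ∈ W := by
          rw [commutatorElement_def]
          exact W.mul_mem ((inferInstance : W.Normal).conj_mem w hw x) (W.inv_mem hw)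
        exact h8.1)
      rw [relIndex_top_right] at h6
      refine h6.trans ?_
      have h9 : center D ⊓ E < E := by
        refine lt_of_le_of_ne inf_le_right (fun h => hwE ?_)
        refine mem_of_centralizes_elemAb_sq hrk hE hEc (fun e he => ?_) hw.1
        rw [← h] at he
        exact (mem_center_iff.1 he.1 w).symm
      simpa using CL.PG.card_le_pow_of_lt hD h9 (k := 1) hEc.le
  · have h1 : x ∈ E := mem_of_centralizes_elemAb_sq hrk hE hEc (centralizer_le hEW hx) hxp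
    intro y hy
    exact (hy x (hEW h1)).symm

section ambient

variable {G : Type u} [Group G] [Finite G]

theorem exists_pcentral_ambient (hp2 : p ≠ 2) {T : Subgroup G} (hT : IsPGroup p T)
    (hrk : ∀ E : Subgroup G, E ≤ T → IsElementaryAbelian p E → Nat.card E ≤ p ^ 2) :
    ∃ C : Subgroup G, C ≤ T ∧ normalizer (T : Set G) ≤ normalizer (C : Set G) ∧
      C.relIndex T ≤ p ^ 2 ∧ ∀ x ∈ C, x ^ p = 1 → x ∈ centralizer (C : Set G) := by
  obtain ⟨C, hC, hi, hc⟩ := exists_pcentral_characteristic hp2 hT (fun E hE => by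
    rw [← card_map_of_injective T.subtype_injective]
    refine hrk _ (map_subtype_le _) ⟨⟨⟨?_⟩⟩, ?_⟩
    · rintro ⟨_, a, ha, rfl⟩ ⟨_, b, hb, rfl⟩
      exact Subtype.ext (congrArg (fun z : E => ((z : T) : G)) (hE.1.is_comm.comm ⟨a, ha⟩ ⟨b, hb⟩))
    · rintro _ ⟨a, ha, rfl⟩
      exact congrArg Subtype.val (hE.2 a ha))
  refine ⟨C.map T.subtype, map_subtype_le _,
    CL.PG.normalizer_le_normalizer_map_of_characteristic T C, ?_, ?_⟩
  · rwa [relIndex, subgroupOf, comap_map_eq_self_of_injective T.subtype_injective]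
  · rintro _ ⟨x, hx, rfl⟩ hxp _ ⟨y, hy, rfl⟩
    exact congrArg Subtype.val (hc x hx (Subtype.ext hxp) y hy)

/-- For `p` odd, a `p`-group `T` of rank at most two has an `N(T)`-invariant series with factors of
order at most `p ^ 2`: any subgroup `K` not containing `T` is separated by one of its steps. -/
theorem exists_step_of_rank_two (hp2 : p ≠ 2) {T : Subgroup G} (hT : IsPGroup p T)
    (hrk : ∀ E : Subgroup G, E ≤ T → IsElementaryAbelian p E → Nat.card E ≤ p ^ 2)
    {K : Subgroup G} (hK : ¬ T ≤ K) :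
    ∃ U V : Subgroup G, U ≤ T ∧ normalizer (T : Set G) ≤ normalizer (U : Set G) ∧
      normalizer (T : Set G) ≤ normalizer (V : Set G) ∧ V ≤ U ∧ V ≤ K ∧ ¬ U ≤ K ∧
      V.relIndex U ≤ p ^ 2 := by
  classical
  obtain ⟨C, hCT, hn, hi, hc⟩ := exists_pcentral_ambient hp2 hT hrk
  by_cases hCK : C ≤ K
  · exact ⟨T, C, le_rfl, le_rfl, hn, hCT, hCK, hK, hi⟩
  have hC : IsPGroup p C := hT.to_le hCT
  choose S hS using exists_omega_pow hp2 hC hc
  have hSn : ∀ i, normalizer (T : Set G) ≤ normalizer (S i : Set G) := by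
    intro i g hg
    have hg' := mem_normalizer_iff.1 (hn hg)
    rw [mem_normalizer_iff]
    intro x
    rw [hS, hS, ← hg', conj_pow]
    simp
  have hex : ∃ i, ¬ S i ≤ K := by
    obtain ⟨x, hx, hxK⟩ := SetLike.not_le_iff_exists.1 hCK
    obtain ⟨k, hk⟩ := hC ⟨x, hx⟩
    exact ⟨k, fun h => hxK (h ((hS k x).2 ⟨hx, congrArg Subtype.val hk⟩))⟩
  have h0 : Nat.find hex ≠ 0 := by
    intro h
    apply Nat.find_spec hex
    rw [h]
    intro x hx
    have := ((hS 0 x).1 hx).2
    rw [pow_zero, pow_one] at this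
    rw [this]
    exact K.one_mem
  obtain ⟨i, hi⟩ := Nat.exists_eq_succ_of_ne_zero h0
  have h1 : ¬ S (i + 1) ≤ K := by
    have := Nat.find_spec hex
    rwa [hi] at this
  have h2 : S i ≤ K := by
    by_contra h
    have := Nat.find_min' hex h
    omega
  refine ⟨S (i + 1), S i, fun x hx => hCT ((hS _ x).1 hx).1, hSn _, hSn _, fun x hx => ?_, h2, h1,
    ?_⟩
  · rw [hS] at hx ⊢
    exact ⟨hx.1, by rw [pow_succ, pow_mul, hx.2, one_pow]⟩
  · refine (relIndex_omega_pow_le hp2 hC hc (hS i) (hS (i + 1)) (E := S 1)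
      (fun x hx hxp => (hS 1 x).2 ⟨hx, by rwa [pow_one]⟩)).trans ?_
    refine hrk _ (fun x hx => hCT ((hS _ x).1 hx).1) ⟨⟨⟨fun a b => Subtype.ext ?_⟩⟩, ?_⟩
    · have ha := (hS 1 _).1 a.2
      exact (hc a ha.1 (by simpa using ha.2) b ((hS 1 _).1 b.2).1).symm
    · intro a ha
      simpa using ((hS 1 _).1 ha).2

end ambient

end CL.MSS
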