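import Cfsg.Agent.PLOC.FusionControl
import Cfsg.Agent.PLOC.Uniserial
import Cfsg.Agent.TECH.SubnP
import Cfsg.Agent.TECH.SecC

/-!
A subgroup of a Sylow subgroup with a central series of strongly closed subgroups controls strong
fusion; control of fusion lifts from a normal subgroup.
-/

set_option autoImplicit false

namespace CL.CF

open Subgroup Cfsg CL.MSS CL.PC CL.FC
open scoped commutatorElement

variable {G : Type*} [Group G] [Finite G] {p : ℕ} [hp : Fact p.Prime]

/-- The normalizer of a subgroup with a strongly closed central series controls strong fusion. -/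
theorem ctrl_of_sc_series (P : Sylow p G) (W : ℕ → Subgroup G) (n : ℕ)
    (hsc : ∀ i, IsStronglyClosed (W i) P) (hc : ∀ i, ⁅W i, W 0⁆ ≤ W (i + 1)) (hn : W n = ⊥) :
    Ctrl (normalizer (W 0 : Set G)) ⊤ P := by
  refine ctrl_of_centric_ind P _ fun E hE hD _ ih x hx => ?_
  set H := normalizer (E : Set G) with hH
  have hnorm : ∀ i, H ≤ normalizer ((E ⊓ W i : Subgroup G) : Set G) := fun i =>
    le_normalizer_of_cj_le fun y hy => cj_le_iff_forall.2 fun e he =>
      have h1 := conj_mem_of_mem_normalizer hy he.1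
      ⟨h1, (hsc i).2 e he.2 y (hE h1)⟩
  by_cases hW : W 0 ≤ E
  · refine ⟨x, ?_, fun _ _ => rfl⟩
    have := hnorm 0 hx
    rwa [inf_of_le_right hW] at this
  have hEp : IsPGroup p E := P.isPGroup'.to_le hE
  obtain ⟨R, r0, rs⟩ : ∃ R : ℕ → Subgroup G, R 0 = E ∧ ∀ i, R (i + 1) = E ⊓ W i :=
    ⟨fun i => Nat.rec E (fun i _ => E ⊓ W i) i, rfl, fun _ => rfl⟩
  have hR : ∀ i : ℕ, H ≤ normalizer ((R i : Subgroup G) : Set G) := fun i => by
    cases i
    · rw [r0]
    · rw [rs]; exact hnorm _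
  have hPW : (P : Subgroup G) ≤ normalizer (W 0 : Set G) := sc_le_normalizer (hsc 0)
  have h1 : OpMod p H (centralizer (E : Set G)) (W 0 ⊓ H) := by
    refine ⟨H ⊓ ⨅ i, secC (R i) (R (i + 1)), inf_le_left, MSS.le_normalizer_inf le_normalizer
      (le_normalizer_of_cj_le fun y hy => le_iInf fun i => (cj_mono y (iInf_le _ i)).trans
        (cj_eq_of_mem_normalizer (le_normalizer_secC (hR i) (hR (i + 1)) hy)).le),
      le_inf inf_le_right (le_iInf fun i => le_secC_iff.2 ⟨inf_le_right.trans (hR _), ?_⟩),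
      pow_mem_of_forall_coprime fun y hy hy' => r0 ▸ mem_centralizer_of_chain hy' (n + 1) R
        (fun i _ => by rw [rs]; exact hEp.to_inf_left) (fun i _ => (mem_iInf.1 hy.2 i).2)
        (by rw [rs, hn, inf_bot_eq])⟩
    cases i
    · rw [r0, rs]
      exact le_inf (commutator_le_left_of_normalizes inf_le_right)
        ((commutator_mono le_rfl inf_le_left).trans (commutator_le_right_of_normalizes
          (hE.trans hPW)))
    · rw [rs, rs]
      exact le_inf ((commutator_mono inf_le_left le_rfl).trans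
        (commutator_le_left_of_normalizes inf_le_right))
        ((commutator_mono inf_le_right inf_le_left).trans (hc _))
  have h2 : OpMod p H (centralizer (E : Set G)) E :=
    ⟨E, le_normalizer, le_rfl, le_rfl, fun y hy =>
      let ⟨k, hk⟩ := isPGroup_iff_mem.1 hEp y hy; ⟨k, hk ▸ one_mem _⟩⟩
  have hHC : H ≤ normalizer ((centralizer (E : Set G) : Subgroup G) : Set G) :=
    MSS.normalizer_le_normalizer_centralizer E
  have : ((centralizer (E : Set G)).subgroupOf H).Normal := normal_subgroupOf_of_le_normalizer hHC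
  obtain ⟨K, k1, k2, k3, k4⟩ : OpMod p H (centralizer (E : Set G)) (E ⊔ (W 0 ⊓ H)) :=
    opMod_iff_le.2 (sup_le (opMod_iff_le.1 h2) (opMod_iff_le.1 h1))
  have hD1 := hD.inf_normal_of_le k2 k1
  set D := (P : Subgroup G) ⊓ H ⊓ K with hDdef
  have hED : E < D := by
    refine lt_of_le_of_ne (le_inf (le_inf hE le_normalizer) (le_sup_left.trans k3)) fun h => hW ?_
    have h3 : W 0 ⊓ H ≤ E := by
      rw [h]
      exact le_inf (inf_le_inf_right _ (hsc 0).1) (le_sup_right.trans k3)
    by_contra hW'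
    have h4 := MSS.lt_inf_normalizer_of_lt (P.isPGroup'.to_le (sup_le hE (hsc 0).1))
      (left_lt_sup.2 hW')
    rw [inf_comm, inf_sup_of_normalizes le_normalizer (hE.trans hPW), inf_comm,
      sup_of_le_left h3] at h4
    exact h4.false
  obtain ⟨k, hk, y, hy, e⟩ := hD1.frattini (k2 (inv_mem hx))
  have : ((centralizer (E : Set G)).subgroupOf K).Normal :=
    normal_subgroupOf_of_le_normalizer (k1.trans hHC)
  obtain ⟨s, hs, c, hc', e'⟩ := mem_sup_of_normal_right.1
    (le_sylow_sup_of_pow_mem hD1.toSylow (N := ⊤) (C := (centralizer (E : Set G)).subgroupOf K)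
      (fun g _ => k4 g g.2) (mem_top (⟨k, hk⟩ : K)⁻¹))
  have e2 : x = y⁻¹ * s * c := by
    have := congrArg Subtype.val e'
    simp only [coe_mul, coe_inv] at this
    rw [mul_assoc, this, ← mul_inv_rev, ← e, inv_inv]
  have hy' : y⁻¹ * s ∈ normalizer (D : Set G) := mul_mem (inv_mem hy) (le_normalizer hs)
  obtain ⟨m, m1, m2⟩ := ih D (y⁻¹ * s) (card_lt_of_lt hED) (inf_le_left.trans inf_le_left)
    fun a ha => (conj_mem_of_mem_normalizer hy' ha).1.1
  refine ⟨m, m1, fun a ha => ?_⟩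
  have e3 : a * (c : G) = c * a := hc' a ha
  rw [m2 a (hED.le ha), e2, mul_assoc _ (c : G) a, ← e3]
  group

omit [Finite G] in
theorem ctrl_sup {N T U V : Subgroup G} (hU : U ≤ T)
    (h1 : Ctrl (N ⊓ normalizer (U : Set G)) N T) (h2 : Ctrl (N ⊓ normalizer (V : Set G)) N T) :
    Ctrl (N ⊓ normalizer ((U ⊔ V : Subgroup G) : Set G)) N T := by
  intro A g hA hg hAg
  obtain ⟨m, m1, m2⟩ := h1 A g hA hg hAg
  obtain ⟨l, l1, l2⟩ := h2 (A ⊔ U) m (sup_le hA hU) m1.1 (cj_le_iff_forall.1 (by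
    rw [cj_sup, cj_eq_of_mem_normalizer m1.2]
    exact sup_le (cj_le_iff_forall.2 fun a ha => (m2 a ha).symm ▸ hAg a ha) hU))
  refine ⟨l, ⟨l1.1, mem_normalizer_iff_cj.2 ?_⟩,
    fun a ha => (l2 a (mem_sup_left ha)).trans (m2 a ha)⟩
  rw [cj_sup, cj_eq_of_mem_normalizer l1.2]
  congr 1
  refine le_antisymm (cj_le_iff_forall.2 fun a ha => ?_) fun a ha => ?_
  · rw [l2 a (mem_sup_right ha)]
    exact conj_mem_of_mem_normalizer m1.2 ha
  · have h3 := conj_mem_of_mem_normalizer' m1.2 ha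
    exact ⟨_, h3, (l2 _ (mem_sup_right h3)).trans (by group)⟩

omit [Finite G] in
theorem ctrl_cj {M L S : Subgroup G} (h : Ctrl M L S) (x : G) :
    Ctrl (x •ᶜ M) (x •ᶜ L) (x •ᶜ S) := by
  intro A g hA hg hAg
  obtain ⟨m, m1, m2⟩ := h (x⁻¹ •ᶜ A) (x⁻¹ * g * x) (le_cj_iff.1 hA) (mem_cj.1 hg) fun a ha => by
    have := mem_cj.1 (hAg _ (mem_cj.1 ha))
    convert this using 1
    group
  refine ⟨_, conj_mem_cj m1, fun a ha => ?_⟩
  have := m2 _ (conj_mem_cj (g := x⁻¹) ha)
  calc x * m * x⁻¹ * a * (x * m * x⁻¹)⁻¹ = x * (m * (x⁻¹ * a * x⁻¹⁻¹) * m⁻¹) * x⁻¹ := by group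
    _ = _ := by rw [this]; group

/-- A subgroup which controls fusion in a normal subgroup and is invariant under the normalizer of
the Sylow subgroup of the normal subgroup controls fusion in the whole group. -/
theorem ctrl_of_normal_ctrl (P : Sylow p G) (N : Subgroup G) [N.Normal] {W : Subgroup G}
    (hW : W ≤ (P : Subgroup G) ⊓ N)
    (hn : normalizer (((P : Subgroup G) ⊓ N : Subgroup G) : Set G) ≤ normalizer (W : Set G))
    (h : Ctrl (N ⊓ normalizer (W : Set G)) N ((P : Subgroup G) ⊓ N)) :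
    Ctrl (normalizer (W : Set G)) ⊤ P := by
  have hWp : IsPGroup p W := P.isPGroup'.to_le (hW.trans inf_le_left)
  obtain ⟨n, hn'⟩ := exists_iterCommutator_eq_bot hWp hWp le_normalizer
  have hi : ∀ i, normalizer (W : Set G) ≤ normalizer (iterCommutator W W i : Set G) := fun i => by
    induction i with
    | zero => exact le_rfl
    | succ i ih => exact MSS.le_normalizer_commutator ih le_rfl
  refine ctrl_of_sc_series P (iterCommutator W W) n (fun i => ?_) (fun _ => le_rfl) hn'
  have h1 := (PG.iterCommutator_le (le_normalizer (H := W)) i).trans hW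
  refine ⟨h1.trans inf_le_left, fun w hw g hg => ?_⟩
  obtain ⟨k, hk, y, hy, rfl⟩ := (sylIn_inf_normal P N).frattini
    (le_normalizer_of_normal (mem_top g))
  have h2 := conj_mem_of_mem_normalizer (hi i (hn hy)) hw
  have e : k * y * w * (k * y)⁻¹ = k * (y * w * y⁻¹) * k⁻¹ := by group
  rw [e] at hg ⊢
  obtain ⟨m, m1, m2⟩ := h.elem (h1 h2) hk ⟨hg, N.mul_mem (N.mul_mem hk (h1 h2).2) (N.inv_mem hk)⟩
  rw [← m2]
  exact conj_mem_of_mem_normalizer (hi i m1.2) h2

/-- The normal closure under `N(T)` of a subgroup controlling `N`-fusion in `T`. -/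
theorem ctrl_ncl {N T V : Subgroup G} [N.Normal] (hV : V ≤ T)
    (h : Ctrl (N ⊓ normalizer (V : Set G)) N T) :
    Ctrl (N ⊓ normalizer (ncl V (normalizer (T : Set G)) : Set G)) N T := by
  classical
  have := Fintype.ofFinite (normalizer (T : Set G))
  rw [ncl_def, ← Finset.sup_univ_eq_iSup]
  refine (Finset.sup_induction (p := fun U : Subgroup G => U ≤ T ∧
    Ctrl (N ⊓ normalizer (U : Set G)) N T) ⟨bot_le, ctrl_of_le (le_inf le_rfl
      le_normalizer_of_normal)⟩ (fun U hU U' hU' => ⟨sup_le hU.1 hU'.1, ctrl_sup hU.1 hU.2 hU'.2⟩)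
    fun x _ => ⟨cj_le_of_mem_normalizer hV x.2, ?_⟩).2
  have := ctrl_cj h x
  rwa [cj_inf, cj_eq_of_normal, cj_normalizer, cj_eq_of_mem_normalizer x.2] at this

end CL.CF
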