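import Cfsg.Agent.TECH.SylIn
import Cfsg.Prelude.Def_SylowChains

/-!
Control of Sylow intersections as a reflexive transitive closure.
-/

set_option autoImplicit false

namespace CL.MSS

open Subgroup Cfsg Relation

theorem rtg_iff_fin {α : Type*} {r : α → α → Prop} {a b : α} : ReflTransGen r a b ↔
    ∃ (n : ℕ) (c : Fin (n + 1) → α), c 0 = a ∧ c (Fin.last n) = b ∧
      ∀ i : Fin n, r (c i.castSucc) (c i.succ) := by
  constructor
  · intro h
    induction h with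
    | refl => exact ⟨0, fun _ => a, rfl, rfl, fun i => i.elim0⟩
    | @tail b c _ h2 ih =>
      obtain ⟨n, f, h0, hl, hf⟩ := ih
      refine ⟨n + 1, Fin.snoc f c, ?_, Fin.snoc_last _ _, fun i => ?_⟩
      · rw [← Fin.castSucc_zero, Fin.snoc_castSucc, h0]
      · refine Fin.lastCases ?_ (fun j => ?_) i
        · rw [Fin.snoc_castSucc, Fin.succ_last, Fin.snoc_last, hl]; exact h2
        · rw [Fin.snoc_castSucc, ← Fin.castSucc_succ, Fin.snoc_castSucc]; exact hf j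
  · rintro ⟨n, c, rfl, rfl, h⟩
    suffices ∀ i : Fin (n + 1), ReflTransGen r (c 0) (c i) from this _
    intro i
    induction i using Fin.induction with
    | zero => exact ReflTransGen.refl
    | succ i ih => exact ih.tail (h i)

variable {G : Type*} [Group G] {p : ℕ}

theorem mem_sylowMembers_iff {𝓕 : Set (Subgroup G)} {S X : Subgroup G} :
    X ∈ sylowMembers p 𝓕 S ↔ X ∈ 𝓕 ∧ SylIn p (S ⊓ X) X :=
  and_congr_right fun _ => ⟨fun ⟨P, hP⟩ => hP ▸ sylIn_map_subtype P,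
    fun h => ⟨h.toSylow, h.map_toSylow⟩⟩

/-- one step of a controlling chain -/
def SStep (p : ℕ) (𝓕 : Set (Subgroup G)) (D S T : Subgroup G) : Prop :=
  ∃ X ∈ 𝓕, SylIn p (S ⊓ X) X ∧ SylIn p (T ⊓ X) X ∧ ∃ x ∈ X, x⁻¹ •ᶜ T = S ∧ D ≤ T ⊓ X

theorem SStep.mono {𝓕 𝓕' : Set (Subgroup G)} {D D' S T : Subgroup G} (h : SStep p 𝓕 D S T)
    (h1 : 𝓕 ⊆ 𝓕') (h2 : D' ≤ D) : SStep p 𝓕' D' S T :=
  let ⟨X, k1, k2, k3, x, k4, k5, k6⟩ := h; ⟨X, h1 k1, k2, k3, x, k4, k5, h2.trans k6⟩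

theorem SStep.sylIn {𝓕 : Set (Subgroup G)} {D S T M : Subgroup G} (h : SStep p 𝓕 D S T)
    (h1 : ∀ X ∈ 𝓕, X ≤ M) (hS : SylIn p S M) : SylIn p T M := by
  obtain ⟨X, k1, -, -, x, k4, rfl, -⟩ := h
  have := hS.cj_of_mem (h1 X k1 k4)
  rwa [cj_inv_cj] at this

theorem SStep.cj {𝓕 𝓕' : Set (Subgroup G)} {D S T : Subgroup G} (h : SStep p 𝓕 D S T) (g : G)
    (h1 : ∀ X ∈ 𝓕, g •ᶜ X ∈ 𝓕') : SStep p 𝓕' (g •ᶜ D) (g •ᶜ S) (g •ᶜ T) := by
  obtain ⟨X, k1, k2, k3, x, k4, rfl, k6⟩ := h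
  refine ⟨_, h1 X k1, by rw [← cj_inf]; exact k2.cj g, by rw [← cj_inf]; exact k3.cj g,
    _, conj_mem_cj k4, ?_, by rw [← cj_inf]; exact cj_mono g k6⟩
  rw [← cj_mul, ← cj_mul]
  congr 3
  group

theorem rtg_sstep_mono {𝓕 𝓕' : Set (Subgroup G)} {D D' S T : Subgroup G}
    (h : ReflTransGen (SStep p 𝓕 D) S T) (h1 : 𝓕 ⊆ 𝓕') (h2 : D' ≤ D) :
    ReflTransGen (SStep p 𝓕' D') S T := by
  induction h with
  | refl => exact ReflTransGen.refl
  | tail _ k ih => exact ih.tail (k.mono h1 h2)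

theorem rtg_sstep_cj {𝓕 𝓕' : Set (Subgroup G)} {D S T : Subgroup G}
    (h : ReflTransGen (SStep p 𝓕 D) S T) (g : G) (h1 : ∀ X ∈ 𝓕, g •ᶜ X ∈ 𝓕') :
    ReflTransGen (SStep p 𝓕' (g •ᶜ D)) (g •ᶜ S) (g •ᶜ T) := by
  induction h with
  | refl => exact ReflTransGen.refl
  | tail _ k ih => exact ih.tail (k.cj g h1)

theorem rtg_sstep_sylIn {𝓕 : Set (Subgroup G)} {D S T M : Subgroup G}
    (h : ReflTransGen (SStep p 𝓕 D) S T) (h1 : ∀ X ∈ 𝓕, X ≤ M) (hS : SylIn p S M) :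
    SylIn p T M := by
  induction h with
  | refl => exact hS
  | tail _ k ih => exact k.sylIn h1 ih

theorem csi_iff {𝓕 : Set (Subgroup G)} : ControlsSylowIntersections p 𝓕 ↔
    ∀ S T : Subgroup G, SylIn p S ⊤ → SylIn p T ⊤ → S ⊓ T ≠ ⊥ →
      ReflTransGen (SStep p 𝓕 (S ⊓ T)) S T := by
  constructor
  · intro h S T hS hT hne
    obtain ⟨S, rfl⟩ := sylIn_top_iff.1 hS
    obtain ⟨T, rfl⟩ := sylIn_top_iff.1 hT
    by_cases he : S = T
    · rw [he]
    obtain ⟨n, c, X, x, h0, hl, hc⟩ := h S T he hne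
    refine rtg_iff_fin.2 ⟨n, fun i => c i, congrArg _ h0, congrArg _ hl, fun i => ?_⟩
    obtain ⟨k1, k2, k3, k4, k5⟩ := hc i
    exact ⟨X i, k1.1, (mem_sylowMembers_iff.1 k1).2, (mem_sylowMembers_iff.1 k2).2, x i, k3, k4, k5⟩
  · intro h S T _ hne
    obtain ⟨n, c, h0, hl, hc⟩ := rtg_iff_fin.1 (h S T (sylIn_top S) (sylIn_top T) hne)
    have hs : ∀ i, SylIn p (c i) ⊤ := by
      intro i
      induction i using Fin.induction with
      | zero => rw [h0]; exact sylIn_top S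
      | succ i ih => exact (hc i).sylIn (fun _ _ => le_top) ih
    choose X k1 k2 k3 x k4 k5 k6 using hc
    exact ⟨n, fun i => (hs i).toSylowTop, X, x, Sylow.ext h0, Sylow.ext hl, fun i =>
      ⟨mem_sylowMembers_iff.2 ⟨k1 i, k2 i⟩, mem_sylowMembers_iff.2 ⟨k1 i, k3 i⟩, k4 i, k5 i, k6 i⟩⟩

theorem SStep.map_subtype {𝓕 : Set (Subgroup G)} {M : Subgroup G} {D S T : Subgroup M}
    (h𝓕 : ∀ X ∈ 𝓕, X ≤ M) (h : SStep p ((fun X : Subgroup G => X.subgroupOf M) '' 𝓕) D S T) :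
    SStep p 𝓕 (D.map M.subtype) (S.map M.subtype) (T.map M.subtype) := by
  obtain ⟨_, ⟨X, k1, rfl⟩, k2, k3, x, k4, rfl, k6⟩ := h
  have e : (X.subgroupOf M).map M.subtype = X := by
    rw [subgroupOf_map_subtype, inf_of_le_left (h𝓕 X k1)]
  have k2' := k2.map_injective M.subtype_injective
  have k3' := k3.map_injective M.subtype_injective
  have k6' := map_mono (f := M.subtype) k6
  rw [map_inf _ _ _ M.subtype_injective, e] at k2' k3' k6'
  exact ⟨X, k1, k2', k3', x, k4, (subtype_map_cj x⁻¹ T).symm, k6'⟩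

theorem rtg_of_csi_subgroupOf {𝓕 : Set (Subgroup G)} {M S T : Subgroup G}
    (h𝓕 : ∀ X ∈ 𝓕, X ≤ M)
    (h : ControlsSylowIntersections p ((fun X : Subgroup G => X.subgroupOf M) '' 𝓕))
    (hS : SylIn p S M) (hT : SylIn p T M) (hne : S ⊓ T ≠ ⊥) :
    ReflTransGen (SStep p 𝓕 (S ⊓ T)) S T := by
  have e : ∀ X : Subgroup G, X ≤ M → (X.subgroupOf M).map M.subtype = X := fun X hX => by
    rw [subgroupOf_map_subtype, inf_of_le_left hX]
  have e' : (S.subgroupOf M ⊓ T.subgroupOf M).map M.subtype = S ⊓ T := by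
    rw [map_inf _ _ _ M.subtype_injective, e S hS.le, e T hT.le]
  have h1 := csi_iff.1 h (S.subgroupOf M) (T.subgroupOf M)
    (by simpa using hS.subgroupOf le_rfl) (by simpa using hT.subgroupOf le_rfl)
    (fun hb => hne (by rw [← e', hb, Subgroup.map_bot]))
  have key : ∀ B : Subgroup M, ReflTransGen (SStep p ((fun X : Subgroup G => X.subgroupOf M) '' 𝓕)
      (S.subgroupOf M ⊓ T.subgroupOf M)) (S.subgroupOf M) B → ReflTransGen (SStep p 𝓕
        ((S.subgroupOf M ⊓ T.subgroupOf M).map M.subtype)) S (B.map M.subtype) := by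
    intro B hB
    induction hB with
    | refl => rw [e S hS.le]
    | tail _ k ih => exact ih.tail (k.map_subtype h𝓕)
  have := key _ h1
  rwa [e', e T hT.le] at this

theorem SStep.subgroupOf_top {𝓕 : Set (Subgroup G)} {D S T : Subgroup G} (h : SStep p 𝓕 D S T) :
    SStep p ((fun X : Subgroup G => X.subgroupOf ⊤) '' 𝓕) (D.subgroupOf ⊤) (S.subgroupOf ⊤)
      (T.subgroupOf ⊤) := by
  obtain ⟨X, k1, k2, k3, x, k4, rfl, k6⟩ := h
  exact ⟨_, ⟨X, k1, rfl⟩, k2.subgroupOf le_top, k3.subgroupOf le_top, ⟨x, mem_top x⟩, k4,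
    cj_subgroupOf _ _, comap_mono k6⟩

theorem csi_subgroupOf_top {𝓕 : Set (Subgroup G)} (h : ControlsSylowIntersections p 𝓕) :
    ControlsSylowIntersections p ((fun X : Subgroup G => X.subgroupOf ⊤) '' 𝓕) := by
  refine csi_iff.2 fun S T hS hT hne => ?_
  have inj := (⊤ : Subgroup G).subtype_injective
  have e : ∀ X : Subgroup (⊤ : Subgroup G), (X.map (⊤ : Subgroup G).subtype).subgroupOf ⊤ = X :=
    fun X => comap_map_eq_self_of_injective inj X
  have h1 := csi_iff.1 h _ _ hS.map_subtype_top hT.map_subtype_top (by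
    rw [← map_inf _ _ _ inj, Ne, map_eq_bot_iff_of_injective _ inj]; exact hne)
  rw [← map_inf _ _ _ inj] at h1
  have key : ∀ B : Subgroup G, ReflTransGen (SStep p 𝓕 ((S ⊓ T).map (⊤ : Subgroup G).subtype))
      (S.map (⊤ : Subgroup G).subtype) B → ReflTransGen
        (SStep p ((fun X : Subgroup G => X.subgroupOf ⊤) '' 𝓕) (S ⊓ T)) S (B.subgroupOf ⊤) := by
    intro B hB
    induction hB with
    | refl => rw [e]
    | tail _ k ih => exact ih.tail (by simpa only [e] using k.subgroupOf_top)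
  simpa only [e] using key _ h1

theorem mem_functorFamily_iff {f : Subgroup G → Set (Subgroup G)} {M X : Subgroup G} :
    X ∈ functorFamily p f M ↔
      ∃ P, SylIn p P M ∧ ∃ F ∈ f P, X = M ⊓ normalizer (F : Set G) :=
  ⟨fun ⟨P, h⟩ => ⟨_, sylIn_map_subtype P, h⟩,
    fun ⟨_, hP, h⟩ => ⟨hP.toSylow, by rwa [hP.map_toSylow]⟩⟩

theorem le_of_mem_functorFamily {f : Subgroup G → Set (Subgroup G)} {M : Subgroup G} :
    ∀ X ∈ functorFamily p f M, X ≤ M := fun _ ⟨_, _, _, h⟩ => h ▸ inf_le_left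

theorem cj_mem_functorFamily {f : Subgroup G → Set (Subgroup G)} (hf : IsNormalizerFunctor p f)
    {M : Subgroup G} (g : G) : ∀ X ∈ functorFamily p f M, g •ᶜ X ∈ functorFamily p f (g •ᶜ M) := by
  intro X hX
  obtain ⟨P, hP, F, hF, rfl⟩ := mem_functorFamily_iff.1 hX
  refine mem_functorFamily_iff.2 ⟨_, hP.cj g, g •ᶜ F, ?_, by rw [cj_inf, cj_normalizer]⟩
  rw [(hf P hP.pgroup).2 g]
  exact ⟨F, hF, rfl⟩

variable [Finite G] [Fact p.Prime]

theorem le_of_sylIn_inf {A P X M : Subgroup G} (hA : SylIn p A M) (hP : SylIn p P M) (h1 : P ≤ X)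
    (h : SylIn p (A ⊓ X) X) : A ≤ X := by
  have := eq_of_le_of_card_ge (inf_le_left : A ⊓ X ≤ A)
    ((hA.card_eq hP).le.trans (h.card_le hP.pgroup h1))
  exact this.ge.trans inf_le_right

theorem SStep.functor_cases {f : Subgroup G → Set (Subgroup G)} (hf : IsNormalizerFunctor p f)
    {M D A B : Subgroup G} (h : SStep p (functorFamily p f M) D A B) (hA : SylIn p A M) :
    ∃ P, SylIn p P M ∧ ∃ F ∈ f P, A ≤ normalizer (F : Set G) ∧ B ≤ normalizer (F : Set G) ∧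
      ∃ x ∈ normalizer (F : Set G), x⁻¹ •ᶜ B = A ∧ D ≤ B := by
  have hB := h.sylIn le_of_mem_functorFamily hA
  obtain ⟨X, k1, k2, k3, x, k4, k5, k6⟩ := h
  obtain ⟨P, hP, F, hF, rfl⟩ := mem_functorFamily_iff.1 k1
  have h1 : P ≤ M ⊓ normalizer (F : Set G) :=
    le_inf hP.le (le_normalizer.trans ((hf P hP.pgroup).1 F hF).2)
  exact ⟨P, hP, F, hF, (le_of_sylIn_inf hA hP h1 k2).trans inf_le_right,
    (le_of_sylIn_inf hB hP h1 k3).trans inf_le_right, x, k4.2, k5, k6.trans inf_le_left⟩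

omit [Finite G] [Fact p.Prime] in
theorem sstep_functor_top {f : Subgroup G → Set (Subgroup G)} {P F D A B : Subgroup G}
    (hP : SylIn p P ⊤) (hF : F ∈ f P) (hA : SylIn p A ⊤) (hB : SylIn p B ⊤)
    (h1 : A ≤ normalizer (F : Set G)) (h2 : B ≤ normalizer (F : Set G)) {x : G}
    (hx : x ∈ normalizer (F : Set G)) (h3 : x⁻¹ •ᶜ B = A) (h4 : D ≤ B) :
    SStep p (functorFamily p f ⊤) D A B :=
  ⟨normalizer (F : Set G), mem_functorFamily_iff.2 ⟨P, hP, F, hF, (top_inf_eq _).symm⟩,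
    by rw [inf_of_le_left h1]; exact hA.of_le h1 le_top,
    by rw [inf_of_le_left h2]; exact hB.of_le h2 le_top, x, hx, h3, le_inf h4 (h4.trans h2)⟩

theorem rtg_functor_top {f : Subgroup G → Set (Subgroup G)} (hf : IsNormalizerFunctor p f)
    {M D A B : Subgroup G} (h : ReflTransGen (SStep p (functorFamily p f M) D) A B)
    (hA : SylIn p A ⊤) (hAM : A ≤ M) : ReflTransGen (SStep p (functorFamily p f ⊤) D) A B := by
  induction h with
  | refl => exact ReflTransGen.refl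
  | tail h1 k ih =>
    have hb := rtg_sstep_sylIn h1 le_of_mem_functorFamily (hA.of_le hAM le_top)
    obtain ⟨P, hP, F, hF, k1, k2, x, k3, k4, k5⟩ := k.functor_cases hf hb
    exact ih.tail (sstep_functor_top (hP.trans_of_sylIn le_top hA hAM) hF
      (hb.trans_of_sylIn le_top hA hAM)
      ((k.sylIn le_of_mem_functorFamily hb).trans_of_sylIn le_top hA hAM) k1 k2 k3 k4 k5)

theorem rtg_of_regular {f : Subgroup G → Set (Subgroup G)} (hf : IsNormalizerFunctor p f)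
    {M D A B : Subgroup G} (hM : IsFunctorRegular p f M) (g : G) (hA : SylIn p A ⊤)
    (hB : SylIn p B ⊤) (h1 : A ≤ g •ᶜ M) (h2 : B ≤ g •ᶜ M) (hD : D ≠ ⊥) (h3 : D ≤ A ⊓ B) :
    ReflTransGen (SStep p (functorFamily p f ⊤) D) A B := by
  have k1 := (hA.of_le h1 le_top).cj g⁻¹
  have k2 := (hB.of_le h2 le_top).cj g⁻¹
  rw [inv_cj_cj] at k1 k2
  have k3 := rtg_sstep_cj (rtg_of_csi_subgroupOf le_of_mem_functorFamily hM k1 k2 (by
    rw [← cj_inf, Ne, cj_eq_bot_iff]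
    exact fun hb => hD (le_bot_iff.1 (hb ▸ h3)))) g (cj_mem_functorFamily hf g)
  rw [← cj_inf, cj_inv_cj, cj_inv_cj, cj_inv_cj] at k3
  exact rtg_sstep_mono (rtg_functor_top hf k3 hA h1) le_rfl h3

end CL.MSS
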