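import Mathlib
import Cfsg.Agent.TECH.PushThm

/-!
Two pushing-up groups over a `p`-group `S` whose large abelian subgroups are centrally large:
the data exported by a group which does not normalize the intersection of the two cores.
-/

set_option autoImplicit false
set_option linter.unusedSectionVars false
open Cfsg Subgroup CL.Th CL.MSS CL.ThA CL.Comp
open scoped commutatorElement

namespace CL.Push

universe u
variable {G : Type u} [Group G] [Finite G] {p q : ℕ} {S T M P Y : Subgroup G}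

theorem gn_comm_mul (a b c : G) : ⁅a * b, c⁆ = a * ⁅b, c⁆ * a⁻¹ * ⁅a, c⁆ := by
  simp only [commutatorElement_def]; group

theorem gn_one {a b : G} (h : b * a = a * b) : ⁅a, b⁆ = 1 :=
  commutatorElement_eq_one_iff_mul_comm.2 h.symm

theorem Perm2.norm_comm {A B : Subgroup G} (h : Perm2 Y A) (hA : IsMulCommutative A) (hB : B ≤ A) :
    A ≤ normalizer ((⁅Y, B⁆ : Subgroup G) : Set G) := by
  refine CL.MSS.le_normalizer_of_cj_le fun a ha => ?_
  rw [cj_commutator, cj_eq_of_mem_centralizer (le_centralizer_iff.1 (hB.trans (le_centralizer_iff_isMulCommutative.2 hA)) ha)]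
  refine commutator_le.2 fun x hx t ht => ?_
  obtain ⟨y, hy, rfl⟩ := mem_cj'.1 hx
  obtain ⟨y', hy', b, hb, e⟩ := h _ (mul_mem (mul_mem (mem_sup_right ha) (mem_sup_left hy))
    (mem_sup_right (inv_mem ha)))
  rw [← e, gn_comm_mul, gn_one (comm_iff.1 hA t (hB ht) b hb), mul_one, mul_inv_cancel, one_mul]
  exact commutator_mem_commutator hy' ht

theorem comm_sup_cent {A B C : Subgroup G} (h : B ≤ normalizer (A : Set G))
    (hB : B ≤ centralizer (C : Set G)) : ⁅A ⊔ B, C⁆ = ⁅A, C⁆ := by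
  refine le_antisymm (commutator_le.2 fun x hx c hc => ?_) (commutator_mono le_sup_left le_rfl)
  obtain ⟨a, ha, b, hb, rfl⟩ := (mem_sup_of_normalizes_left h).1 hx
  rw [gn_comm_mul, gn_one (hB hb c hc), mul_one, mul_inv_cancel, one_mul]
  exact commutator_mem_commutator ha hc

theorem comm_cent_sup {A B C : Subgroup G} (h : B ≤ normalizer (A : Set G))
    (hB : B ≤ centralizer (C : Set G)) : ⁅C, A ⊔ B⁆ = ⁅C, A⁆ := by
  rw [commutator_comm, comm_sup_cent h hB, commutator_comm]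

/-- `S` and its large abelian subgroups have the largest measure -/
structure CA (S : Subgroup G) : Prop where
  top : IsCD S S
  ab : ∀ A ∈ maxAbIn S, IsCD S A

/-- a neighbour of largest measure -/
structure NbC (p : ℕ) (S P : Subgroup G) : Prop extends Nb p S P where
  cd : IsCD S P
  top : IsCD S S

/-- the data exported by a group with core `T` moving `T ⊓ P` -/
structure Mv (p : ℕ) (S T P X : Subgroup G) : Prop where
  le : X ≤ T
  ab : IsElementaryAbelian p X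
  cd : IsCD S (X ⊔ ctr T)
  comm : ⁅X, T⁆ ≤ ⁅ctr P, S⁆
  atom : ∀ Y, IsCD S Y → Y ≤ T → Y ≤ centralizer (X : Set G) ∨ ⁅ctr P, S⁆ ≤ ⁅X, Y⁆
  nc : ¬ T ⊓ P ≤ centralizer (X : Set G)
  ex : ∃ B ∈ maxAbIn S, B ≤ T ∧ ¬ B ≤ P
  nd : ∀ y ∈ X, ∀ e ∈ S, e ∉ T → ⁅y, e⁆ ∈ ctr T → y ∈ ctr T
  split : ¬ X ≤ P → ∀ d ∈ T ⊓ P, ¬ ∀ x ∈ ctr P, x⁻¹ * d ∉ centralizer (X : Set G)

section Map
variable {K : Type*} [Group K] [Finite K] {f : G →* K} (hf : Function.Injective f)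
include hf

theorem ca_map_iff : CA (S.map f) ↔ CA S :=
  ⟨fun h => ⟨(isCD_map hf).1 h.top, fun _ hA => (isCD_map hf).1 (h.ab _ (map_mem_maxAbIn hf hA))⟩,
    fun h => ⟨(isCD_map hf).2 h.top, fun _ hA => (comap_mem_maxAbIn hf hA).2 ▸
      (isCD_map hf).2 (h.ab _ (comap_mem_maxAbIn hf hA).1)⟩⟩

theorem nbC_map_iff : NbC p (S.map f) (P.map f) ↔ NbC p S P :=
  ⟨fun h => ⟨(nb_map_iff hf).1 h.toNb, (isCD_map hf).1 h.cd, (isCD_map hf).1 h.top⟩,
    fun h => ⟨(nb_map_iff hf).2 h.toNb, (isCD_map hf).2 h.cd, (isCD_map hf).2 h.top⟩⟩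

theorem mv_map_iff {X : Subgroup G} :
    Mv p (S.map f) (T.map f) (P.map f) (X.map f) ↔ Mv p S T P X := by
  constructor <;> rintro ⟨h1, h2, h3, h4, h5, h6, ⟨B, b1, b2, b3⟩, h8, h9⟩
  · rw [← (comap_mem_maxAbIn hf b1).2] at b2 b3
    simp only [← map_ctr _ hf, ← Subgroup.map_sup, ← Subgroup.map_inf _ _ f hf, ← map_commutator,
      map_le_map_iff_of_injective hf, map_le_cent_iff hf, forall_mem_map, elemAb_map_iff hf,
      isCD_map hf, mem_map_iff_mem hf, ← map_commutatorElement, ← map_inv, ← map_mul,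
      map_mem_cent_iff hf] at h1 h2 h3 h4 h6 b2 b3 h8 h9
    refine ⟨h1, h2, h3, h4, fun Y y1 y2 => ?_, h6, ⟨_, (comap_mem_maxAbIn hf b1).1, b2, b3⟩, h8, h9⟩
    simpa only [← map_ctr _ hf, ← map_commutator, map_le_map_iff_of_injective hf,
      map_le_cent_iff hf] using h5 _ ((isCD_map hf).2 y1) (map_mono y2)
  · refine ⟨?_, ?_, ?_, ?_, fun Y y1 y2 => ?_, ?_, ⟨_, map_mem_maxAbIn hf b1, ?_, ?_⟩, ?_, ?_⟩
    rotate_left 4
    · obtain ⟨Y, rfl⟩ : ∃ Y' : Subgroup G, Y'.map f = Y :=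
        ⟨_, map_comap_eq_self (y2.trans (map_le_range f T))⟩
      simpa only [← map_ctr _ hf, ← map_commutator, map_le_map_iff_of_injective hf,
        map_le_cent_iff hf] using h5 _ ((isCD_map hf).1 y1) ((map_le_map_iff_of_injective hf).1 y2)
    all_goals
      simpa only [← map_ctr _ hf, ← Subgroup.map_sup, ← Subgroup.map_inf _ _ f hf, ← map_commutator,
        map_le_map_iff_of_injective hf, map_le_cent_iff hf, forall_mem_map, elemAb_map_iff hf,
        isCD_map hf, mem_map_iff_mem hf, ← map_commutatorElement, ← map_inv, ← map_mul,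
        map_mem_cent_iff hf]

end Map

namespace NbC
variable (h : NbC p S P)
include h

theorem cj (g : G) : NbC p (g •ᶜ S) (g •ᶜ P) := (nbC_map_iff (MulAut.conj g).injective).2 h

theorem cent_ctr : S ⊓ centralizer (ctr P : Set G) = P :=
  le_antisymm (fun _ ha => h.mem' ha.1 ha.2) (le_inf h.le (le_cent_ctr P))

theorem cent_eq (h1 : ctr P ≤ Y) : S ⊓ centralizer (Y : Set G) = P ⊓ centralizer (Y : Set G) :=
  le_antisymm (le_inf ((inf_centralizer_anti S h1).trans h.cent_ctr.le) inf_le_right)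
    (inf_le_inf_right _ h.le)

theorem cent : S ⊓ centralizer (P : Set G) = ctr P := h.cent_eq inf_le_left

theorem cdX : IsCD S (ctr P) := h.cent ▸ h.cd.centralizer.1

theorem sup_eq (hY : IsCD S Y) (hn : ¬ Y ≤ P) : Y ⊔ P = S := by
  refine le_antisymm (sup_le hY.1 h.le) ((hY.sup h.cd).cc.symm ▸ le_inf le_rfl
    (le_centralizer_iff.1 fun x hx => ?_))
  obtain ⟨a, ha, ha'⟩ := SetLike.not_le_iff_exists.1 hn
  exact (h.gen x (h.cent.le ⟨hx.1, centralizer_le (le_sup_right : P ≤ Y ⊔ P) hx.2⟩) a (hY.1 ha) ha'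
    (hx.2 a (mem_sup_left ha))).2

theorem down (hY : IsCD S Y) (h1 : ctr P ≤ Y) (h2 : Y ≤ P) : IsCD P Y := ⟨h2, fun B hB =>
  (Nat.mul_le_mul_left _ (card_le_of_le (inf_le_inf_right _ h.le))).trans
    ((hY.2 B (hB.trans h.le)).trans (by rw [offMeas_def, offMeas_def, h.cent_eq h1]))⟩

theorem up (hY : IsCD P Y) : IsCD S Y := h.cd.of_le (hY.1.trans h.le) (le_trans (by
  rw [offMeas_def, offMeas_def, h.cent]) ((hY.2 P le_rfl).trans
    (Nat.mul_le_mul_left _ (card_le_of_le (inf_le_inf_right _ h.le)))))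

theorem normX : S ≤ normalizer (ctr P : Set G) := h.norm.trans (normalizer_le_normalizer_center _)

theorem comm_eq (hY : IsCD S Y) (hn : ¬ Y ≤ P) : ⁅ctr P, S⁆ = ⁅ctr P, Y⁆ := by
  conv_lhs => rw [← h.sup_eq hY hn, sup_comm]
  refine le_antisymm (commutator_le.2 fun x hx s hs => ?_) (commutator_mono le_rfl le_sup_right)
  obtain ⟨y, hy, a, ha, rfl⟩ := (mem_sup_of_normalizes_right (hY.1.trans h.norm)).1 (sup_comm P Y ▸ hs)
  rw [comm_swap_mem, gn_comm_mul, gn_one (hx.2 a ha).symm, mul_one, mul_inv_cancel, one_mul,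
    comm_swap_mem]
  exact commutator_mem_commutator hx hy

theorem card : Nat.card P * Nat.card (ctr P) = Nat.card S * Nat.card (ctr S) := by
  have := h.cd.meas_eq h.top
  rwa [offMeas_def, offMeas_def, h.cent] at this

theorem cent_inf (k : NbC p S T) :
    S ⊓ centralizer ((T ⊓ P : Subgroup G) : Set G) = ctr T ⊔ ctr P := by
  rw [k.cd.centralizer_inf h.cd, h.cent, k.cent]

theorem idx_le (k : NbC p S T) {X E : Subgroup G} (m : Mv p S T P X) (hE : E ⊔ T = S)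
    (hX : ctr P ≤ T) (hc : ⁅X, E⁆ ≤ ctr P ⊔ ctr T) : Nat.card P ≤ Nat.card T := by
  have hES : E ≤ S := le_sup_left.trans hE.le
  obtain ⟨y, hy, hy'⟩ := SetLike.not_le_iff_exists.1 fun e : X ≤ ctr T =>
    m.nc (inf_le_left.trans ((le_cent_ctr T).trans (centralizer_le e)))
  have q : ⁅ctr P ⊔ ctr T, S⁆ ≤ ctr T := sup_commutator_le (hX.trans (k.le.trans k.normX))
    le_normalizer (h.quad.trans k.ctr_le) (k.quad.trans k.ctr_le)
  obtain ⟨g, h1⟩ : ∃ g : (E → (ctr P ⊔ ctr T : Subgroup G) ⧸ (ctr T).subgroupOf _), ∀ a b : E,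
      g a = g b → (a : G)⁻¹ * b ∈ T := by
    refine ⟨fun a => (⟨⁅y, a⁆, hc (commutator_mem_commutator hy a.2)⟩ : (ctr P ⊔ ctr T : Subgroup G)),
      fun a b e => by_contra fun d => hy' (m.nd y hy _ (hES (mul_mem (inv_mem a.2) b.2)) d ?_)⟩
    have e1 : ⁅y, (a : G)⁆⁻¹ * ⁅y, (b : G)⁆ ∈ ctr T := mem_subgroupOf.1 (QuotientGroup.eq.1 e)
    have e2 := conj_mem_of_mem_normalizer' (k.normX (hES a.2)) e1
    convert e2 using 1
    simp only [commutatorElement_def]; group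
  have c1 : Nat.card E ≤ Nat.card (E ⊓ T : Subgroup G) * (ctr T).relIndex (ctr P ⊔ ctr T) := by
    rw [relIndex, index, ← Nat.card_prod]
    obtain ⟨r, h2⟩ : ∃ r : _ → E, ∀ x, g (r (g x)) = g x :=
      ⟨Function.invFun g, fun x => Function.invFun_eq ⟨x, rfl⟩⟩
    refine Nat.card_le_card_of_injective (fun x => (⟨(r (g x) : G)⁻¹ * x,
      E.mul_mem (E.inv_mem (r (g x)).2) x.2, h1 _ _ (h2 x)⟩, g x)) fun x y e => ?_
    have e1 : (r (g x) : G)⁻¹ * x = (r (g y) : G)⁻¹ * y := congrArg (fun p => (p.1 : G)) e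
    rw [show g x = g y from congrArg Prod.snd e] at e1
    exact Subtype.ext (mul_left_cancel e1)
  have c2 := (perm2_of_normalizes (hES.trans k.norm)).card
  have c3 := (perm2_of_normalizes (hX.trans (k.le.trans k.normX))).card
  have c4 := relIndex_mul_relIndex _ _ _ bot_le (le_sup_right : ctr T ≤ ctr P ⊔ ctr T)
  have c5 := card_le_of_le (le_inf h.ctr_le k.ctr_le)
  have c6 := h.card
  rw [relIndex_bot_left, relIndex_bot_left] at c4
  rw [hE] at c2
  rw [← c4, mul_left_comm, mul_comm (Nat.card (ctr P))] at c3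
  have c7 := Nat.eq_of_mul_eq_mul_left Nat.card_pos c3
  have c8 : Nat.card S ≤ (ctr T).relIndex (ctr P ⊔ ctr T) * Nat.card T :=
    Nat.le_of_mul_le_mul_left (by rw [c2, ← mul_assoc]; exact Nat.mul_le_mul_right _ c1) Nat.card_pos
  refine Nat.le_of_mul_le_mul_right (c6.le.trans ((Nat.mul_le_mul c8 c5).trans (le_of_eq ?_)))
    (Nat.card_pos (α := ctr P))
  rw [← c7]; ring

end NbC

variable [Fact p.Prime]

/-- a pushing-up group with failure of factorization over a group with `CA` -/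
structure Vx (p q : ℕ) (S T M : Subgroup G) : Prop extends PU p q S T M where
  ff : FF S T (ctr T)
  he : ∀ w ∈ ctr T, w ^ p = 1
  ca : CA S
  ex : ∃ A ∈ maxAbIn S, ¬ A ≤ T

namespace Vx
variable (v : Vx p q S T M)
include v

theorem nb : NbC p S T := by
  refine ⟨(v.ff.loc v.toPU v.he).toNb, v.ca.top.of_le v.T_le (le_of_eq ?_), v.ca.top⟩
  rw [offMeas_def, offMeas_def, show S ⊓ centralizer (T : Set G) = ctr T from le_antisymm
    (le_inf (inf_le_right.trans v.cent) inf_le_right) (inf_le_inf_right _ v.T_le),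
    v.ff.card_V v.toPU, v.ctrT_inf, v.card_S]
  ring

theorem cj (g : G) : Vx p q (g •ᶜ S) T (g •ᶜ M) :=
  ⟨v.toPU.cj g, v.ff.cj v.toPU g, v.he, (ca_map_iff (MulAut.conj g).injective).2 v.ca,
    let ⟨_, h1, h2⟩ := v.ex; ⟨_, map_mem_maxAbIn (MulAut.conj g).injective h1,
      fun e => h2 ((cj_le_cj_iff g).1 (e.trans (v.cj_T g).ge))⟩⟩

theorem cj_Z (g : G) : g •ᶜ ctr T = ctr T := by rw [cj_ctr, v.cj_T]

theorem back (g : G) (hY : IsCD (g •ᶜ S) Y) (h1 : ctr T ≤ Y) (h2 : Y ≤ T) : IsCD S Y :=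
  v.nb.up ((v.cj g).nb.down hY h1 h2)

theorem cj_cd (g : G) (hY : IsCD S Y) (h1 : ctr T ≤ Y) (h2 : Y ≤ T) : IsCD S (g •ᶜ Y) :=
  v.back g ((isCD_map (MulAut.conj g).injective).2 hY) ((v.cj_Z g).ge.trans (cj_mono g h1))
    ((cj_mono g h2).trans (v.cj_T g).le)

theorem central {g : G} (hg : g ∉ M) {A U : Subgroup G} (h1 : A ≤ S) (h2 : ¬ A ≤ T)
    (h3 : A ≤ normalizer (U : Set G)) (h4 : U ≤ ctr (g •ᶜ S)) : U ≤ center G := fun x hx => by
  obtain ⟨a, ha, ha'⟩ := SetLike.not_le_iff_exists.1 h2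
  have k := le_centralizer_iff.1 (h4.trans inf_le_right)
  have := normalizer_eq_top_iff.1 (v.eq_top' hg (h1 ha) ha' (k.trans (centralizer_le_normalizer _))
    (h3 ha))
  exact (v.toPU.cj g).mem_center le_rfl (v.toPU.cj g).not_le k hx (h4 hx).2

theorem trick {g : G} (hg : g ∉ M) {A B : Subgroup G} (hY : IsCD S Y) (hA : A ∈ maxAbIn S)
    (h2 : ¬ A ≤ T) (h3 : B ≤ A) (h4 : ⁅Y, B⁆ ≤ ctr (g •ᶜ S)) : ⁅Y, B⁆ ≤ center G :=
  v.central hg hA.1 h2 ((hY.perm (v.ca.ab A hA)).norm_comm hA.2.1 h3) h4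

theorem not_cen : ¬ ⁅ctr T, S⁆ ≤ center G := fun e => by
  obtain ⟨a, ha, ha'⟩ := v.exists_not_mem_T
  exact v.nb.nc fun w hw => v.ff.mem_ctr v.toPU hw ha ha' (e (commutator_mem_commutator hw ha))

theorem struct {A : Subgroup G} (hA : A ∈ maxAbIn S) (h2 : ¬ A ≤ T) :
    (A ⊓ T) ⊔ ctr T ∈ maxAbIn S ∧ ⁅(A ⊓ T) ⊔ ctr T, A⁆ ≤ ctr S := by
  refine ⟨(v.maxAb_struct (fun e => v.ff.nc (v.ctrT_inf.le.trans e)) hA h2).2.2, ?_⟩
  rw [sup_comm, comm_sup_cent ((inf_le_right.trans v.T_le).trans v.nb.normX)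
    (inf_le_left.trans (le_centralizer_iff_isMulCommutative.2 hA.2.1))]
  exact (commutator_mono le_rfl hA.1).trans v.nb.quad

section Move
variable (n : NbC p S P) (hX : ctr P ≤ T) (hZ : ctr T ≤ P) (mv : ¬ (T ⊓ P).Normal) {g : G}
  (hg : g ∉ M)
include n hX hZ

theorem X_le (g : G) : ctr (g •ᶜ P) ≤ T := by
  rw [← cj_ctr]; exact (cj_mono g hX).trans (v.cj_T g).le

theorem Z_le (g : G) : ctr T ≤ g •ᶜ P := (v.cj_Z g).ge.trans (cj_mono g hZ)

theorem cdX' (g : G) : IsCD S (ctr (g •ᶜ P) ⊔ ctr T) :=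
  v.back g ((n.cj g).cdX.sup (v.cj g).nb.cdX) le_sup_right (sup_le (v.X_le n hX hZ g) inf_le_left)

theorem cdN' (g : G) : IsCD S (T ⊓ g •ᶜ P) :=
  v.back g ((v.cj g).nb.cd.inf (n.cj g).cd) (le_inf inf_le_left (v.Z_le n hX hZ g)) inf_le_left

theorem centN' (g : G) :
    S ⊓ centralizer ((T ⊓ g •ᶜ P : Subgroup G) : Set G) = ctr T ⊔ ctr (g •ᶜ P) := by
  have := le_inf (inf_le_left : ctr T ≤ T) (v.Z_le n hX hZ g)
  rw [v.nb.cent_eq this, ← (v.cj g).nb.cent_eq this, (n.cj g).cent_inf (v.cj g).nb]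

include mv hg

theorem nd {y a : G} (hy : y ∈ ctr (g •ᶜ P)) (ha : a ∈ S) (ha' : a ∉ T) (e : ⁅y, a⁆ ∈ ctr T) :
    y ∈ ctr (g •ᶜ S) := by
  by_contra c
  have := v.ctrT_normal
  have hT := v.normal
  have k : elStab y (ctr T) = ⊤ := v.eq_top' hg ha ha' (fun s hs => ⟨norm_top _ ⊤ (mem_top s),
    (v.cj g).ctr_le ((n.cj g).quad (commutator_mem_commutator hy hs))⟩) ⟨norm_top _ ⊤ (mem_top a), e⟩
  have k2 : (T ⊓ g •ᶜ P).Normal := ⟨fun t ht k' => ⟨hT.conj_mem t ht.1 k', (n.cj g).mem hy c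
    (v.T_le_cj g (hT.conj_mem t ht.1 k')) (by
      have j := (inv_mem (k.ge (mem_top k'⁻¹)).2).2 t ht.1
      calc k' * t * k'⁻¹ * y = k' * (t * ⁅y, k'⁻¹⁆⁻¹ * y) * k'⁻¹ := by
            simp only [commutatorElement_def]; group
        _ = k' * (⁅y, k'⁻¹⁆⁻¹ * (y * t)) * k'⁻¹ := by rw [j, mul_assoc _ t, hy.2 t ht.2]
        _ = _ := by simp only [commutatorElement_def]; group)⟩⟩
  refine mv ?_
  rwa [← inv_cj_cj g (T ⊓ P), cj_inf, v.cj_T, cj_eq_of_normal]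

theorem nc : ¬ T ⊓ P ≤ centralizer (ctr (g •ᶜ P) : Set G) := fun e => by
  have k : T ⊓ P ≤ g •ᶜ (T ⊓ P) := by
    rw [cj_inf, v.cj_T]
    exact le_inf inf_le_left fun a ha => (n.cj g).mem' (v.T_le_cj g ha.1) (e ha)
  exact mv (normalizer_eq_top_iff.1 (v.eq_top_of_mem (CL.MSS.le_normalizer_inf
    (v.le_normalizer_T S) n.norm) (mem_normalizer_iff_cj.2
      (eq_of_le_of_card_ge k (card_cj g _).le).symm) hg))

theorem A_not_le {A : Subgroup G} (hA : A ∈ maxAbIn S) (h2 : ¬ A ≤ T) : ¬ A ⊓ T ≤ g •ᶜ P := fun e => by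
  obtain ⟨k1, k2⟩ := v.struct hA h2
  obtain ⟨a, ha, ha'⟩ := SetLike.not_le_iff_exists.1 h2
  refine (n.cj g).nc fun y hy => v.nd n hX hZ mv hg hy (hA.1 ha) ha' (v.ctr_le (k2
    (commutator_mem_commutator (mem_of_mem_maxAbIn k1 (v.T_le (v.X_le n hX hZ g hy)) ?_) ha)))
  exact centralizer_le (show (A ⊓ T) ⊔ ctr T ≤ _ from sup_le e (v.Z_le n hX hZ g)) hy.2

theorem cen' : ⁅ctr (g •ᶜ P), g •ᶜ S⁆ ≤ center G := by
  obtain ⟨A, hA, h2⟩ := v.ex
  obtain ⟨k1, -⟩ := v.struct hA h2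
  have l := v.X_le n hX hZ g
  have z : ctr T ≤ centralizer ((A ⊓ T : Subgroup G) : Set G) :=
    inf_le_right.trans (centralizer_le inf_le_right)
  have e : ⁅ctr (g •ᶜ P) ⊔ ctr T, A ⊓ T⁆ = ⁅ctr (g •ᶜ P), A ⊓ T⁆ :=
    comm_sup_cent ((inf_le_right.trans (centralizer_le l)).trans (centralizer_le_normalizer _)) z
  rw [(n.cj g).comm_eq ((v.cj g).nb.up (v.nb.down (v.ca.ab _ k1) le_sup_right
    (sup_le inf_le_right inf_le_left))) fun e => v.A_not_le n hX hZ mv hg hA h2 (le_sup_left.trans e),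
    comm_cent_sup (z.trans (centralizer_le_normalizer _)) (inf_le_right.trans (centralizer_le l)), ← e]
  exact v.trick hg (v.cdX' n hX hZ g) hA h2 inf_le_left (e.le.trans ((commutator_mono le_rfl
    (inf_le_right.trans (v.T_le_cj g))).trans (n.cj g).quad))

theorem comm_cj : ⁅ctr (g •ᶜ P), g •ᶜ S⁆ = ⁅ctr P, S⁆ := by
  have := normal_of_le_center (v.cen' n hX hZ mv hg)
  rw [← cj_eq_of_normal g⁻¹ ⁅ctr (g •ᶜ P), g •ᶜ S⁆, ← cj_ctr, ← cj_commutator, inv_cj_cj]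

theorem cen : ⁅ctr P, S⁆ ≤ center G := v.comm_cj n hX hZ mv hg ▸ v.cen' n hX hZ mv hg

omit mv hg in
theorem X_sup (h : ¬ ctr (g •ᶜ P) ≤ P) : ¬ ctr P ≤ g •ᶜ P ∧ ctr P ⊔ g •ᶜ P = g •ᶜ S := by
  have k : ¬ ctr P ≤ g •ᶜ P := fun e => h fun y hy =>
    n.mem' (v.T_le (v.X_le n hX hZ g hy)) (centralizer_le e hy.2)
  refine ⟨k, ?_⟩
  rw [← (n.cj g).sup_eq ((v.cj g).nb.up (v.nb.down (n.cdX.sup v.nb.cdX) le_sup_right
    (sup_le hX inf_le_left))) fun e => k (le_sup_left.trans e), sup_assoc,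
    sup_eq_right.2 (v.Z_le n hX hZ g)]

omit mv hg in
theorem N_eq (h : ¬ ctr (g •ᶜ P) ≤ P) : T ⊓ P = ctr P ⊔ (T ⊓ P ⊓ g •ᶜ P) := by
  rw [← inf_sup_of_normalizes (le_inf hX inf_le_left) ((hX.trans (v.T_le_cj g)).trans (n.cj g).norm),
    (v.X_sup n hX hZ h).2]
  exact (inf_eq_left.2 (inf_le_left.trans (v.T_le_cj g))).symm

theorem mv_data : Mv p S T P (ctr (g •ᶜ P)) := by
  have l := v.X_le n hX hZ g
  have e := v.comm_cj n hX hZ mv hg
  refine ⟨l, (n.cj g).elemAb, v.cdX' n hX hZ g, (commutator_mono le_rfl (v.T_le_cj g)).trans e.le,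
    fun Y h1 h2 => ?_, v.nc n hX hZ mv hg, ?_, fun y hy a ha ha' d =>
      (v.cj g).ctr_le (v.nd n hX hZ mv hg hy ha ha' d), fun h d hd c => ?_⟩
  rotate_right
  · obtain ⟨x, hx, y, hy, rfl⟩ := (mem_sup_of_normalizes_right ((inf_le_right.trans (centralizer_le
      (show T ⊓ P ⊓ g •ᶜ P ≤ P from inf_le_left.trans inf_le_right))).trans
      (centralizer_le_normalizer _))).1 ((v.N_eq n hX hZ h).le hd)
    exact c x hx (by rw [inv_mul_cancel_left]; exact le_cent_ctr _ hy.2)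
  · refine (em (Y ≤ g •ᶜ P)).imp (fun d => d.trans (le_cent_ctr _)) fun d => ?_
    rw [← e, (n.cj g).comm_eq ((v.cj g).nb.up (v.nb.down (h1.sup v.nb.cdX) le_sup_right
      (sup_le h2 inf_le_left))) fun e => d (le_sup_left.trans e), comm_cent_sup
      ((inf_le_right.trans (centralizer_le h2)).trans (centralizer_le_normalizer _))
      (inf_le_right.trans (centralizer_le l))]
  · obtain ⟨A, hA, h2⟩ := v.ex
    obtain ⟨k1, -⟩ := v.struct hA h2
    have k2 : g⁻¹ •ᶜ ((A ⊓ T) ⊔ ctr T) ≤ T :=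
      (cj_mono _ (sup_le inf_le_right inf_le_left)).trans (v.cj_T _).le
    exact ⟨_, mem_maxAbIn_of_card_le k1 (k2.trans v.T_le) (comm_map k1.2.1 _) (card_cj _ _).ge, k2,
      fun d => v.A_not_le n hX hZ mv hg hA h2 (le_sup_left.trans (le_cj_iff.2 d))⟩

end Move

end Vx

end CL.Push
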