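import Mathlib
import Cfsg.Agent.TECH.GN1

/-!
The subgroup `S₀` of Glauberman and Niles, and pushing-up groups with one noncentral chief factor.
-/

set_option autoImplicit false
set_option linter.unusedSectionVars false
open Cfsg Subgroup CL.Th CL.MSS CL.ThA CL.Comp
open scoped commutatorElement

namespace CL.Push

universe u
variable {G : Type u} [Group G] [Finite G] {p q : ℕ} [Fact p.Prime] {S T M P C : Subgroup G}

theorem gn_conj {H : Type*} [Group H] (s t a : H) :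
    s * (t * a * t⁻¹) * s⁻¹ = s * t * a * (s * t)⁻¹ := by group

/-- the subgroup `S₀` -/
noncomputable def sZ (p : ℕ) (S : Subgroup G) : Subgroup G :=
  if p = 2 then ⁅phiOf S, S⁆ ⊔ phiOf (phiOf S) else if p = 3 then ⁅⁅phiOf S, S⁆, S⁆ ⊔ phiOf (phiOf S)
    else ⁅phiOf S, S⁆ ⊔ powerClosure p 1 S

theorem map_sZ {K : Type*} [Group K] [Finite K] {f : G →* K} (hf : Function.Injective f) :
    (sZ p S).map f = sZ p (S.map f) := by
  unfold sZ
  split_ifs <;> simp only [Subgroup.map_sup, map_commutator, map_phiOf _ hf, CL.Reg.map_powerClosure]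

theorem sZ_le (h1 : p ≠ 3 → ⁅phiOf S, S⁆ ≤ C) (h2 : p = 3 → ⁅⁅phiOf S, S⁆, S⁆ ≤ C)
    (h3 : phiOf (phiOf S) ≤ C) (h4 : p ≠ 2 → p ≠ 3 → ∀ s ∈ S, s ^ p ∈ C) : sZ p S ≤ C := by
  unfold sZ
  split_ifs with a b
  · exact sup_le (h1 (by omega)) h3
  · exact sup_le (h2 b) h3
  · exact sup_le (h1 b) (CL.Reg.powerClosure_le_iff.2 fun s hs => by rw [pow_one]; exact h4 a b s hs)

theorem PU.cen_of (h : PU p q S T M) {x : G} (h1 : x ∈ centralizer (S : Set G))
    (h2 : x ∈ centralizer (pResidual p G : Set G)) : x ∈ center G :=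
  mem_center_of_centralizer_eq_top (top_le_iff.1 ((oU_sup_sylIn h.syl).ge.trans (sup_le
    (oU_top (p := p) (G := G) ▸ mem_centralizer_singleton_of h2) (mem_centralizer_singleton_of h1))))

theorem PU.good (h : PU p q S T M) (h1 : sZ p S ≤ centralizer (pResidual p G : Set G)) :
    ctr S ⊓ sZ p S ≤ center G := fun _ hx => h.cen_of hx.1.2 (h1 hx.2)

theorem Cfg2.good (c : Cfg2 p T S P) (h : PU p q S T M) (he : ∀ w ∈ ctr T, w ^ p = 1) :
    ctr S ⊓ sZ p S ≤ center G := by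
  have := h.normal
  have k := (commutator_mono (c.phi_le_inf h) le_rfl).trans (c.comm_phi_le h)
  exact h.good ((sZ_le (fun _ => k) (fun _ => (commutator_mono k le_rfl).trans
    (commutator_le_left _ _)) (CL.PG.frattini_mono h.pgroupT ((c.phi_le_inf h).trans inf_le_left))
    fun a _ s hs => c.pow_mem h he a hs).trans (le_centralizer_iff.1 (c.res_le_cent h)))

theorem Ctx4.good {B P' E F : Subgroup G} (c : Ctx4 p q S T M B P P' E F) :
    ctr S ⊓ sZ p S ≤ center G :=
  c.pu.good ((sZ_le (fun a => absurd c.eq_three a) (fun _ => (commutator_mono (commutator_mono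
    c.phi_le_inf le_rfl) le_rfl).trans c.comm_comm_le) (CL.PG.frattini_mono
    (c.pu.pgroupT.to_le inf_le_left) c.phi_le_inf) fun _ a => absurd c.eq_three a).trans
    (c.phi_le.trans (le_centralizer_iff.1 c.res_le_cent)))

namespace Vx
variable (v : Vx p q S T M)
include v

theorem exists_inv (hp : p ≠ 2) : ∃ ψ ∈ pResidual p G, ∀ u ∈ ctr T,
    (ψ : G ⧸ center G) * u * (ψ : G ⧸ center G)⁻¹ = (u : G ⧸ center G)⁻¹ := by
  have n := v.ff.natSec v.toPU v.he
  have hN := v.ctrT_normal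
  obtain ⟨g, hg⟩ := v.exists_not_mem
  obtain ⟨a, ha, haT⟩ := v.exists_not_mem_T
  obtain ⟨b, hb, hm⟩ : ∃ b ∈ g •ᶜ S, b⁻¹ * a * g ∈ M := by
    obtain ⟨s, hs, hm⟩ := (v.toPU.cj g).trans a ((v.toPU.cj g).not_mem_M (g := g⁻¹)
      (fun h => hg (by simpa using inv_mem (mem_cj.1 h))) (by rwa [inv_cj_cj]) haT) g⁻¹
      fun h => hg (by simpa using inv_mem (mem_cj.1 h))
    exact ⟨s⁻¹, inv_mem hs, by simpa [mul_assoc] using mem_cj.1 hm⟩
  have k := fun u (hu : u ∈ ctr T) => n.phi v.toPU hg ha hb hm hu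
  generalize b⁻¹ * a = φ at k
  have k1 : ∀ u ∈ ctr T, φ ^ 3 * u * (φ ^ 3)⁻¹ * u ∈ center G := fun u hu => by
    have h1 := hN.conj_mem u hu φ
    have h2 := hN.conj_mem _ h1 φ
    have := mul_mem (k _ h1) (k u hu)
    rw [show φ ^ 3 * u * (φ ^ 3)⁻¹ = φ * (φ * (φ * u * φ⁻¹) * φ⁻¹) * φ⁻¹ by
      rw [gn_conj, gn_conj, pow_three']]
    generalize φ * u * φ⁻¹ = a at h1 h2 this
    generalize φ * a * φ⁻¹ = b at h2 this
    rwa [show φ * b * φ⁻¹ * b⁻¹ * a * (b * a⁻¹ * u) = φ * b * φ⁻¹ * b⁻¹ * (a * b) * a⁻¹ * u by group,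
      h2.2 a h1.1, show φ * b * φ⁻¹ * b⁻¹ * (b * a) * a⁻¹ = φ * b * φ⁻¹ by group] at this
  generalize φ ^ 3 = ψ at k1
  have k2 : ∀ u ∈ ctr T, (ψ : G ⧸ center G) * u * (ψ : G ⧸ center G)⁻¹ = (u : G ⧸ center G)⁻¹ :=
    fun u hu => eq_inv_of_mul_eq_one_left ((QuotientGroup.eq_one_iff _).2 (k1 u hu))
  have k3 : ∀ m : ℕ, ∀ u ∈ ctr T, (ψ : G ⧸ center G) ^ (2 * m + 1) * u *
      ((ψ : G ⧸ center G) ^ (2 * m + 1))⁻¹ = (u : G ⧸ center G)⁻¹ := fun m u hu => by
    induction m with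
    | zero => simpa using k2 u hu
    | succ m ih =>
      rw [show 2 * (m + 1) + 1 = 2 * m + 1 + 1 + 1 by ring, pow_succ', pow_succ', ← gn_conj,
        ← gn_conj, ih, ← conj_inv, k2 u hu, inv_inv, k2 u hu]
  obtain ⟨j, hj⟩ := exists_pow_mem_oU (p := p) (mem_top ψ)
  obtain ⟨m, hm⟩ := ((Fact.out : p.Prime).odd_of_ne_two hp).pow (n := j)
  exact ⟨_, oU_top (p := p) (G := G) ▸ hj, hm ▸ k3 m⟩

section One
variable (hk : ⁅T, pResidual p G⁆ ≤ ctr T)
include hk

theorem phi_le_cent : phiOf T ≤ centralizer (pResidual p G : Set G) := by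
  refine (phiOf_le_iff v.pgroupT).2 ⟨three_cent (by rw [commutator_comm]; exact hk.trans inf_le_right)
    (hk.trans inf_le_right), fun g hg a ha => ?_⟩
  have h4 : ⁅a, g⁆ ∈ ctr T := comm_swap_mem.1 (hk (commutator_mem_commutator hg ha))
  rw [← commutatorElement_eq_one_iff_mul_comm, comm_pow_right (h4.2 g hg)]
  exact v.he _ h4

omit hk in
theorem inf_le {w : G} (hw : w ∈ ctr T) (h : w ∈ centralizer (pResidual p G : Set G)) :
    w ∈ center G := by
  obtain ⟨a, ha, ha'⟩ := v.exists_not_mem_T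
  have : (centralizer (pResidual p G : Set G)).Normal := inferInstance
  exact v.cen_of (v.ff.mem_ctr v.toPU hw ha ha' (v.cen_of (v.nb.quad
    (commutator_mem_commutator hw ha)).2 (comm_mem h (norm_top _ ⊤ (mem_top a))))).2 h

theorem stab_le : commStab (ctr T) (center G) ≤ T := by
  have := v.ff.normal
  have := v.normal
  have hW : IsPGroup p (ctr T) := v.pgroupT.to_le inf_le_left
  have h1 := res_comm_le (hW.to_le (v.center_le.trans v.ctr_le))
    (res_comm_le hW ((commutator_mono le_rfl (oU_le_pResidual _)).trans hk)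
      (le_commStab.1 (oU_le (commStab (ctr T) (center G)))))
    (commutator_eq_bot_iff_le_centralizer.2 (center_le_centralizer _)).le
  have h2 := (comm_eq_bot_iff'.1 (le_bot_iff.1 h1)).trans v.cent
  have h3 : IsPGroup p (commStab (ctr T) (center G)) := oU_eq_bot_iff.1 (by
    rw [← oU_oU]; exact oU_eq_bot_of_isPGroup (v.pgroupT.to_le h2))
  have := commStab_normal (A := ctr T) (N := center G)
  exact (oP_le_pCore h3).trans v.core.ge

theorem le_sup_cent (hp : p ≠ 2) : T ≤ ctr T ⊔ centralizer (pResidual p G : Set G) := by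
  intro t ht
  obtain ⟨ψ, h1, h2⟩ := v.exists_inv hp
  have hN := v.ctrT_normal
  have hT := v.normal
  set C := centralizer (pResidual p G : Set G)
  have hC : C.Normal := inferInstance
  have odd : ∀ {N : Subgroup G} {u : G}, u ^ p ∈ N → u * u ∈ N → u ∈ N := fun {N u} a b => by
    obtain ⟨m, hm⟩ := (Fact.out : p.Prime).odd_of_ne_two hp
    rw [hm, pow_succ, pow_mul, sq] at a
    exact (Subgroup.mul_mem_cancel_left _ (pow_mem b m)).1 a
  have ab : ∀ {a b : G}, a ∈ T → b ∈ T → (a : G ⧸ C) * b = b * a := fun {a b} ha hb => by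
    rw [← commutatorElement_eq_one_iff_mul_comm]
    exact (QuotientGroup.eq_one_iff ⁅a, b⁆).2 (v.phi_le_cent hk (CL.PG.commutator_le_frattini_map
      v.pgroupT (commutator_mem_commutator ha hb)))
  have st : ∀ {m : G}, (∀ u ∈ ctr T, (m : G ⧸ center G) * u * (m : G ⧸ center G)⁻¹ = u) → m ∈ T :=
    fun {m} h => v.stab_le hk (mem_commStab.2 fun u hu => comm_swap_mem.1
      ((QuotientGroup.eq_one_iff ⁅m, u⁆).1 (mul_inv_eq_one.2 (h u hu))))
  have s1 : ψ * ψ ∈ T := st fun u hu => by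
    rw [QuotientGroup.mk_mul, ← gn_conj, h2 u hu, ← conj_inv, h2 u hu, inv_inv]
  have s2 : ∀ k, ⁅ψ, k⁆ ∈ T := fun k => st fun u hu => by
    have j := h2 _ (hN.conj_mem _ (hN.conj_mem _ hu k⁻¹) ψ⁻¹)
    have j1 := h2 u hu
    simp only [commutatorElement_def, QuotientGroup.mk_mul, QuotientGroup.mk_inv] at j ⊢
    generalize (ψ : G ⧸ center G) = a at *
    generalize (k : G ⧸ center G) = b at *
    generalize (u : G ⧸ center G) = c at *
    calc _ = a * b * (a⁻¹ * (b⁻¹ * c * b⁻¹⁻¹) * a⁻¹⁻¹)⁻¹⁻¹ * b⁻¹ * a⁻¹ := by group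
      _ = (a * c * a⁻¹)⁻¹ := by rw [← j]; group
      _ = c := by rw [j1, inv_inv]
  have c1 := mul_mem ht (hT.conj_mem t ht ψ)
  have c2 : (ψ : G ⧸ C) * (t * (ψ * t * ψ⁻¹) : G) * (ψ : G ⧸ C)⁻¹ = (t * (ψ * t * ψ⁻¹) : G) := by
    have a1 := ab s1 ht
    have a2 := ab ht (hT.conj_mem t ht ψ)
    simp only [QuotientGroup.mk_mul, QuotientGroup.mk_inv] at a1 a2 ⊢
    rw [← conj_mul, gn_conj, a1, mul_inv_cancel_right, ← a2]
  have c3 : t * (ψ * t * ψ⁻¹) ∈ C := by
    generalize t * (ψ * t * ψ⁻¹) = c at c1 c2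
    have : ⁅zpowers c, oU[p] ⊤⁆ ≤ ⊥ := res_comm_le (N := center G) (v.pgroupT.to_le
      (v.center_le.trans (v.ctr_le.trans inf_le_left))) (zpowers_comm_le (norm_top _ ⊤ (mem_top c))
      fun k hk' => ?_) (commutator_eq_bot_iff_le_centralizer.2 (center_le_centralizer _)).le
    · exact commutator_eq_bot_iff_le_centralizer.1 (le_bot_iff.1 (oU_top (p := p) (G := G) ▸ this))
        (mem_zpowers c)
    have u1 := hk (commutator_mem_commutator c1 (oU_top (p := p) (G := G) ▸ hk'))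
    have u2 : ψ * ⁅c, k⁆ * ψ⁻¹ * ⁅c, k⁆ ∈ C := center_le_centralizer _
      ((QuotientGroup.eq_one_iff _).1 (mul_eq_one_iff_eq_inv.2 (h2 _ u1)))
    refine v.inf_le u1 (odd (v.he _ u1 ▸ one_mem _) ((QuotientGroup.eq_one_iff _).1 ?_))
    rw [← (QuotientGroup.eq_one_iff _).2 u2, QuotientGroup.mk_mul, QuotientGroup.mk_mul]
    congr 1
    have a1 := ab (s2 k) (hT.conj_mem _ (inv_mem c1) k)
    simp only [commutatorElement_def, QuotientGroup.mk_mul, QuotientGroup.mk_inv] at a1 ⊢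
    generalize (ψ : G ⧸ C) = a at *
    generalize (k : G ⧸ C) = b at *
    generalize (c : G ⧸ C) = d at *
    calc _ = d * (a * b * a⁻¹ * b⁻¹ * (b * d⁻¹ * b⁻¹)) * (a * b * a⁻¹ * b⁻¹)⁻¹ := by rw [a1]; group
      _ = (a * d * a⁻¹) * (a * b * a⁻¹) * (a * d * a⁻¹)⁻¹ * (a * b * a⁻¹)⁻¹ := by rw [c2]; group
      _ = _ := by group
  refine odd (mem_sup_right (v.phi_le_cent hk (CL.PG.pow_mem_frattini_map v.pgroupT ht))) ?_
  rw [show t * t = t * (ψ * t * ψ⁻¹) * ⁅t⁻¹, ψ⁆⁻¹ by simp only [commutatorElement_def]; group]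
  exact mul_mem (mem_sup_right c3) (mem_sup_left (inv_mem (hk (commutator_mem_commutator
    (inv_mem ht) h1))))

variable {E : Subgroup G} (hE : IsElementaryAbelian p E) (hs : E ⊔ T = S)
include hE hs

theorem good_odd (hp : p ≠ 2) : ctr S ⊓ sZ p S ≤ center G := by
  have hN := v.ctrT_normal
  have hT := v.normal
  set C := centralizer (pResidual p G : Set G)
  have hC : C.Normal := inferInstance
  have ES : E ≤ S := le_sup_left.trans hs.le
  have dec : ∀ s ∈ S, ∃ e ∈ E, ∃ x ∈ ctr T, ∃ c ∈ C, e * x * c = s := fun s h => by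
    obtain ⟨e, he, t, ht, rfl⟩ := mem_sup_of_normal_right.1 (hs.ge h)
    obtain ⟨x, hx, c, hc, rfl⟩ := mem_sup_of_normal_right.1 (v.le_sup_cent hk hp ht)
    exact ⟨e, he, x, hx, c, hc, mul_assoc _ _ _⟩
  have k1 : ∀ s ∈ S, s ^ p ∈ C := fun s h => by
    obtain ⟨e, he, x, hx, c, hc, rfl⟩ := dec s h
    have h1 := v.nb.quad (commutator_mem_commutator hx (ES he))
    rw [← QuotientGroup.eq_one_iff, QuotientGroup.mk_pow, QuotientGroup.mk_mul,
      (QuotientGroup.eq_one_iff c).2 hc, mul_one, ← QuotientGroup.mk_pow,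
      CL.PG.mul_pow_eq_one_of_odd (h1.2 e (ES he)) (h1.2 x (v.T_le hx.1))
      ((Fact.out : p.Prime).odd_of_ne_two hp) (hE.2 e he) (v.he x hx), QuotientGroup.mk_one]
  have n : S ≤ normalizer ((ctr S ⊔ C : Subgroup G) : Set G) := CL.MSS.le_normalizer_sup
    (le_normalizer.trans (normalizer_le_normalizer_center S)) (norm_top _ _)
  have l : ⁅T, S⁆ ≤ ctr S ⊔ C := (commutator_mono (le_inf le_rfl (v.le_sup_cent hk hp)) le_rfl).trans (by
    rw [inf_sup_of_normalizes inf_le_left (norm_top _ _)]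
    exact sup_commutator_le ((inf_le_left.trans v.T_le).trans n) ((inf_le_left.trans v.T_le).trans n)
      (v.nb.quad.trans le_sup_left) ((commutator_mono inf_le_right le_rfl).trans
        ((commutator_le_left _ _).trans le_sup_right)))
  have k2 : phiOf S ≤ ctr S ⊔ C := (phiOf_le_iff v.syl.pgroup).2 ⟨by
    refine (commutator_mono hs.ge le_rfl).trans (sup_commutator_le (ES.trans n) (v.T_le.trans n) ?_ l)
    refine (commutator_mono le_rfl hs.ge).trans (commutator_sup_le (ES.trans n) (v.T_le.trans n)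
      ((comm_iff_commutator.1 hE.1).le.trans bot_le) ?_)
    rw [commutator_comm]
    exact (commutator_mono le_rfl ES).trans l, fun s h => mem_sup_right (k1 s h)⟩
  have k3 : ⁅phiOf S, S⁆ ≤ C := (commutator_mono k2 le_rfl).trans (sup_commutator_le (norm_top _ _)
    (norm_top _ _) ((commutator_eq_bot_iff_le_centralizer.2 inf_le_right).le.trans bot_le)
    (commutator_le_left _ _))
  exact v.good (sZ_le (fun _ => k3) (fun _ => (commutator_mono k3 le_rfl).trans
    (commutator_le_left _ _)) ((CL.PG.frattini_mono v.pgroupT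
      ((phiOf_le_iff v.syl.pgroup).2 ⟨v.comm, v.pow⟩)).trans (v.phi_le_cent hk)) fun _ _ => k1)

theorem good_two (hp : p = 2) (h : ∀ t ∈ T, ∀ e ∈ E, ∃ x ∈ ctr T,
    x⁻¹ * ⁅t, e⁆ ∈ centralizer (E : Set G)) : ctr S ⊓ sZ p S ≤ center G := by
  subst hp
  have hT := v.normal
  set C := centralizer (pResidual 2 G : Set G)
  have hC : C.Normal := inferInstance
  have ES : E ≤ S := le_sup_left.trans hs.le
  have f1 := (CL.PG.commutator_le_frattini_map v.pgroupT).trans (v.phi_le_cent hk)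
  have f2 : ∀ t ∈ T, t ^ 2 ∈ C := fun t ht =>
    v.phi_le_cent hk (CL.PG.pow_mem_frattini_map v.pgroupT ht)
  have inv : ∀ e ∈ E, e⁻¹ = e := fun e he => inv_eq_of_mul_eq_one_right (by rw [← sq, hE.2 e he])
  have CY : C ≤ commStab S C := le_commStab.2 (commutator_le_right _ _)
  have n : S ≤ normalizer (commStab S C : Set G) := fun s hs' => mem_normalizer_fintype fun y hy =>
    mem_commStab.2 fun a ha => by
      have := hC.conj_mem _ (mem_commStab.1 hy _ (mul_mem (mul_mem (inv_mem hs') ha) hs')) s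
      convert this using 1
      simp only [commutatorElement_def]; group
  have k1 : ⁅T, E⁆ ≤ commStab S C := commutator_le.2 fun t ht e he => by
    have d := comm_mem ht (norm_top T ⊤ (mem_top e))
    by_cases c : e ∈ T
    · exact CY (f1 (commutator_mem_commutator ht c))
    obtain ⟨x, hx, h1⟩ := h t ht e he
    have h2 : ∀ a ∈ E, ⁅⁅t, e⁆, a⁆ = ⁅x, a⁆ := fun a ha => by
      rw [← mul_inv_cancel_left x ⁅t, e⁆, gn_comm_mul, gn_one (h1 a ha), mul_one, mul_inv_cancel,
        one_mul]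
    have h3 : ⁅⁅t, e⁆, e⁆ = ⁅t, e⁆ ^ 2 := by
      rw [commutatorElement_def ⁅t, e⁆, commutatorElement_inv, sq, mul_assoc, mul_assoc]
      congr 1
      simp only [commutatorElement_def]
      conv_lhs => rw [← inv e he]
      conv_rhs => rw [← inv e he]
      rw [inv_inv, inv e he, ← mul_assoc, ← mul_assoc, ← mul_assoc, ← mul_assoc, ← sq, hE.2 e he, one_mul]
    have h4 := v.ff.mem_ctr v.toPU hx (ES he) c (v.cen_of (v.nb.quad
      (commutator_mem_commutator hx (ES he))).2 (by rw [← h2 e he, h3]; exact f2 _ d))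
    refine mem_commStab.2 fun s hs' => ?_
    obtain ⟨a, ha, b, hb, rfl⟩ := mem_sup_of_normal_right.1 (hs.ge hs')
    rw [gn_comm_mul]
    refine mul_mem (hC.conj_mem _ (f1 (commutator_mem_commutator hb d)) a) (comm_swap_mem.1 ?_)
    rw [h2 a ha, gn_one (h4.2 a (ES ha))]
    exact one_mem _
  have k2 : phiOf S ≤ commStab S C := (phiOf_le_iff v.syl.pgroup).2 ⟨by
    refine (commutator_mono hs.ge hs.ge).trans (sup_commutator_le (ES.trans n) (v.T_le.trans n) ?_ ?_)
    · rw [commutator_comm]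
      exact sup_commutator_le (ES.trans n) (v.T_le.trans n)
        ((comm_iff_commutator.1 hE.1).le.trans bot_le) k1
    · exact commutator_sup_le (ES.trans n) (v.T_le.trans n) k1 (f1.trans CY), fun s hs' => by
    obtain ⟨a, ha, b, hb, rfl⟩ := mem_sup_of_normal_right.1 (hs.ge hs')
    rw [show (a * b) ^ 2 = ⁅b, a⁆⁻¹ * b ^ 2 by
      rw [commutatorElement_inv, commutatorElement_def, inv a ha, sq, sq]; group]
    exact mul_mem (inv_mem (k1 (commutator_mem_commutator hb ha))) (CY (f2 b hb))⟩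
  exact v.good (sZ_le (fun _ => by rw [commutator_comm]; exact le_commStab.1 k2)
    (fun h => absurd h (by decide)) ((CL.PG.frattini_mono v.pgroupT
      ((phiOf_le_iff v.syl.pgroup).2 ⟨v.comm, v.pow⟩)).trans (v.phi_le_cent hk)) fun h => absurd rfl h)

end One

end Vx

end CL.Push
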