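import Mathlib
import Cfsg.Agent.TECH.GN2

/-!
Two pushing-up groups over the same group `S`: the intersection of the cores is normal, or
`Z(S) ⊓ S₀` is central in one of them.
-/

set_option autoImplicit false
set_option linter.unusedSectionVars false
open Cfsg Subgroup CL.Th CL.MSS CL.ThA CL.Comp
open scoped commutatorElement

namespace CL.Push

universe u
variable {G : Type u} [Group G] [Finite G] {p q : ℕ} [Fact p.Prime] {S T M P Y : Subgroup G}

namespace Vx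
variable (v : Vx p q S T M) (n : NbC p S P) (hX : ctr P ≤ T) (hZ : ctr T ≤ P) (m : Mv p S P T Y)
include v

theorem fwd (g : G) {D : Subgroup G} (hY : IsCD S D) (h1 : ctr T ≤ D) (h2 : D ≤ T) :
    IsCD (g •ᶜ S) D := (v.cj g).nb.up (v.nb.down hY h1 h2)

include m

theorem mcj (g : G) : Mv p (g •ᶜ S) (g •ᶜ P) T (g •ᶜ Y) := by
  have := (mv_map_iff (f := (MulAut.conj g).toMonoidHom) (MulAut.conj g).injective).2 m
  rwa [show T.map _ = T from v.cj_T g] at this

theorem E_comm : ⁅Y, P⁆ ≤ ctr S := m.comm.trans v.nb.quad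

include n hX hZ

theorem W_cd : IsCD S (Y ⊔ ctr P ⊔ ctr T) := m.cd.sup v.nb.cdX

theorem W_comm (hY : Y ≤ T) : ⁅Y ⊔ ctr P ⊔ ctr T, T ⊓ P⁆ ≤ ctr S := by
  rw [comm_sup_cent ((inf_le_right.trans (centralizer_le (show Y ⊔ ctr P ≤ T from sup_le hY hX))).trans
    (centralizer_le_normalizer _)) (inf_le_right.trans (centralizer_le (show T ⊓ P ≤ T from inf_le_left))),
    comm_sup_cent ((inf_le_right.trans (centralizer_le m.le)).trans (centralizer_le_normalizer _))
    (inf_le_right.trans (centralizer_le (show T ⊓ P ≤ P from inf_le_right)))]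
  exact (commutator_mono le_rfl inf_le_right).trans (v.E_comm m)

theorem W_trick (hY : Y ≤ T) {g : G} (hg : g ∉ M) {A : Subgroup G} (hA : A ∈ maxAbIn S)
    (h2 : ¬ A ≤ T) : (A ⊓ T ⊔ ctr T) ⊓ (T ⊓ g •ᶜ P) ≤ centralizer ((g •ᶜ Y : Subgroup G) : Set G) := by
  have l : g •ᶜ Y ≤ T := (cj_mono g hY).trans (v.cj_T g).le
  have zl := le_inf (inf_le_left : ctr T ≤ T) (v.Z_le n hX hZ g)
  have k := v.trick hg (v.back g ((v.cj g).W_cd (n.cj g) (v.X_le n hX hZ g) (v.Z_le n hX hZ g)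
    (v.mcj m g)) le_sup_right (sup_le (sup_le l (v.X_le n hX hZ g)) inf_le_left)) hA h2
    (inf_le_left : A ⊓ (T ⊓ g •ᶜ P) ≤ A) ((commutator_mono le_rfl inf_le_right).trans
      ((v.cj g).W_comm (n.cj g) (v.X_le n hX hZ g) (v.Z_le n hX hZ g) (v.mcj m g) l))
  refine ((v.mcj m g).atom _ (v.fwd g ((v.ca.ab _ (v.struct hA h2).1).inf (v.cdN' n hX hZ g))
    (le_inf le_sup_right zl) (inf_le_right.trans inf_le_left)) (inf_le_right.trans inf_le_right)
    ).resolve_right fun e => (v.cj g).not_cen (e.trans (le_trans ?_ k))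
  have z : ctr T ≤ centralizer ((A ⊓ T : Subgroup G) : Set G) :=
    inf_le_right.trans (centralizer_le (show A ⊓ T ≤ T from inf_le_right))
  rw [inf_comm, sup_comm, inf_sup_of_normalizes zl (z.trans (centralizer_le_normalizer _)), sup_comm,
    comm_cent_sup ((inf_le_right.trans (centralizer_le (show T ⊓ g •ᶜ P ⊓ (A ⊓ T) ≤ T from
      inf_le_left.trans inf_le_left))).trans (centralizer_le_normalizer _))
      (inf_le_right.trans (centralizer_le l))]
  exact commutator_mono (le_sup_left.trans le_sup_left)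
    (le_inf (inf_le_right.trans inf_le_left) inf_le_left)

theorem not_le_of_normal (hn : (T ⊓ P).Normal) : ¬ Y ≤ T := fun hY => by
  obtain ⟨g, hg⟩ := v.exists_not_mem
  obtain ⟨B, hB, b1, b2⟩ := m.ex
  obtain ⟨k1, k2⟩ := v.struct hB b2
  have l : g •ᶜ Y ≤ T := (cj_mono g hY).trans (v.cj_T g).le
  have e : T ⊓ g •ᶜ P = T ⊓ P := by rw [← cj_eq_of_normal g (T ⊓ P), cj_inf, v.cj_T]
  have k3 := v.W_trick n hX hZ m hY hg hB b2
  rw [e, inf_eq_left.2 (sup_le (le_inf inf_le_right (inf_le_left.trans b1))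
    (le_inf inf_le_left hZ))] at k3
  have k4 : g •ᶜ Y ⊔ ctr T ≤ B ⊓ T ⊔ ctr T := sup_le (fun y hy => mem_of_mem_maxAbIn k1
    (v.T_le (l hy)) (le_centralizer_iff.1 k3 hy)) le_sup_right
  have k5 : ⁅g •ᶜ Y ⊔ ctr T, T ⊓ P⁆ = ⁅g •ᶜ Y, T ⊓ P⁆ := comm_sup_cent ((inf_le_right.trans
    (centralizer_le l)).trans (centralizer_le_normalizer _))
    (inf_le_right.trans (centralizer_le (show T ⊓ P ≤ T from inf_le_left)))
  have m' := v.mcj m g
  have k6 := v.central hg hB.1 b2 (le_normalizer_commutator (le_normalizer_iff_commutator_le_left.2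
    ((commutator_mono k4 le_rfl).trans (k2.trans (v.ctr_le.trans le_sup_right)))) (norm_top (T ⊓ P) B))
    (k5.le.trans ((commutator_mono le_rfl (e.ge.trans inf_le_right)).trans ((v.cj g).E_comm m')))
  refine (v.cj g).not_cen (((m'.atom _ (v.fwd g (v.nb.cd.inf n.cd) (le_inf inf_le_left hZ)
    inf_le_left) (e.ge.trans inf_le_right)).resolve_left fun d => m'.nc ?_).trans (k5.ge.trans k6))
  rwa [inf_comm, e]

theorem E_sup (hY : ¬ Y ≤ T) : Y ⊔ T = S := by
  rw [← v.nb.sup_eq m.cd fun e => hY (le_sup_left.trans e), sup_assoc, sup_eq_right.2 hX]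

theorem good_of_normal (hn : (T ⊓ P).Normal) : ctr S ⊓ sZ p S ≤ center G := by
  have hY := v.not_le_of_normal n hX hZ m hn
  have hs := v.E_sup n hX hZ m hY
  have l : Y ≤ S := m.le.trans n.le
  have c : ⁅T, Y⁆ ≤ T ⊓ P := (commutator_mono v.T_le l).trans (le_inf v.comm n.comm)
  have := v.normal
  have := v.ctrT_normal
  have := commStab_normal (A := T) (N := T ⊓ P)
  have := commStab_normal (A := T ⊓ P) (N := ctr T)
  have hk : ⁅T, pResidual p G⁆ ≤ ctr T := oU_top (p := p) (G := G) ▸ res_comm_le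
    (v.pgroupT.to_le inf_le_left) (oU_top (p := p) (G := G) ▸ le_commStab.1
      (v.res_le (le_commStab.2 c) hs).2) (oU_top (p := p) (G := G) ▸ le_commStab.1
      (v.res_le (le_commStab.2 (by
        rw [commutator_comm]
        exact (commutator_mono le_rfl inf_le_right).trans ((v.E_comm m).trans v.ctr_le))) hs).2)
  by_cases hp : p = 2
  · refine v.good_two hk m.ab hs hp fun t ht e he => ?_
    by_contra! d
    exact m.split hY _ (inf_comm T P ▸ c (commutator_mem_commutator ht he)) d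
  · exact v.good_odd hk m.ab hs hp

variable (mv : ¬ (T ⊓ P).Normal)
include mv

theorem not_le_of_move : ¬ Y ≤ T := fun hY => by
  obtain ⟨g, hg⟩ := v.exists_not_mem
  obtain ⟨A, hA, h2⟩ := v.ex
  obtain ⟨k1, -⟩ := v.struct hA h2
  have l : g •ᶜ Y ≤ T := (cj_mono g hY).trans (v.cj_T g).le
  have c1 := v.ca.ab _ k1
  have k3 := le_inf (l.trans v.T_le) (le_centralizer_iff.1 (v.W_trick n hX hZ m hY hg hA h2))
  rw [c1.centralizer_inf (v.cdN' n hX hZ g), inf_centralizer_eq_of_mem_maxAbIn k1,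
    v.centN' n hX hZ g, sup_comm (ctr T)] at k3
  obtain ⟨b, hb, hb'⟩ := SetLike.not_le_iff_exists.1 (v.A_not_le n hX hZ mv hg hA h2)
  have m' := v.mcj m g
  refine m'.nc (inf_le_left.trans ((le_cent_ctr _).trans (centralizer_le
    (show g •ᶜ Y ≤ ctr (g •ᶜ P) from fun y hy => ?_))))
  obtain ⟨a, ha, x, hx, rfl⟩ := c1.perm (v.cdX' n hX hZ g) y (k3 hy)
  have s := v.T_le_cj g hb.2
  refine m'.nd _ hy b s hb' ((n.cj g).ctr_le ?_)
  have nz : g •ᶜ S ≤ normalizer (ctr (g •ᶜ S) : Set G) :=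
    le_normalizer.trans (normalizer_le_normalizer_center _)
  rw [gn_comm_mul, gn_one (comm_iff.1 k1.2.1 b (mem_sup_left hb) a ha), mul_one]
  exact conj_mem_of_normalizes nz (v.T_le_cj g ((sup_le inf_le_right inf_le_left : A ⊓ T ⊔ ctr T ≤ T) ha))
    (sup_commutator_le ((v.X_le n hX hZ g).trans ((v.T_le_cj g).trans nz))
      (inf_le_left.trans ((v.T_le_cj g).trans nz)) (n.cj g).quad (v.cj g).nb.quad
      (commutator_mem_commutator hx s))

variable {g : G} (hg : g ∉ M) (h : ¬ ctr (g •ᶜ P) ≤ P)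
include hg h

theorem inf_eq : ctr (g •ᶜ P) ⊓ P = ctr (g •ᶜ S) := by
  obtain ⟨a, ha, ha'⟩ := SetLike.not_le_iff_exists.1 (v.X_sup n hX hZ h).1
  exact le_antisymm (fun x hx => (n.cj g).gen x hx.1 a (v.T_le_cj g (hX ha)) ha' (ha.2 x hx.2).symm)
    (le_inf (n.cj g).ctr_le ((v.cj g).ctr_le.trans hZ))

theorem pair : ∃ D : Subgroup G, D.Normal ∧ ctr (g •ᶜ P) ≤ D ∧ D ⊓ (T ⊓ P) ≤ ctr P ⊔ ctr T ∧
    ∀ d ∈ D, ∃ w ∈ ctr P ⊔ ctr T, ∃ y ∈ ctr (g •ᶜ P), w * y = d := by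
  have hs := v.E_sup n hX hZ m (v.not_le_of_move n hX hZ m mv)
  have z := le_inf (le_inf (inf_le_left : ctr T ≤ T) hZ) (v.Z_le n hX hZ g)
  have t : T ≤ normalizer ((T ⊓ P ⊓ g •ᶜ P : Subgroup G) : Set G) := CL.MSS.le_normalizer_inf
    (CL.MSS.le_normalizer_inf le_normalizer (v.T_le.trans n.norm)) ((v.T_le_cj g).trans (n.cj g).norm)
  have k : (T ⊓ P ⊓ g •ᶜ P).Normal := normalizer_eq_top_iff.1 (top_le_iff.1
    ((v.sup_cj_eq_top hg).ge.trans (sup_le (hs.ge.trans (sup_le ?_ t)) ?_)))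
  rotate_left
  · refine le_normalizer_iff_commutator_le_right.2 ?_
    exact (commutator_mono le_rfl (inf_le_left.trans inf_le_right)).trans
      ((v.E_comm m).trans (v.ctr_le.trans z))
  · rw [← hs, cj_sup, v.cj_T]
    refine sup_le (le_normalizer_iff_commutator_le_right.2 ?_) t
    exact (commutator_mono le_rfl inf_le_right).trans
      (((v.cj g).E_comm (v.mcj m g)).trans ((v.cj g).ctr_le.trans z))
  have e : T ⊓ centralizer ((T ⊓ P ⊓ g •ᶜ P : Subgroup G) : Set G) = (ctr P ⊔ ctr T) ⊔ ctr (g •ᶜ P) := by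
    rw [← v.nb.cent_eq z, show T ⊓ P ⊓ g •ᶜ P = (T ⊓ P) ⊓ (T ⊓ g •ᶜ P) by
      rw [inf_assoc, inf_inf_distrib_left],
      (v.nb.cd.inf n.cd).centralizer_inf (v.cdN' n hX hZ g), n.cent_inf v.nb, v.centN' n hX hZ g,
      ← sup_assoc, sup_comm (ctr T), sup_assoc (ctr P), sup_idem]
  have := v.normal
  have nx : ctr P ⊔ ctr T ≤ normalizer (ctr (g •ᶜ P) : Set G) :=
    (sup_le hX inf_le_left).trans ((v.T_le_cj g).trans (n.cj g).normX)
  refine ⟨_, e ▸ inferInstance, le_sup_right, ?_, fun d hd => (mem_sup_of_normalizes_right nx).1 hd⟩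
  rw [inf_comm, inf_sup_of_normalizes (le_inf (sup_le hX inf_le_left) (sup_le inf_le_left hZ)) nx]
  exact sup_le le_rfl ((le_inf inf_le_right (inf_le_left.trans inf_le_right)).trans
    ((v.inf_eq n hX hZ m mv hg h).le.trans ((v.cj g).ctr_le.trans le_sup_right)))

theorem pair_le : ⁅ctr (g •ᶜ P), S⁆ ≤ ctr P ⊔ ctr T := by
  obtain ⟨D, _, h1, h2, -⟩ := v.pair n hX hZ m mv hg h
  exact le_trans (le_inf ((commutator_mono h1 le_rfl).trans (commutator_le_left _ _))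
    ((commutator_mono ((v.X_le n hX hZ g).trans v.T_le) le_rfl).trans (le_inf v.comm n.comm))) h2

theorem sup_eq : ctr (g •ᶜ P) ⊔ P = S := by
  rw [← n.sup_eq (v.cdX' n hX hZ g) fun e => h (le_sup_left.trans e), sup_assoc, sup_eq_right.2 hZ]

theorem half : Half p ⊤ T S (g •ᶜ S) P (g •ᶜ P) Y := by
  have hY := v.not_le_of_move n hX hZ m mv
  have hs := v.E_sup n hX hZ m hY
  have l : Y ≤ S := m.le.trans n.le
  have k := v.pair_le n hX hZ m mv hg h
  refine ⟨n.toNb, v.nb.toNb, le_top, v.le_normalizer_T ⊤, v.opp hg, ⟨g⁻¹, mem_top _, inv_cj_cj g S⟩,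
    hX, hZ, v.sup_eq n hX hZ m mv hg h, v.inf_eq n hX hZ m mv hg h,
    (v.cen n hX hZ mv hg).trans cent_top.ge, m.le, hs, m.ab, commutator_comm Y P ▸ v.E_comm m,
    fun a _ e d hd => ?_, ?_⟩
  · obtain ⟨D, _, h1, -, h2⟩ := v.pair n hX hZ m mv hg h
    obtain ⟨w, hw, y, hy, rfl⟩ := h2 d ((cj_mono a h1).trans (cj_eq_of_normal a D).le hd)
    obtain ⟨b, hb, hb'⟩ := SetLike.not_le_iff_exists.1 hY
    have q1 : ⁅a •ᶜ ctr (g •ᶜ P), S⁆ ≤ ctr S := by
      rw [← e, ← cj_commutator, ← cj_ctr a]; exact cj_mono a (n.cj g).quad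
    have q2 : ⁅ctr P ⊔ ctr T, S⁆ ≤ ctr T := sup_commutator_le (hX.trans (v.T_le.trans v.nb.normX))
      le_normalizer (n.quad.trans v.ctr_le) (v.nb.quad.trans v.ctr_le)
    have q3 := mul_mem (v.ctr_le (q1 (commutator_mem_commutator hd (l hb))))
      (inv_mem (q2 (commutator_mem_commutator hw (l hb))))
    rw [gn_comm_mul, mul_inv_cancel_right] at q3
    exact mul_mem (sup_le inf_le_left hZ hw) (hZ ((v.cj g).ctr_le (v.nd n hX hZ mv hg hy (l hb) hb'
      (by convert v.ctrT_normal.conj_mem _ q3 w⁻¹ using 1; group))))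
  · have c1 := n.idx_le v.nb (v.mv_data n hX hZ mv hg) hs hX ((commutator_mono le_rfl l).trans k)
    have c2 := v.nb.idx_le n m (v.sup_eq n hX hZ m mv hg h) hZ (by
      rw [commutator_comm, sup_comm]; exact (commutator_mono le_rfl l).trans k)
    have c3 := n.card.trans v.nb.card.symm
    rw [le_antisymm c1 c2] at c3
    exact Nat.eq_of_mul_eq_mul_left Nat.card_pos c3

theorem cubic : Cubic ⊤ T (g •ᶜ S) (g •ᶜ P) Y := by
  intro y hy hy' a ha haT b hb hbT c
  have l : Y ≤ S := m.le.trans n.le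
  obtain ⟨x, hx, z, hz, e⟩ := (mem_sup_of_normalizes_right (hX.trans (v.T_le.trans v.nb.normX))).1
    (v.pair_le n hX hZ m mv hg h (commutator_mem_commutator hy (l ha)))
  have j := v.nb.quad (commutator_mem_commutator hz (l hb))
  rw [← e, gn_comm_mul, gn_one (hx.2 b (m.le hb)), mul_one, j.2 x (v.T_le (hX hx)),
    mul_inv_cancel_right, cent_top] at c
  exact haT (hX (m.nd a ha y (v.T_le (v.X_le n hX hZ g hy))
    (fun d => hy' ((v.inf_eq n hX hZ m mv hg h).le ⟨hy, d⟩)) (comm_swap_mem.1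
      (e ▸ mul_mem hx (n.ctr_le (v.ff.mem_ctr v.toPU hz (l hb) hbT c))))))

theorem good_of_move : ctr S ⊓ sZ p S ≤ center G := by
  have hg' : g⁻¹ ∉ M := mt inv_mem_iff.1 hg
  have h' : ¬ ctr (g⁻¹ •ᶜ P) ≤ P := fun e => (v.X_sup n hX hZ h).1 (le_cj_iff.2 ((cj_ctr _ _).le.trans e))
  have k1 := v.half n hX hZ m mv hg' h'
  have k2 := v.cubic n hX hZ m mv hg' h'
  have e : g⁻¹ •ᶜ (⊤ : Subgroup G) = ⊤ := cj_eq_of_normal _ _
  refine Ctx4.good (F := g •ᶜ Y) ⟨⟨v.half n hX hZ m mv hg h, Half.of_map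
    (f := (MulAut.conj g⁻¹).toMonoidHom) (MulAut.conj g⁻¹).injective ?_,
    v.cubic n hX hZ m mv hg h, Cubic.of_map (f := (MulAut.conj g⁻¹).toMonoidHom)
    (MulAut.conj g⁻¹).injective ?_⟩, v.toPU, v.ff, v.he⟩
  · rwa [e, v.cj_T, inv_cj_cj, inv_cj_cj, inv_cj_cj]
  · rwa [e, v.cj_T, inv_cj_cj]

end Vx

end CL.Push
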