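import Mathlib
import Cfsg.Agent.TECH.GN3
import Cfsg.Agent.PLOC.PNormal

/-!
The theorem of Glauberman and Niles on a pair of characteristic subgroups for pushing up.
-/

set_option autoImplicit false
set_option linter.unusedSectionVars false
open Cfsg Subgroup CL.Th CL.MSS CL.ThA CL.Comp
open scoped commutatorElement

namespace CL.Push

universe u
variable {p : ℕ} [Fact p.Prime]

theorem Vx.good_of_not_le {G : Type u} [Group G] [Finite G] {q : ℕ} {S T M P : Subgroup G}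
    (v : Vx p q S T M) (n : NbC p S P) (h : ¬ ctr P ≤ T) : ctr S ⊓ sZ p S ≤ center G := by
  have k : ¬ ctr T ≤ P := fun e => h fun x hx => v.nb.mem' (n.le hx.1) (centralizer_le e hx.2)
  obtain ⟨a, ha, ha'⟩ := SetLike.not_le_iff_exists.1 k
  exact Cfg2.good ⟨n.toNb, v.nb.sup_eq n.cdX h, n.sup_eq v.nb.cdX k, le_antisymm
    (fun x hx => n.gen x hx.1 a (v.T_le ha.1) ha' (ha.2 x hx.2).symm)
    (le_inf n.ctr_le (v.ctr_le.trans inf_le_left))⟩ v.toPU v.he

variable {S : Type u} [Group S] [Finite S]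

theorem two_groups {G H : Type u} [Group G] [Finite G] [Group H] [Finite H] {τ : S →* G}
    {σ : S →* H} (hτ : Function.Injective τ) (hσ : Function.Injective σ) {T P : Subgroup S}
    {q r : ℕ} {M : Subgroup G} {N : Subgroup H} (v : Vx p q ((⊤ : Subgroup S).map τ) (T.map τ) M)
    (w : Vx p r ((⊤ : Subgroup S).map σ) (P.map σ) N) (g1 : ¬ (ctr ⊤ ⊓ sZ p ⊤).map τ ≤ center G)
    (g2 : ¬ (ctr ⊤ ⊓ sZ p ⊤).map σ ≤ center H) : ctr P ≤ T ∧ ((T ⊓ P).map τ).Normal := by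
  rw [Subgroup.map_inf _ _ _ hτ, map_ctr _ hτ, map_sZ hτ] at g1
  rw [Subgroup.map_inf _ _ _ hσ, map_ctr _ hσ, map_sZ hσ] at g2
  have n := (nbC_map_iff hτ).2 ((nbC_map_iff hσ).1 w.nb)
  have n' := (nbC_map_iff hσ).2 ((nbC_map_iff hτ).1 v.nb)
  have hX := by_contra fun e => g1 (v.good_of_not_le n e)
  have hZ' := by_contra fun e => g2 (w.good_of_not_le n' e)
  have k1 : ctr P ≤ T := (map_le_map_iff_of_injective hτ).1 (map_ctr P hτ ▸ hX)
  have hZ : ctr (T.map τ) ≤ P.map τ :=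
    map_ctr T hτ ▸ map_mono ((map_le_map_iff_of_injective hσ).1 (map_ctr T hσ ▸ hZ'))
  have hX' : ctr (P.map σ) ≤ T.map σ := map_ctr P hσ ▸ map_mono k1
  refine ⟨k1, Subgroup.map_inf _ _ _ hτ ▸ by_contra fun mv => ?_⟩
  obtain ⟨g, hg⟩ := v.exists_not_mem
  obtain ⟨h, hh⟩ := w.exists_not_mem
  have m := v.mv_data n hX hZ mv hg
  have e := map_comap_eq_self (m.le.trans (map_le_range τ T))
  have m1 := (mv_map_iff hσ).2 ((mv_map_iff hτ).1 (e ▸ m))
  have mv' := fun hn => g2 (w.good_of_normal n' hZ' hX' m1 hn)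
  have m' := w.mv_data n' hZ' hX' mv' hh
  have e' := map_comap_eq_self (m'.le.trans (map_le_range σ P))
  exact g1 (v.good_of_move n hX hZ ((mv_map_iff hτ).2 ((mv_map_iff hσ).1 (e' ▸ m'))) mv hg fun d =>
    w.not_le_of_move n' hZ' hX' m1 mv' (map_mono ((map_le_map_iff_of_injective hτ).1 (e.le.trans d))))

/-- one of the two subgroups is normal in every pushing-up group over `S` -/
def GNPair (p : ℕ) (S₁ S₂ : Subgroup S) : Prop :=
  ∀ (G : Type u) [Group G] [Finite G] (τ : S →* G), Function.Injective τ → ∀ q M,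
    PU p q ((⊤ : Subgroup S).map τ) (pCore p G) M → (S₁.map τ).Normal ∨ (S₂.map τ).Normal

theorem ctr_top : ctr (⊤ : Subgroup S) = center S := by rw [ctr, top_inf_eq, cent_top]

theorem phiOf_top : phiOf (⊤ : Subgroup S) = frattini S :=
  le_antisymm (map_le_iff_le_comap.2 (frattini_le_comap_frattini_of_surjective
    (φ := (⊤ : Subgroup S).subtype) topEquiv.surjective)) fun x hx => ⟨⟨x, mem_top x⟩,
      frattini_le_comap_frattini_of_surjective (φ := (topEquiv (G := S)).symm.toMonoidHom)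
        topEquiv.symm.surjective hx, rfl⟩

theorem char_of_map {f : Subgroup S → Subgroup S}
    (h : ∀ φ : S →* S, Function.Injective φ → (f ⊤).map φ = f ((⊤ : Subgroup S).map φ)) :
    (f ⊤).Characteristic := characteristic_iff_map_eq.2 fun φ => by
  rw [h _ φ.injective, map_top_of_surjective _ φ.surjective]

theorem map_sSup_MCL {G : Type*} [Group G] [Finite G] {f : S →* G} (hf : Function.Injective f)
    (X : Subgroup S) : (sSup {R | IsMCL X R}).map f = sSup {R | IsMCL (X.map f) R} := by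
  refine le_antisymm (map_le_iff_le_comap.2 (sSup_le fun R hR => map_le_iff_le_comap.1
    (le_sSup ((isMCL_map hf).2 hR)))) (sSup_le fun R hR => ?_)
  have e := map_comap_eq_self (hR.1.1.trans (map_le_range f X))
  exact e.ge.trans (map_mono (le_sSup ((isMCL_map hf).1 (e.symm ▸ hR))))

theorem map_sPhi {G : Type*} [Group G] [Finite G] {f : S →* G} (hf : Function.Injective f)
    (X : Subgroup S) : (sPhi p X).map f = sPhi p (X.map f) := by
  unfold sPhi
  rw [Subgroup.map_iSup]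
  refine le_antisymm (iSup_le fun Q => le_iSup_of_le ⟨_, (isMCLz_map hf).2 Q.2⟩ (map_phiOf _ hf).le)
    (iSup_le fun Q => ?_)
  have e := map_comap_eq_self (Q.2.1.1.1.trans (map_le_range f X))
  exact le_iSup_of_le ⟨_, (isMCLz_map hf).1 (e.symm ▸ Q.2)⟩ (by rw [map_phiOf _ hf, e])

local notation "ZJ" => centerThompsonAOf (⊤ : Subgroup S)

theorem pair_baumann : GNPair p (ctr ⊤ ⊓ ⁅ZJ, ⊤⁆) (centralizer (ZJ : Set S)) := by
  intro G _ _ τ hτ q M k
  rw [Subgroup.map_inf _ _ _ hτ, map_ctr _ hτ, map_commutator, ← top_inf_eq (centralizer _),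
    Th.map_inf_centralizer _ _ hτ, map_centerThompsonAOf _ hτ]
  by_cases hZ : ctr ((⊤ : Subgroup S).map τ) ≤ center G
  · exact Or.inl (normal_of_le_center (inf_le_left.trans hZ))
  by_cases hJ : thompsonSubgroupAOf ((⊤ : Subgroup S).map τ) ≤ pCore p G
  · exact Or.inr (k.baumann_normal hZ hJ).2
  obtain ⟨E, _, e⟩ := k.baumann hZ hJ
  refine Or.inl (normal_of_le_center fun x hx => k.mem_center (E := E) (thompsonSubgroupAOf_le _) hJ
    (le_centralizer_iff.1 ((le_sup_right.trans e.ge).trans inf_le_right)) ?_ hx.1.2)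
  refine le_trans (commutator_mono e.le le_rfl) (sup_commutator_le (norm_top _ _) (norm_top _ _)
    ((commutator_eq_bot_iff_le_centralizer.2 inf_le_right).le.trans bot_le)
    (commutator_le_left _ _)) hx.2

theorem map_le_cent_ZJ (h : ⁅ZJ, (⊤ : Subgroup S)⁆ = ⊥) {G : Type*} [Group G] {τ : S →* G}
    (hτ : Function.Injective τ) : (⊤ : Subgroup S).map τ ≤
      centralizer (centerThompsonAOf ((⊤ : Subgroup S).map τ) : Set G) := by
  rw [← map_centerThompsonAOf _ hτ, map_le_cent_iff hτ]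
  exact comm_eq_bot_iff'.1 h

theorem pair_mcl (h : ⁅ZJ, (⊤ : Subgroup S)⁆ = ⊥) {Q : Subgroup S} (hQ : IsMCL ⊤ Q) :
    GNPair p (ctr ⊤ ⊓ ⁅Q, Q⁆) (sSup {R | IsMCL ⊤ R}) := by
  intro G _ _ τ hτ q M k
  rw [Subgroup.map_inf _ _ _ hτ, map_ctr _ hτ, map_commutator, map_sSup_MCL hτ]
  exact k.mcl_dichotomy (map_le_cent_ZJ h hτ) ((isMCL_map hτ).2 hQ)

theorem pair_phi (h : ⁅ZJ, (⊤ : Subgroup S)⁆ = ⊥) : GNPair p (ctr ⊤) (sPhi p (⊤ : Subgroup S)) := by
  intro G _ _ τ hτ q M k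
  rw [map_ctr _ hτ, map_sPhi hτ]
  exact (em _).imp normal_of_le_center (k.sPhi_normal (map_le_cent_ZJ h hτ))

theorem ca_of (h : ⁅ZJ, (⊤ : Subgroup S)⁆ = ⊥) {Q : Subgroup S} (hQ : IsMCL ⊤ Q) (e : ⁅Q, Q⁆ = ⊥) :
    CA (⊤ : Subgroup S) ∧ thompsonSubgroupAOf (⊤ : Subgroup S) = ⊤ := by
  have k : ∀ A ∈ maxAbIn (⊤ : Subgroup S), IsCD ⊤ A := fun A hA =>
    ((hQ.iff_maxAb (comm_iff_commutator.2 e) A).2 hA).1.isCD
  have k1 : IsCD ⊤ (thompsonSubgroupAOf (⊤ : Subgroup S)) := thompsonSubgroupAOf_eq_sSup (G := S) ⊤ ▸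
    sSup_closed (Set.toFinite _) (maxAbIn_nonempty _) k fun _ _ => IsCD.sup
  have k2 : thompsonSubgroupAOf (⊤ : Subgroup S) = ⊤ := by
    rw [← k1.cc, ← centerThompsonAOf_eq, inf_eq_left]
    exact comm_eq_bot_iff'.1 h
  exact ⟨⟨by rwa [k2] at k1, k⟩, k2⟩

theorem ff_of_J (hJ : thompsonSubgroupAOf (⊤ : Subgroup S) = ⊤) {G : Type u} [Group G] [Finite G]
    {τ : S →* G} (hτ : Function.Injective τ) {q : ℕ} {T M : Subgroup G}
    (k : PU p q ((⊤ : Subgroup S).map τ) T M) (hZ : ¬ ctr ((⊤ : Subgroup S).map τ) ≤ center G) :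
    FF ((⊤ : Subgroup S).map τ) T (ctr T) ∧ ∃ A ∈ maxAbIn ((⊤ : Subgroup S).map τ), ¬ A ≤ T := by
  have := k.not_le
  rw [← hJ, map_thompsonSubgroupAOf _ hτ, thompsonSubgroupAOf_le_iff] at this
  push Not at this
  obtain ⟨A, hA, hAT⟩ := this
  exact ⟨k.ff_of_maxAb hZ hA hAT, A, hA, hAT⟩

theorem pair_pow (hJ : thompsonSubgroupAOf (⊤ : Subgroup S) = ⊤) :
    GNPair p (powerClosure p 1 (ctr ⊤)) (⊤ : Subgroup S) := by
  intro G _ _ τ hτ q M k
  rw [CL.Reg.map_powerClosure, map_ctr _ hτ]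
  refine Or.inl (normal_of_le_center (CL.Reg.powerClosure_le_iff.2 fun x hx => ?_))
  by_cases hZ : ctr ((⊤ : Subgroup S).map τ) ≤ center G
  · exact pow_mem (hZ hx) _
  · rw [pow_one]; exact (ff_of_J hJ hτ k hZ).1.pow_mem_center k (k.ctr_le hx)

/-- the cores of the groups in which `Z(S) ⊓ S₀` is not central -/
def cores (p : ℕ) [Fact p.Prime] (S : Type u) [Group S] : Set (Subgroup S) :=
  {T | ∃ (G : Type u) (_ : Group G) (_ : Finite G) (τ : S →* G) (q : ℕ) (M : Subgroup G),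
    Function.Injective τ ∧ Vx p q ((⊤ : Subgroup S).map τ) (T.map τ) M ∧
      ¬ (ctr ⊤ ⊓ sZ p ⊤).map τ ≤ center G}

theorem char_sZ : (ctr ⊤ ⊓ sZ p (⊤ : Subgroup S)).Characteristic :=
  char_of_map (f := fun X => ctr X ⊓ sZ p X) fun φ h => by
    rw [Subgroup.map_inf _ _ _ h, map_ctr _ h, map_sZ h]

theorem char_cores : (sInf (cores p S)).Characteristic := by
  refine characteristic_iff_le_comap.2 fun φ x hx => mem_sInf.2 fun T hT => ?_
  obtain ⟨G, _, _, τ, q, M, h1, h2, h3⟩ := hT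
  refine mem_sInf.1 hx (T.comap φ.toMonoidHom) ⟨G, _, ‹_›, τ.comp φ.toMonoidHom, q, M,
    h1.comp φ.injective, ?_, ?_⟩
  · rwa [← map_map, ← map_map, map_top_of_surjective _ φ.surjective,
      map_comap_eq_self_of_surjective φ.surjective]
  · rwa [← map_map, characteristic_iff_map_eq.1 char_sZ]

theorem isCL_cores (c : CA (⊤ : Subgroup S)) : IsCL ⊤ (sInf (cores p S)) := by
  have nb : ∀ T ∈ cores p S, NbC p ⊤ T := fun T ⟨_, _, _, _, _, _, h1, h2, _⟩ =>
    (nbC_map_iff h1).1 h2.nb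
  have k : ∀ s : Set (Subgroup S), s.Finite → s ⊆ cores p S → IsCD ⊤ (sInf s) ∧
      ∀ T ∈ cores p S, ⊤ ⊓ centralizer ((sInf s : Subgroup S) : Set S) ≤ T := by
    intro s hs
    induction s, hs using Set.Finite.induction_on with
    | empty => rw [sInf_empty]; exact fun _ => ⟨c.top, fun T hT => (nb T hT).ctr_le'⟩
    | @insert P s _ _ ih =>
      intro h
      obtain ⟨h1, h2⟩ := ih ((Set.subset_insert _ _).trans h)
      have hP := h (Set.mem_insert _ _)
      rw [sInf_insert, (nb P hP).cd.centralizer_inf h1, (nb P hP).cent]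
      refine ⟨(nb P hP).cd.inf h1, fun T hT => sup_le ?_ (h2 T hT)⟩
      obtain ⟨_, _, _, _, _, _, a1, a2, a3⟩ := hP
      obtain ⟨_, _, _, _, _, _, b1, b2, b3⟩ := hT
      exact (two_groups b1 a1 b2 a2 b3 a3).1
  obtain ⟨h1, h2⟩ := k _ (Set.toFinite _) le_rfl
  exact h1.isCL (le_sInf h2)

theorem pair_cores (c : CA (⊤ : Subgroup S)) (hJ : thompsonSubgroupAOf (⊤ : Subgroup S) = ⊤)
    (he : ∀ x ∈ ctr (⊤ : Subgroup S), x ^ p = 1) :
    GNPair p (ctr ⊤ ⊓ sZ p ⊤) (sInf (cores p S)) := by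
  intro G _ _ τ hτ q M k
  refine (em _).imp normal_of_le_center fun h => ?_
  have hZ : ¬ ctr ((⊤ : Subgroup S).map τ) ≤ center G := fun e =>
    h (((map_mono inf_le_left).trans (map_ctr _ hτ).le).trans e)
  obtain ⟨f, ex⟩ := ff_of_J hJ hτ k hZ
  have v : Vx p q ((⊤ : Subgroup S).map τ) (((pCore p G).comap τ).map τ) M := by
    rw [map_comap_eq_self (k.T_le.trans (map_le_range τ ⊤))]
    refine ⟨k, f, fun w hw => ?_, (ca_map_iff hτ).2 c, ex⟩
    obtain ⟨z, hz, e⟩ := f.exists_pow_eq k hw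
    obtain ⟨y, hy, rfl⟩ := (map_ctr _ hτ).ge (k.ctrT_inf.le hz)
    rw [e, ← map_pow, he y hy, map_one]
  have hT : (pCore p G).comap τ ∈ cores p S := ⟨G, _, ‹_›, τ, q, M, hτ, v, h⟩
  refine ⟨?_⟩
  rintro _ ⟨x, hx, rfl⟩ g
  have j : ∀ P ∈ cores p S, g * τ x * g⁻¹ ∈ ((pCore p G).comap τ ⊓ P).map τ :=
    fun P hP => let ⟨_, _, _, _, _, _, a1, a2, a3⟩ := hP
      (two_groups hτ a1 v a2 h a3).2.conj_mem _ (mem_map_of_mem τ
        ⟨mem_sInf.1 hx _ hT, mem_sInf.1 hx _ hP⟩) g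
  obtain ⟨y, -, e⟩ := j _ hT
  exact ⟨y, mem_sInf.2 fun P hP => (mem_inf.1 ((mem_map_iff_mem hτ).1 (e ▸ j P hP))).2, e⟩

/-- the conclusion of the theorem -/
structure GNRes (p : ℕ) (S₁ S₂ : Subgroup S) : Prop where
  n1 : S₁ ≠ ⊥
  n2 : S₂ ≠ ⊥
  c1 : S₁.Characteristic
  c2 : S₂.Characteristic
  le : S₁ ≤ center S
  alt : S₂ = centralizer (centerThompsonAOf (⊤ : Subgroup S) : Set S) ∨
    centralizer (centerThompsonAOf (⊤ : Subgroup S) : Set S) = ⊤
  pair : GNPair p S₁ S₂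

theorem ctr_inf_ne_bot (hS : IsPGroup p S) (N : Subgroup S) [N.Normal] (h : N ≠ ⊥) : ctr ⊤ ⊓ N ≠ ⊥ := by
  have := hS.isNilpotent
  rw [ctr_top, inf_comm]; exact CL.PN.inf_center_ne_bot N h

theorem ctr_ne_bot [Nontrivial S] (hS : IsPGroup p S) : ctr (⊤ : Subgroup S) ≠ ⊥ := fun e =>
  ctr_inf_ne_bot hS ⊤ top_ne_bot (by rw [e, bot_inf_eq])

theorem char_ZJ : (ZJ).Characteristic := char_of_map fun _ h => map_centerThompsonAOf _ h

theorem char_ctr : (ctr (⊤ : Subgroup S)).Characteristic := char_of_map fun _ h => map_ctr _ h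

theorem gn [Nontrivial S] (hS : IsPGroup p S) (h : ⁅ZJ, (⊤ : Subgroup S)⁆ = ⊥ → CA (⊤ : Subgroup S) →
    thompsonSubgroupAOf (⊤ : Subgroup S) = ⊤ → ¬ IsMulCommutative S →
      (∀ x ∈ center S, x ^ p = 1) → sZ p (⊤ : Subgroup S) ≠ ⊥) : ∃ S₁ S₂ : Subgroup S,
      GNRes p S₁ S₂ ∧ (S₂ = centralizer (ZJ : Set S) ∨ IsCL ⊤ S₂) := by
  have := char_ZJ (S := S)
  have := char_ctr (S := S)
  have z := ctr_ne_bot hS
  have cl : ∀ {R : Subgroup S}, IsCL ⊤ R → R ≠ ⊥ := fun hR e =>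
    z (le_bot_iff.1 (hR.center_le.trans (inf_le_left.trans e.le)))
  by_cases h1 : ⁅ZJ, (⊤ : Subgroup S)⁆ = ⊥
  swap
  · exact ⟨_, _, ⟨ctr_inf_ne_bot hS _ h1, fun e => z (le_bot_iff.1 ((inf_le_right.trans
      (centralizer_le (show ZJ ≤ ⊤ from le_top))).trans e.le)), inferInstance, inferInstance,
      inf_le_left.trans ctr_top.le, Or.inl rfl, pair_baumann⟩, Or.inl rfl⟩
  have a := Or.inr (a := False) (top_le_iff.1 (comm_eq_bot_iff'.1 h1))
  obtain ⟨Q, hQ⟩ := exists_isMCL (⊤ : Subgroup S)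
  by_cases h2 : ⁅Q, Q⁆ = ⊥
  swap
  · have : (⁅Q, Q⁆).Characteristic := characteristic_iff_map_eq.2 fun φ => by
      have h1 := (isMCL_map (f := φ.toMonoidHom) φ.injective).2 hQ
      rw [map_top_of_surjective _ φ.surjective] at h1
      rw [map_commutator]
      exact h1.derived_eq_derived hQ
    exact ⟨_, _, ⟨ctr_inf_ne_bot hS _ h2, cl (isCL_sSup_MCL ⊤), inferInstance,
      char_of_map (f := fun X => sSup {R | IsMCL X R}) fun _ h => map_sSup_MCL h _,
      inf_le_left.trans ctr_top.le, a.imp_left False.elim, pair_mcl h1 hQ⟩, Or.inr (isCL_sSup_MCL ⊤)⟩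
  obtain ⟨c, hJ⟩ := ca_of h1 hQ h2
  by_cases h3 : IsMulCommutative S
  · refine ⟨⊤, ⊤, ⟨top_ne_bot, top_ne_bot, inferInstance, inferInstance,
      fun x _ => mem_center_iff.2 fun y => h3.is_comm.comm y x, a.imp_left False.elim,
      fun G _ _ τ hτ q M k => absurd (le_trans ?_ ((centralizer_le k.T_le).trans k.cent)) k.not_le⟩,
      Or.inr (c.top.isCL inf_le_left)⟩
    exact (map_le_cent_iff hτ).2 fun x _ y _ => h3.is_comm.comm y x
  by_cases h4 : ∀ x ∈ center S, x ^ p = 1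
  swap
  · exact ⟨_, ⊤, ⟨fun e => h4 fun x hx => pow_one p ▸ CL.Reg.powerClosure_eq_bot_iff.1 e x
      (ctr_top.ge hx), top_ne_bot, CL.Reg.powerClosure_characteristic _ 1, inferInstance,
      CL.Reg.powerClosure_le_iff.2 fun x hx => pow_mem (ctr_top.le hx) _, a.imp_left False.elim,
      pair_pow hJ⟩, Or.inr (c.top.isCL inf_le_left)⟩
  have : (sZ p (⊤ : Subgroup S)).Characteristic := char_of_map fun _ h => map_sZ h
  exact ⟨_, _, ⟨ctr_inf_ne_bot hS _ (h h1 c hJ h3 h4), cl (isCL_cores c), char_sZ, char_cores,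
    inf_le_left.trans ctr_top.le, a.imp_left False.elim,
    pair_cores c hJ fun x hx => h4 x (ctr_top.le hx)⟩, Or.inr (isCL_cores c)⟩

theorem ZJ_eq : thompsonSubgroupA S ⊓ centralizer (thompsonSubgroupA S : Set S) = ZJ := by
  rw [centerThompsonAOf, thompsonSubgroupAOf_top]

theorem sZ_top : sZ p (⊤ : Subgroup S) =
    if p = 2 then ⁅frattini S, ⊤⁆ ⊔ (frattini (frattini S)).map (frattini S).subtype else
    if p = 3 then ⁅⁅frattini S, (⊤ : Subgroup S)⁆, ⊤⁆ ⊔ (frattini (frattini S)).map (frattini S).subtype else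
    ⁅frattini S, ⊤⁆ ⊔ powerClosure p 1 (⊤ : Subgroup S) := by
  rw [sZ, phiOf_top]

theorem GNRes.le_char {S₁ S₂ : Subgroup S} (h : GNRes p S₁ S₂) :
    S₂ ≤ centralizer (ZJ : Set S) ∧ (S₂.subgroupOf (centralizer (ZJ : Set S))).Characteristic := by
  rcases h.alt with e | e
  · rw [e, subgroupOf_self]; exact ⟨le_rfl, inferInstance⟩
  rw [e]
  refine ⟨le_top, characteristic_iff_le_comap.2 fun φ x hx => ?_⟩
  exact characteristic_iff_le_comap.1 h.c2 (topEquiv.symm.trans (φ.trans topEquiv)) hx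

theorem GNRes.sit {S₁ S₂ : Subgroup S} (h : GNRes p S₁ S₂) (G : Type u) [Group G] [Finite G]
    (P : Subgroup G) (e : S ≃* P) (k : IsPushingUpSituation p P) :
    (S₁.map (P.subtype.comp e.toMonoidHom)).Normal ∨ (S₂.map (P.subtype.comp e.toMonoidHom)).Normal := by
  obtain ⟨q, M, k⟩ := exists_PU_of_situation k
  refine h.pair G _ (P.subtype_injective.comp e.injective) q M ?_
  rwa [← map_map, map_top_of_surjective _ e.surjective, map_top_subtype]

theorem maxCP_eq {X R : Subgroup S} (h : IsCL X R) : maxCentralProduct X = offMeas R R := by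
  have k : IsCL ⊤ (R.subgroupOf X) := by
    rw [← isCL_map X.subtype_injective, map_top_subtype, map_subgroupOf_eq_of_le h.1]; exact h
  rw [← show _ = maxCentralProduct X from isCentrallyLarge_iff.2 k, card_center_eq, offMeas_def,
    ← card_map_of_injective (K := ctr _) X.subtype_injective, map_ctr _ X.subtype_injective,
    ← card_map_of_injective X.subtype_injective, map_subgroupOf_eq_of_le h.1]

theorem GNRes.maxCP {S₁ S₂ : Subgroup S} (h : GNRes p S₁ S₂)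
    (k : S₂ = centralizer (ZJ : Set S) ∨ IsCL ⊤ S₂) :
    maxCentralProduct S₂ = maxCentralProduct (centralizer (ZJ : Set S)) := by
  rcases k with rfl | k
  · rfl
  rw [maxCP_eq (k.of_le_le le_rfl le_top), maxCP_eq (k.of_le_le h.le_char.1 le_top)]

open scoped Pointwise in
theorem exc_of [Nontrivial S] (hS : IsPGroup p S) (c : CA (⊤ : Subgroup S))
    (h : sZ p (⊤ : Subgroup S) = ⊥) : IsElementaryAbelian p (frattini S) ∧
    (p = 2 → frattini S ≤ center S) ∧ (p = 3 → frattini S ≤ Subgroup.upperCentralSeries S 2) ∧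
    (3 < p → frattini S ≤ center S ∧ Monoid.exponent S = p) ∧
    ∀ A ∈ maxAbelianSubgroups S, ∀ B ∈ maxAbelianSubgroups S, ∀ Q : Subgroup S,
      Nat.card A ^ 2 = Nat.card S * Nat.card (center S) ∧
      Nat.card Q * Nat.card (center Q) ≤ Nat.card S * Nat.card (center S) ∧
      ((A ⊔ B : Subgroup S) : Set S) = (A : Set S) * (B : Set S) ∧
      A ⊔ B = centralizer ((A ⊓ B : Subgroup S) : Set S) := by
  have el : phiOf (frattini S) = ⊥ → IsElementaryAbelian p (frattini S) := fun e =>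
    have k := (phiOf_le_iff (hS.to_subgroup _)).1 e.le
    elemAb_iff.2 ⟨comm_iff.1 (comm_iff_commutator.2 (le_bot_iff.1 k.1)), k.2⟩
  have ce : ∀ {N : Subgroup S}, ⁅N, ⊤⁆ = ⊥ → N ≤ center S := fun e =>
    (commutator_eq_bot_iff_le_centralizer.1 e).trans cent_top.le
  have m : offMeas (⊤ : Subgroup S) ⊤ = Nat.card S * Nat.card (center S) := by
    rw [offMeas_def, card_top, top_inf_eq, cent_top]
  have k : (p = 2 → ⁅frattini S, (⊤ : Subgroup S)⁆ = ⊥ ∧ phiOf (frattini S) = ⊥) ∧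
      (p = 3 → ⁅⁅frattini S, (⊤ : Subgroup S)⁆, (⊤ : Subgroup S)⁆ = ⊥ ∧ phiOf (frattini S) = ⊥) ∧
      (3 < p → ⁅frattini S, (⊤ : Subgroup S)⁆ = ⊥ ∧ ∀ s : S, s ^ p = 1) := by
    rw [sZ_top] at h
    refine ⟨fun e => ?_, fun e => ?_, fun e => ?_⟩
    · rwa [if_pos e, sup_eq_bot_iff] at h
    · rwa [if_neg (by omega), if_pos e, sup_eq_bot_iff] at h
    · rw [if_neg (by omega), if_neg (by omega), sup_eq_bot_iff, CL.Reg.powerClosure_eq_bot_iff,
        pow_one] at h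
      exact ⟨h.1, fun s => h.2 s (mem_top s)⟩
  refine ⟨?_, fun e => ce (k.1 e).1, fun e x hx => ?_, fun e => ⟨ce (k.2.2 e).1,
    (Monoid.exponent_eq_prime_iff Fact.out).2 fun g hg => orderOf_eq_prime ((k.2.2 e).2 g) hg⟩,
    fun A hA B hB Q => ?_⟩
  · have := (Fact.out : p.Prime).two_le
    rcases (by omega : p = 2 ∨ p = 3 ∨ 3 < p) with e | e | e
    · exact el (k.1 e).2
    · exact el (k.2.1 e).2
    · exact elemAb_iff.2 ⟨fun a ha b _ => (mem_center_iff.1 (ce (k.2.2 e).1 ha) b).symm,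
        fun a _ => (k.2.2 e).2 a⟩
  · refine Subgroup.mem_upperCentralSeries_succ_iff.2 fun y => ?_
    rw [Subgroup.upperCentralSeries_one]
    exact ce (k.2.1 e).1 (commutator_mem_commutator hx (mem_top y))
  rw [← maxAbIn_top] at hA hB
  have a := c.ab A hA
  have b := c.ab B hB
  refine ⟨?_, ?_, (a.perm b).coe_sup, ?_⟩
  · rw [← m, ← a.meas_eq c.top, offMeas_def, inf_centralizer_eq_of_mem_maxAbIn hA, sq]
  · rw [← m, card_center_eq]
    exact (offMeas_self_le le_top).trans (c.top.2 Q le_top)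
  · rw [← top_inf_eq (centralizer _), a.centralizer_inf b, inf_centralizer_eq_of_mem_maxAbIn hA,
      inf_centralizer_eq_of_mem_maxAbIn hB]

theorem elem_center (h : ∀ x ∈ center S, x ^ p = 1) : IsElementaryAbelian p (center S) :=
  elemAb_iff.2 ⟨fun a _ _ hb => mem_center_iff.1 hb a, h⟩

theorem res_phi [Nontrivial S] (hS : IsPGroup p S) (hJ : thompsonSubgroupA S = ⊤)
    (h : ¬ ∃ A ∈ maxAbelianSubgroups S, IsElementaryAbelian p A) :
    GNRes p (ctr ⊤) (sPhi p (⊤ : Subgroup S)) := by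
  have e : ⁅ZJ, (⊤ : Subgroup S)⁆ = ⊥ := by
    rw [← ZJ_eq, hJ]; exact commutator_eq_bot_iff_le_centralizer.2 inf_le_right
  refine ⟨ctr_ne_bot hS, fun b => h ?_, char_ctr, char_of_map fun _ h => map_sPhi h _, ctr_top.le,
    Or.inr (top_le_iff.1 (comm_eq_bot_iff'.1 e)), pair_phi e⟩
  obtain ⟨Q, hQ⟩ := exists_isMCLz p (⊤ : Subgroup S)
  obtain ⟨h2, h3⟩ := (phiOf_le_iff (hS.to_subgroup Q)).1 ((le_iSup_of_le
    (f := fun Q : {Q // IsMCLz p (⊤ : Subgroup S) Q} => phiOf (Q : Subgroup S)) ⟨Q, hQ⟩ le_rfl).trans b.le)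
  have h4 := comm_iff_commutator.2 (le_bot_iff.1 h2)
  exact ⟨Q, maxAbIn_top (G := S) ▸ hQ.1.1.mem_maxAbIn h4, elemAb_iff.2 ⟨comm_iff.1 h4, h3⟩⟩

end CL.Push
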