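import Mathlib
import Cfsg.Agent.CLAS.SL2Sylow
import Cfsg.Agent.CLAS.U3Rank1

/-! Rank one data on the Sylow `p`-subgroups of `SL₂(q)`, `SU₃(q)` and their central quotients. -/

set_option autoImplicit false
set_option linter.unusedSectionVars false

namespace CL.R1Z

open Subgroup
open scoped Pointwise MatrixGroups

variable {p : ℕ} [hp : Fact p.Prime]

/-- Rank one data at the Sylow subgroup `U`. -/
def At {K : Type*} [Group K] (U : Sylow p K) : Prop :=
  ∃ (V : Sylow p K) (h t : K), V ≠ U ∧ (∀ x, x ∈ U → x ∈ V → x = 1) ∧ h • U = U ∧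
    h ^ (p - 1) = 1 ∧ h • V = V ∧ (∀ W : Sylow p K, W ≠ U → h • W = W → W = V) ∧
    (∀ W : Sylow p K, W ≠ U → ∃ u ∈ U, u • V = W) ∧ t • U = U ∧
    ∀ g : K, g • U = U → ∃ n : ℤ, (t ^ n)⁻¹ * g ∈ U

theorem mem_smul_iff {K : Type*} [Group K] (g : K) (W : Sylow p K) (x : K) :
    x ∈ g • W ↔ g⁻¹ * x * g ∈ W := by
  change x ∈ ((g • W : Sylow p K) : Subgroup K) ↔ _
  rw [Sylow.coe_subgroup_smul, Subgroup.mem_pointwise_smul_iff_inv_smul_mem]
  simp only [MulAut.smul_def, MulAut.inv_apply, MulAut.conj_symm_apply]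
  rfl

theorem mem_of_smul_eq {K : Type*} [Group K] {U W : Sylow p K} {x : K} (hx : x ∈ W)
    (h : x • U = U) : x ∈ U := by
  have h1 := W.isPGroup'.inf_normalizer_sylow U
  have h2 : x ∈ (W : Subgroup K) ⊓ normalizer ((U : Subgroup K) : Set K) :=
    ⟨hx, Sylow.smul_eq_iff_mem_normalizer.1 h⟩
  exact (h1.le h2).2

theorem smul_eq_of_mem {K : Type*} [Group K] {U : Sylow p K} {x : K} (hx : x ∈ U) :
    x • U = U :=
  Sylow.smul_eq_iff_mem_normalizer.2 (le_normalizer hx)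

theorem smul_eq_of_center {K : Type*} [Group K] (U : Sylow p K) {x : K} (hx : x ∈ center K) :
    x • U = U := by
  ext y
  change y ∈ x • U ↔ y ∈ U
  rw [mem_smul_iff, mul_assoc, mem_center_iff.1 hx y, inv_mul_cancel_left]

section Map

variable {K K' : Type*} [Group K] [Group K'] [Finite K] {f : K →* K'}
  (hf : Function.Surjective f)

theorem mem_map_iff (W : Sylow p K) (y : K') :
    y ∈ W.mapSurjective hf ↔ ∃ x ∈ W, f x = y := Iff.rfl

theorem map_smul' (g : K) (W : Sylow p K) :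
    (g • W).mapSurjective hf = f g • W.mapSurjective hf := by
  ext y
  change y ∈ (g • W).mapSurjective hf ↔ y ∈ f g • W.mapSurjective hf
  rw [mem_smul_iff, mem_map_iff, mem_map_iff]
  constructor
  · rintro ⟨x, hx, rfl⟩
    exact ⟨_, (mem_smul_iff g W x).1 hx, by simp⟩
  · rintro ⟨x, hx, e⟩
    refine ⟨g * x * g⁻¹, (mem_smul_iff g W _).2 (by simpa [mul_assoc] using hx), ?_⟩
    simp [e, mul_assoc]

theorem mem_of_map (hker : f.ker ≤ center K) {U W : Sylow p K} {x : K} (hx : x ∈ W)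
    (h : f x ∈ U.mapSurjective hf) : x ∈ U := by
  obtain ⟨u, hu, e⟩ := h
  have hc : u⁻¹ * x ∈ center K := hker (by
    change f (u⁻¹ * x) = 1
    rw [map_mul, map_inv]
    change (f u)⁻¹ * f x = 1
    rw [show f u = f x from e, inv_mul_cancel])
  refine mem_of_smul_eq hx ?_
  have : x = u * (u⁻¹ * x) := by group
  rw [this, mul_smul, smul_eq_of_center U hc, smul_eq_of_mem hu]

theorem map_inj (hker : f.ker ≤ center K) {U W : Sylow p K}
    (h : U.mapSurjective hf = W.mapSurjective hf) : U = W := by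
  ext x
  constructor
  · intro hx
    exact mem_of_map hf hker hx (h ▸ ⟨x, hx, rfl⟩)
  · intro hx
    exact mem_of_map hf hker hx (h ▸ ⟨x, hx, rfl⟩)

theorem At.map (hker : f.ker ≤ center K) {U : Sylow p K} (h : At U) :
    At (U.mapSurjective hf) := by
  obtain ⟨V, h, t, h1, h2, h3, h4, h5, h6, h7, h8, h9⟩ := h
  refine ⟨V.mapSurjective hf, f h, f t, fun e => h1 (map_inj hf hker e), ?_, ?_, ?_, ?_, ?_, ?_,
    ?_, ?_⟩
  · rintro y hy ⟨v, hv, rfl⟩
    have : v = 1 := h2 v (mem_of_map hf hker hv hy) hv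
    rw [this]; exact map_one f
  · rw [← map_smul', h3]
  · rw [← map_pow, h4, map_one]
  · rw [← map_smul', h5]
  · intro W hW hh
    obtain ⟨W, rfl⟩ := Sylow.mapSurjective_surjective hf p W
    change W.mapSurjective hf ≠ _ at hW
    change f h • W.mapSurjective hf = W.mapSurjective hf at hh
    rw [← map_smul'] at hh
    rw [h6 W (fun e => hW (by rw [e])) (map_inj hf hker hh)]
  · intro W hW
    obtain ⟨W, rfl⟩ := Sylow.mapSurjective_surjective hf p W
    change W.mapSurjective hf ≠ _ at hW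
    obtain ⟨u, hu, e⟩ := h7 W (fun e => hW (by rw [e]))
    exact ⟨f u, ⟨u, hu, rfl⟩, by rw [← map_smul', e]⟩
  · rw [← map_smul', h8]
  · intro g hg
    obtain ⟨g, rfl⟩ := hf g
    rw [← map_smul'] at hg
    obtain ⟨n, hn⟩ := h9 g (map_inj hf hker hg)
    exact ⟨n, ⟨_, hn, by simp⟩⟩

end Map

/-- Rank one data at some Sylow subgroup. -/
def R1 (p : ℕ) [Fact p.Prime] (K : Type*) [Group K] : Prop := ∃ U : Sylow p K, At U

theorem R1.map {K K' : Type*} [Group K] [Group K'] [Finite K] {f : K →* K'}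
    (hf : Function.Surjective f) (hker : f.ker ≤ center K) (h : R1 p K) : R1 p K' := by
  obtain ⟨U, h⟩ := h
  exact ⟨_, h.map hf hker⟩

theorem R1.equiv {K K' : Type*} [Group K] [Group K'] [Finite K] (e : K ≃* K')
    (h : R1 p K) : R1 p K' :=
  h.map (f := e.toMonoidHom) e.surjective (by
    rw [(MonoidHom.ker_eq_bot_iff _).2 e.injective]; exact bot_le)

theorem R1.quot {K : Type*} [Group K] [Finite K] (h : R1 p K) : R1 p (K ⧸ center K) :=
  h.map (f := QuotientGroup.mk' _) (QuotientGroup.mk'_surjective _) (by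
    rw [QuotientGroup.ker_mk'])

theorem R1.all {K : Type*} [Group K] [Finite K] (h : R1 p K) (W : Sylow p K) : At W := by
  obtain ⟨U, h⟩ := h
  obtain ⟨g, rfl⟩ := MulAction.exists_smul_eq K U W
  have hf : Function.Surjective (MulAut.conj g).toMonoidHom := (MulAut.conj g).surjective
  have := h.map hf (by
    rw [(MonoidHom.ker_eq_bot_iff _).2 (MulAut.conj g).injective]; exact bot_le)
  convert this using 1
  ext x
  change x ∈ g • U ↔ x ∈ U.mapSurjective hf
  rw [mem_smul_iff, mem_map_iff]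
  constructor
  · intro hx
    exact ⟨_, hx, by simp [mul_assoc]⟩
  · rintro ⟨y, hy, rfl⟩
    simpa [mul_assoc] using hy

/-- Rank one data from a linear model. -/
theorem r1_of_lin {K F V : Type*} [Group K] [Finite K] [Field F] [Finite F] [AddCommGroup V]
    [Module F V] (ρ : K →* (V ≃ₗ[F] V)) (Sg : V → Prop)
    (hS : ∀ W : Sylow p K, ∃ v, v ≠ 0 ∧ Sg v ∧ ∀ g, g ∈ W ↔ ρ g v = v)
    (hS' : ∀ v, v ≠ 0 → Sg v → ∃ W : Sylow p K, ∀ g, g ∈ W ↔ ρ g v = v)
    (hSg : ∀ g v, Sg v → Sg (ρ g v))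
    (hTI : ∀ v w, v ≠ 0 → w ≠ 0 → Sg v → Sg w → ∀ g, g ≠ 1 → ρ g v = v → ρ g w = w →
      ∃ c : F, w = c • v)
    (hne : ∀ v, v ≠ 0 → Sg v → ∃ g, g ≠ 1 ∧ ρ g v = v)
    {u w : V} (hu0 : u ≠ 0) (hu : Sg u) (hw0 : w ≠ 0) (hw : Sg w) (hnl : ∀ c : F, w ≠ c • u)
    {h : K} (hh : h ^ (p - 1) = 1) {a b : F} (hhu : ρ h u = a • u) (hhw : ρ h w = b • w)
    (heig : ∀ v, v ≠ 0 → Sg v → ∀ c : F, ρ h v = c • v →
      (∃ d : F, v = d • u) ∨ ∃ d : F, v = d • w)
    (htr : ∀ v, v ≠ 0 → Sg v → (∀ c : F, v ≠ c • u) →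
      ∃ g, ρ g u = u ∧ ∃ d : F, ρ g w = d • v) : R1 p K := by
  classical
  -- equality of Sylow subgroups given by vectors
  have hsm : ∀ (g : K) (v : V) (c : F), c ≠ 0 → (ρ g (c • v) = c • v ↔ ρ g v = v) := by
    intro g v c hc
    rw [map_smul]
    exact (smul_right_injective V hc).eq_iff
  have hact : ∀ (g : K) (W : Sylow p K) (v : V), (∀ x, x ∈ W ↔ ρ x v = v) →
      ∀ x, x ∈ g • W ↔ ρ x (ρ g v) = ρ g v := by
    intro g W v hW x
    rw [mem_smul_iff, hW, map_mul, map_mul, map_inv, LinearEquiv.mul_apply, LinearEquiv.mul_apply,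
      ← (ρ g).injective.eq_iff, ← LinearEquiv.mul_apply, mul_inv_cancel]
    rfl
  have heq : ∀ (W W' : Sylow p K) (v v' : V), v ≠ 0 → v' ≠ 0 → Sg v → Sg v' →
      (∀ x, x ∈ W ↔ ρ x v = v) → (∀ x, x ∈ W' ↔ ρ x v' = v') →
      (W = W' ↔ ∃ c : F, v' = c • v) := by
    intro W W' v v' h0 h0' hv hv' hW hW'
    constructor
    · rintro rfl
      obtain ⟨g, hg, e⟩ := hne v h0 hv
      exact hTI v v' h0 h0' hv hv' g hg e ((hW' g).1 ((hW g).2 e))
    · rintro ⟨c, rfl⟩
      have hc : c ≠ 0 := by rintro rfl; simp at h0'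
      ext x
      change x ∈ W ↔ x ∈ W'
      rw [hW, hW', hsm _ _ _ hc]
  have hne0 : ∀ (g : K) (v : V), v ≠ 0 → ρ g v ≠ 0 := fun g v hv => by simpa using hv
  obtain ⟨U, hU⟩ := hS' u hu0 hu
  obtain ⟨W0, hW0⟩ := hS' w hw0 hw
  have hstab : ∀ (g : K) (W : Sylow p K) (v : V), v ≠ 0 → Sg v → (∀ x, x ∈ W ↔ ρ x v = v) →
      (g • W = W ↔ ∃ c : F, ρ g v = c • v) := by
    intro g W v h0 hv hW
    rw [eq_comm]
    exact heq W (g • W) v (ρ g v) h0 (hne0 g v h0) hv (hSg g v hv) hW (hact g W v hW)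
  -- the character of the normaliser
  let N : Subgroup K := MulAction.stabilizer K U
  have hN : ∀ g : N, ∃ c : Fˣ, ρ g u = (c : F) • u := by
    intro g
    obtain ⟨c, hc⟩ := (hstab g U u hu0 hu hU).1 g.2
    have hc0 : c ≠ 0 := by
      rintro rfl
      exact hne0 g u hu0 (by simpa using hc)
    exact ⟨Units.mk0 c hc0, hc⟩
  choose χ hχ using hN
  have hinj : ∀ c d : Fˣ, (c : F) • u = (d : F) • u → c = d := fun c d e =>
    Units.ext (smul_left_injective F hu0 e)
  let χ' : N →* Fˣ := MonoidHom.mk' χ fun x y => hinj _ _ (by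
    rw [← hχ, Subgroup.coe_mul, map_mul, LinearEquiv.mul_apply, hχ, map_smul, hχ, smul_smul,
      Units.val_mul, mul_comm])
  obtain ⟨⟨_, t, rfl⟩, ht⟩ := IsCyclic.exists_generator (α := χ'.range)
  refine ⟨U, W0, h, t, ?_, ?_, ?_, hh, ?_, ?_, ?_, t.2, ?_⟩
  · intro e
    obtain ⟨c, hc⟩ := (heq U W0 u w hu0 hw0 hu hw hU hW0).1 e.symm
    exact hnl c hc
  · intro x hx hx'
    by_contra h1
    obtain ⟨c, hc⟩ := hTI u w hu0 hw0 hu hw x h1 ((hU x).1 hx) ((hW0 x).1 hx')
    exact hnl c hc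
  · exact (hstab h U u hu0 hu hU).2 ⟨a, hhu⟩
  · exact (hstab h W0 w hw0 hw hW0).2 ⟨b, hhw⟩
  · intro W hWU hW
    obtain ⟨v, h0, hv, hWv⟩ := hS W
    obtain ⟨c, hc⟩ := (hstab h W v h0 hv hWv).1 hW
    rcases heig v h0 hv c hc with h1 | h1
    · exact absurd ((heq U W u v hu0 h0 hu hv hU hWv).2 h1).symm hWU
    · exact ((heq W0 W w v hw0 h0 hw hv hW0 hWv).2 h1).symm
  · intro W hWU
    obtain ⟨v, h0, hv, hWv⟩ := hS W
    obtain ⟨g, hg, d, hd⟩ := htr v h0 hv fun c hc =>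
      hWU ((heq U W u v hu0 h0 hu hv hU hWv).2 ⟨c, hc⟩).symm
    exact ⟨g, (hU g).2 hg, ((heq W (g • W0) v (ρ g w) h0 (hne0 g w hw0) hv (hSg g w hw) hWv
      (hact g W0 w hW0)).2 ⟨d, hd⟩).symm⟩
  · intro g hg
    obtain ⟨n, hn⟩ := ht ⟨χ' ⟨g, hg⟩, ⟨g, hg⟩, rfl⟩
    refine ⟨n, (hU _).2 ?_⟩
    have h1 : χ' ((t ^ n)⁻¹ * ⟨g, hg⟩) = 1 := by
      have := congrArg Subtype.val hn
      simp only [SubgroupClass.coe_zpow] at this
      rw [map_mul, map_inv, map_zpow, this, inv_mul_cancel]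
    have h2 := hχ ((t ^ n)⁻¹ * ⟨g, hg⟩)
    rw [show χ ((t ^ n)⁻¹ * ⟨g, hg⟩) = 1 from h1] at h2
    simpa using h2

theorem exists_lam (F : Type*) [Field F] [CharP F p] (hp5 : 5 ≤ p) :
    ∃ l : Fˣ, l ^ (p - 1) = 1 ∧ (l : F) ^ p = l ∧ (l : F) ≠ 1 ∧ (l : F) * l ≠ 1 := by
  have h2 : (2 : F) ≠ 0 := by
    intro h
    have := (CharP.cast_eq_zero_iff F p 2).1 (by exact_mod_cast h)
    have := Nat.le_of_dvd (by norm_num) this
    omega
  have h3 : (3 : F) ≠ 0 := by
    intro h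
    have := (CharP.cast_eq_zero_iff F p 3).1 (by exact_mod_cast h)
    have := Nat.le_of_dvd (by norm_num) this
    omega
  have h4 : (2 : F) ^ p = 2 := by
    have := add_pow_char (1 : F) 1 p
    rw [one_pow, one_add_one_eq_two] at this
    exact this
  refine ⟨Units.mk0 2 h2, ?_, h4, ?_, ?_⟩
  · apply Units.ext
    rw [Units.val_pow_eq_pow_val, Units.val_mk0, Units.val_one]
    apply mul_right_cancel₀ h2
    rw [← pow_succ, Nat.sub_add_cancel hp.out.one_le, h4, one_mul]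
  · rw [Units.val_mk0]
    intro h
    exact one_ne_zero (α := F) (by linear_combination h)
  · rw [Units.val_mk0]
    intro h
    exact h3 (by linear_combination h)

theorem r1_SL2 (F : Type*) [Field F] [Finite F] [CharP F p] (hp5 : 5 ≤ p) : R1 p SL(2, F) := by
  obtain ⟨l, hl, -, -, hl2⟩ := exists_lam F hp5
  let ρ : SL(2, F) →* ((Fin 2 → F) ≃ₗ[F] (Fin 2 → F)) := Matrix.SpecialLinearGroup.toLin'
  have hρ : ∀ g v, ρ g v = g • v := fun g v => rfl
  let D : Fˣ →* SL(2, F) := MonoidHom.mk'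
    (fun c => ⟨!![(c : F), 0; 0, ((c⁻¹ : Fˣ) : F)], by simp [Matrix.det_fin_two_of]⟩) fun c d => by
      apply Subtype.ext
      change !![((c * d : Fˣ) : F), 0; 0, (((c * d)⁻¹ : Fˣ) : F)] =
        !![(c : F), 0; 0, ((c⁻¹ : Fˣ) : F)] * !![(d : F), 0; 0, ((d⁻¹ : Fˣ) : F)]
      ext i j
      fin_cases i <;> fin_cases j <;> simp [Matrix.mul_apply, Fin.sum_univ_two, mul_comm]
  have hD : ∀ v : Fin 2 → F, D l • v = ![(l : F) * v 0, ((l⁻¹ : Fˣ) : F) * v 1] := by
    intro v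
    change Matrix.mulVec !![(l : F), 0; 0, ((l⁻¹ : Fˣ) : F)] v = _
    ext i
    fin_cases i <;> simp [Matrix.mulVec, dotProduct, Fin.sum_univ_two]
  refine r1_of_lin ρ (fun _ => True) ?_ ?_ (fun _ _ _ => trivial) ?_ ?_ (u := ![1, 0])
    (w := ![0, 1]) (by simp) trivial (by simp) trivial ?_ (h := D l) ?_ (a := l)
    (b := ((l⁻¹ : Fˣ) : F)) ?_ ?_ ?_ ?_
  · intro W
    obtain ⟨v, hv, e⟩ := CL.SL2.sylow_eq_stabilizer p W
    refine ⟨v, hv, trivial, fun g => ?_⟩
    change g ∈ (W : Subgroup SL(2, F)) ↔ _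
    rw [e]; rfl
  · intro v hv _
    exact ⟨CL.SL2.sylowOfVec p v hv, fun g => Iff.rfl⟩
  · intro v w hv hw _ _ g hg h1 h2
    by_contra hc
    apply hg
    apply Subtype.ext
    refine CL.SL2.eq_one_of_fix_two (v := v) (w := w) (fun h0 => hc ?_) h1 h2
    obtain ⟨a, ha⟩ := CL.SL2.exists_smul_of_det_eq_zero hv h0
    exact ⟨a, ha.symm⟩
  · intro v hv _
    refine ⟨CL.SL2.unip v 1, fun h => hv ?_, CL.SL2.unip_mem_stabilizer v 1⟩
    have h1 := congrArg Subtype.val h
    change (CL.SL2.unip v 1 : Matrix (Fin 2) (Fin 2) F) = 1 at h1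
    rw [CL.SL2.coe_unip] at h1
    have h2 := congrFun (congrFun h1 0) 1
    have h3 := congrFun (congrFun h1 1) 0
    simp at h2 h3
    ext i
    fin_cases i <;> simp [h2, h3]
  · intro c hc
    have := congrFun hc 1
    simp at this
  · rw [← map_pow, hl, map_one]
  · rw [hρ, hD]; ext i; fin_cases i <;> simp
  · rw [hρ, hD]; ext i; fin_cases i <;> simp
  · intro v hv _ c hc
    rw [hρ, hD] at hc
    have h0 := congrFun hc 0
    have h1 := congrFun hc 1
    simp only [Matrix.cons_val_zero, Pi.smul_apply, smul_eq_mul, Matrix.cons_val_one] at h0 h1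
    by_cases hv1 : v 1 = 0
    · left
      refine ⟨v 0, ?_⟩
      ext i; fin_cases i <;> simp [hv1]
    · right
      refine ⟨v 1, ?_⟩
      have hv0 : v 0 = 0 := by
        by_contra hv0
        apply hl2
        have e1 : (l : F) = c := mul_right_cancel₀ hv0 h0
        have e2 : ((l⁻¹ : Fˣ) : F) = c := mul_right_cancel₀ hv1 h1
        rw [← e1] at e2
        nth_rewrite 1 [← e2]
        simp
      ext i; fin_cases i <;> simp [hv0]
  · intro v hv _ hvu
    have hv1 : v 1 ≠ 0 := by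
      intro h
      apply hvu (v 0)
      ext i; fin_cases i <;> simp [h]
    refine ⟨CL.SL2.unip ![1, 0] (v 0 / v 1), CL.SL2.unip_mem_stabilizer _ _, (v 1)⁻¹, ?_⟩
    rw [hρ, CL.SL2.unip_smul]
    ext i
    fin_cases i <;> simp [hv1, div_eq_mul_inv, mul_comm]

open CL.Uni CL.U3 CL.Witt in
theorem r1_SU3 (F : Type*) [Field F] [Fintype F] [CharP F p] {q a : ℕ} (hq : q = p ^ a)
    (hF : Fintype.card F = q ^ 2) (hp5 : 5 ≤ p) : R1 p (Cfsg.SU 3 F q) := by
  classical
  obtain ⟨l, hl, hlp, hl1, hl2⟩ := exists_lam F hp5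
  have hlq : l ^ q = l := by
    apply Units.ext
    rw [Units.val_pow_eq_pow_val, hq]
    clear hq
    induction a with
    | zero => simp
    | succ n ih => rw [pow_succ, pow_mul, ih, hlp]
  set f := std hF (Fin 3) with hfdef
  have hf : f.Nondeg := std_nondeg hF _
  have h3 : Module.finrank F (Fin 3 → F) = 3 := by simp
  let e := suEquiv hF 3
  let ρ : Cfsg.SU 3 F q →* ((Fin 3 → F) ≃ₗ[F] (Fin 3 → F)) := f.SO.subtype.comp e.toMonoidHom
  have hρ : ∀ g, ρ g = (e g).1 := fun g => rfl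
  have hUG : ∀ u, u ≠ 0 → f.q u = 0 → ∀ g, g ∈ UG e u ↔ ρ g u = u := by
    intro u h0 hu g
    rw [mem_UG]
    exact ⟨apply_eq_of_mem_U, mem_U_of_apply_eq hf h3 hu h0 (e g).2⟩
  obtain ⟨P⟩ : Nonempty (Sylow p (Cfsg.SU 3 F q)) := inferInstance
  obtain ⟨u, hu0, hu, -⟩ := exists_UG_eq_sylow e hf h3 P
  obtain ⟨w, z, hw, huw, huz, hwz, hz⟩ := exists_triple hf h3.ge hu hu0
  obtain ⟨τ, hτ⟩ := exists_torus_hom h3 hu hw huw huz hwz hz
  obtain ⟨b, hb0, hb1, hb2⟩ := exists_basis_triple h3 hu hw huw huz hwz hz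
  have huu := f.B_self_eq_zero hu
  have hww := f.B_self_eq_zero hw
  have hwu : f.B w u = 1 := by rw [f.symm, huw, HT_ε, map_one, one_mul]
  have hzu : f.B z u = 0 := f.B_eq_zero_symm huz
  have hzw : f.B z w = 0 := f.B_eq_zero_symm hwz
  have hzz : f.B z z = 1 := by rw [← f.herm_q, hz]
  have hw0 : w ≠ 0 := by
    rintro rfl
    rw [f.B_zero_right] at huw
    exact zero_ne_one huw
  obtain ⟨t1, t2, t3, t4⟩ := hτ l
  rw [hlq] at t3 t4
  rw [mul_inv_cancel, Units.val_one, one_smul] at t4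
  refine r1_of_lin ρ (fun v => f.q v = 0) ?_ ?_ ?_ ?_ ?_ hu0 hu hw0 hw ?_
    (h := e.symm ⟨τ l, t1⟩) ?_ (a := l) (b := ((l⁻¹ : Fˣ) : F)) ?_ ?_ ?_ ?_
  · intro W
    obtain ⟨v, h0, hv, hW⟩ := exists_UG_eq_sylow e hf h3 W
    refine ⟨v, h0, hv, fun g => ?_⟩
    change g ∈ (W : Subgroup _) ↔ _
    rw [hW, hUG v h0 hv]
  · intro v h0 hv
    obtain ⟨W, hW⟩ := exists_sylow_eq_UG e hf h3 p hv h0
    refine ⟨W, fun g => ?_⟩
    change g ∈ (W : Subgroup _) ↔ _
    rw [hW, hUG v h0 hv]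
  · intro g v hv
    rw [hρ, Form.mem_O_q (f.SO_le_O (e g).2), hv]
  · intro v v' h0 h0' hv hv' g hg h1 h2
    obtain ⟨c, -, hc⟩ := U_eq_of_mem hf h3.le hv h0 hv' h0' (g := (e g).1) (fun h => hg (by
      apply e.injective
      rw [map_one]
      exact Subtype.ext h)) ((mem_UG e).1 ((hUG v h0 hv g).2 h1))
      ((mem_UG e).1 ((hUG v' h0' hv' g).2 h2))
    exact ⟨c, hc⟩
  · intro v h0 hv
    obtain ⟨φ⟩ := nonempty_equiv_UG e hf h3 hv h0
    obtain ⟨x, hx⟩ := S.exists_a hF 1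
    refine ⟨φ x, fun h => ?_, (hUG v h0 hv _).1 (φ x).2⟩
    have : x = 1 := by
      apply φ.injective
      rw [map_one]
      exact Subtype.ext h
    rw [this, S.one_a] at hx
    exact zero_ne_one hx
  · intro c hc
    rw [hc, f.B_smul_right, huu, mul_zero] at huw
    exact zero_ne_one huw
  · apply e.injective
    rw [map_pow, map_one, MulEquiv.apply_symm_apply]
    apply Subtype.ext
    rw [SubgroupClass.coe_pow]
    change τ l ^ (p - 1) = 1
    rw [← map_pow, hl, map_one]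
  · rw [hρ, MulEquiv.apply_symm_apply]; exact t2
  · rw [hρ, MulEquiv.apply_symm_apply]; exact t3
  · intro v h0 hv c hc
    rw [hρ, MulEquiv.apply_symm_apply] at hc
    change τ l v = c • v at hc
    obtain ⟨α, β, γ, rfl⟩ : ∃ α β γ : F, v = α • u + β • w + γ • z :=
      ⟨b.repr v 0, b.repr v 1, b.repr v 2, by
        have := (b.sum_repr v).symm
        rwa [Fin.sum_univ_three, hb0, hb1, hb2] at this⟩
    rw [map_add, map_add, map_smul, map_smul, map_smul, t2, t3, t4] at hc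
    have e1 := congrArg (f.B w) hc
    have e2 := congrArg (f.B u) hc
    have e3 := congrArg (f.B z) hc
    simp only [f.B_add_right, f.B_smul_right, huu, hww, huw, hwu, hzu, hzw, hzz, huz, hwz,
      mul_zero, mul_one, add_zero, zero_add] at e1 e2 e3
    have hli : ((l⁻¹ : Fˣ) : F) * l = 1 := by simp
    by_cases hα : α = 0
    · by_cases hβ : β = 0
      · exfalso
        rw [hα, hβ, zero_smul, zero_smul, zero_add, zero_add] at h0 hv
        rw [f.q_smul, hz, mul_one, mul_eq_zero, FormType.σ_eq_zero, or_self] at hv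
        exact h0 (by rw [hv, zero_smul])
      · right
        have hc1 : ((l⁻¹ : Fˣ) : F) = c := mul_left_cancel₀ hβ (by linear_combination e2)
        have hγ : γ = 0 := by
          by_contra hγ
          have : c = 1 := mul_right_cancel₀ hγ (by linear_combination -e3)
          apply hl1
          rw [hc1, this, one_mul] at hli
          exact hli
        exact ⟨β, by rw [hα, hγ, zero_smul, zero_smul, zero_add, add_zero]⟩
    · left
      have hc1 : (l : F) = c := mul_left_cancel₀ hα (by linear_combination e1)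
      have hβ : β = 0 := by
        by_contra hβ
        have hc2 : ((l⁻¹ : Fˣ) : F) = c := mul_left_cancel₀ hβ (by linear_combination e2)
        apply hl2
        rw [hc2, ← hc1] at hli
        exact hli
      have hγ : γ = 0 := by
        by_contra hγ
        have : c = 1 := mul_right_cancel₀ hγ (by linear_combination -e3)
        exact hl1 (hc1.trans this)
      exact ⟨α, by rw [hβ, hγ, zero_smul, zero_smul, add_zero, add_zero]⟩
  · intro v h0 hv hvu
    have hB : f.B u v ≠ 0 := by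
      intro h
      obtain ⟨c, hc⟩ := exists_smul_of_singular hf h3.le hu hu0 hv h
      exact hvu c hc
    obtain ⟨x, y, h1, h2, h4⟩ := f.exists_eich_apply_eq (p := u) (w := w)
      (w' := (f.B u v)⁻¹ • v) (by rw [huw]; exact one_ne_zero)
      (by rw [f.B_smul_right, inv_mul_cancel₀ hB, huw]) (by rw [f.q_smul_eq_zero hv, hw])
    have hE : f.EichOK u x y := ⟨hu, h1, h2⟩
    have hSO : f.ei u x y ∈ f.SO := f.ei_mem_SO u x y
    refine ⟨e.symm ⟨_, hSO⟩, ?_, (f.B u v)⁻¹, ?_⟩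
    · rw [hρ, MulEquiv.apply_symm_apply]; exact hE.ei_apply_u
    · rw [hρ, MulEquiv.apply_symm_apply, ← h4]; exact hE.ei_apply' w

section Main

variable {X : Type*} [Group X] [Finite X] {K : Subgroup X} [K.Normal]

theorem mem_cn_iff (g : X) (W : Sylow p K) (x : K) :
    x ∈ (MulAut.conjNormal g : MulAut K) • W ↔ (MulAut.conjNormal g⁻¹ : MulAut K) x ∈ W := by
  change x ∈ (((MulAut.conjNormal g : MulAut K) • W : Sylow p K) : Subgroup K) ↔ _
  rw [Sylow.pointwise_smul_def, Subgroup.mem_pointwise_smul_iff_inv_smul_mem, map_inv]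
  rfl

theorem cn_coe (k : K) (W : Sylow p K) :
    (MulAut.conjNormal (k : X) : MulAut K) • W = k • W := by
  rw [MulAut.conjNormal_val, Sylow.smul_def]

theorem exists_inf (K : Subgroup X) [K.Normal] (T : Sylow p X) :
    ∃ U : Sylow p K, ∀ x : K, x ∈ U ↔ (x : X) ∈ T := by
  obtain ⟨P⟩ : Nonempty (Sylow p K) := inferInstance
  obtain ⟨Q, hQ⟩ := P.exists_comap_subtype_eq
  obtain ⟨g, rfl⟩ := MulAction.exists_smul_eq X Q T
  refine ⟨(MulAut.conjNormal g : MulAut K) • P, fun x => ?_⟩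
  rw [mem_cn_iff, mem_smul_iff]
  change _ ∈ (P : Subgroup K) ↔ _
  rw [← hQ, mem_comap]
  simp only [coe_subtype, MulAut.conjNormal_apply, inv_inv]
  rfl

theorem norm_h {T : Sylow p X} {U : Sylow p K} (hU : ∀ x : K, x ∈ U ↔ (x : X) ∈ T) {h t : K}
    (h3 : h • U = U) (h4 : h ^ (p - 1) = 1) (h8 : t • U = U)
    (h9 : ∀ g : K, g • U = U → ∃ n : ℤ, (t ^ n)⁻¹ * g ∈ U) :
    (h : X) ∈ normalizer ((T : Subgroup X) : Set X) := by
  classical
  have hT : ∀ s ∈ T, (MulAut.conjNormal s : MulAut K) • U = U := by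
    intro s hs
    ext x
    change x ∈ (MulAut.conjNormal s : MulAut K) • U ↔ x ∈ U
    rw [mem_cn_iff, hU, hU, MulAut.conjNormal_apply, inv_inv]
    change _ ∈ (T : Subgroup X) ↔ _ ∈ (T : Subgroup X)
    have hs' : s ∈ (T : Subgroup X) := hs
    rw [mul_mem_cancel_right hs', mul_mem_cancel_left (inv_mem hs')]
  let N : Subgroup K := normalizer ((U : Subgroup K) : Set K)
  have hN : ∀ g : K, g ∈ N ↔ g • U = U := fun g => Sylow.smul_eq_iff_mem_normalizer.symm
  let U' : Subgroup N := (U : Subgroup K).subgroupOf N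
  have : U'.Normal := normal_in_normalizer
  have : IsCyclic (N ⧸ U') := by
    refine ⟨((⟨t, (hN t).2 h8⟩ : N) : N ⧸ U'), fun y => ?_⟩
    obtain ⟨g, rfl⟩ := QuotientGroup.mk_surjective y
    obtain ⟨n, hn⟩ := h9 g ((hN g).1 g.2)
    refine ⟨n, ?_⟩
    change ((⟨t, (hN t).2 h8⟩ : N) : N ⧸ U') ^ n = _
    rw [← QuotientGroup.mk_zpow, QuotientGroup.eq]
    exact hn
  have := Fintype.ofFinite (N ⧸ U')
  have hcard := IsCyclic.card_pow_eq_one_le (α := N ⧸ U') (n := p - 1)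
    (Nat.sub_pos_of_lt hp.out.one_lt)
  have hmem : ∀ s ∈ T, (MulAut.conjNormal s : MulAut K) h ∈ N := by
    intro s hs
    rw [hN, ← cn_coe, MulAut.conjNormal_apply, map_mul, map_mul, mul_smul, mul_smul,
      hT _ (inv_mem hs), cn_coe, h3, hT s hs]
  -- the elements of `T` fixing the coset of `h`
  let R : Subgroup X :=
    { carrier := {s | s ∈ T ∧ (h : X)⁻¹ * s * h ∈ T}
      mul_mem' := fun {a b} ha hb => ⟨mul_mem ha.1 hb.1, by
        have := mul_mem ha.2 hb.2
        simpa [mul_assoc] using this⟩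
      one_mem' := ⟨one_mem _, by simp⟩
      inv_mem' := fun {a} ha => ⟨inv_mem ha.1, by
        have := inv_mem ha.2
        simpa [mul_assoc] using this⟩ }
  have hR : ∀ s ∈ T, s ∈ R := by
    intro s hs
    let F : Fin p → N ⧸ U' := fun i =>
      ((⟨(MulAut.conjNormal (s ^ (i : ℕ)) : MulAut K) h, hmem _ (pow_mem hs _)⟩ : N) : N ⧸ U')
    have hF : ∀ i ∈ (Finset.univ : Finset (Fin p)),
        F i ∈ (Finset.univ.filter fun a : N ⧸ U' => a ^ (p - 1) = 1) := by
      intro i _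
      simp only [Finset.mem_filter, Finset.mem_univ, true_and, F]
      rw [← QuotientGroup.mk_pow, ← QuotientGroup.mk_one]
      congr 1
      apply Subtype.ext
      change ((MulAut.conjNormal (s ^ (i : ℕ)) : MulAut K) h) ^ (p - 1) = 1
      rw [← map_pow, h4, map_one]
    have key : ∀ i j : Fin p, i < j → F i = F j → s ∈ R := by
      intro i j hij e
      have e1 : ((MulAut.conjNormal (s ^ (i : ℕ)) : MulAut K) h)⁻¹ *
          (MulAut.conjNormal (s ^ (j : ℕ)) : MulAut K) h ∈ U :=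
        (QuotientGroup.eq (s := U')).1 e
      rw [hU] at e1
      simp only [coe_mul, InvMemClass.coe_inv, MulAut.conjNormal_apply] at e1
      obtain ⟨d, hd⟩ := Nat.exists_eq_add_of_lt (show (i : ℕ) < j from hij)
      have e2 : s ^ (d + 1) ∈ R := by
        refine ⟨pow_mem hs _, ?_⟩
        have e3 := mul_mem (mul_mem (inv_mem (pow_mem hs (i : ℕ))) e1) (pow_mem hs (j : ℕ))
        rw [hd, add_assoc, pow_add] at e3
        simpa [mul_assoc] using e3
      obtain ⟨k, hk⟩ := T.isPGroup' ⟨s, hs⟩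
      have hk' : s ^ p ^ k = 1 := congrArg Subtype.val hk
      have hco : (d + 1).gcd (orderOf s) = 1 := by
        refine Nat.Coprime.coprime_dvd_right (orderOf_dvd_of_pow_eq_one hk') ?_
        refine Nat.Coprime.pow_right _ ((Nat.coprime_comm).1 ((Nat.Prime.coprime_iff_not_dvd
          hp.out).2 (Nat.not_dvd_of_pos_of_lt (by omega) ?_)))
        have := j.2
        omega
      exact (zpowers_le.2 e2) (mem_zpowers_pow_iff.2 hco)
    obtain ⟨i, -, j, -, hij, e⟩ := Finset.exists_ne_map_eq_of_card_lt_of_maps_to (by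
      rw [Finset.card_univ, Fintype.card_fin]
      exact lt_of_le_of_lt hcard (Nat.sub_lt hp.out.pos one_pos)) hF
    rcases lt_or_gt_of_ne hij with h1 | h1
    · exact key i j h1 e
    · exact key j i h1 e.symm
  rw [← inv_mem_iff]
  refine mem_normalizer_fintype fun s hs => ?_
  rw [inv_inv]
  exact (hR s hs).2

/-- An element of a Sylow subgroup centralising the normaliser of that Sylow subgroup is
central. -/
theorem central (hR : R1 p K) (T : Sylow p X)
    (hmin : ∀ A B : Subgroup X, (T : Subgroup X) ≤ A → (T : Subgroup X) ≤ B → A ⊔ B = ⊤ →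
      A = ⊤ ∨ B = ⊤)
    {z : X} (hz : z ∈ T)
    (hc : ∀ g ∈ normalizer ((T : Subgroup X) : Set X), g * z = z * g) : z ∈ center X := by
  obtain ⟨U, hU⟩ := exists_inf K T
  obtain ⟨V, h, t, h1, h2, h3, h4, h5, h6, h7, h8, h9⟩ := hR.all U
  have hh := hc _ (norm_h hU h3 h4 h8 h9)
  let φ : X →* MulAut K := MulAut.conjNormal
  have hφ : ∀ (k : K) (W : Sylow p K), φ k • W = k • W := cn_coe
  have hT : ∀ s ∈ T, φ s • U = U := by
    intro s hs
    ext x
    change x ∈ (MulAut.conjNormal s : MulAut K) • U ↔ x ∈ U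
    rw [mem_cn_iff, hU, hU, MulAut.conjNormal_apply, inv_inv]
    change _ ∈ (T : Subgroup X) ↔ _ ∈ (T : Subgroup X)
    have hs' : s ∈ (T : Subgroup X) := hs
    rw [mul_mem_cancel_right hs', mul_mem_cancel_left (inv_mem hs')]
  have hcT : ∀ s ∈ T, s * z = z * s := fun s hs => hc s (le_normalizer hs)
  have hzV : φ z • V = V := by
    refine h6 _ (fun e => h1 ?_) ?_
    · rw [← hT z hz] at e
      exact smul_left_cancel _ e
    · rw [← hφ, ← mul_smul, ← map_mul, hh, map_mul, mul_smul, hφ, h5]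
  have hzW : ∀ W : Sylow p K, φ z • W = W := by
    intro W
    by_cases hW : W = U
    · rw [hW, hT z hz]
    · obtain ⟨u, hu, rfl⟩ := h7 W hW
      rw [← hφ, ← mul_smul, ← map_mul, ← hcT _ ((hU u).1 hu), map_mul, mul_smul, hzV]
  have hcV : ∀ v ∈ V, (v : X) * z = z * v := by
    intro v hv
    have e1 : φ z v ∈ V := by
      rw [← hzV]
      change _ ∈ (MulAut.conjNormal z : MulAut K) • V
      rw [mem_cn_iff, map_inv]
      simpa [φ] using hv
    have e2 : v⁻¹ * φ z v ∈ V := mul_mem (inv_mem hv) e1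
    have e3 : (v⁻¹ * φ z v) • U = U := by
      rw [mul_smul, ← hφ (φ z v), show ((φ z v : K) : X) = z * v * z⁻¹ from rfl, map_mul, map_mul,
        mul_smul, mul_smul, hT _ (inv_mem hz), hzW, hφ, inv_smul_smul]
    have e4 := congrArg Subtype.val (h2 _ (mem_of_smul_eq e2 e3) e2)
    change (v : X)⁻¹ * (z * v * z⁻¹) = 1 at e4
    rw [inv_mul_eq_one, eq_mul_inv_iff_mul_eq] at e4
    exact e4
  obtain ⟨v, hv, hv1⟩ : ∃ v ∈ V, v ≠ 1 := by
    by_contra hn
    push Not at hn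
    apply h1
    exact Sylow.ext (V.is_maximal' U.isPGroup' fun x hx => by
      rw [hn x hx]; exact one_mem _).symm
  have hvU : v • U ≠ U := fun e => hv1 (h2 v (mem_of_smul_eq hv e) hv)
  obtain ⟨u', hu', e'⟩ := h7 _ hvU
  let A : Subgroup X := centralizer {z}
  have hA : ∀ x, x ∈ A ↔ x * z = z * x := fun x => mem_centralizer_singleton_iff
  let B : Subgroup X := (MulAction.stabilizer (MulAut K) U).comap φ
  have hB : ∀ x, x ∈ B ↔ φ x • U = U := fun x => Iff.rfl
  have hAB : A ⊔ B = ⊤ := by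
    rw [eq_top_iff]
    intro g _
    by_cases hg : φ g • U = U
    · exact mem_sup_right ((hB g).2 hg)
    · obtain ⟨u, hu, e⟩ := h7 _ hg
      have c1 : ((u * u'⁻¹ * v : K) : X) ∈ A :=
        mul_mem (mul_mem ((hA _).2 (hcT _ ((hU u).1 hu)))
          (inv_mem ((hA _).2 (hcT _ ((hU u').1 hu'))))) ((hA _).2 (hcV v hv))
      have c2 : ((u * u'⁻¹ * v : K) : X)⁻¹ * g ∈ B := by
        rw [hB, map_mul, mul_smul, ← e, map_inv, inv_smul_eq_iff, hφ, mul_smul, mul_smul, ← e',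
          inv_smul_smul]
      have := mul_mem (mem_sup_left (T := B) c1) (mem_sup_right (S := A) c2)
      rwa [mul_inv_cancel_left] at this
  rcases hmin A B (fun s hs => (hA s).2 (hcT s hs)) (fun s hs => (hB s).2 (hT s hs)) hAB with
    e | e
  · exact mem_center_iff.2 fun g => (hA g).1 (e ▸ mem_top g)
  · exact absurd (hφ v U ▸ (hB v).1 (e ▸ mem_top _)) hvU

end Main

end CL.R1Z
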