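/-
Subgroups of order prime to `p` of `PGL₂(p)` in which several points have large stabilisers.
-/
import Mathlib
import Cfsg.Agent.CLAS.DicksonSub

set_option autoImplicit false

open Matrix
open scoped MatrixGroups LinearAlgebra.Projectivization

namespace CL.RV

open CL.PGL2 CL.Dk

variable {p : ℕ} [hp : Fact p.Prime]

theorem isPoly_of_three (hp3 : p ≠ 2 ∧ p ≠ 3) (H : Subgroup PGL(2, ZMod p))
    (hH : ¬ p ∣ Nat.card H) (x : Fin 3 → P1 (ZMod p)) (hx : Function.Injective x)
    (g : Fin 3 → PGL(2, ZMod p)) (hg : ∀ i, g i ∈ H) (hfix : ∀ i, g i • x i = x i)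
    (h2 : ∀ i, g i ^ 2 ≠ 1) : IsPoly H := by
  have h1 : ∀ i, g i ≠ 1 := fun i h => h2 i (by rw [h, one_pow])
  rcases dickson_sub (algebraMap (ZMod p) (AlgebraicClosure (ZMod p))) p H with
    ⟨y, hy⟩ | ⟨y, y', hyy, -, hy⟩ | h | h | ⟨k, h, hk, hh⟩
  · exfalso
    have key : ∀ i j, i ≠ j → x i ≠ y → x j ≠ y → False := by
      intro i j hij hi hj
      have hyi : g i • y = y := hy (hg i)
      have hyj : g j • y = y := hy (hg j)
      -- the commutator is unipotent
      obtain ⟨u, hu⟩ := exists_smul_inf y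
      have hc : ∀ a ∈ H, (u⁻¹ * a * u) • (inf : P1 (ZMod p)) = inf := fun a ha => by
        have : a • y = y := hy ha
        rw [mul_smul, mul_smul, hu, this, inv_smul_eq_iff, hu]
      obtain ⟨a, b, hab⟩ := exists_aff_of_smul_inf (hc _ (hg i))
      obtain ⟨c, d, hcd⟩ := exists_aff_of_smul_inf (hc _ (hg j))
      set w := g i * g j * (g i)⁻¹ * (g j)⁻¹ with hw
      have hwH : w ∈ H := mul_mem (mul_mem (mul_mem (hg i) (hg j)) (inv_mem (hg i))) (inv_mem (hg j))
      have e : u⁻¹ * w * u = aff a b * aff c d * (aff a b)⁻¹ * (aff c d)⁻¹ := by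
        rw [← hab, ← hcd, hw]; group
      rw [aff_conj, aff_inv, aff_mul, mul_inv_cancel] at e
      have e2 : (u⁻¹ * w * u) ^ p = 1 := by
        rw [e, aff_one_pow, CharP.cast_eq_zero, zero_mul, aff_one_zero]
      have e3 : w ^ p = 1 := by
        have : (u⁻¹ * w * u) ^ p = u⁻¹ * w ^ p * u := by
          simpa using conj_pow (a := u⁻¹) (b := w) (i := p)
        rw [this] at e2
        calc w ^ p = u * (u⁻¹ * w ^ p * u) * u⁻¹ := by group
          _ = 1 := by rw [e2]; group
      have e4 : w = 1 := by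
        by_contra hne
        have := Subgroup.orderOf_dvd_natCard H hwH
        rw [orderOf_eq_prime e3 hne] at this
        exact hH this
      have e5 : g i * g j = g j * g i := by
        calc g i * g j = w * (g j * g i) := by rw [hw]; group
          _ = g j * g i := by rw [e4, one_mul]
      have e6 : g i • (g j • x i) = g j • x i := by rw [← mul_smul, e5, mul_smul, hfix]
      have e7 : g j • x i = x i := by
        by_contra hne
        refine h1 i (eq_one_of_fix_three (a := y) (b := x i) (c := g j • x i) hi.symm ?_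
          (Ne.symm hne) hyi (hfix i) e6)
        intro h
        apply hi
        rw [← hyj] at h
        exact (smul_left_cancel _ h).symm
      exact h1 j (eq_one_of_fix_three hi.symm hj.symm (hx.ne hij) hyj e7 (hfix j))
    by_cases h0 : x 0 = y
    · exact key 1 2 (by decide) (h0 ▸ hx.ne (by decide)) (h0 ▸ hx.ne (by decide))
    by_cases h1' : x 1 = y
    · exact key 0 2 (by decide) h0 (h1' ▸ hx.ne (by decide))
    · exact key 0 1 (by decide) h0 h1'
  · exfalso
    set f := algebraMap (ZMod p) (AlgebraicClosure (ZMod p))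
    have key : ∀ i, mapP f (x i) = y ∨ mapP f (x i) = y' := fun i => by
      by_contra hcon
      push Not at hcon
      have hs : mapG f (g i ^ 2) • y = y ∧ mapG f (g i ^ 2) • y' = y' := by
        rw [pow_two, map_mul, mul_smul, mul_smul]
        rcases hy (hg i) with ⟨h3, h4⟩ | ⟨h3, h4⟩ <;> simp [h3, h4]
      have h5 : mapG f (g i ^ 2) • mapP f (x i) = mapP f (x i) := by
        rw [mapG_smul_mapP, pow_two, mul_smul, hfix, hfix]
      have := eq_one_of_fix_three hyy hcon.1.symm hcon.2.symm hs.1 hs.2 h5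
      exact h2 i (mapG_injective f (by rw [this, map_one]))
    have hinj : Function.Injective fun i => mapP f (x i) := (mapP_injective f).comp hx
    have n01 := hinj.ne (show (0 : Fin 3) ≠ 1 by decide)
    have n02 := hinj.ne (show (0 : Fin 3) ≠ 2 by decide)
    have n12 := hinj.ne (show (1 : Fin 3) ≠ 2 by decide)
    rcases key 0 with a0 | a0 <;> rcases key 1 with a1 | a1 <;> rcases key 2 with a2 | a2 <;>
      simp_all
  · exact h.1
  · exact absurd h.2 hp3.2
  · exfalso
    have hkp : p ∣ Nat.card k := by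
      have := Fintype.ofFinite k
      obtain ⟨n, -, hn⟩ := FiniteField.card k p
      rw [Nat.card_eq_fintype_card, hn]
      exact dvd_pow_self p n.ne_zero
    rcases hh with hh | ⟨-, hh⟩
    · rw [hh, card_cjs, card_pglOf] at hH
      exact hH (hkp.mul_right _)
    · rw [hh, card_cjs] at hH
      have h3 := gcd_mul_card_pslOf k.subtype
      have h4 : p ∣ Nat.gcd 2 (Nat.card k - 1) * Nat.card (pslOf k.subtype) :=
        h3 ▸ hkp.mul_right _
      rcases (Nat.Prime.dvd_mul hp.out).1 h4 with h5 | h5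
      · exact hp3.1 ((Nat.prime_dvd_prime_iff_eq hp.out Nat.prime_two).1
          (h5.trans (Nat.gcd_dvd_left _ _)))
      · exact hH h5

theorem a4_pow : ∀ g : Equiv.Perm (Fin 4), Equiv.Perm.sign g = 1 → g ^ 2 = 1 ∨ g ^ 3 = 1 := by
  decide +kernel

theorem s4_pow : ∀ g : Equiv.Perm (Fin 4), g ^ 4 = 1 ∨ g ^ 3 = 1 := by
  decide +kernel

theorem a5_pow : ∀ g : Equiv.Perm (Fin 5), Equiv.Perm.sign g = 1 →
    g ^ 2 = 1 ∨ g ^ 3 = 1 ∨ g ^ 5 = 1 := by
  decide +kernel

theorem s4_count :
    (Finset.univ.filter fun g : Equiv.Perm (Fin 4) => g ^ 2 ≠ 1 ∧ g ^ 3 ≠ 1).card = 6 := by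
  decide +kernel

theorem poly_pow {H : Type*} [Group H] (h : IsPoly H) (g : H) :
    g ^ 3 = 1 ∨ g ^ 4 = 1 ∨ g ^ 5 = 1 := by
  have h24 : g ^ 2 = 1 → g ^ 4 = 1 := fun h => by
    rw [show 4 = 2 * 2 by rfl, pow_mul, h, one_pow]
  rcases h with ⟨⟨e⟩⟩ | ⟨⟨e⟩⟩ | ⟨⟨e⟩⟩
  · have : ∀ n, ((e g : alternatingGroup (Fin 4)) : Equiv.Perm (Fin 4)) ^ n = 1 → g ^ n = 1 :=
      fun n hn => e.injective (by rw [map_pow, map_one]; exact Subtype.ext hn)
    rcases a4_pow (e g) (e g).2 with h | h
    · exact Or.inr (Or.inl (h24 (this _ h)))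
    · exact Or.inl (this _ h)
  · have : ∀ n, (e g) ^ n = 1 → g ^ n = 1 :=
      fun n hn => e.injective (by rw [map_pow, map_one]; exact hn)
    rcases s4_pow (e g) with h | h
    · exact Or.inr (Or.inl (this _ h))
    · exact Or.inl (this _ h)
  · have : ∀ n, ((e g : alternatingGroup (Fin 5)) : Equiv.Perm (Fin 5)) ^ n = 1 → g ^ n = 1 :=
      fun n hn => e.injective (by rw [map_pow, map_one]; exact Subtype.ext hn)
    rcases a5_pow (e g) (e g).2 with h | h | h
    · exact Or.inr (Or.inl (h24 (this _ h)))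
    · exact Or.inl (this _ h)
    · exact Or.inr (Or.inr (this _ h))

theorem poly_count {H : Type*} [Group H] (h : IsPoly H) (s : Finset H)
    (hs : ∀ g ∈ s, g ^ 2 ≠ 1 ∧ g ^ 3 ≠ 1 ∧ g ^ 5 ≠ 1) : s.card ≤ 6 := by
  rcases h with ⟨⟨e⟩⟩ | ⟨⟨e⟩⟩ | ⟨⟨e⟩⟩
  · rcases s.eq_empty_or_nonempty with rfl | ⟨g, hg⟩
    · simp
    have : ∀ n, ((e g : alternatingGroup (Fin 4)) : Equiv.Perm (Fin 4)) ^ n = 1 → g ^ n = 1 :=
      fun n hn => e.injective (by rw [map_pow, map_one]; exact Subtype.ext hn)
    rcases a4_pow (e g) (e g).2 with h | h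
    · exact absurd (this _ h) (hs g hg).1
    · exact absurd (this _ h) (hs g hg).2.1
  · rw [← s4_count]
    refine Finset.card_le_card_of_injOn e (fun g hg => ?_) e.injective.injOn
    have : ∀ n, (e g) ^ n = 1 → g ^ n = 1 :=
      fun n hn => e.injective (by rw [map_pow, map_one]; exact hn)
    simp only [Finset.coe_filter, Finset.mem_univ, true_and, Set.mem_ofPred_eq]
    exact ⟨fun h => (hs g hg).1 (this _ h), fun h => (hs g hg).2.1 (this _ h)⟩
  · rcases s.eq_empty_or_nonempty with rfl | ⟨g, hg⟩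
    · simp
    have : ∀ n, ((e g : alternatingGroup (Fin 5)) : Equiv.Perm (Fin 5)) ^ n = 1 → g ^ n = 1 :=
      fun n hn => e.injective (by rw [map_pow, map_one]; exact Subtype.ext hn)
    rcases a5_pow (e g) (e g).2 with h | h | h
    · exact absurd (this _ h) (hs g hg).1
    · exact absurd (this _ h) (hs g hg).2.1
    · exact absurd (this _ h) (hs g hg).2.2

/-- A point is good when its stabiliser in `H` has an element of order divisible by
`(p - 1) / gcd (3, p - 1)`. -/
def Good (H : Subgroup PGL(2, ZMod p)) (x : P1 (ZMod p)) : Prop :=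
  ∃ g ∈ H, g • x = x ∧ ∀ k : ℕ, g ^ k = 1 → (p - 1) ∣ 3 * k

theorem le_thirteen (H : Subgroup PGL(2, ZMod p)) (hH : ¬ p ∣ Nat.card H)
    (x : Fin 3 → P1 (ZMod p)) (hx : Function.Injective x) (hg : ∀ i, Good H (x i)) : p ≤ 13 := by
  by_contra hlt
  have h17 : 17 ≤ p := by
    have := hp.out
    by_contra h
    have h1 : p < 17 := by omega
    have h2 : 13 < p := by omega
    interval_cases p <;> revert this <;> decide
  choose g hgH hfix hk using hg
  have key : ∀ i k, 0 < k → k ≤ 5 → g i ^ k ≠ 1 := fun i k h0 h5 h => by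
    have := Nat.le_of_dvd (by omega) (hk i k h)
    omega
  have hpoly := isPoly_of_three ⟨by omega, by omega⟩ H hH x hx g hgH hfix
    fun i => key i 2 (by omega) (by omega)
  rcases poly_pow hpoly ⟨g 0, hgH 0⟩ with h | h | h
  · exact key 0 3 (by omega) (by omega) (congrArg Subtype.val h)
  · exact key 0 4 (by omega) (by omega) (congrArg Subtype.val h)
  · exact key 0 5 (by omega) (by omega) (congrArg Subtype.val h)

theorem le_seven (H : Subgroup PGL(2, ZMod p)) (hH : ¬ p ∣ Nat.card H)
    (hg : ∀ x, Good H x) : p ≤ 7 := by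
  classical
  by_contra hlt
  let x : Fin 3 → P1 (ZMod p) := ![inf, pt 0, pt 1]
  have hx : Function.Injective x := by
    intro i j h
    fin_cases i <;> fin_cases j <;>
      simp_all [x, inf_ne_pt, pt_ne_inf, pt_inj]
  have h13 := le_thirteen H hH x hx fun i => hg _
  have hp' : p = 11 ∨ p = 13 := by
    have := hp.out
    have h2 : 7 < p := by omega
    interval_cases p <;> revert this <;> decide
  choose g hgH hfix hk using hg
  have key : ∀ y k, k = 2 ∨ k = 3 ∨ k = 5 ∨ (k = 4 ∧ p = 11) → g y ^ k ≠ 1 := fun y k h0 h => by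
    have := hk y k h
    rcases hp' with h' | h' <;> rw [h'] at this <;> omega
  have hpoly := isPoly_of_three ⟨by omega, by omega⟩ H hH x hx (fun i => g (x i)) (fun i => hgH _)
    (fun i => hfix _) fun i => key _ 2 (by omega)
  rcases hp' with h11 | h13'
  · rcases poly_pow hpoly ⟨g inf, hgH _⟩ with h | h | h
    · exact key _ 3 (by omega) (congrArg Subtype.val h)
    · exact key _ 4 (by omega) (congrArg Subtype.val h)
    · exact key _ 5 (by omega) (congrArg Subtype.val h)
  · let s : Finset (P1 (ZMod p)) := Finset.univ.image (pt : ZMod p → P1 (ZMod p))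
    have hs : s.card = p := by
      rw [Finset.card_image_of_injective _ pt_injective, Finset.card_univ, ZMod.card]
    let f : P1 (ZMod p) → H := fun y => ⟨g y, hgH y⟩
    have h1 : s.card ≤ 2 * (s.image f).card := Finset.card_le_mul_card_image s 2 fun a _ => by
      by_contra hc
      obtain ⟨u, v, w, hu, hv, hw, huv, huw, hvw⟩ := Finset.two_lt_card_iff.1 (not_le.1 hc)
      have e : ∀ t ∈ s.filter (fun t => f t = a), (a : PGL(2, ZMod p)) • t = t := fun t ht => by
        rw [← (Finset.mem_filter.1 ht).2]; exact hfix t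
      have := eq_one_of_fix_three huv huw hvw (e u hu) (e v hv) (e w hw)
      apply key u 2 (by omega)
      have e2 : g u = a := congrArg Subtype.val (Finset.mem_filter.1 hu).2
      rw [e2, this, one_pow]
    have h2 := poly_count hpoly (s.image f) fun a ha => by
      obtain ⟨y, -, rfl⟩ := Finset.mem_image.1 ha
      exact ⟨fun h => key y 2 (by omega) (congrArg Subtype.val h),
        fun h => key y 3 (by omega) (congrArg Subtype.val h),
        fun h => key y 5 (by omega) (congrArg Subtype.val h)⟩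
    omega

end CL.RV
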