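/-
Fusion in an extraspecial Sylow `p`-subgroup of order `p ^ 3` and exponent `p`.
-/
import Mathlib
import Cfsg.Agent.TECH.RVPgl
import Cfsg.Agent.TECH.MiscSyl
import Cfsg.Agent.PLOC.ESAut
import Cfsg.Agent.SOLV.Basic

set_option autoImplicit false
set_option linter.unusedSectionVars false

open Matrix
open scoped MatrixGroups LinearAlgebra.Projectivization commutatorElement

namespace CL.RV

open CL.PGL2 CL.ES CL.Misc Subgroup

variable {p : ℕ} [hp : Fact p.Prime] {G : Type*} [Group G]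

/-- Coordinates on `⟨z, a⟩`. -/
def E (z a : G) (v : ZMod p × ZMod p) : G := zpw z v.1 * zpw a v.2

theorem commute_zpw {z a : G} (hc : Commute z a) (i j : ZMod p) : Commute (zpw z i) (zpw a j) :=
  hc.pow_pow _ _

theorem E_add {z a : G} (hz : orderOf z = p) (ha : orderOf a = p) (hc : Commute z a)
    (v w : ZMod p × ZMod p) : E z a (v + w) = E z a v * E z a w := by
  simp only [E, Prod.fst_add, Prod.snd_add, zpw_add hz, zpw_add ha]
  rw [mul_assoc, mul_assoc, ← mul_assoc (zpw z w.1), (commute_zpw hc w.1 v.2).eq, mul_assoc]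

theorem E_zero (z a : G) : E z a (0 : ZMod p × ZMod p) = 1 := by simp [E, zpw_zero]

/-- `E` as a homomorphism. -/
def Eh {z a : G} (hz : orderOf z = p) (ha : orderOf a = p) (hc : Commute z a) :
    Multiplicative (ZMod p × ZMod p) →* G where
  toFun v := E z a v.toAdd
  map_one' := E_zero z a
  map_mul' _ _ := E_add hz ha hc _ _

theorem zpw_E {z a : G} (hz : orderOf z = p) (ha : orderOf a = p) (hc : Commute z a)
    (v : ZMod p × ZMod p) (i : ZMod p) : zpw (E z a v) i = E z a (i • v) := by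
  have h := map_pow (Eh hz ha hc) (Multiplicative.ofAdd v) i.val
  change E z a (i.val • v) = E z a v ^ i.val at h
  rw [zpw, ← h, ← Nat.cast_smul_eq_nsmul (ZMod p), ZMod.natCast_zmod_val]

theorem E_left {z a : G} (hz : orderOf z = p) : E z a ((1, 0) : ZMod p × ZMod p) = z := by
  simp [E, zpw_one hz, zpw_zero]

theorem E_right {z a : G} (ha : orderOf a = p) : E z a ((0, 1) : ZMod p × ZMod p) = a := by
  simp [E, zpw_one ha, zpw_zero]

theorem conj_zpw (g x : G) (i : ZMod p) : g * zpw x i * g⁻¹ = zpw (g * x * g⁻¹) i := by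
  simp [zpw, conj_pow]

/-- The map `f` on coordinates is induced by conjugation. -/
def Ind (z a : G) (g : G) (f : ZMod p × ZMod p → ZMod p × ZMod p) : Prop :=
  ∀ v, g * E z a v * g⁻¹ = E z a (f v)

theorem Ind.comp {z a g g' : G} {f f' : ZMod p × ZMod p → ZMod p × ZMod p} (h : Ind z a g f)
    (h' : Ind z a g' f') : Ind z a (g * g') (f ∘ f') := fun v => by
  rw [Function.comp_apply, ← h, ← h']; group

theorem Ind.inv {z a g : G} {f f' : ZMod p × ZMod p → ZMod p × ZMod p} (h : Ind z a g f)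
    (hf : ∀ v, f (f' v) = v) : Ind z a g⁻¹ f' := fun v => by
  conv_lhs => rw [← hf v, ← h]
  group

theorem ind_of {z a g : G} (hz : orderOf z = p) (ha : orderOf a = p) (hc : Commute z a)
    {w₁ w₂ : ZMod p × ZMod p} (h1 : g * z * g⁻¹ = E z a w₁) (h2 : g * a * g⁻¹ = E z a w₂) :
    Ind z a g fun v : ZMod p × ZMod p => v.1 • w₁ + v.2 • w₂ := fun v => by
  rw [E_add hz ha hc, ← zpw_E hz ha hc, ← zpw_E hz ha hc, ← h1, ← h2, ← conj_zpw, ← conj_zpw, E]
  group

/-- upper transvection -/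
def up (t : ZMod p) (v : ZMod p × ZMod p) : ZMod p × ZMod p := (v.1 + t * v.2, v.2)

/-- lower transvection -/
def lo (t : ZMod p) (v : ZMod p × ZMod p) : ZMod p × ZMod p := (v.1, v.2 + t * v.1)

theorem exists_ind_diag {z a : G} (hu : ∀ t : ZMod p, ∃ g, Ind z a g (up t))
    (hl : ∀ t : ZMod p, ∃ g, Ind z a g (lo t)) {l : ZMod p} (hl0 : l ≠ 0) :
    ∃ g, Ind z a g fun v => (l * v.1, l⁻¹ * v.2) := by
  obtain ⟨g1, h1⟩ := hu l
  obtain ⟨g2, h2⟩ := hl (-l⁻¹)
  obtain ⟨g3, h3⟩ := hu (-1 : ZMod p)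
  obtain ⟨g4, h4⟩ := hl (1 : ZMod p)
  refine ⟨_, fun v => ((((((h1.comp h2).comp h1).comp h3).comp h4).comp h3) v).trans ?_⟩
  congr 1
  ext
  · simp only [Function.comp, up, lo]; field_simp; ring
  · simp only [Function.comp, up, lo]; field_simp; ring

section Sylow

variable [Finite G] {P : Subgroup G} {z : P}

theorem exists_comm_eq (h : ZData p P z) (hc : center P = zpowers z) {a : P}
    (ha : a ∉ zpowers z) (t : ZMod p) : ∃ y : P, y * a * y⁻¹ = zpw z t * a := by
  have h1 : ¬ ∀ v, h.B (h.pr a) v = 0 := fun h1 => ha (hc ▸ h.mem_center_iff_B.2 h1)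
  push Not at h1
  obtain ⟨v, hv⟩ := h1
  have hv' : h.B v (h.pr a) ≠ 0 := fun h2 => hv (h.B_isAlt.isRefl _ _ h2)
  obtain ⟨y, hy⟩ := h.pr_surjective ((t / h.B v (h.pr a)) • v)
  refine ⟨y, ?_⟩
  have h2 := h.zpw_B y a
  rw [hy, map_smul, LinearMap.smul_apply, smul_eq_mul, div_mul_cancel₀ _ hv'] at h2
  rw [h2, commutatorElement_def]; group

theorem coe_zpw (x : P) (i : ZMod p) : ((zpw x i : P) : G) = zpw (x : G) i :=
  map_zpw P.subtype i

theorem commute_coe (h : ZData p P z) (a : P) : Commute (z : G) (a : G) :=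
  congrArg Subtype.val (mem_center_iff.1 h.central a).symm

theorem ind_up_of_mem (h : ZData p P z) {a : P} (ha : orderOf a = p) (y : P) :
    ∃ t : ZMod p, Ind (z : G) (a : G) y (up t) := by
  have hz : orderOf (z : G) = p := by rw [orderOf_coe, h.order]
  have ha' : orderOf (a : G) = p := by rw [orderOf_coe, ha]
  obtain ⟨t, ht⟩ := exists_zpw_eq h.order (h.comm_mem y a)
  refine ⟨t, fun v => ?_⟩
  have := ind_of (g := (y : G)) hz ha' (commute_coe h a) (w₁ := (1, 0)) (w₂ := (t, 1)) (by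
    rw [E_left hz, ← (commute_coe h y).eq]; group) (by
    rw [E, zpw_one ha', ← coe_zpw, ht, commutatorElement_def]
    simp) v
  rw [this]
  congr 1
  ext <;> simp [up, mul_comm]

theorem exists_ind_up (h : ZData p P z) (hc : center P = zpowers z) {a : P} (ha : orderOf a = p)
    (haz : a ∉ zpowers z) (t : ZMod p) : ∃ g : G, Ind (z : G) (a : G) g (up t) := by
  have hz : orderOf (z : G) = p := by rw [orderOf_coe, h.order]
  have ha' : orderOf (a : G) = p := by rw [orderOf_coe, ha]
  obtain ⟨y, hy⟩ := exists_comm_eq h hc haz t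
  refine ⟨y, fun v => ?_⟩
  have := ind_of (g := (y : G)) hz ha' (commute_coe h a) (w₁ := (1, 0)) (w₂ := (t, 1)) (by
    rw [E_left hz, ← (commute_coe h y).eq]; group) (by
    rw [E, zpw_one ha', ← coe_zpw]
    exact congrArg Subtype.val hy) v
  rw [this]
  congr 1
  ext <;> simp [up, mul_comm]

theorem exists_normalizer (hP : SylIn p P ⊤) (h : ZData p P z) (hc : center P = zpowers z) {a : P}
    (ha : orderOf a = p) (haz : a ∉ zpowers z)
    (hl : ∀ t : ZMod p, ∃ g : G, Ind (z : G) (a : G) g (lo t)) {l : ZMod p} (hl0 : l ≠ 0) :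
    ∃ n ∈ normalizer (P : Set G), n * z * n⁻¹ = zpw (z : G) l ∧
      ∃ c : ZMod p, n * a * n⁻¹ = zpw (z : G) c * zpw (a : G) l⁻¹ := by
  have hz : orderOf (z : G) = p := by rw [orderOf_coe, h.order]
  have ha' : orderOf (a : G) = p := by rw [orderOf_coe, ha]
  obtain ⟨g, hg⟩ := exists_ind_diag (exists_ind_up h hc ha haz) hl hl0
  let D : Subgroup G :=
    { carrier := {x | ∃ t : ZMod p, Ind (z : G) (a : G) x (up t)}
      one_mem' := ⟨0, fun v => by simp [up]⟩
      mul_mem' := by
        rintro x y ⟨s, hs⟩ ⟨t, ht⟩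
        refine ⟨s + t, fun v => (hs.comp ht v).trans ?_⟩
        congr 1
        ext
        · simp only [Function.comp, up]; ring
        · rfl
      inv_mem' := by
        rintro x ⟨s, hs⟩
        exact ⟨-s, hs.inv fun v => by ext <;> simp [up]⟩ }
  have hPD : P ≤ D := fun y hy => ind_up_of_mem h ha ⟨y, hy⟩
  have hgi : Ind (z : G) (a : G) g⁻¹ fun v => (l⁻¹ * v.1, l * v.2) :=
    hg.inv fun v => by ext <;> simp [hl0]
  have hgD : g ∈ normalizer (D : Set G) := by
    refine mem_normalizer_fintype fun x hx => ?_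
    obtain ⟨t, ht⟩ := hx
    refine ⟨l ^ 2 * t, fun v => ((hg.comp ht).comp hgi v).trans ?_⟩
    congr 1
    ext
    · simp only [Function.comp, up]; field_simp
    · simp only [Function.comp, up]; field_simp
  obtain ⟨k, ⟨t, ht⟩, hk⟩ := (hP.mono hPD le_top).frattini hgD
  have h1 := ht.comp hg
  refine ⟨k * g, hk, ?_, t * l⁻¹, ?_⟩
  · have := h1 (1, 0)
    rw [E_left hz] at this
    rw [this]
    simp [E, up, zpw_zero]
  · have := h1 (0, 1)
    rw [E_right ha'] at this
    rw [this]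
    simp [E, up]

/-- coordinates of `P / Z(P)` -/
noncomputable def piHom {V : Type*} [AddCommGroup V] [Module (ZMod p) V]
    (b : Module.Basis (Fin 2) (ZMod p) V) : (V ≃ₗ[ZMod p] V) →* PGL(2, ZMod p) where
  toFun σ := ofMat (LinearMap.toMatrix b b (σ : V →ₗ[ZMod p] V))
    (LinearEquiv.isUnit_det σ b b).ne_zero
  map_one' := by
    have : LinearMap.toMatrix b b ((1 : V ≃ₗ[ZMod p] V) : V →ₗ[ZMod p] V) = 1 :=
      LinearMap.toMatrix_id b
    simp only [this]
    exact ofMat_one _
  map_mul' σ τ := by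
    rw [ofMat_mul]
    congr 1
    exact LinearMap.toMatrix_mul b _ _

/-- the point defined by a nonzero vector -/
noncomputable def ptV {V : Type*} [AddCommGroup V] [Module (ZMod p) V]
    (b : Module.Basis (Fin 2) (ZMod p) V) (v : V) (hv : v ≠ 0) : P1 (ZMod p) :=
  Projectivization.mk (ZMod p) (b.repr v : Fin 2 → ZMod p) (fun h => hv (b.repr.injective (by
    rw [map_zero]; exact Finsupp.ext fun i => congrFun h i)))

theorem ptV_eq_iff {V : Type*} [AddCommGroup V] [Module (ZMod p) V]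
    (b : Module.Basis (Fin 2) (ZMod p) V) {v w : V} (hv : v ≠ 0) (hw : w ≠ 0) :
    ptV b v hv = ptV b w hw ↔ ∃ c : ZMod p, c • w = v := by
  rw [ptV, ptV, Projectivization.mk_eq_mk_iff']
  refine exists_congr fun c => ⟨fun h => b.repr.injective ?_, fun h => ?_⟩
  · rw [map_smul]; exact Finsupp.ext fun i => congrFun h i
  · rw [← h, map_smul]; rfl

theorem exists_ptV {V : Type*} [AddCommGroup V] [Module (ZMod p) V]
    (b : Module.Basis (Fin 2) (ZMod p) V) (x : P1 (ZMod p)) : ∃ v hv, ptV b v hv = x := by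
  induction x using Projectivization.ind with
  | h w hw =>
    have e : (b.repr (b.equivFun.symm w) : Fin 2 → ZMod p) = w := by
      rw [← b.equivFun_apply, LinearEquiv.apply_symm_apply]
    refine ⟨b.equivFun.symm w, fun h => hw (b.equivFun.symm.injective (by rw [h, map_zero])), ?_⟩
    simp only [ptV, e]

theorem piHom_smul {V : Type*} [AddCommGroup V] [Module (ZMod p) V]
    (b : Module.Basis (Fin 2) (ZMod p) V) (σ : V ≃ₗ[ZMod p] V) {v : V} (hv : v ≠ 0) :
    piHom b σ • ptV b v hv = ptV b (σ v) (by simpa using hv) := by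
  simp only [piHom, ptV, MonoidHom.coe_mk, OneHom.coe_mk, ofMat_smul_mk]
  congr 1
  exact LinearMap.toMatrix_mulVec_repr b b _ v

theorem piHom_eq_one {V : Type*} [AddCommGroup V] [Module (ZMod p) V]
    (b : Module.Basis (Fin 2) (ZMod p) V) {σ : V ≃ₗ[ZMod p] V} (h : piHom b σ = 1) :
    ∃ c : ZMod p, ∀ v, σ v = c • v := by
  have h1 : ofMat 1 (by simp) = piHom b σ := by rw [h, ofMat_one]
  obtain ⟨c, hc⟩ := (ofMat_eq_iff _ _).1 h1
  refine ⟨c, fun v => ?_⟩
  have : (σ : V →ₗ[ZMod p] V) = c • LinearMap.id := (LinearMap.toMatrix b b).injective (by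
    rw [← hc, map_smul, LinearMap.toMatrix_id])
  exact LinearMap.congr_fun this v

/-- The image of `N(P)` in `PGL₂(p)`. -/
noncomputable def rho (h : ZData p P z) (hc : center P = zpowers z)
    (b : Module.Basis (Fin 2) (ZMod p) h.V) : normalizer (P : Set G) →* PGL(2, ZMod p) :=
  (piHom b).comp ((h.autHom hc).comp P.normalizerMonoidHom)

theorem not_dvd_card_rho (hP : SylIn p P ⊤) (h : ZData p P z) (hc : center P = zpowers z)
    (b : Module.Basis (Fin 2) (ZMod p) h.V) : ¬ p ∣ Nat.card (rho h hc b).range := by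
  rw [← index_ker]
  intro hd
  have hle : P.subgroupOf (normalizer (P : Set G)) ≤ (rho h hc b).ker := fun x hx => by
    have : P.normalizerMonoidHom x = MulAut.conj (⟨x, hx⟩ : P) := by
      ext y; rfl
    rw [MonoidHom.mem_ker, rho, MonoidHom.comp_apply, MonoidHom.comp_apply, this, h.autHom_conj hc,
      map_one]
  exact (hP.mono le_normalizer le_top).not_dvd (hd.trans (index_dvd_of_le hle))

theorem good (hP : SylIn p P ⊤) (h : ZData p P z) (hc : center P = zpowers z)
    (b : Module.Basis (Fin 2) (ZMod p) h.V) {a : P} (ha : orderOf a = p) (haz : a ∉ zpowers z)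
    (hl : ∀ t : ZMod p, ∃ g : G, Ind (z : G) (a : G) g (lo t)) :
    Good (rho h hc b).range (ptV b (h.pr a) (mt h.pr_eq_zero_iff.1 haz)) := by
  obtain ⟨l, hlg⟩ := IsCyclic.exists_ofOrder_eq_natCard (α := (ZMod p)ˣ)
  rw [Nat.card_eq_fintype_card, ZMod.card_units] at hlg
  obtain ⟨n, hn, h1, c, h2⟩ := exists_normalizer hP h hc ha haz hl l.ne_zero
  set φ : MulAut P := P.normalizerMonoidHom ⟨n, hn⟩ with hφ
  have hφz : φ z = zpw z (l : ZMod p) := Subtype.ext (by rw [coe_zpw]; exact h1)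
  have hφa : φ a = zpw z c * zpw a (l : ZMod p)⁻¹ :=
    Subtype.ext (by rw [coe_mul, coe_zpw, coe_zpw]; exact h2)
  set σ := h.autHom hc φ with hσ
  have hσa : σ (h.pr a) = (l : ZMod p)⁻¹ • h.pr a := by
    rw [hσ, h.autHom_pr, hφa, h.pr_mul, h.pr_eq_zero_iff.2 (zpw_mem c), zero_add, zpw,
      h.pr_zpw_val]
  have hB : ∀ v w, h.B (σ v) (σ w) = l * h.B v w := fun v w => by
    obtain ⟨x, rfl⟩ := h.pr_surjective v
    obtain ⟨y, rfl⟩ := h.pr_surjective w
    rw [hσ, h.autHom_pr, h.autHom_pr, h.B_pr, ← map_commutatorElement, ← h.zpw_B]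
    generalize h.B (h.pr x) (h.pr y) = s
    rw [zpw, map_pow, hφz, lg_pow h.order (zpw_mem _), lg_zpw h.order, ZMod.natCast_zmod_val,
      mul_comm]
  refine ⟨rho h hc b ⟨n, hn⟩, ⟨_, rfl⟩, ?_, fun k hk => ?_⟩
  · change piHom b σ • _ = _
    rw [piHom_smul, ptV_eq_iff]
    exact ⟨_, hσa.symm⟩
  · change piHom b σ ^ k = 1 at hk
    rw [← map_pow] at hk
    obtain ⟨d, hd⟩ := piHom_eq_one b hk
    have e1 : ∀ k : ℕ, (σ ^ k) (h.pr a) = ((l : ZMod p)⁻¹) ^ k • h.pr a := fun k => by
      induction k with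
      | zero => rw [pow_zero, pow_zero, one_smul]; rfl
      | succ k ih => rw [pow_succ', LinearEquiv.mul_apply, ih, map_smul, hσa, smul_smul, pow_succ]
    have e2 : ∀ k : ℕ, ∀ v w, h.B ((σ ^ k) v) ((σ ^ k) w) = (l : ZMod p) ^ k * h.B v w := fun k => by
      induction k with
      | zero => intro v w; rw [pow_zero, pow_zero, one_mul]; rfl
      | succ k ih =>
        intro v w
        rw [pow_succ', LinearEquiv.mul_apply, LinearEquiv.mul_apply, hB, ih, pow_succ', mul_assoc]
    have h3 : ¬ ∀ v, h.B (h.pr a) v = 0 := fun h1 => haz (hc ▸ h.mem_center_iff_B.2 h1)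
    push Not at h3
    obtain ⟨v, hv⟩ := h3
    have e3 : d = ((l : ZMod p)⁻¹) ^ k :=
      smul_left_injective _ (mt h.pr_eq_zero_iff.1 haz) ((hd _).symm.trans (e1 k))
    have e4 := e2 k (h.pr a) v
    rw [hd, hd, map_smul, map_smul, LinearMap.smul_apply, smul_eq_mul, smul_eq_mul, ← mul_assoc] at e4
    have e5 := mul_right_cancel₀ hv e4
    rw [← hlg, orderOf_dvd_iff_pow_eq_one]
    apply Units.ext
    have hl0 := l.ne_zero
    rw [e3] at e5
    push_cast
    calc (l : ZMod p) ^ (3 * k) = (l : ZMod p) ^ k * (l : ZMod p) ^ k * (l : ZMod p) ^ k := by ring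
      _ = 1 := by
        nth_rw 3 [← e5]
        rw [inv_pow]
        field_simp

theorem E_injective (h : ZData p P z) {a : P} (ha : orderOf a = p) (haz : a ∉ zpowers z) :
    Function.Injective (Eh h.order ha (mem_center_iff.1 h.central a).symm) := by
  rw [injective_iff_map_eq_one]
  intro v hv
  change zpw z v.toAdd.1 * zpw a v.toAdd.2 = 1 at hv
  have h1 := congrArg h.pr hv
  rw [h.pr_mul, h.pr_eq_zero_iff.2 (zpw_mem _), zero_add, zpw, h.pr_zpw_val, h.pr_one,
    smul_eq_zero, or_iff_left (mt h.pr_eq_zero_iff.1 haz)] at h1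
  rw [h1, zpw_zero, mul_one] at hv
  have h2 : v.toAdd.1 = 0 := zpw_injective h.order (hv.trans zpw_zero.symm)
  exact Multiplicative.toAdd.injective (Prod.ext h2 h1)

theorem coe_E (a : P) (v : ZMod p × ZMod p) : ((E z a v : P) : G) = E (z : G) (a : G) v := by
  rw [E, E, coe_mul, coe_zpw, coe_zpw]

/-- the lower transvection as an automorphism -/
def loAut (t : ZMod p) : MulAut (Multiplicative (ZMod p × ZMod p)) where
  toFun v := Multiplicative.ofAdd (lo t v.toAdd)
  invFun v := Multiplicative.ofAdd (lo (-t) v.toAdd)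
  left_inv v := by simp [lo]
  right_inv v := by simp [lo]
  map_mul' v w := by
    apply Multiplicative.toAdd.injective
    ext
    · simp [lo]
    · simp only [lo, toAdd_mul, toAdd_ofAdd, Prod.snd_add, Prod.fst_add]; ring

theorem loAut_pow (t : ZMod p) (n : ℕ) : loAut t ^ n = loAut ((n : ZMod p) * t) := by
  induction n with
  | zero => ext v <;> simp [loAut, lo]
  | succ n ih =>
    rw [pow_succ, ih]
    ext v
    · simp [loAut, lo]
    · simp only [loAut, lo, MulAut.mul_apply, MulEquiv.coe_mk, Equiv.coe_fn_mk, toAdd_ofAdd]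
      push_cast; ring

theorem exists_of_card (h : ZData p P z) (hc : center P = zpowers z) (hcard : Nat.card P = p ^ 3)
    (hexp : ∀ x : P, x ^ p = 1) {A : Subgroup G} (hAP : A ≤ P) (hA : Nat.card A = p ^ 2)
    (hSL : ∀ φ : MulAut A, orderOf φ = p → ∃ g : G, ∀ a : A, (φ a : G) = g * (a : G) * g⁻¹) :
    ∃ a : P, orderOf a = p ∧ a ∉ zpowers z ∧ (∀ x : G, x ∈ A ↔ ∃ v : ZMod p × ZMod p,
      E (z : G) (a : G) v = x) ∧ ∀ t : ZMod p, ∃ g : G, Ind (z : G) (a : G) g (lo t) := by
  have hp1 := hp.out.one_lt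
  set A' := A.subgroupOf P with hA'
  have hA'c : Nat.card A' = p ^ 2 := by
    rw [← hA]; exact Nat.card_congr (subgroupOfEquivOfLe hAP).toEquiv
  have hzA : z ∈ A' := by
    by_contra hzA
    have h1 : A' ⊓ zpowers z = ⊥ := by
      have := (A'.subgroupOf (zpowers z)).eq_bot_or_eq_top_of_prime_card
        (hp := ⟨h.card_zpowers.symm ▸ hp.out⟩)
      rcases this with h2 | h2
      · rwa [subgroupOf_eq_bot, disjoint_iff] at h2
      · exact absurd (subgroupOf_eq_top.1 h2 (mem_zpowers z)) hzA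
    have := h.normal
    have h2 : A' ⊔ zpowers z = ⊤ := by
      apply eq_top_of_le_card
      have h3 := CL.card_sup_mul_card_inf A' (zpowers z)
      rw [h1, card_bot, mul_one, hA'c, h.card_zpowers] at h3
      rw [h3, hcard]
      exact le_of_eq (by ring)
    have : IsMulCommutative A' := IsPGroup.isMulCommutative_of_card_eq_prime_sq hA'c
    have h4 : A' ≤ center P := fun x hx => mem_center_iff.2 fun y => by
      have hy : y ∈ A' ⊔ zpowers z := h2 ▸ mem_top y
      obtain ⟨u, hu, w, hw, rfl⟩ := mem_sup_of_normal_right.1 hy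
      rw [mul_assoc, ← mem_center_iff.1 (h.le_center hw) x, ← mul_assoc, setLike_mul_comm hu hx,
        mul_assoc]
    have h5 := card_le_of_le h4
    rw [hc, h.card_zpowers, hA'c] at h5
    nlinarith
  obtain ⟨a, haA, haz⟩ : ∃ a ∈ A', a ∉ zpowers z := by
    by_contra hcon
    push Not at hcon
    have h5 := card_le_of_le (show A' ≤ zpowers z from hcon)
    rw [h.card_zpowers, hA'c] at h5
    nlinarith
  have ha : orderOf a = p := orderOf_eq_prime (hexp a) fun h1 => haz (h1 ▸ one_mem _)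
  let f := Eh h.order ha (mem_center_iff.1 h.central a).symm
  have hfA : ∀ v, ((f v : P) : G) ∈ A := fun v =>
    show f v ∈ A' from mul_mem (pow_mem hzA _) (pow_mem haA _)
  let f' : Multiplicative (ZMod p × ZMod p) →* A := (P.subtype.comp f).codRestrict A hfA
  have hf' : Function.Bijective f' := by
    rw [Nat.bijective_iff_injective_and_card]
    refine ⟨fun v w hvw => E_injective h ha haz (Subtype.ext (congrArg (fun x : A => (x : G)) hvw)), ?_⟩
    rw [hA, Nat.card_eq_fintype_card]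
    simp [pow_two]
  let e := MulEquiv.ofBijective f' hf'
  have he : ∀ v, (e v : G) = E (z : G) (a : G) v.toAdd := fun v => coe_E a _
  refine ⟨a, ha, haz, fun x => ⟨fun hx => ?_, ?_⟩, fun t => ?_⟩
  · obtain ⟨v, hv⟩ := e.surjective ⟨x, hx⟩
    exact ⟨v.toAdd, by rw [← he, hv]⟩
  · rintro ⟨v, rfl⟩
    exact he (Multiplicative.ofAdd v) ▸ (e _).2
  · by_cases h1 : MulAut.congr e (loAut t) = 1
    · refine ⟨1, fun v => ?_⟩
      have h2 : loAut t = 1 := (MulAut.congr e).injective (h1.trans (map_one _).symm)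
      have h3 := congrArg (fun φ : MulAut (Multiplicative (ZMod p × ZMod p)) =>
        (φ (Multiplicative.ofAdd v)).toAdd) h2
      change lo t v = v at h3
      rw [h3]; simp
    · obtain ⟨g, hg⟩ := hSL _ (orderOf_eq_prime (by
        have h3 := loAut_pow t 0
        rw [pow_zero, Nat.cast_zero, zero_mul] at h3
        rw [← map_pow, loAut_pow, CharP.cast_eq_zero, zero_mul, ← h3, map_one]) h1)
      refine ⟨g, fun v => ?_⟩
      have h2 := hg (e (Multiplicative.ofAdd v))
      rw [he] at h2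
      rw [toAdd_ofAdd] at h2
      rw [← h2]
      simp only [MulAut.congr_apply, MulEquiv.trans_apply, MulEquiv.symm_apply_apply]
      rw [he]; rfl

theorem exists_lo_of_conj (hP : SylIn p P ⊤) (h : ZData p P z) (hc : center P = zpowers z) {a : P}
    (ha : orderOf a = p) (haz : a ∉ zpowers z) {g : G} (hg : g * a * g⁻¹ = z) (t : ZMod p) :
    ∃ g : G, Ind (z : G) (a : G) g (lo t) := by
  have hz : orderOf (z : G) = p := by rw [orderOf_coe, h.order]
  have ha' : orderOf (a : G) = p := by rw [orderOf_coe, ha]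
  have hPC : P ≤ centralizer {(z : G)} := fun x hx =>
    mem_centralizer_singleton_iff.2 (commute_coe h ⟨x, hx⟩).symm
  obtain ⟨c, hc1, hc2⟩ := (hP.mono hPC le_top).exists_conj_le
    (Q := zpowers (g * z * g⁻¹)) (isPGroup_zpowers_of_orderOf (n := 1) (by
      rw [pow_one, ← hz]; exact (MulAut.conj g).orderOf_eq _)) (by
      rw [zpowers_le, mem_centralizer_singleton_iff]
      calc g * z * g⁻¹ * z = g * z * g⁻¹ * (g * a * g⁻¹) := by rw [hg]
        _ = g * (z * a) * g⁻¹ := by group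
        _ = (g * a * g⁻¹) * (g * z * g⁻¹) := by rw [(commute_coe h a).eq]; group
        _ = _ := by rw [hg])
  have hcz : c * z * c⁻¹ = z := by rw [mem_centralizer_singleton_iff.1 hc1]; group
  set b : P := ⟨_, hc2 _ (mem_zpowers _)⟩ with hb
  have e1 : (c * g) * a * (c * g)⁻¹ = z := by rw [← hcz, ← hg]; group
  have e2 : (c * g) * z * (c * g)⁻¹ = b := by rw [hb]; group
  have hbz : b ∉ zpowers z := fun hbz => by
    obtain ⟨i, hi⟩ := exists_zpw_eq h.order hbz
    have h1 : z = zpw a i := by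
      apply Subtype.ext
      apply (MulAut.conj (c * g)).injective
      rw [MulAut.conj_apply, MulAut.conj_apply, e2, coe_zpw, conj_zpw, e1, ← coe_zpw, hi]
    have h2 := congrArg h.pr h1
    rw [h.pr_eq_zero_iff.2 (mem_zpowers z), zpw, h.pr_zpw_val, eq_comm, smul_eq_zero,
      or_iff_left (mt h.pr_eq_zero_iff.1 haz)] at h2
    rw [h2, zpw_zero] at h1
    have := h.order
    rw [h1, orderOf_one] at this
    exact hp.out.one_lt.ne this
  obtain ⟨y, hy⟩ := exists_comm_eq h hc hbz t
  have hy' : (y : G) * b * (y : G)⁻¹ = zpw (z : G) t * b := by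
    rw [← coe_zpw]; exact congrArg Subtype.val hy
  refine ⟨(c * g)⁻¹ * y * (c * g), fun v => ?_⟩
  have := ind_of (g := (c * g)⁻¹ * y * (c * g)) hz ha' (commute_coe h a) (w₁ := (1, t))
    (w₂ := (0, 1)) (by
      rw [E, (commute_zpw (commute_coe h a) _ _).eq, zpw_one hz]
      calc (c * g)⁻¹ * y * (c * g) * z * ((c * g)⁻¹ * y * (c * g))⁻¹
          = (c * g)⁻¹ * (y * ((c * g) * z * (c * g)⁻¹) * (y : G)⁻¹) * (c * g) := by group
        _ = (c * g)⁻¹ * (zpw ((c * g) * a * (c * g)⁻¹) t * ((c * g) * z * (c * g)⁻¹)) * (c * g) := by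
          rw [e1, e2, hy']
        _ = _ := by rw [← conj_zpw]; group) (by
      rw [E_right ha']
      calc (c * g)⁻¹ * y * (c * g) * a * ((c * g)⁻¹ * y * (c * g))⁻¹
          = (c * g)⁻¹ * (y * ((c * g) * a * (c * g)⁻¹) * (y : G)⁻¹) * (c * g) := by group
        _ = a := by rw [e1, ← (commute_coe h y).eq, ← e1]; group) v
  rw [this]
  congr 1
  ext <;> simp [lo, mul_comm, add_comm]

end Sylow

end CL.RV
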