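import Cfsg.Agent.TECH.PGVRing

/-!
The `P(G,V)`-theorem: a best offender normalizes every component acting nontrivially.
-/

set_option autoImplicit false

namespace CL.PGV

open Cfsg Subgroup
open scoped commutatorElement

universe u v

section Min

variable {G V : Type*} [Group G] [AddCommGroup V] {p : ℕ} [hp : Fact p.Prime] [Module (ZMod p) V]

/-- The situation of a minimal counterexample. -/
structure Min (r : G →* Module.End (ZMod p) V) (K A : Subgroup G) : Prop where
  comp : IsComponent K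
  elem : IsElementaryAbelian p A
  nt : ¬ ∀ k ∈ K, r k = 1
  sub : ∀ W : Submodule (ZMod p) V, (∀ k ∈ K, ∀ w ∈ W, r k w ∈ W) →
    (∀ a ∈ A, ∀ w ∈ W, r a w ∈ W) → W ≠ ⊤ → ∀ k ∈ K, ∀ w ∈ W, r k w = w

theorem card_ker_mul_range [Finite V] (f : Module.End (ZMod p) V) :
    Nat.card (LinearMap.ker f) * Nat.card (LinearMap.range f) = Nat.card V := by
  rw [Submodule.card_eq_card_quotient_mul_card (LinearMap.ker f),
    Nat.card_congr f.quotKerEquivRange.toEquiv]

theorem card_dualAnnihilator [Finite V] (W : Submodule (ZMod p) V) :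
    Nat.card W * Nat.card W.dualAnnihilator = Nat.card V := by
  rw [Submodule.card_eq_card_quotient_mul_card W,
    ← Nat.card_congr (W.dualQuotEquivDualAnnihilator).toEquiv,
    Module.natCard_eq_pow_finrank (K := ZMod p) (V := Module.Dual (ZMod p) (V ⧸ W)),
    Module.natCard_eq_pow_finrank (K := ZMod p) (V := V ⧸ W), Subspace.dual_finrank_eq]

namespace Min

variable {r : G →* Module.End (ZMod p) V} {K A : Subgroup G} (h : Min r K A)
include h

theorem comm {a b : G} (ha : a ∈ A) (hb : b ∈ A) : a * b = b * a :=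
  congrArg Subtype.val (h.elem.1.is_comm.comm (⟨a, ha⟩ : A) ⟨b, hb⟩)

theorem perf : ⁅K, K⁆ = K := h.comp.commutator_self

theorem nontrivial : Nontrivial (Module.End (ZMod p) V) := by
  by_contra hn
  rw [not_nontrivial_iff_subsingleton] at hn
  exact h.nt fun k _ => Subsingleton.elim _ _

theorem charP : CharP (Module.End (ZMod p) V) p :=
  have := h.nontrivial
  charP_of_injective_algebraMap (algebraMap (ZMod p) _).injective p

theorem zero_or_bij [Finite V] {φ : Module.End (ZMod p) V} (hK : ∀ k ∈ K, Commute φ (r k))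
    (hA : ∀ a ∈ A, Commute φ (r a)) : φ = 0 ∨ Function.Bijective φ := by
  by_cases hs : Function.Surjective φ
  · exact Or.inr ⟨Finite.injective_iff_surjective.2 hs, hs⟩
  left
  have r1 : ∀ g, Commute φ (r g) → ∀ w ∈ LinearMap.range φ, r g w ∈ LinearMap.range φ := by
    rintro g hg _ ⟨w, rfl⟩
    exact ⟨r g w, by rw [← Module.End.mul_apply, hg.eq]; rfl⟩
  have r2 : ∀ g, Commute φ (r g) → ∀ w ∈ LinearMap.ker φ, r g w ∈ LinearMap.ker φ := by
    intro g hg w hw
    rw [LinearMap.mem_ker] at *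
    rw [← Module.End.mul_apply, hg.eq, Module.End.mul_apply, hw, map_zero]
  have a1 := h.sub _ (fun k hk => r1 k (hK k hk)) (fun a ha => r1 a (hA a ha))
    (fun e => hs (LinearMap.range_eq_top.1 e))
  by_contra h0
  have a2 := h.sub _ (fun k hk => r2 k (hK k hk)) (fun a ha => r2 a (hA a ha))
    (fun e => h0 (LinearMap.ker_eq_top.1 e))
  refine h.nt (triv_of_quad h.perf fun z hz k hk => ?_)
  ext v
  have : (r k - 1) v ∈ LinearMap.ker φ := by
    rw [LinearMap.mem_ker, LinearMap.sub_apply, map_sub, ← Module.End.mul_apply, (hK k hk).eq,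
      Module.End.mul_apply, a1 k hk _ ⟨v, rfl⟩]; simp
  rw [Module.End.mul_apply, LinearMap.sub_apply (r z), a2 z hz _ this]; simp

theorem eq_one_of_centralizer [Finite V] {b : G} (hb : b ∈ A)
    (hc : b ∈ centralizer (K : Set G)) : r b = 1 := by
  rcases h.zero_or_bij (φ := r b - 1)
    (fun k hk => (((show Commute k b from mem_centralizer_iff.1 hc k hk).symm.map r)).sub_left
      (Commute.one_left _))
    (fun a ha => ((show Commute b a from h.comm hb ha).map r).sub_left (Commute.one_left _))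
    with e | e
  · exact sub_eq_zero.1 e
  · exfalso
    obtain ⟨n, hn⟩ := isNilpotent_sub_one (r := r) (h.elem.2 b hb)
    have := h.nontrivial
    have hu : IsUnit (r b - 1) := (Module.End.isUnit_iff _).2 e
    exact (hu.pow n).ne_zero hn

theorem ne_one {a : G} (ha : a ∉ normalizer (K : Set G)) : r a ≠ 1 := by
  intro e
  refine h.nt (triv_of_commute h.perf fun z hz k hk => ?_)
  have := ((commute_conj_of_not_mem h.comp ha hz hk).map r).eq
  have e' : r a⁻¹ = 1 := by rw [← one_mul (r a⁻¹), ← e, mul_inv_self, e]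
  rwa [map_mul r (a * k), map_mul r a, e, e', one_mul, mul_one] at this

theorem tw {a : G} (haA : a ∈ A) (ha : a ∉ normalizer (K : Set G)) : Tw p K a :=
  tw_of_component hp.out h.comp (h.elem.2 a haA) ha

theorem card_le_of_index [Finite G] (h2 : ∀ a ∈ A, a ∉ normalizer (K : Set G) →
    ∀ b ∈ A, b ∉ normalizer (K : Set G) → a * b ∈ normalizer (K : Set G)) :
    Nat.card A ≤ 2 * Nat.card (A ⊓ normalizer (K : Set G) : Subgroup G) := by
  classical
  by_cases hA : A ≤ normalizer (K : Set G)
  · rw [inf_eq_left.2 hA]; omega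
  obtain ⟨a, ha, ha'⟩ := SetLike.not_le_iff_exists.1 hA
  let f : A → Bool × (A ⊓ normalizer (K : Set G) : Subgroup G) := fun b =>
    if hb : (b : G) ∈ normalizer (K : Set G) then (true, ⟨b, b.2, hb⟩)
    else (false, ⟨a * b, mul_mem ha b.2, h2 a ha ha' b b.2 hb⟩)
  have hf : Function.Injective f := by
    intro b c hbc
    by_cases hb : (b : G) ∈ normalizer (K : Set G) <;>
      by_cases hc : (c : G) ∈ normalizer (K : Set G) <;>
      simp only [f, hb, hc, dif_pos, dif_neg, not_false_eq_true, Prod.mk.injEq, true_and] at hbc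
    · exact Subtype.ext (congrArg Subtype.val hbc :)
    · simp at hbc
    · simp at hbc
    · exact Subtype.ext (mul_left_cancel (congrArg Subtype.val hbc : a * b = a * c))
  simpa using Nat.card_le_card_of_injective f hf

theorem star [Finite G] [Finite V] (hb : Best r A)
    (ih : ∀ B < A, Best r B → B ≤ normalizer (K : Set G)) {a : G} (haA : a ∈ A)
    (ha : a ∉ normalizer (K : Set G)) : ∀ k ∈ K, nm a k p ∈ stab r (r a - 1) := by
  have tw := h.tw haA ha
  obtain ⟨B, hBA, hB, hq, b, hbB, hb1⟩ := timmesfeld h.elem hb ⟨a, haA, h.ne_one ha⟩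
  by_cases c1 : ∃ b ∈ B, b ∈ normalizer (K : Set G) ∧ r b ≠ 1
  · obtain ⟨b, hbB, hbn, hb1⟩ := c1
    exact tw.nm_mem_of_normalizer hp.out.pos h.comp stab_conj_of_comm
      (mem_stab_iff.2 (hq b hbB a haA)) (h.comm (hBA hbB) haA) hbn
      fun hc => hb1 (h.eq_one_of_centralizer (hBA hbB) hc)
  push Not at c1
  have e : B = A := by
    by_contra hne
    exact hb1 (c1 b hbB (ih B (lt_of_le_of_ne hBA hne) hB hbB))
  subst e
  have := h.charP
  by_cases hp2 : p ≠ 2
  · exact absurd (tw.triv_of_odd_quad hp2 h.perf (hq a haA a haA)) h.nt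
  push Not at hp2
  subst hp2
  have ha2 : ∀ a ∈ B, a * a = 1 := fun a ha => by rw [← pow_two]; exact h.elem.2 a ha
  by_cases c2 : ∃ b ∈ B, b ∉ normalizer (K : Set G) ∧ a * b ∉ normalizer (K : Set G)
  · obtain ⟨b, hbB, hb1, hb2⟩ := c2
    refine tw.nm_mem_of_commute (by omega) h.perf stab_conj_of_comm
      (mem_stab_iff.2 (hq b hbB a haA)) fun z hz k hk => ?_
    have hab := h.comm haA hbB
    have c : ∀ z ∈ K, ∀ g, g ∉ normalizer (K : Set G) → Commute (g * z * g⁻¹) k :=
      fun z hz g hg => (commute_conj_of_not_mem h.comp hg hk hz).symm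
    rw [nm_two, nm_two]
    have e1 : b * (z * (a * z * a⁻¹)) * b⁻¹ = (b * z * b⁻¹) * ((a * b) * z * (a * b)⁻¹) := by
      rw [hab]; group
    have e2 : b * z * b⁻¹ = a * ((a * b) * z * (a * b)⁻¹) * a⁻¹ := by
      calc b * z * b⁻¹ = (a * a) * b * z * b⁻¹ * (a * a)⁻¹ := by rw [ha2 a haA]; group
        _ = _ := by group
    have e3 : (a * b) * z * (a * b)⁻¹ = a * (b * z * b⁻¹) * a⁻¹ := by group
    rw [e1]
    refine Commute.mul_left (Commute.mul_right (c z hz b hb1) ?_)
      (Commute.mul_right (c z hz _ hb2) ?_)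
    · rw [e2]; exact (c z hz _ hb2).conj a
    · rw [e3]; exact (c z hz b hb1).conj a
  push Not at c2
  have f1 : fix r B = LinearMap.ker (r a - 1) := by
    ext v
    rw [LinearMap.mem_ker, LinearMap.sub_apply, sub_eq_zero]
    refine ⟨fun hv => hv a haA, fun hv b hb => ?_⟩
    by_cases hbn : b ∈ normalizer (K : Set G)
    · rw [c1 b hb hbn]; rfl
    · have e1 := c1 _ (mul_mem haA hb) (c2 b hb hbn)
      rw [h.comm haA hb, map_mul] at e1
      calc r b v = r b (r a v) := by rw [hv]; rfl
        _ = v := by rw [← Module.End.mul_apply, e1]; rfl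
  have f2 : fix r (B ⊓ normalizer (K : Set G)) = ⊤ :=
    eq_top_iff.2 fun v _ b hb => by rw [c1 b hb.1 hb.2]; rfl
  have f3 := hb (B ⊓ normalizer (K : Set G)) inf_le_left
  have f4 := h.card_le_of_index (fun x hx hx' y hy hy' => by
    have e : x * y = (a * x)⁻¹ * (a * y) := by
      calc x * y = (x * x) * x⁻¹ * y := by group
        _ = _ := by rw [ha2 x hx]; group
    rw [e]
    exact mul_mem (inv_mem (c2 x hx hx')) (c2 y hy hy'))
  rw [meas, meas, f1, f2, Nat.card_congr (Submodule.topEquiv (R := ZMod 2) (M := V)).toEquiv,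
    ← card_ker_mul_range (V := V) (r a - 1)] at f3
  have f5 : Nat.card (LinearMap.range (r a - 1)) ≤ 2 := by
    have p1 : 0 < Nat.card (B ⊓ normalizer (K : Set G) : Subgroup G) := Nat.card_pos
    have p2 : 0 < Nat.card (LinearMap.ker (r a - 1)) := Nat.card_pos
    refine Nat.le_of_mul_le_mul_left ?_ (Nat.mul_pos p1 p2)
    calc _ = _ := mul_assoc _ _ _
      _ ≤ _ := f3
      _ ≤ _ := Nat.mul_le_mul_right _ f4
      _ = _ := by ring
  intro k hk
  rw [mem_stab]
  ext v
  have hc : Commute (r (nm a k 2)) (r a - 1) :=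
    ((show Commute (nm a k 2) a from tw.nm_commute (by omega) hk).map r).sub_right
      (Commute.one_right _)
  set w := (r a - 1) v
  show r (nm a k 2) w = w
  by_contra hne
  have hw0 : w ≠ 0 := fun e => hne (by rw [e, map_zero])
  have hw1 : r (nm a k 2) w ≠ 0 := fun e => hw0 (by
    rw [← Module.End.one_apply w (R := ZMod 2), ← inv_mul_self (nm a k 2), Module.End.mul_apply, e,
      map_zero])
  have hm : r (nm a k 2) w ∈ LinearMap.range (r a - 1) :=
    ⟨r (nm a k 2) v, by rw [← Module.End.mul_apply, ← hc.eq]; rfl⟩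
  have : 2 < Nat.card (LinearMap.range (r a - 1)) := by
    have := Fintype.ofFinite (LinearMap.range (r a - 1))
    rw [Nat.card_eq_fintype_card, Fintype.two_lt_card_iff]
    exact ⟨0, ⟨w, v, rfl⟩, ⟨_, hm⟩, fun e => hw0 (congrArg Subtype.val e).symm,
      fun e => hw1 (congrArg Subtype.val e).symm, fun e => hne (congrArg Subtype.val e).symm⟩
  omega

end Min

end Min

section Two

variable {G V : Type*} [Group G] [AddCommGroup V] [Module (ZMod 2) V] [Finite G] [Finite V]
  {r : G →* Module.End (ZMod 2) V} {K A : Subgroup G}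

/-- The situation `p = 2`, `|A : N_A(K)| = 2`. -/
structure Two (r : G →* Module.End (ZMod 2) V) (K A : Subgroup G) : Prop extends Min r K A where
  st : ∀ a ∈ A, a ∉ normalizer (K : Set G) → ∀ k ∈ K, nm a k 2 ∈ stab r (r a - 1)
  idx : ∀ a ∈ A, a ∉ normalizer (K : Set G) → ∀ b ∈ A, b ∉ normalizer (K : Set G) →
    a * b ∈ normalizer (K : Set G)

/-- The commutant. -/
abbrev cmt (r : G →* Module.End (ZMod 2) V) (K A : Subgroup G) :
    Subalgebra (ZMod 2) (Module.End (ZMod 2) V) :=
  Subalgebra.centralizer (ZMod 2) (r '' ((K : Set G) ∪ A))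

omit [Finite G] [Finite V] in
theorem mem_cmt {φ : Module.End (ZMod 2) V} : φ ∈ cmt r K A ↔
    (∀ k ∈ K, Commute φ (r k)) ∧ ∀ a ∈ A, Commute φ (r a) := by
  rw [Subalgebra.mem_centralizer_iff]
  constructor
  · intro h
    exact ⟨fun k hk => (h _ ⟨k, Or.inl hk, rfl⟩).symm, fun k hk => (h _ ⟨k, Or.inr hk, rfl⟩).symm⟩
  · rintro ⟨h1, h2⟩ _ ⟨g, hg | hg, rfl⟩
    · exact (h1 g hg).eq.symm
    · exact (h2 g hg).eq.symm

omit [Finite V] in
theorem add_self_two (v : V) : v + v = 0 := by
  rw [← two_smul (ZMod 2)]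
  have : (2 : ZMod 2) = 0 := rfl
  rw [this, zero_smul]

namespace Two

variable (h : Two r K A)
include h

theorem sq {a : G} (ha : a ∈ A) : a * a = 1 := by rw [← pow_two]; exact h.elem.2 a ha

theorem eq_zero {φ : Module.End (ZMod 2) V} (hφ : φ ∈ cmt r K A) {v : V} (hv : v ≠ 0)
    (e : φ v = 0) : φ = 0 :=
  (h.zero_or_bij (mem_cmt.1 hφ).1 (mem_cmt.1 hφ).2).resolve_right fun hb =>
    hv (hb.1 (by rw [e, map_zero]))

theorem tau_mem {a : G} (haA : a ∈ A) (ha : a ∉ normalizer (K : Set G)) {k : G} (hk : k ∈ K) :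
    r k + r k⁻¹ ∈ cmt r K A := by
  have t : ∀ a ∈ A, a ∉ normalizer (K : Set G) → Commute (r k + r k⁻¹) (r a) := by
    intro a haA ha
    have := (h.tw haA ha).tau_eq hk (h.st a haA ha k hk)
    have e : (a * k * a⁻¹)⁻¹ = a * k⁻¹ * a⁻¹ := by group
    rw [e] at this
    show _ * _ = _ * _
    conv_lhs => rw [← this]
    simp only [add_mul, mul_add, ← map_mul]
    congr 2 <;> group
  refine mem_cmt.2 ⟨fun z hz => ?_, fun b hb => ?_⟩
  · rw [← (h.tw haA ha).tau_eq hk (h.st a haA ha k hk)]
    have := commute_conj_of_not_mem h.comp ha hz hk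
    exact ((this.map r).add_right (this.inv_right.map r)).symm
  · by_cases hbn : b ∈ normalizer (K : Set G)
    · have : a * b ∉ normalizer (K : Set G) := fun e => ha (by simpa using mul_mem e (inv_mem hbn))
      have e : b = a * (a * b) := by rw [← mul_assoc, h.sq haA, one_mul]
      rw [e, map_mul]
      exact (t a haA ha).mul_right (t _ (mul_mem haA hb) this)
    · exact t b hb hbn

theorem exists_vec {a : G} (haA : a ∈ A) (ha : a ∉ normalizer (K : Set G)) :
    ∃ v : V, v ≠ 0 ∧ v ∈ LinearMap.range (r a - 1) ∧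
      ∀ w, ∃ φ ∈ cmt r K A, (r a - 1) w = φ v := by
  obtain ⟨v, hv, hv0, hvA⟩ := exists_fixed_mod' (r := r) h.elem (U := LinearMap.range (r a - 1))
    (W := ⊥) (by
      rintro b hb _ ⟨u, rfl⟩
      have : Commute (r b) (r a - 1) :=
        ((show Commute b a from h.comm hb haA).map r).sub_right (Commute.one_right _)
      exact ⟨r b u, by rw [← Module.End.mul_apply, ← this.eq]; rfl⟩)
    (by intro b _ u hu; rw [Submodule.mem_bot] at *; rw [hu, map_zero])
    (fun e => h.ne_one ha (sub_eq_zero.1 (LinearMap.range_eq_bot.1 (le_bot_iff.1 e))))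
  simp only [Submodule.mem_bot, sub_eq_zero] at hv0 hvA
  have e1 : ∀ k ∈ K, r a (r k v) = r k⁻¹ v := by
    intro k hk
    obtain ⟨u, rfl⟩ := hv
    have e := mem_stab.1 (h.st a haA ha k hk)
    rw [nm_two] at e
    have e' : r a⁻¹ ((r a - 1) u) = (r a - 1) u := hvA _ (inv_mem haA)
    conv_rhs => rw [← e]
    conv_lhs => rw [← e']
    simp only [← Module.End.mul_apply, ← mul_assoc, ← map_mul]
    congr 3; group
  let W := Submodule.span (ZMod 2) {w | ∃ k ∈ K, w = r k v}
  have inv : ∀ g : G, (∀ k ∈ K, r g (r k v) ∈ W) → ∀ w ∈ W, r g w ∈ W := by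
    intro g hg w hw
    have : W ≤ W.comap (r g) := Submodule.span_le.2 (by rintro _ ⟨k, hk, rfl⟩; exact hg k hk)
    exact this hw
  have invN : ∀ b ∈ A, b ∈ normalizer (K : Set G) → ∀ w ∈ W, r b w ∈ W := fun b hb hbn =>
    inv b fun k hk => Submodule.subset_span ⟨b * k * b⁻¹, (mem_normalizer_iff.1 hbn _).1 hk, by
      rw [map_mul, map_mul, Module.End.mul_apply, Module.End.mul_apply, hvA _ (inv_mem hb)]⟩
  have hW : W = ⊤ := by
    by_contra hne
    have := h.sub W (fun z hz => inv z fun k hk => Submodule.subset_span ⟨z * k, mul_mem hz hk, by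
      rw [map_mul]; rfl⟩) (fun b hb w hw => by
        by_cases hbn : b ∈ normalizer (K : Set G)
        · exact invN b hb hbn w hw
        · have e : b = a * (a * b) := by rw [← mul_assoc, h.sq haA, one_mul]
          rw [e, map_mul, Module.End.mul_apply]
          exact inv a (fun k hk => Submodule.subset_span ⟨k⁻¹, inv_mem hk, e1 k hk⟩) _
            (invN _ (mul_mem haA hb) (h.idx a haA ha b hb hbn) w hw)) hne
    have hvW : v ∈ W := Submodule.subset_span ⟨1, one_mem _, by simp⟩
    refine h.nt (triv_of_two_three h.perf fun k hk => Or.inl ?_)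
    have e2 := h.eq_zero (h.tau_mem haA ha hk) hv0 (by
      rw [LinearMap.add_apply, this k hk v hvW, this _ (inv_mem hk) v hvW, add_self_two])
    have e3 : r k = r k⁻¹ := by
      rw [← add_zero (r k), ← e2, ← add_assoc, add_self_two, zero_add]
    rw [pow_two]; nth_rewrite 2 [e3]; exact mul_inv_self k
  refine ⟨v, hv0, hv, fun w => ?_⟩
  have hw : w ∈ W := by rw [hW]; trivial
  induction hw using Submodule.span_induction with
  | mem x hx =>
    obtain ⟨k, hk, rfl⟩ := hx
    refine ⟨_, h.tau_mem haA ha hk, ?_⟩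
    rw [LinearMap.sub_apply, e1 k hk, LinearMap.add_apply, Module.End.one_apply,
      sub_eq_iff_eq_add, add_comm (r k v), add_assoc, add_self_two, add_zero]
  | zero => exact ⟨0, zero_mem _, by simp⟩
  | add x y _ _ hx hy =>
    obtain ⟨φ, hφ, e⟩ := hx
    obtain ⟨ψ, hψ, e'⟩ := hy
    exact ⟨φ + ψ, add_mem hφ hψ, by rw [map_add, e, e']; rfl⟩
  | smul c x _ hx =>
    obtain ⟨φ, hφ, e⟩ := hx
    exact ⟨c • φ, Subalgebra.smul_mem _ hφ c, by rw [map_smul, e]; rfl⟩

theorem three_le {a : G} (haA : a ∈ A) (ha : a ∉ normalizer (K : Set G)) :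
    2 < Nat.card (LinearMap.range (r a - 1)) := by
  obtain ⟨v, hv0, ⟨u, hu⟩, -⟩ := h.exists_vec haA ha
  by_contra hlt
  refine h.nt (triv_of_two_three h.perf fun k hk => ?_)
  have ht := h.tau_mem haA ha hk
  have hm : (r k + r k⁻¹) v ∈ LinearMap.range (r a - 1) := by
    have := ((mem_cmt.1 ht).2 a haA).sub_right (Commute.one_right _)
    exact ⟨(r k + r k⁻¹) u, by rw [← Module.End.mul_apply, ← this.eq, ← hu]; rfl⟩
  by_cases c0 : (r k + r k⁻¹) v = 0
  · left
    have e2 := h.eq_zero ht hv0 c0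
    have e3 : r k = r k⁻¹ := by
      rw [← add_zero (r k), ← e2, ← add_assoc, add_self_two, zero_add]
    rw [pow_two]; nth_rewrite 2 [e3]; exact mul_inv_self k
  by_cases c1 : (r k + r k⁻¹) v = v
  · right
    have e2 := h.eq_zero (sub_mem ht (one_mem _)) hv0 (by rw [LinearMap.sub_apply, c1]; simp)
    have e3 : r k * r k + 1 = r k := by
      rw [← mul_inv_self (r := r) k, ← mul_add, sub_eq_zero.1 e2, mul_one]
    have e4 : r k * r k = r k + 1 := by
      conv_rhs => rw [← e3, add_assoc, add_self_two, add_zero]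
    rw [pow_succ, pow_two, e4, add_mul, e4, one_mul, add_comm (r k), add_assoc, add_self_two,
      add_zero]
  exfalso
  apply hlt
  have := Fintype.ofFinite (LinearMap.range (r a - 1))
  rw [Nat.card_eq_fintype_card, Fintype.two_lt_card_iff]
  exact ⟨0, ⟨v, u, hu⟩, ⟨_, hm⟩, fun e => hv0 (congrArg Subtype.val e).symm,
    fun e => c0 (congrArg Subtype.val e).symm, fun e => c1 (congrArg Subtype.val e).symm⟩

theorem not_le {a b : G} (haA : a ∈ A) (ha : a ∉ normalizer (K : Set G)) (hbA : b ∈ A)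
    (hb : b ∉ normalizer (K : Set G)) (hne : r a ≠ r b) :
    ¬ LinearMap.ker (r a - 1) ≤ LinearMap.ker (r b - 1) := by
  intro hle
  have tw := h.tw haA ha
  let S : Subgroup G :=
    { carrier := {g | ∀ u, r a u = u → r g u = u}
      one_mem' := by simp
      mul_mem' := fun {x y} hx hy u hu => by rw [map_mul, Module.End.mul_apply, hy u hu, hx u hu]
      inv_mem' := fun {x} hx u hu => by
        calc r x⁻¹ u = r x⁻¹ (r x u) := by rw [hx u hu]
          _ = u := by rw [← Module.End.mul_apply, inv_mul_self]; rfl }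
  have hS : ∀ k ∈ K, nm a k 2 ∈ S := tw.nm_mem_of_normalizer (by omega) h.comp (S := S)
    (fun x hx s hs u hu => by
      have : r a (r x⁻¹ u) = r x⁻¹ u := by
        rw [← Module.End.mul_apply, ← map_mul, ← (show Commute x a from hx).inv_left.eq, map_mul,
          Module.End.mul_apply, hu]
      rw [map_mul, map_mul, Module.End.mul_apply, Module.End.mul_apply, hs _ this,
        ← Module.End.mul_apply, mul_inv_self]; rfl)
    (b := a * b) (fun u hu => by
      have := hle (x := u) (by rw [LinearMap.mem_ker, LinearMap.sub_apply, hu]; simp)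
      rw [LinearMap.mem_ker, LinearMap.sub_apply, sub_eq_zero] at this
      rw [map_mul, Module.End.mul_apply, this]; exact hu)
    (h.comm (mul_mem haA hbA) haA) (h.idx a haA ha b hbA hb)
    (fun hc => hne (by
      have := h.eq_one_of_centralizer (mul_mem haA hbA) hc
      rw [← mul_one (r a), ← this, ← map_mul, ← mul_assoc, h.sq haA, one_mul]))
  let Y : K →* G := MonoidHom.mk' (fun k => nm a k 2) fun z k => tw.nm_mul le_rfl z.2 k.2
  have := triv_of_quad (r := r.comp Y) (K := ⊤) h.comp.isQuasisimple.commutator_top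
    fun z _ k _ => by
      ext u
      have c : Commute (r (nm a k 2) - 1) (r a - 1) :=
        (((show Commute (nm a k 2) a from tw.nm_commute (by omega) k.2).map r).sub_right
          (Commute.one_right _)).sub_left (Commute.one_left _)
      have e := mem_stab_iff.1 (h.st a haA ha k k.2)
      rw [c.eq] at e
      have e' : r a ((r (nm a k 2) - 1) u) = (r (nm a k 2) - 1) u := by
        have := LinearMap.congr_fun e u
        rw [Module.End.mul_apply, LinearMap.sub_apply (r a)] at this
        exact sub_eq_zero.1 this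
      show (r (nm a z 2) - 1) ((r (nm a k 2) - 1) u) = 0
      rw [LinearMap.sub_apply (r (nm a z 2)), hS z z.2 _ e']; simp
  refine h.nt (triv_of_commute h.perf fun z hz k hk => ?_)
  have e : r (nm a k 2) = 1 := this ⟨k, hk⟩ trivial
  rw [nm_two] at e
  have e' : r k = r (a * k * a⁻¹)⁻¹ := by
    rw [← one_mul (r (a * k * a⁻¹)⁻¹), ← e, ← map_mul, mul_inv_cancel_right]
  rw [e']
  exact ((commute_conj_of_not_mem h.comp ha hz hk).inv_right.map r).eq

theorem sup_eq_top {a b : G} (haA : a ∈ A) (ha : a ∉ normalizer (K : Set G)) (hbA : b ∈ A)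
    (hb : b ∉ normalizer (K : Set G)) (hne : r a ≠ r b) :
    LinearMap.ker (r a - 1) ⊔ LinearMap.ker (r b - 1) = ⊤ := by
  obtain ⟨u, hu, hu'⟩ := SetLike.not_le_iff_exists.1 (h.not_le haA ha hbA hb hne)
  obtain ⟨v, -, -, hv⟩ := h.exists_vec hbA hb
  obtain ⟨f, hf, e⟩ := hv u
  have hfu : IsUnit f := (Module.End.isUnit_iff _).2
    ((h.zero_or_bij (mem_cmt.1 hf).1 (mem_cmt.1 hf).2).resolve_left fun e0 =>
      hu' (by rw [LinearMap.mem_ker, e, e0]; rfl))
  obtain ⟨f, rfl⟩ := hfu
  rw [eq_top_iff]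
  intro w _
  obtain ⟨g, hg, e'⟩ := hv w
  have c : ∀ x ∈ A, Commute (r x - 1) (g * ↑f⁻¹) := fun x hx =>
    ((((mem_cmt.1 hg).2 x hx).mul_left ((mem_cmt.1 hf).2 x hx).units_inv_left).sub_right
      (Commute.one_right _)).symm
  have : w = (g * ↑f⁻¹) u + (w - (g * ↑f⁻¹) u) := by abel
  rw [this]
  refine Submodule.add_mem_sup ?_ ?_
  · rw [LinearMap.mem_ker] at *
    rw [← Module.End.mul_apply, (c a haA).eq, Module.End.mul_apply, hu, map_zero]
  · rw [LinearMap.mem_ker, map_sub, ← Module.End.mul_apply _ _ u, (c b hbA).eq,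
      Module.End.mul_apply, e, e', ← Module.End.mul_apply _ _ v, mul_assoc, Units.inv_mul, mul_one,
      sub_self]

theorem false_of_best (hb : Best r A) {a : G} (haA : a ∈ A) (ha : a ∉ normalizer (K : Set G)) :
    False := by
  classical
  have ex : ∀ e : Module.End (ZMod 2) V, ∃ φ : Bool → Module.Dual (ZMod 2) V,
      2 < Nat.card (LinearMap.range (e - 1)) → Function.Injective φ ∧
        ∀ t, φ t ≠ 0 ∧ φ t ∈ (LinearMap.ker (e - 1)).dualAnnihilator := by
    intro e
    by_cases he : 2 < Nat.card (LinearMap.range (e - 1))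
    · have e1 := card_dualAnnihilator (LinearMap.ker (e - 1))
      rw [← card_ker_mul_range (V := V) (e - 1)] at e1
      rw [← Nat.eq_of_mul_eq_mul_left Nat.card_pos e1] at he
      have : Finite (Module.Dual (ZMod 2) V) := Module.finite_of_finite (ZMod 2)
      obtain ⟨x, y, hxy, hx, hy⟩ : ∃ x y : (LinearMap.ker (e - 1)).dualAnnihilator,
          x ≠ y ∧ x ≠ 0 ∧ y ≠ 0 := by
        have := Fintype.ofFinite (LinearMap.ker (e - 1)).dualAnnihilator
        rw [Nat.card_eq_fintype_card, Fintype.two_lt_card_iff] at he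
        obtain ⟨x, y, z, h1, h2, h3⟩ := he
        by_cases hx : x = 0
        · exact ⟨y, z, h3, hx ▸ h1.symm, hx ▸ h2.symm⟩
        by_cases hy : y = 0
        · exact ⟨x, z, h2, hx, hy ▸ h3.symm⟩
        exact ⟨x, y, h1, hx, hy⟩
      refine ⟨fun t => if t then x else y, fun _ => ⟨?_, ?_⟩⟩
      · intro s t hst
        cases s <;> cases t <;> simp_all [eq_comm]
      · intro t
        cases t
        · exact ⟨fun e => hy (Subtype.ext e), y.2⟩
        · exact ⟨fun e => hx (Subtype.ext e), x.2⟩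
    · exact ⟨fun _ => 0, fun h => absurd h he⟩
  choose φ hφ using ex
  set N := A ⊓ normalizer (K : Set G)
  set C := A ⊓ r.ker
  set D := (fix r A).dualAnnihilator
  have hn : ∀ n : N, a * n ∉ normalizer (K : Set G) := fun n e =>
    ha (by simpa using mul_mem e (inv_mem n.2.2))
  have hA : ∀ n : N, a * n ∈ A := fun n => mul_mem haA n.2.1
  have hφ' := fun n : N => hφ _ (h.three_le (hA n) (hn n))
  let rep : N → N := fun n => Function.invFun (fun m : N => r (a * m)) (r (a * n))
  have hrep : ∀ n : N, r (a * rep n) = r (a * n) := fun n =>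
    Function.invFun_eq (f := fun m : N => r (a * m)) ⟨n, rfl⟩
  have hD : ∀ (n : N) t, φ (r (a * n)) t ∈ D := fun n t =>
    Submodule.dualAnnihilator_anti (fun v hv => by
      rw [LinearMap.mem_ker, LinearMap.sub_apply, hv _ (hA n)]; simp) ((hφ' n).2 t).2
  let F : Option (N × Bool) → C × D := fun x => match x with
    | none => (1, 0)
    | some (n, t) => (⟨(a * rep n)⁻¹ * (a * n), mem_inf.2 ⟨mul_mem (inv_mem (hA _)) (hA _), by
        rw [MonoidHom.mem_ker, map_mul, ← hrep n, inv_mul_self]⟩⟩, ⟨_, hD n t⟩)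
  have hF : Function.Injective F := by
    rintro (_ | ⟨n, t⟩) (_ | ⟨m, s⟩) e
    · rfl
    · exact absurd (congrArg (fun x => (x.2 : Module.Dual (ZMod 2) V)) e).symm ((hφ' m).2 s).1
    · exact absurd (congrArg (fun x => (x.2 : Module.Dual (ZMod 2) V)) e) ((hφ' n).2 t).1
    · have e1 : (a * rep n)⁻¹ * (a * n) = (a * rep m)⁻¹ * (a * m) :=
        congrArg (fun x => (x.1 : G)) e
      have e2 : φ (r (a * n)) t = φ (r (a * m)) s :=
        congrArg (fun x => (x.2 : Module.Dual (ZMod 2) V)) e
      have e3 : r (a * n) = r (a * m) := by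
        by_contra hne
        have := h.sup_eq_top (hA n) (hn n) (hA m) (hn m) hne
        have h1 : φ (r (a * n)) t ∈ (⊤ : Submodule (ZMod 2) V).dualAnnihilator := by
          rw [← this, Submodule.dualAnnihilator_sup_eq]
          exact ⟨((hφ' n).2 t).2, e2 ▸ ((hφ' m).2 s).2⟩
        rw [Submodule.dualAnnihilator_top, Submodule.mem_bot] at h1
        exact ((hφ' n).2 t).1 h1
      have e4 : rep n = rep m := by simp only [rep, e3]
      rw [e4] at e1
      rw [← e3] at e2
      rw [(hφ' n).1 e2, Subtype.ext (mul_left_cancel (mul_left_cancel e1) : (n : G) = m)]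
  have : Finite (Module.Dual (ZMod 2) V) := Module.finite_of_finite (ZMod 2)
  have c1 := Nat.card_le_card_of_injective F hF
  rw [Finite.card_option, Nat.card_prod, Nat.card_prod, Nat.card_eq_fintype_card (α := Bool),
    Fintype.card_bool] at c1
  have c2 := h.card_le_of_index h.idx
  have c3 := hb C inf_le_left
  have f2 : fix r C = ⊤ := eq_top_iff.2 fun v _ b hb => by rw [MonoidHom.mem_ker.1 hb.2]; rfl
  rw [meas, meas, f2, Nat.card_congr (Submodule.topEquiv (R := ZMod 2) (M := V)).toEquiv,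
    ← card_dualAnnihilator (fix r A), mul_comm (Nat.card (fix r A)), ← mul_assoc] at c3
  have c4 := Nat.le_of_mul_le_mul_right c3 Nat.card_pos
  change Nat.card C * Nat.card D ≤ _ at c4
  change _ ≤ 2 * Nat.card N at c2
  omega

end Two

end Two

theorem Min.le_normalizer {G V : Type*} [Group G] [AddCommGroup V] {p : ℕ} [hp : Fact p.Prime]
    [Module (ZMod p) V] [Finite G] [Finite V] {r : G →* Module.End (ZMod p) V} {K A : Subgroup G}
    (h : Min r K A) (hb : Best r A) (ih : ∀ B < A, Best r B → B ≤ normalizer (K : Set G)) :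
    A ≤ normalizer (K : Set G) := by
  intro a haA
  by_contra ha
  have st := fun a haA ha => h.star hb ih (a := a) haA ha
  by_cases hp2 : p ≠ 2
  · have := hp.out.two_le
    exact h.nt ((h.tw haA ha).triv_of_odd (by omega) h.comp (st a haA ha))
  push Not at hp2
  subst hp2
  have sq : ∀ a ∈ A, a * a = 1 := fun a ha => by rw [← pow_two]; exact h.elem.2 a ha
  by_cases c : ∀ a ∈ A, a ∉ normalizer (K : Set G) → ∀ b ∈ A, b ∉ normalizer (K : Set G) →
    a * b ∈ normalizer (K : Set G)
  · exact (Two.mk h st c).false_of_best hb haA ha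
  push Not at c
  obtain ⟨a, haA, ha, b, hbA, hb, hab⟩ := c
  exact h.nt (triv_of_third h.comp (sq a haA) (sq b hbA) (h.comm haA hbA) ha hb hab
    (st a haA ha) (st b hbA hb))

theorem Best.sub {G V : Type*} [Group G] [AddCommGroup V] {p : ℕ} [hp : Fact p.Prime]
    [Module (ZMod p) V] [Finite G] [Finite V] {r : G →* Module.End (ZMod p) V} {A : Subgroup G}
    (hb : Best r A) (W : Submodule (ZMod p) V) {B : Subgroup G} (hB : B ≤ A) :
    Nat.card B * Nat.card (W ⊓ fix r B : Submodule _ V) ≤
      Nat.card A * Nat.card (W ⊓ fix r A : Submodule _ V) := by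
  have h := hb B hB
  have hAB : fix r A ≤ fix r B := fix_anti hB
  have hsup := Cfsg.Agent.S3087.card_sup_mul_card_inf (W ⊓ fix r B) (fix r A)
  rw [inf_assoc, inf_eq_right.2 hAB] at hsup
  have hle := card_submodule_le (sup_le inf_le_right hAB : (W ⊓ fix r B) ⊔ fix r A ≤ fix r B)
  have hpos : 0 < Nat.card (fix r A) := Nat.card_pos
  apply Nat.le_of_mul_le_mul_right _ hpos
  rw [mul_assoc, ← hsup]
  calc _ ≤ Nat.card B * (Nat.card (fix r B) * Nat.card (W ⊓ fix r A : Submodule _ V)) := by gcongr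
    _ = meas r B * Nat.card (W ⊓ fix r A : Submodule _ V) := by rw [meas]; ring
    _ ≤ meas r A * Nat.card (W ⊓ fix r A : Submodule _ V) := by gcongr
    _ = _ := by rw [meas]; ring

/-- The `P(G,V)`-theorem. -/
theorem le_normalizer {p : ℕ} [hp : Fact p.Prime] (n : ℕ) : ∀ {G : Type u} {V : Type v} [Group G]
    [AddCommGroup V] [Module (ZMod p) V] [Finite G] [Finite V] (r : G →* Module.End (ZMod p) V)
    (K A : Subgroup G), Nat.card A + Nat.card V ≤ n → IsComponent K → IsElementaryAbelian p A →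
    Best r A → (¬ ∀ k ∈ K, r k = 1) → A ≤ normalizer (K : Set G) := by
  induction n with
  | zero =>
    intro G V _ _ _ _ _ r K A hn
    have : 0 < Nat.card V := Nat.card_pos
    omega
  | succ n ih =>
    intro G V _ _ _ _ _ r K A hn hK hA hb hnt
    by_contra hcon
    refine hcon (Min.le_normalizer ⟨hK, hA, hnt, fun W hWK hWA hW => ?_⟩ hb fun B hB hbB => ?_)
    · by_contra hnt'
      let H : Subgroup G :=
        { carrier := {g | ∀ w ∈ W, r g w ∈ W ∧ r g⁻¹ w ∈ W}
          one_mem' := by simp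
          mul_mem' := fun {x y} hx hy w hw => by
            rw [mul_inv_rev, map_mul, map_mul]
            exact ⟨(hx _ (hy w hw).1).1, (hy _ (hx w hw).2).2⟩
          inv_mem' := fun {x} hx w hw => by rw [inv_inv]; exact (hx w hw).symm }
      have hKH : K ≤ H := fun k hk w hw => ⟨hWK k hk w hw, hWK _ (inv_mem hk) w hw⟩
      have hAH : A ≤ H := fun k hk w hw => ⟨hWA k hk w hw, hWA _ (inv_mem hk) w hw⟩
      let r' : H →* Module.End (ZMod p) W :=
        Representation.subrepresentation (r.comp H.subtype) W fun g w hw => (g.2 w hw).1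
      have hr' : ∀ (g : H) (w : W), (r' g w : V) = r g w := fun _ _ => rfl
      have cA : Nat.card (A.subgroupOf H) = Nat.card A :=
        Nat.card_congr (subgroupOfEquivOfLe hAH).toEquiv
      have cW : Nat.card W < Nat.card V := by
        have h1 := card_submodule_le (le_top : W ≤ ⊤)
        rw [← Nat.card_congr (Submodule.topEquiv (R := ZMod p) (M := V)).toEquiv]
        exact lt_of_le_of_ne h1 fun e => hW (submodule_eq_of_card le_top e.ge)
      have cfix : ∀ B : Subgroup H, Nat.card (fix r' B) =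
          Nat.card (W ⊓ fix r (B.map H.subtype) : Submodule _ V) := fun B =>
        Nat.card_congr ⟨fun w => ⟨w.1.1, w.1.2, by
            rintro _ ⟨b, hb, rfl⟩; exact congrArg Subtype.val (w.2 b hb)⟩,
          fun w => ⟨⟨w.1, w.2.1⟩, fun b hb => Subtype.ext (w.2.2 b ⟨b, hb, rfl⟩)⟩,
          fun _ => rfl, fun _ => rfl⟩
      have := ih r' (K.subgroupOf H) (A.subgroupOf H) (by omega) (hK.subgroupOf hKH)
        ⟨⟨⟨fun x y => Subtype.ext (Subtype.ext (congrArg Subtype.val
          (hA.1.is_comm.comm (⟨x.1, x.2⟩ : A) ⟨y.1, y.2⟩) :))⟩⟩,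
          fun b hb => Subtype.ext (hA.2 b hb)⟩
        (fun B hB => by
          rw [meas, meas, cfix, cfix, subgroupOf_map_subtype, inf_eq_left.2 hAH, cA,
            ← card_map_of_injective (K := B) H.subtype_injective]
          exact hb.sub W (by rintro _ ⟨b, hb, rfl⟩; exact hB hb))
        (fun e => hnt' fun k hk w hw => by
          have := hr' ⟨k, hKH hk⟩ ⟨w, hw⟩
          rw [e ⟨k, hKH hk⟩ hk] at this
          exact this.symm)
      refine hcon fun a ha => mem_normalizer_iff.2 fun k => ?_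
      have h1 := mem_normalizer_iff.1 (this (x := ⟨a, hAH ha⟩) ha)
      refine ⟨fun hk => (h1 ⟨k, hKH hk⟩).1 hk, fun hk => ?_⟩
      have hkH : k ∈ H := by
        have := mul_mem (mul_mem (inv_mem (hAH ha)) (hKH hk)) (hAH ha)
        simpa [mul_assoc] using this
      exact (h1 ⟨k, hkH⟩).2 hk
    · have h1 : Nat.card B < Nat.card A := by
        refine lt_of_le_of_ne (card_le_of_le hB.le) fun e => hB.ne (eq_of_le_of_card_ge hB.le e.ge)
      exact ih r K B (by omega) hK ⟨⟨⟨fun x y => Subtype.ext (congrArg Subtype.val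
        (hA.1.is_comm.comm (⟨x, hB.le x.2⟩ : A) ⟨y, hB.le y.2⟩) :)⟩⟩, fun b hb => hA.2 b (hB.le hb)⟩
        hbB hnt

end CL.PGV
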