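import Mathlib
import Cfsg.Agent.PLOC.QdFree
import Cfsg.Agent.TECH.Amb
import Cfsg.Agent.S0215

/-!
Groups whose Sylow `2`-subgroups look dihedral admit no quadratic action in odd characteristic.
-/

set_option autoImplicit false
set_option linter.unusedSectionVars false
open Cfsg Subgroup CL.MSS CL.Dickson CL.PSt
open scoped commutatorElement MatrixGroups

namespace CL.NoQuad

variable {G : Type*} [Group G] {p : ℕ}

/-- in `2`-subgroups, elements that are not involutions commute -/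
def DihLike (G : Type*) [Group G] : Prop :=
  ∀ P : Sylow 2 G, ∀ x ∈ P, ∀ y ∈ P, x ^ 2 ≠ 1 → y ^ 2 ≠ 1 → x * y = y * x

theorem DihLike.comm [Finite G] (h : DihLike G) {P : Subgroup G} (hP : IsPGroup 2 P) {x y : G}
    (hx : x ∈ P) (hy : y ∈ P) (h1 : x ^ 2 ≠ 1) (h2 : y ^ 2 ≠ 1) : x * y = y * x :=
  let ⟨Q, hQ⟩ := hP.exists_le_sylow; h Q x (hQ hx) y (hQ hy) h1 h2

theorem DihLike.of_equiv [Finite G] {K : Type*} [Group K] [Finite K] (h : DihLike K) (e : G ≃* K) :
    DihLike G := fun P x hx y hy h1 h2 => e.injective (by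
  rw [map_mul, map_mul]
  refine h.comm (P.isPGroup'.map e.toMonoidHom) (mem_map_of_mem _ hx) (mem_map_of_mem _ hy) ?_ ?_
  all_goals rwa [← map_pow, Ne, e.map_eq_one_iff])

theorem dih_comm {m : ℕ} (x y : DihedralGroup m) (h1 : x ^ 2 ≠ 1) (h2 : y ^ 2 ≠ 1) :
    x * y = y * x := by
  rcases x with i | i
  · rcases y with j | j
    · simp [add_comm]
    · exact absurd (by rw [sq]; exact DihedralGroup.sr_mul_self j) h2
  · exact absurd (by rw [sq]; exact DihedralGroup.sr_mul_self i) h1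

theorem dihLike_of_dihedral (h : ∀ P : Sylow 2 G, ∃ m, Nonempty (P ≃* DihedralGroup m)) :
    DihLike G := fun P x hx y hy h1 h2 => by
  obtain ⟨m, ⟨e⟩⟩ := h P
  have key : ∀ z : P, (z : G) ^ 2 ≠ 1 → e z ^ 2 ≠ 1 := fun z hz h => hz (by
    rw [← map_pow, e.map_eq_one_iff] at h; exact congrArg Subtype.val h)
  have := dih_comm _ _ (key ⟨x, hx⟩ h1) (key ⟨y, hy⟩ h2)
  rw [← map_mul, ← map_mul] at this
  exact congrArg Subtype.val (e.injective this)

theorem eq_sq_of_card_eight (h : Nat.card G = 8) {x y u : G} (h1 : x ^ 2 ≠ 1) (h2 : y ^ 2 ≠ 1)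
    (hc : x * y ≠ y * x) (hu : orderOf u = 2) : u = x ^ 2 := by
  classical
  have : Finite G := Nat.finite_of_card_ne_zero (by omega)
  have hy : y ∉ zpowers x := by rintro ⟨i, rfl⟩; exact hc (by simp only; group)
  have h4 : orderOf x = 4 := by
    obtain ⟨k, hk, e⟩ := (Nat.dvd_prime_pow Nat.prime_two).1
      (show orderOf x ∣ 2 ^ 3 from (orderOf_dvd_natCard x).trans (by rw [h]; rfl))
    interval_cases k
    · exact absurd (orderOf_dvd_iff_pow_eq_one.1 (by rw [e]; norm_num)) h1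
    · exact absurd (orderOf_dvd_iff_pow_eq_one.1 (by rw [e]; norm_num)) h1
    · exact e
    · exact absurd ((eq_top_of_card_eq _ (by rw [Nat.card_zpowers, e, h]; rfl)).ge (mem_top y)) hy
  have hi : (zpowers x).index = 2 := by
    have := (zpowers x).card_mul_index; rw [Nat.card_zpowers, h4, h] at this; omega
  have hx4 : x ^ 4 = 1 := h4 ▸ pow_orderOf_eq_one x
  have hu2 : u * u = 1 := by rw [← sq, ← hu, pow_orderOf_eq_one]
  have hcs : ∀ z ∈ zpowers x, z = 1 ∨ z = x ∨ z = x ^ 2 ∨ z = x⁻¹ := fun z hz => by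
    obtain ⟨i, hi, rfl⟩ := Finset.mem_image.1 (mem_zpowers_iff_mem_range_orderOf.1 hz)
    rw [h4, Finset.mem_range] at hi
    interval_cases i
    · simp
    · simp
    · simp
    · exact .inr (.inr (.inr (eq_inv_of_mul_eq_one_left (by rw [← pow_succ, hx4]))))
  have hx2 : (x ^ 2) ^ 2 = 1 := by rw [← pow_mul, hx4]
  by_cases hux : u ∈ zpowers x
  · rcases hcs u hux with rfl | rfl | e | rfl
    · simp at hu
    · omega
    · exact e
    · rw [orderOf_inv] at hu; omega
  exfalso
  have := normal_of_index_eq_two hi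
  obtain ⟨i, hi'⟩ := (mul_mem_iff_of_index_two hi (a := y) (b := u)).2 (iff_of_false hy hux)
  have ey : y = x ^ i * u := by simp only at hi'; rw [hi', mul_assoc, hu2, mul_one]
  have hcj : (u * x * u⁻¹) ^ 2 ≠ 1 := by rwa [conj_pow, Ne, conj_eq_one_iff]
  rcases hcs _ (this.conj_mem x (mem_zpowers x) u) with e | e | e | e
  · exact hcj (by rw [e, one_pow])
  · refine hc ?_
    rw [ey, mul_assoc, mul_inv_eq_iff_eq_mul.1 e]; group
  · exact hcj (by rw [e, hx2])
  · refine h2 ?_
    have e2 : u * x ^ i * u⁻¹ = (x ^ i)⁻¹ := by rw [← conj_zpow, e, inv_zpow]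
    rw [ey, sq, show x ^ i * u * (x ^ i * u) = x ^ i * (u * x ^ i * u⁻¹) * (u * u) by group, e2, hu2]
    group

theorem dihLike_of_card_eight [Finite G] [IsSimpleGroup G] (hna : ¬ IsMulCommutative G)
    (h : ∀ P : Sylow 2 G, Nat.card P = 8) : DihLike G := fun P x hx y hy h1 h2 => by
  by_contra hc
  have key : ∀ u ∈ P, orderOf u = 2 → u = x ^ 2 := fun u hu h3 => congrArg Subtype.val
    (eq_sq_of_card_eight (h P) (x := ⟨x, hx⟩) (y := ⟨y, hy⟩) (u := ⟨u, hu⟩)
      (fun e => h1 (congrArg Subtype.val e)) (fun e => h2 (congrArg Subtype.val e))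
      (fun e => hc (congrArg Subtype.val e)) ((orderOf_mk u hu).trans h3))
  obtain ⟨⟨u, hu⟩, h3⟩ := exists_prime_orderOf_dvd_card' (G := P) 2 (by rw [h P]; norm_num)
  rw [← orderOf_coe] at h3
  obtain ⟨N, hN, h4, h5⟩ := Cfsg.Agent.S0215.result P u h3 hu fun g hg =>
    (key _ hg (by rw [← h3]; exact (MulAut.conj g).orderOf_eq u)).trans (key u hu h3).symm
  rcases IsSimpleGroup.eq_bot_or_eq_top_of_normal N hN with rfl | rfl
  · have h6 : u ∈ center G := mem_center_iff.2 fun g =>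
      (commutatorElement_eq_one_iff_mul_comm.1 (h5 g)).symm
    rcases IsSimpleGroup.eq_bot_or_eq_top_of_normal (center G) inferInstance with e | e
    · rw [e, mem_bot] at h6; simp [h6] at h3
    · exact hna ⟨⟨fun a b => mem_center_iff.1 (e.ge (mem_top b)) a⟩⟩
  · rw [card_top] at h4
    exact absurd (h4.of_dvd_nat (orderOf_dvd_natCard u)) (by rw [h3]; decide)

theorem sl2_sq_eq_one {F : Type*} [Field F] (h2 : (2 : F) ≠ 0) {g : SL(2, F)} (h : g ^ 2 = 1) :
    g ∈ center SL(2, F) := by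
  have e := eq_inv_of_mul_eq_one_left ((sq g).symm.trans h)
  have a := congrArg (fun x : SL(2, F) => x 0 1) e
  have b := congrArg (fun x : SL(2, F) => x 1 0) e
  have c := congrArg (fun x : SL(2, F) => x 0 0) e
  simp only [inv01, inv10, inv00] at a b c
  exact (mem_center_iff' g).2 ⟨mul_left_cancel₀ h2 (by linear_combination a),
    mul_left_cancel₀ h2 (by linear_combination b), c⟩

theorem not_sl2_section [Finite G] [Fact p.Prime] (hp : p ≠ 2) {L : Type*} [Group L] [Finite L]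
    (hL : DihLike L) (π : G →* L) (σ : G →* SL(2, ZMod p)) (hσ : Function.Surjective σ)
    (hk : π.ker ≤ σ.ker) : False := by
  obtain ⟨R⟩ : Nonempty (Sylow 2 G) := inferInstance
  refine CL.Sec.not_abelian_sylow_sl2 hp (R.mapSurjective hσ) ⟨⟨?_⟩⟩
  rintro ⟨_, x, hx, rfl⟩ ⟨_, y, hy, rfl⟩
  refine Subtype.ext (by_contra fun hc => ?_)
  have key : ∀ z, π z ^ 2 = 1 → σ z ∈ center _ := fun z hz =>
    sl2_sq_eq_one (CL.Qd.two_ne_zero_of_ne hp) (by
      rw [← map_pow] at hz ⊢; exact hk hz)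
  have := hL.comm (R.isPGroup'.map π) (mem_map_of_mem _ hx) (mem_map_of_mem _ hy)
    (fun e => hc (mem_center_iff.1 (key x e) _).symm) (fun e => hc (mem_center_iff.1 (key y e) _))
  rw [← commutatorElement_eq_one_iff_mul_comm, ← map_commutatorElement] at this
  have := hk this
  rw [MonoidHom.mem_ker, map_commutatorElement, commutatorElement_eq_one_iff_mul_comm] at this
  exact hc this

theorem no_quadratic [Finite G] [Fact p.Prime] (hp : p ≠ 2) {V H : Subgroup G}
    (hV : IsElementaryAbelian p V) (hHV : H ≤ normalizer (V : Set G))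
    (hirr : ∀ U : Subgroup G, U ≤ V → H ≤ normalizer (U : Set G) → U = ⊥ ∨ U = V)
    [((centralizer (V : Set G)).subgroupOf H).Normal]
    (hL : DihLike (H ⧸ (centralizer (V : Set G)).subgroupOf H)) {A : Subgroup G} (hA : A ≤ H)
    (hq : ⁅⁅V, A⁆, A⁆ = ⊥) : ⁅V, A⁆ = ⊥ := by
  refine commutator_eq_bot_iff_le_centralizer.2 (le_centralizer_iff.1 fun a ha => ?_)
  have qa : ⁅⁅V, zpowers a⁆, zpowers a⁆ = ⊥ := le_bot_iff.1 ((commutator_mono
    (commutator_mono le_rfl (zpowers_le.2 ha)) (zpowers_le.2 ha)).trans hq.le)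
  by_cases hna : InOp p ((centralizer (V : Set G)).subgroupOf H) ⟨a, hA ha⟩
  · obtain ⟨K, hK, h1, h2⟩ := hna
    by_cases hV1 : V = ⊥
    · subst hV1; intro v hv; rw [mem_bot.1 hv]; simp
    obtain ⟨P, hP⟩ := exists_sylIn p (K.map H.subtype)
    have hKH := map_subtype_le K
    have hn : H ≤ normalizer (K.map H.subtype : Set G) := le_normalizer_of_cj_le fun g hg =>
      cj_le_iff_forall.2 (by rintro _ ⟨x, hx, rfl⟩; exact ⟨_, hK.conj_mem x hx ⟨g, hg⟩, rfl⟩)
    have h3 : oU[p] (K.map H.subtype) ≤ centralizer (V : Set G) := oU_le_of_pow (by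
      rintro _ ⟨x, hx, rfl⟩; exact h2 x hx)
    have h4 := (hirr (V ⊓ centralizer (K.map H.subtype : Set G)) inf_le_left
      (le_normalizer_inf hHV (le_normalizer_centralizer hn))).resolve_left fun e =>
      inf_centralizer_ne_bot hP.pgroup (isPGroup_iff_forall_mem.2 fun v hv =>
        ⟨1, by rw [pow_one, hV.2 v hv]⟩) ((hP.le.trans hKH).trans hHV) hV1 (le_bot_iff.1 (by
          rw [← e]
          refine le_inf inf_le_left (le_centralizer_iff.1 ((oU_sup_sylIn hP).ge.trans (sup_le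
            (h3.trans (centralizer_le inf_le_left)) (le_centralizer_iff.1 inf_le_right))))))
    exact le_centralizer_iff.1 (h4.ge.trans inf_le_right) ⟨_, h1, rfl⟩
  · obtain ⟨K, σ, i, hK, hσ, hi, hiV, hc, -⟩ := exists_natural_of_not_inOp hp hV hHV (a := ⟨a, hA ha⟩) qa hna
    refine (not_sl2_section hp hL ((QuotientGroup.mk' _).comp (inclusion hK)) σ hσ
      fun g hg => ?_).elim
    have hg' : (g : G) ∈ centralizer (V : Set G) :=
      (QuotientGroup.eq_one_iff (N := (centralizer (V : Set G)).subgroupOf H) (inclusion hK g)).1 hg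
    refine CL.Quad.eq_of_smul_eq fun w => ?_
    have := hc g w
    rw [← hg' _ (hiV ⟨_, rfl⟩), mul_inv_cancel_right] at this
    rw [one_smul]
    exact (Multiplicative.ofAdd.injective (hi this)).symm

end CL.NoQuad
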