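import Cfsg.Agent.TECH.PGVNorm

/-!
Ring identities for the `P(G,V)`-theorem: the cases of three or more conjugate components.
-/

set_option autoImplicit false

namespace CL.PGV

open Cfsg Subgroup
open scoped commutatorElement

variable {G R : Type*} [Group G] [Ring R] {r : G →* R}

theorem stab_conj_of_comm {a : G} : ∀ x, x * a = a * x → ∀ s ∈ stab r (r a - 1),
    x * s * x⁻¹ ∈ stab r (r a - 1) := by
  intro x hx s hs
  have := conj_mem_stab x hs
  rwa [hx, mul_inv_cancel_right] at this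

theorem rstab_conj_of_comm {a : G} : ∀ x, x * a = a * x → ∀ s ∈ rstab r (r a - 1),
    x * s * x⁻¹ ∈ rstab r (r a - 1) := by
  intro x hx s hs
  have := conj_mem_stab x (mem_stab_sub_iff.2 hs)
  rw [hx, mul_inv_cancel_right] at this
  exact mem_stab_sub_iff.1 this

theorem sum_pow_char_of_commute {p : ℕ} [Fact p.Prime] [CharP R p] (x : ℕ → R) (n : ℕ)
    (h : ∀ i < n, ∀ j < n, Commute (x i) (x j)) :
    (∑ i ∈ Finset.range n, x i) ^ p = ∑ i ∈ Finset.range n, x i ^ p := by
  induction n with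
  | zero => simp [(Fact.out : p.Prime).ne_zero]
  | succ n ih =>
    rw [Finset.sum_range_succ, Finset.sum_range_succ, add_pow_char_of_commute,
      ih fun i hi j hj => h i (by omega) j (by omega)]
    exact Commute.sum_left _ _ _ fun i hi => h i (by simp at hi; omega) n (by omega)

theorem triv_of_pow_commute [Finite G] {p : ℕ} [Fact p.Prime] {K : Subgroup G} (hK : ⁅K, K⁆ = K)
    (h : ∀ z ∈ K, ∀ k ∈ K, Commute (r z) (r (k ^ p))) : ∀ k ∈ K, r k = 1 := by
  refine triv_of_solvable hK ?_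
  set H := K.map r.toHomUnits
  have : Finite H := Finite.of_surjective _ (r.toHomUnits.subgroupMap_surjective K)
  have hp : IsPGroup p (H ⧸ center H) := by
    intro q
    obtain ⟨⟨_, k, hk, rfl⟩, rfl⟩ := QuotientGroup.mk_surjective q
    refine ⟨1, ?_⟩
    rw [pow_one, ← QuotientGroup.mk_pow, QuotientGroup.eq_one_iff, mem_center_iff]
    rintro ⟨_, z, hz, rfl⟩
    apply Subtype.ext
    apply Units.ext
    simpa using (h z hz k hk).eq
  have := hp.isNilpotent
  have : Group.IsSolvable (center H) := Group.isSolvable_of_comm fun a b =>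
    Subtype.ext (mem_center_iff.1 b.2 a)
  exact Group.isSolvable_of_ker_le_range (center H).subtype (QuotientGroup.mk' (center H)) (by simp)

theorem triv_of_two_three [Finite G] {K : Subgroup G} (hK : ⁅K, K⁆ = K)
    (h : ∀ k ∈ K, r k ^ 2 = 1 ∨ r k ^ 3 = 1) : ∀ k ∈ K, r k = 1 := by
  refine triv_of_solvable hK ?_
  set H := K.map r.toHomUnits
  have : Finite H := Finite.of_surjective _ (r.toHomUnits.subgroupMap_surjective K)
  refine CL.Char.isSolvable_of_primes_subset_pair Nat.prime_two Nat.prime_three fun s hs hd => ?_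
  have := Fact.mk hs
  obtain ⟨⟨_, k, hk, rfl⟩, hx⟩ := exists_prime_orderOf_dvd_card' s hd
  rcases h k hk with e | e
  · left
    refine (Nat.prime_dvd_prime_iff_eq hs Nat.prime_two).1 (hx ▸ orderOf_dvd_of_pow_eq_one ?_)
    apply Subtype.ext; apply Units.ext; simpa using e
  · right
    refine (Nat.prime_dvd_prime_iff_eq hs Nat.prime_three).1 (hx ▸ orderOf_dvd_of_pow_eq_one ?_)
    apply Subtype.ext; apply Units.ext; simpa using e

theorem le_or_mem_centralizer {K N : Subgroup G} (hK : IsComponent K)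
    (hN : ∀ h ∈ K, ∀ x ∈ N, h * x * h⁻¹ ∈ N) {k : G} (hk : k ∈ K)
    (h : ∀ z ∈ K, ⁅z, k⁆ ∈ N) : K ≤ N ∨ k ∈ centralizer (K : Set G) := by
  have hn : K ≤ normalizer (N : Set G) := fun g hg => mem_normalizer_iff.2 fun x =>
    ⟨hN g hg x, fun hx => by simpa [mul_assoc] using hN g⁻¹ (inv_mem hg) _ hx⟩
  rcases hK.commutator_eq_bot_or_eq (U := zpowers k)
    ((zpowers_le.2 hk).trans Subgroup.le_normalizer) with h1 | h1
  · exact Or.inr (CL.Comp.le_centralizer_comm.1 (commutator_eq_bot_iff_le_centralizer.1 h1)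
      (mem_zpowers k))
  · left
    have : zpowers k ≤ CL.Comp.commStab K N := zpowers_le.2 ⟨hn hk, h⟩
    exact h1.ge.trans (CL.Comp.le_commStab_iff.1 this).2

theorem comm_eq_of_commute {z k c : G} (h : Commute z c) :
    ⁅z, k⁆ = z * (k * c⁻¹) * z⁻¹ * (k * c⁻¹)⁻¹ := by
  calc ⁅z, k⁆ = z * k * (c * z)⁻¹ * c * k⁻¹ := by simp only [commutatorElement_def]; group
    _ = _ := by rw [← h.eq]; group

namespace Tw

variable {p : ℕ} {K : Subgroup G} {a : G} (h : Tw p K a)
include h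

theorem triv_of_odd_quad [Finite G] [hp : Fact p.Prime] [CharP R p] (hp2 : p ≠ 2)
    (hK : ⁅K, K⁆ = K) (hq : (r a - 1) * (r a - 1) = 0) : ∀ k ∈ K, r k = 1 := by
  set u := r a - 1 with hu
  have e1 : ∀ i : ℕ, r (a ^ i) = 1 + i • u := by
    intro i
    induction i with
    | zero => simp
    | succ i ih =>
      have : r a = 1 + u := by rw [hu]; abel
      rw [pow_succ, map_mul, ih, this, add_mul, mul_add, mul_add, smul_mul_assoc, smul_mul_assoc, hq,
        succ_nsmul]
      simp only [mul_one, one_mul, smul_zero]; abel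
  have e2 : ∀ i : ℕ, r (a ^ i)⁻¹ = 1 - i • u := by
    intro i
    have : r (a ^ i) * (1 - i • u) = 1 := by
      rw [e1, add_mul, mul_sub, mul_sub, smul_mul_assoc, smul_mul_assoc, mul_smul_comm i u u, hq]
      simp
    calc r (a ^ i)⁻¹ = r (a ^ i)⁻¹ * (r (a ^ i) * (1 - i • u)) := by rw [this, mul_one]
      _ = _ := by rw [← mul_assoc, inv_mul_self, one_mul]
  have e3 : ∀ (i : ℕ) (k : G), r (cj a i k) =
      r k + i • (u * r k - r k * u) - (i * i) • (u * r k * u) := by
    intro i k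
    rw [cj, map_mul, map_mul, e1, e2]
    simp only [add_mul, mul_sub, smul_mul_assoc, mul_smul_comm, one_mul, mul_one, smul_sub,
      smul_add, mul_smul]
    abel
  have hp0 : ∀ x : R, p • x = 0 := fun x => by rw [nsmul_eq_mul, CharP.cast_eq_zero, zero_mul]
  have e4 : ∀ k : G, ∃ c : ℕ, ∑ i ∈ Finset.range p, r (cj a i k) = -(c • (u * r k * u)) := by
    intro k
    refine ⟨∑ i ∈ Finset.range p, i * i, ?_⟩
    simp only [e3, Finset.sum_sub_distrib, Finset.sum_add_distrib, Finset.sum_const,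
      Finset.card_range, ← Finset.sum_smul, hp0]
    obtain ⟨m, hm⟩ := hp.out.eq_two_or_odd'.resolve_left hp2
    have h1 := Finset.sum_range_id_mul_two p
    have h2 : ∑ i ∈ Finset.range p, i = m * p := by
      have : p - 1 = 2 * m := by omega
      rw [this] at h1; nlinarith
    rw [h2, mul_smul, hp0]; simp
  refine triv_of_pow_commute (p := p) hK fun z hz k hk => ?_
  obtain ⟨c, hc⟩ := e4 k
  have e5 : (∑ i ∈ Finset.range p, r (cj a i k)) ^ p = 0 := by
    obtain ⟨m, hm⟩ := Nat.exists_eq_add_of_le hp.out.two_le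
    rw [hc, hm, pow_add, pow_two, neg_mul_neg, smul_mul_smul_comm]
    have : u * r k * u * (u * r k * u) = u * r k * (u * u) * r k * u := by simp only [mul_assoc]
    rw [this, hq]; simp
  rw [sum_pow_char_of_commute _ _ (fun i hi j hj => by
    by_cases e : i = j
    · rw [e]
    · exact (h.comm i hi j hj e k hk k hk).map r)] at e5
  obtain ⟨m, hm⟩ : ∃ m, p = m + 1 := Nat.exists_eq_succ_of_ne_zero hp.out.ne_zero
  have e6 : ∑ i ∈ Finset.range p, r (cj a i k) ^ p =
      ∑ i ∈ Finset.range m, r (cj a (i + 1) k) ^ p + r (cj a 0 k) ^ p := by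
    conv_lhs => rw [hm]
    rw [Finset.sum_range_succ', ← hm]
  rw [e6, cj_zero, ← map_pow] at e5
  rw [eq_neg_of_add_eq_zero_right e5]
  refine Commute.neg_right (Commute.sum_right _ _ _ fun i hi => Commute.pow_right ?_ _)
  have := (h.comm 0 (by omega) (i + 1) (by simp at hi; omega) (by omega) z hz k hk).map r
  rwa [cj_zero] at this

theorem sub_mul_cj (hp : 0 < p) {k : G} (hk : k ∈ K) (hs : nm a k p ∈ stab r (r a - 1)) (i : ℕ) :
    (r (nm a k p) - 1) * r (cj a i k) = r k * (r (nm a k p) - 1) := by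
  have h1 : a ^ i ∈ rstab r (r (nm a k p) - 1) := pow_mem (mem_stab_sub_iff.1 hs) i
  have h2 := (h.commute_cj_nm hp hk).map r
  rw [cj_zero] at h2
  have h3 : Commute (r k) (r (nm a k p) - 1) := h2.sub_right (Commute.one_right _)
  rw [cj, map_mul, map_mul, ← mul_assoc, ← mul_assoc, mem_rstab.1 h1, ← h3.eq, mul_assoc,
    mem_rstab.1 (inv_mem h1)]

theorem triv_of_orth (hp : 2 ≤ p) (hK : ⁅K, K⁆ = K)
    (hs : ∀ k ∈ K, nm a k p ∈ stab r (r a - 1))
    (ho : ∀ i < p, ∀ j < p, i ≠ j → ∀ z ∈ K, ∀ x ∈ K, cj a i z ∈ stab r (r (cj a j x) - 1)) :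
    ∀ k ∈ K, r k = 1 := by
  refine triv_of_cubic hK fun z hz k hk x hx => ?_
  have e : ∀ l < p, r (nm a k p) * (r (cj a l x) - 1) = r (cj a l k) * (r (cj a l x) - 1) := by
    intro l hl
    have := mem_stab.1 (h.inv_mul_nm_mem hl hk (S := stab r (r (cj a l x) - 1))
      fun i hi hil => ho i hi l hl hil k hk x hx)
    conv_rhs => rw [← this, ← mul_assoc, ← map_mul, mul_inv_cancel_left]
  have e0 := e 0 (by omega)
  have e1 := e 1 (by omega)
  have e2 := mem_stab_iff.1 (ho 0 (by omega) 1 (by omega) (by omega) z hz k hk)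
  have e3 := mem_stab.1 (hs k hk)
  rw [cj_zero] at e0 e2
  rw [cj_zero] at e0
  have e4 : r a * (r x - 1) = (r (cj a 1 x) - 1) * r a := by
    rw [cj_one, conj_sub_one, mul_assoc, inv_mul_self, mul_one]
  have e5 : (r (cj a 1 k) - 1) * ((r (cj a 1 x) - 1) * r a) = (r k - 1) * (r x - 1) := by
    have : r (nm a k p) * ((r a - 1) * (r x - 1)) = (r a - 1) * (r x - 1) := by
      rw [← mul_assoc, e3]
    rw [sub_mul (r a), one_mul, e4, mul_sub, ← mul_assoc, e1, e0] at this
    rw [sub_mul (r (cj a 1 k)), sub_mul (r k), one_mul, one_mul, ← mul_assoc]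
    rw [sub_eq_sub_iff_sub_eq_sub] at this
    rw [← this, mul_assoc]
  rw [← e5, ← mul_assoc, e2, zero_mul]

theorem triv_of_odd (hp : 3 ≤ p) (hK : IsComponent K)
    (hs : ∀ k ∈ K, nm a k p ∈ stab r (r a - 1)) : ∀ k ∈ K, r k = 1 := by
  refine h.triv_of_orth (by omega) hK.commutator_self hs fun l hl i hi hli => ?_
  obtain ⟨j, hj, hjl, hji⟩ : ∃ j < p, j ≠ l ∧ j ≠ i := by
    by_cases a0 : 0 ≠ l ∧ 0 ≠ i
    · exact ⟨0, by omega, a0⟩
    by_cases a1 : 1 ≠ l ∧ 1 ≠ i
    · exact ⟨1, by omega, a1⟩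
    exact ⟨2, by omega, by omega⟩
  have s1 : ∀ g ∈ K, ∀ k ∈ K, cj a i k * (cj a j k)⁻¹ ∈ rstab r (r (cj a l ⁅g, k⁆) - 1) := by
    intro g hg k hk
    have a1 : nm a k p ∈ stab r (r (cj a i k * (cj a j k)⁻¹) - 1) := by
      rw [mem_stab_sub_iff, mem_rstab, map_mul, ← mul_assoc, h.sub_mul_cj (by omega) hk (hs k hk),
        ← h.sub_mul_cj (by omega) hk (hs k hk) j, mul_assoc, mul_inv_self, mul_one]
    have a2 : Commute (cj a l g) (cj a i k * (cj a j k)⁻¹) :=
      (h.comm l hl i hi hli g hg k hk).mul_right (h.comm l hl j hj hjl.symm g hg k hk).inv_right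
    have a3 := mul_mem (stab_conj_of_comm _ a2.eq _ a1) (inv_mem a1)
    have a4 := mem_centralizer_singleton_iff.1 (h.inv_mul_nm_mem hl hk
      (S := centralizer ({cj a l g} : Set G)) fun m hm hml =>
        mem_centralizer_singleton_iff.2 (h.comm m hm l hl hml k hk g hg).eq)
    rw [← mem_stab_sub_iff, cj_comm]
    convert a3 using 1
    generalize nm a k p = y at *
    generalize cj a l g = g' at *
    generalize cj a l k = k' at *
    simp only [commutatorElement_def]
    calc g' * k' * g'⁻¹ * k'⁻¹ = g' * k' * g'⁻¹ * (k'⁻¹ * y * g') * g'⁻¹ * y⁻¹ := by group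
      _ = _ := by rw [a4]; group
  have s2 : ∀ g ∈ K, ∀ k ∈ K, ∀ x ∈ K, cj a i x ∈ rstab r (r (cj a l ⁅g, k⁆) - 1) := by
    intro g hg k hk
    have hgk : ⁅g, k⁆ ∈ K := mul_mem (mul_mem (mul_mem hg hk) (inv_mem hg)) (inv_mem hk)
    let N := (rstab r (r (cj a l ⁅g, k⁆) - 1)).comap (MulAut.conj (a ^ i)).toMonoidHom
    have hN : ∀ x, x ∈ N ↔ cj a i x ∈ rstab r (r (cj a l ⁅g, k⁆) - 1) := fun x => Iff.rfl
    have cN : ∀ z ∈ K, ∀ s ∈ rstab r (r (cj a l ⁅g, k⁆) - 1),
        cj a i z * s * (cj a i z)⁻¹ ∈ rstab r (r (cj a l ⁅g, k⁆) - 1) := fun z hz s hs =>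
      rstab_conj_of_comm _ (h.comm i hi l hl hli.symm z hz _ hgk).eq s hs
    rcases le_or_mem_centralizer (N := N) hK (fun z hz x hx => by
      rw [hN, cj_mul, cj_mul, cj_inv]; exact cN z hz _ hx) hk (fun z hz => by
      rw [hN, cj_comm a i, comm_eq_of_commute (h.comm i hi j hj hji.symm z hz k hk)]
      exact mul_mem (cN z hz _ (s1 g hg k hk)) (inv_mem (s1 g hg k hk))) with h1 | h1
    · exact fun x hx => (hN x).1 (h1 hx)
    · intro x hx
      have : ⁅g, k⁆ = 1 := commutatorElement_eq_one_iff_mul_comm.2 (mem_centralizer_iff.1 h1 g hg)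
      rw [this, mem_rstab_iff]; simp [cj]
  intro z hz x hx
  have : K ≤ (stab r (r (cj a i x) - 1)).comap (MulAut.conj (a ^ l)).toMonoidHom :=
    le_of_commutator_mem hK.commutator_self fun g hg k hk =>
      mem_stab_sub_iff.2 (s2 g hg k hk x hx)
  exact this hz

end Tw

theorem orth_of_third {K : Subgroup G} (hK : IsComponent K) {a b : G} (ha2 : a * a = 1)
    (hab : a * b = b * a) (ha : a ∉ normalizer (K : Set G)) (hb : b ∉ normalizer (K : Set G))
    (hab' : a * b ∉ normalizer (K : Set G))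
    (hs : ∀ k ∈ K, k * (a * k * a⁻¹) ∈ stab r (r a - 1)) :
    ∀ z ∈ K, ∀ x ∈ K, z ∈ stab r (r (b * x * b⁻¹) - 1) := by
  have hai : a⁻¹ = a := inv_eq_of_mul_eq_one_right ha2
  have c1 : ∀ z ∈ K, ∀ x ∈ K, Commute z (b * x * b⁻¹) := fun z hz x hx =>
    commute_conj_of_not_mem hK hb hz hx
  have c2 : ∀ z ∈ K, ∀ x ∈ K, Commute (a * z * a⁻¹) (b * x * b⁻¹) := fun z hz x hx => by
    have := (commute_conj_of_not_mem hK hab' hz hx).conj a
    convert this using 1
    calc b * x * b⁻¹ = (a * a) * b * x * b⁻¹ * (a * a)⁻¹ := by rw [ha2]; group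
      _ = _ := by group
  have c3 : ∀ z ∈ K, ∀ x ∈ K, Commute (b * z * b⁻¹) (a * (b * x * b⁻¹) * a⁻¹) := fun z hz x hx => by
    have := (commute_conj_of_not_mem hK ha hz hx).conj b
    convert this using 1
    calc a * (b * x * b⁻¹) * a⁻¹ = (a * b) * x * (a * b)⁻¹ := by group
      _ = _ := by rw [hab]; group
  have s1 : ∀ k ∈ K, ∀ x ∈ K, k * (a * k * a⁻¹) ∈ stab r (r (b * x * b⁻¹) - 1) := by
    intro k hk
    set y := k * (a * k * a⁻¹)
    have cy : ∀ x ∈ K, Commute (b * x * b⁻¹) y := fun x hx =>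
      (c1 k hk x hx).symm.mul_right (c2 k hk x hx).symm
    have a0 : a ∈ rstab r (r y - 1) := mem_stab_sub_iff.1 (hs k hk)
    have a1 : ∀ g ∈ K, b * g * b⁻¹ * (a * (b * g * b⁻¹) * a⁻¹)⁻¹ ∈ rstab r (r y - 1) := by
      intro g hg
      have := mul_mem (rstab_conj_of_comm _ (cy g hg).eq a a0) (inv_mem a0)
      convert this using 1; group
    have : K ≤ (rstab r (r y - 1)).comap (MulAut.conj b).toMonoidHom :=
      le_of_commutator_mem hK.commutator_self fun z hz g hg => by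
        show b * ⁅z, g⁆ * b⁻¹ ∈ rstab r (r y - 1)
        have e : b * ⁅z, g⁆ * b⁻¹ = ⁅b * z * b⁻¹, b * g * b⁻¹⁆ := by
          simp only [commutatorElement_def]; group
        rw [e, comm_eq_of_commute (c3 z hz g hg)]
        exact mul_mem (rstab_conj_of_comm _ (cy z hz).eq _ (a1 g hg)) (inv_mem (a1 g hg))
    exact fun x hx => mem_stab_sub_iff.2 (this hx)
  intro z hz x hx
  refine le_of_commutator_mem hK.commutator_self (fun g hg k hk => ?_) hz
  have c4 : Commute g (a * k⁻¹ * a⁻¹) := commute_conj_of_not_mem hK ha hg (inv_mem hk)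
  have e : (a * k⁻¹ * a⁻¹)⁻¹ = a * k * a⁻¹ := by group
  rw [comm_eq_of_commute c4, e]
  exact mul_mem (stab_conj_of_comm _ (c1 g hg x hx).eq _ (s1 k hk x hx)) (inv_mem (s1 k hk x hx))

theorem triv_of_third {K : Subgroup G} (hK : IsComponent K) {a b : G} (ha2 : a * a = 1)
    (hb2 : b * b = 1) (hab : a * b = b * a) (ha : a ∉ normalizer (K : Set G))
    (hb : b ∉ normalizer (K : Set G)) (hab' : a * b ∉ normalizer (K : Set G))
    (hs : ∀ k ∈ K, nm a k 2 ∈ stab r (r a - 1))
    (hs' : ∀ k ∈ K, nm b k 2 ∈ stab r (r b - 1)) : ∀ k ∈ K, r k = 1 := by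
  have h := tw_of_component Nat.prime_two hK (by rw [pow_two, ha2]) ha
  have o := orth_of_third hK hb2 hab.symm hb ha (hab ▸ hab') (fun k hk => by
    have := hs' k hk; rwa [nm_two] at this)
  refine h.triv_of_orth le_rfl hK.commutator_self hs fun i hi j hj hij z hz x hx => ?_
  obtain ⟨rfl, rfl⟩ | ⟨rfl, rfl⟩ : (i = 0 ∧ j = 1) ∨ (i = 1 ∧ j = 0) := by omega
  · rw [cj_zero, cj_one]; exact o z hz x hx
  · rw [cj_zero, cj_one]
    have := conj_mem_stab a (o z hz x hx)
    have e : a * (a * x * a⁻¹) * a⁻¹ = x := by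
      calc _ = (a * a) * x * (a * a)⁻¹ := by group
        _ = x := by rw [ha2]; group
    rwa [e] at this

theorem Tw.tau_eq {K : Subgroup G} {a : G} (h : Tw 2 K a) {k : G} (hk : k ∈ K)
    (hs : nm a k 2 ∈ stab r (r a - 1)) :
    r (a * k * a⁻¹) + r (a * k * a⁻¹)⁻¹ = r k + r k⁻¹ := by
  have e := h.sub_mul_cj (by omega) hk hs 1
  have c := h.comm 0 (by omega) 1 (by omega) (by omega) k hk k hk
  rw [nm_two, cj_one] at e
  rw [cj_zero, cj_one] at c
  generalize a * k * a⁻¹ = k' at *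
  have e1 : r (k * k')⁻¹ * ((r (k * k') - 1) * r k') = r k' - r k⁻¹ := by
    rw [← mul_assoc, mul_sub, inv_mul_self, mul_one, sub_mul, one_mul, ← map_mul, c.eq]
    congr 2; group
  have e2 : r (k * k')⁻¹ * (r k * (r (k * k') - 1)) = r k - r k'⁻¹ := by
    rw [mul_sub, mul_sub, mul_one, ← map_mul, ← map_mul, ← map_mul]
    congr 2
    · calc (k * k')⁻¹ * (k * (k * k')) = (k * k')⁻¹ * (k * (k' * k)) := by rw [c.eq]
        _ = _ := by group
    · group
  rw [e, e2] at e1
  rw [sub_eq_sub_iff_add_eq_add] at e1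
  rw [e1]

end CL.PGV
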